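import Cfsg.Agent.Lib.MinE6T.Sys

/-! Arithmetic: compare `MinE6/Ar.lean`. `k0 q = q¹¹ - q⁸ + q⁷ - q³ + q² - 1`, `w = q⁵ - q⁴ + q³ - q² + q - 1`, `BB q = k0 q + w + 2`. Each of `k0 + n0` (`n0 ≤ 4`), `k0 + w`, `k0 + w + 1` is a cyclotomic factor times a polynomial `Q` that has a constant resultant with all factors of `NN`. -/

set_option autoImplicit false
set_option linter.unusedSectionVars false
set_option linter.unusedVariables false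
set_option linter.style.longLine false

namespace Cfsg.Agent.Lib.MinE6T

namespace ArAux

lemma k0_cast {q : ℕ} (hq : 1 ≤ q) :
    (k0 q : ℤ) = (q : ℤ) ^ 11 - (q : ℤ) ^ 8 + (q : ℤ) ^ 7 - (q : ℤ) ^ 3 + (q : ℤ) ^ 2 - 1 := by
  obtain ⟨s, rfl⟩ : ∃ s, q = s + 1 := ⟨q - 1, by omega⟩
  simp only [k0, gaussU, Nat.add_sub_cancel]
  push_cast
  ring

lemma NN_cast {q : ℕ} (hq : 1 ≤ q) :
    (NN q : ℤ) = (q : ℤ) ^ 36 * (((q : ℤ) ^ 2 - 1) * ((q : ℤ) ^ 5 + 1) * ((q : ℤ) ^ 6 - 1) * ((q : ℤ) ^ 8 - 1)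
      * ((q : ℤ) ^ 9 + 1) * ((q : ℤ) ^ 12 - 1)) := by
  have h (n : ℕ) : ((q ^ n - 1 : ℕ) : ℤ) = (q : ℤ) ^ n - 1 := by
    rw [Nat.cast_sub (Nat.one_le_pow _ _ hq)]
    push_cast
    ring
  simp only [NN, Nat.cast_mul, Nat.cast_add, h, Nat.cast_pow, Nat.cast_one]

lemma w_eq {q : ℕ} (hq : 2 ≤ q) : (q ^ 6 - 1) / (q + 1) = (q - 1) * (q ^ 4 + q ^ 2 + 1) := by
  obtain ⟨s, rfl⟩ : ∃ s, q = s + 2 := ⟨q - 2, by omega⟩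
  have e1 : s + 2 - 1 = s + 1 := by omega
  rw [e1]
  apply Nat.div_eq_of_eq_mul_right (by omega)
  apply Nat.sub_eq_of_eq_add
  ring

lemma w_cast {q : ℕ} (hq : 2 ≤ q) :
    (((q ^ 6 - 1) / (q + 1) : ℕ) : ℤ) = (q : ℤ) ^ 5 - (q : ℤ) ^ 4 + (q : ℤ) ^ 3 - (q : ℤ) ^ 2 + (q : ℤ) - 1 := by
  rw [w_eq hq]
  obtain ⟨s, rfl⟩ : ∃ s, q = s + 1 := ⟨q - 1, by omega⟩
  simp only [Nat.add_sub_cancel]
  push_cast
  ring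

/-- Bezout certificates. -/
def Bz (Q F r : ℤ) : Prop := ∃ A B : ℤ, A * Q + B * F = r

lemma step {Q X F r : ℤ} (h : Bz Q F r) (hd : Q ∣ X * F) : Q ∣ X * r := by
  obtain ⟨A, B, h⟩ := h
  have e : X * r = X * A * Q + B * (X * F) := by rw [← h]; ring
  rw [e]
  exact dvd_add (Dvd.intro_left _ rfl) (Dvd.dvd.mul_left hd _)

lemma step_pow {Q X F r : ℤ} (h : Bz Q F r) (n : ℕ) (hd : Q ∣ X * F ^ n) : Q ∣ X * r ^ n := by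
  induction n generalizing X with
  | zero => simpa using hd
  | succ n ih =>
    have h1 : Q ∣ (X * r) * F ^ n := by
      have h2 : Q ∣ (X * F ^ n) * F := by
        have e : X * F ^ n * F = X * F ^ (n + 1) := by ring
        rw [e]; exact hd
      have h3 := step h h2
      have e : X * r * F ^ n = X * F ^ n * r := by ring
      rw [e]; exact h3
    have h4 := ih h1
    have e : X * r ^ (n + 1) = X * r * r ^ n := by ring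
    rw [e]; exact h4

theorem chain {Q q a b c d e f rq ra rb rc rd re rf : ℤ} (hq : Bz Q q rq) (ha : Bz Q a ra) (hb : Bz Q b rb)
    (hc : Bz Q c rc) (hd : Bz Q d rd) (he : Bz Q e re) (hf : Bz Q f rf)
    (h : Q ∣ q ^ 36 * (a * b * c * d * e * f)) : Q ∣ rq ^ 36 * ra * rb * rc * rd * re * rf := by
  have h1 : Q ∣ (q ^ 36 * (a * b * c * d * e)) * f := by
    have x : (q ^ 36 * (a * b * c * d * e)) * f = q ^ 36 * (a * b * c * d * e * f) := by ring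
    rw [x]; exact h
  have h2 := step hf h1
  have h3 : Q ∣ (q ^ 36 * (a * b * c * d) * rf) * e := by
    have x : (q ^ 36 * (a * b * c * d) * rf) * e = q ^ 36 * (a * b * c * d * e) * rf := by ring
    rw [x]; exact h2
  have h4 := step he h3
  have h5 : Q ∣ (q ^ 36 * (a * b * c) * rf * re) * d := by
    have x : (q ^ 36 * (a * b * c) * rf * re) * d = q ^ 36 * (a * b * c * d) * rf * re := by ring
    rw [x]; exact h4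
  have h6 := step hd h5
  have h7 : Q ∣ (q ^ 36 * (a * b) * rf * re * rd) * c := by
    have x : (q ^ 36 * (a * b) * rf * re * rd) * c = q ^ 36 * (a * b * c) * rf * re * rd := by ring
    rw [x]; exact h6
  have h8 := step hc h7
  have h9 : Q ∣ (q ^ 36 * a * rf * re * rd * rc) * b := by
    have x : (q ^ 36 * a * rf * re * rd * rc) * b = q ^ 36 * (a * b) * rf * re * rd * rc := by ring
    rw [x]; exact h8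
  have h10 := step hb h9
  have h11 : Q ∣ (q ^ 36 * rf * re * rd * rc * rb) * a := by
    have x : (q ^ 36 * rf * re * rd * rc * rb) * a = q ^ 36 * a * rf * re * rd * rc * rb := by ring
    rw [x]; exact h10
  have h12 := step ha h11
  have h13 : Q ∣ (rf * re * rd * rc * rb * ra) * q ^ 36 := by
    have x : (rf * re * rd * rc * rb * ra) * q ^ 36 = q ^ 36 * rf * re * rd * rc * rb * ra := by ring
    rw [x]; exact h12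
  have h14 := step_pow hq 36 h13
  have x : rq ^ 36 * ra * rb * rc * rd * re * rf = rf * re * rd * rc * rb * ra * rq ^ 36 := by ring
  rw [x]; exact h14

/-- Small `q`: finite check. -/
def chkF (g : ℕ → ℕ) (B : ℕ) : Bool := (List.range B).all fun q => q < 2 || (NN q % g q != 0)

lemma chk_ok {g : ℕ → ℕ} {B : ℕ} (h : chkF g B = true) {q : ℕ} (hq : 2 ≤ q) (hB : q < B) : ¬ g q ∣ NN q := by
  intro hd
  have h1 := List.all_eq_true.mp h q (List.mem_range.mpr hB)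
  have h2 : q < 2 ∨ NN q % g q ≠ 0 := by simpa using h1
  rcases h2 with h2 | h2
  · omega
  · exact h2 (Nat.mod_eq_zero_of_dvd hd)

section zero

/-- The cofactor. -/
def Qz_zero (z : ℤ) : ℤ := (1) + (1)*z + (1)*z^3 + (1)*z^4 + (1)*z^5 + (1)*z^6 + (1)*z^8 + (1)*z^9 + (1)*z^10

lemma bz_zero_q (z : ℤ) : Bz (Qz_zero z) z 1 :=
  ⟨(1), (-1) + (-1)*z^2 + (-1)*z^3 + (-1)*z^4 + (-1)*z^5 + (-1)*z^7 + (-1)*z^8 + (-1)*z^9, by simp only [Qz_zero]; ring⟩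

lemma bz_zero_a (z : ℤ) : Bz (Qz_zero z) (z^2-1) 9 :=
  ⟨(5) + (-4)*z, (-4) + (1)*z + (-8)*z^2 + (6)*z^3 + (-7)*z^4 + (7)*z^5 + (-6)*z^6 + (3)*z^7 + (-1)*z^8 + (4)*z^9, by simp only [Qz_zero]; ring⟩

lemma bz_zero_b (z : ℤ) : Bz (Qz_zero z) (z^5+1) 1 :=
  ⟨(1), (-1)*z + (-1)*z^3 + (-1)*z^4 + (-1)*z^5, by simp only [Qz_zero]; ring⟩

lemma bz_zero_c (z : ℤ) : Bz (Qz_zero z) (z^6-1) 27 :=
  ⟨(5) + (-4)*z + (14)*z^2 + (5)*z^3 + (-4)*z^4 + (-13)*z^5, (-22) + (1)*z + (10)*z^2 + (24)*z^3 + (2)*z^4 + (-2)*z^5 + (-15)*z^6 + (12)*z^7 + (17)*z^8 + (13)*z^9, by simp only [Qz_zero]; ring⟩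

lemma bz_zero_d (z : ℤ) : Bz (Qz_zero z) (z^8-1) 45 :=
  ⟨(16) + (-17)*z + (4)*z^2 + (-8)*z^3 + (1)*z^4 + (-2)*z^5 + (4)*z^6 + (7)*z^7, (-29) + (-1)*z + (-13)*z^2 + (12)*z^3 + (-8)*z^4 + (2)*z^5 + (-3)*z^6 + (-9)*z^7 + (-11)*z^8 + (-7)*z^9, by simp only [Qz_zero]; ring⟩

lemma bz_zero_e (z : ℤ) : Bz (Qz_zero z) (z^9+1) 19 :=
  ⟨(3) + (-10)*z + (8)*z^2 + (5)*z^3 + (-4)*z^4 + (-12)*z^5 + (2)*z^6 + (6)*z^7 + (-1)*z^8, (16) + (7)*z + (2)*z^2 + (-16)*z^3 + (6)*z^4 + (15)*z^5 + (4)*z^6 + (-7)*z^7 + (-5)*z^8 + (1)*z^9, by simp only [Qz_zero]; ring⟩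

lemma bz_zero_f (z : ℤ) : Bz (Qz_zero z) (z^12-1) 135 :=
  ⟨(-28) + (-64)*z + (8)*z^2 + (-1)*z^3 + (17)*z^4 + (-19)*z^5 + (53)*z^6 + (44)*z^7 + (62)*z^8 + (26)*z^9 + (-37)*z^10 + (-46)*z^11, (-163) + (-92)*z + (-56)*z^2 + (-21)*z^3 + (-76)*z^4 + (-86)*z^5 + (-51)*z^6 + (57)*z^7 + (83)*z^8 + (46)*z^9, by simp only [Qz_zero]; ring⟩

lemma dvd_zero (z : ℤ) (h : Qz_zero z ∣ z ^ 36 * ((z ^ 2 - 1) * (z ^ 5 + 1) * (z ^ 6 - 1) * (z ^ 8 - 1) * (z ^ 9 + 1) * (z ^ 12 - 1))) :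
    Qz_zero z ∣ 28048275 := by
  have h1 := chain (bz_zero_q z) (bz_zero_a z) (bz_zero_b z) (bz_zero_c z) (bz_zero_d z) (bz_zero_e z) (bz_zero_f z) h
  have e : (1 : ℤ) ^ 36 * 9 * 1 * 27 * 45 * 19 * 135 = 28048275 := by norm_num
  rw [e] at h1
  exact h1

lemma pow_le_zero (s : ℕ) : ((s : ℤ) + 2) ^ 10 ≤ Qz_zero ((s : ℤ) + 2) := by
  have h : 0 ≤ (891) + (3645)*(s : ℤ) + (6750)*(s : ℤ)^2 + (7377)*(s : ℤ)^3 + (5223)*(s : ℤ)^4 + (2477)*(s : ℤ)^5 + (785)*(s : ℤ)^6 + (160)*(s : ℤ)^7 + (19)*(s : ℤ)^8 + (1)*(s : ℤ)^9 := by positivity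
  have e : Qz_zero ((s : ℤ) + 2) - ((s : ℤ) + 2) ^ 10 = (891) + (3645)*(s : ℤ) + (6750)*(s : ℤ)^2 + (7377)*(s : ℤ)^3 + (5223)*(s : ℤ)^4 + (2477)*(s : ℤ)^5 + (785)*(s : ℤ)^6 + (160)*(s : ℤ)^7 + (19)*(s : ℤ)^8 + (1)*(s : ℤ)^9 := by
    simp only [Qz_zero]; ring
  linarith

theorem no_zero {q : ℕ} (hq : 2 ≤ q) : ¬ (k0 q + 0) ∣ NN q := by
  intro hd
  by_cases hB : q < 6
  · exact chk_ok (g := fun q => k0 q + 0) (B := 6) (by decide +kernel) hq hB hd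
  · have hd' : ((k0 q + 0 : ℕ) : ℤ) ∣ (NN q : ℤ) := Int.natCast_dvd_natCast.mpr hd
    have e1 : ((k0 q + 0 : ℕ) : ℤ) = ((-1) + (1)*(q : ℤ)) * Qz_zero (q : ℤ) := by
      rw [Nat.cast_add, k0_cast (by omega)]
      simp only [Qz_zero]
      push_cast
      ring
    rw [e1, NN_cast (by omega)] at hd'
    have hQ := dvd_zero (q : ℤ) (Dvd.dvd.trans (Dvd.intro_left _ rfl) hd')
    have hle := Int.le_of_dvd (by norm_num) hQ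
    obtain ⟨s, rfl⟩ : ∃ s, q = s + 2 := ⟨q - 2, by omega⟩
    have hp := pow_le_zero s
    have e2 : ((s + 2 : ℕ) : ℤ) = (s : ℤ) + 2 := by push_cast; ring
    rw [e2] at hle
    have hB' : (6 : ℤ) ≤ (s : ℤ) + 2 := by
      have : 6 ≤ s + 2 := not_lt.mp hB
      exact_mod_cast this
    have h3 : (6 : ℤ) ^ 10 ≤ ((s : ℤ) + 2) ^ 10 := pow_le_pow_left₀ (by norm_num) hB' 10
    have h4 : (6 : ℤ) ^ 10 ≤ 28048275 := by linarith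
    norm_num at h4

end zero

section one

/-- The cofactor. -/
def Qz_one (z : ℤ) : ℤ := (1) + (-1)*z + (1)*z^5 + (-1)*z^6 + (1)*z^9

lemma bz_one_q (z : ℤ) : Bz (Qz_one z) z 1 :=
  ⟨(1), (1) + (-1)*z^4 + (1)*z^5 + (-1)*z^8, by simp only [Qz_one]; ring⟩

lemma bz_one_a (z : ℤ) : Bz (Qz_one z) (z^2-1) 1 :=
  ⟨(1)*z, (-1) + (1)*z + (-2)*z^2 + (1)*z^3 + (-2)*z^4 + (1)*z^5 + (-1)*z^6 + (-1)*z^8, by simp only [Qz_one]; ring⟩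

lemma bz_one_b (z : ℤ) : Bz (Qz_one z) (z^5+1) 1 :=
  ⟨(1)*z, (1) + (-1)*z + (1)*z^2 + (-1)*z^5, by simp only [Qz_one]; ring⟩

lemma bz_one_c (z : ℤ) : Bz (Qz_one z) (z^6-1) 2 :=
  ⟨(1)*z + (1)*z^3, (-2) + (1)*z + (-1)*z^2 + (1)*z^3 + (-1)*z^4 + (-1)*z^6, by simp only [Qz_one]; ring⟩

lemma bz_one_d (z : ℤ) : Bz (Qz_one z) (z^8-1) 5 :=
  ⟨(3) + (1)*z + (-3)*z^2 + (-1)*z^3 + (-2)*z^4 + (1)*z^5 + (2)*z^6 + (4)*z^7, (-2) + (-2)*z + (-4)*z^2 + (2)*z^3 + (-1)*z^4 + (6)*z^5 + (-1)*z^6 + (-2)*z^7 + (-4)*z^8, by simp only [Qz_one]; ring⟩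

lemma bz_one_e (z : ℤ) : Bz (Qz_one z) (z^9+1) 2 :=
  ⟨(-1) + (-1)*z + (1)*z^3 + (-1)*z^4 + (1)*z^6 + (1)*z^7, (3) + (-1)*z^2 + (-1)*z^3 + (2)*z^4 + (-1)*z^6 + (-1)*z^7, by simp only [Qz_one]; ring⟩

lemma bz_one_f (z : ℤ) : Bz (Qz_one z) (z^12-1) 20 :=
  ⟨(3) + (6)*z + (2)*z^2 + (9)*z^3 + (3)*z^4 + (1)*z^5 + (-3)*z^6 + (4)*z^7 + (-2)*z^8 + (1)*z^9 + (-3)*z^10 + (-1)*z^11, (-17) + (3)*z + (-4)*z^2 + (7)*z^3 + (-6)*z^4 + (1)*z^5 + (-1)*z^6 + (3)*z^7 + (1)*z^8, by simp only [Qz_one]; ring⟩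

lemma dvd_one (z : ℤ) (h : Qz_one z ∣ z ^ 36 * ((z ^ 2 - 1) * (z ^ 5 + 1) * (z ^ 6 - 1) * (z ^ 8 - 1) * (z ^ 9 + 1) * (z ^ 12 - 1))) :
    Qz_one z ∣ 400 := by
  have h1 := chain (bz_one_q z) (bz_one_a z) (bz_one_b z) (bz_one_c z) (bz_one_d z) (bz_one_e z) (bz_one_f z) h
  have e : (1 : ℤ) ^ 36 * 1 * 1 * 2 * 5 * 2 * 20 = 400 := by norm_num
  rw [e] at h1
  exact h1

lemma pow_le_one (s : ℕ) : ((s : ℤ) + 2) ^ 8 ≤ Qz_one ((s : ℤ) + 2) := by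
  have h : 0 ≤ (223) + (1167)*(s : ℤ) + (2656)*(s : ℤ)^2 + (3464)*(s : ℤ)^3 + (2862)*(s : ℤ)^4 + (1557)*(s : ℤ)^5 + (559)*(s : ℤ)^6 + (128)*(s : ℤ)^7 + (17)*(s : ℤ)^8 + (1)*(s : ℤ)^9 := by positivity
  have e : Qz_one ((s : ℤ) + 2) - ((s : ℤ) + 2) ^ 8 = (223) + (1167)*(s : ℤ) + (2656)*(s : ℤ)^2 + (3464)*(s : ℤ)^3 + (2862)*(s : ℤ)^4 + (1557)*(s : ℤ)^5 + (559)*(s : ℤ)^6 + (128)*(s : ℤ)^7 + (17)*(s : ℤ)^8 + (1)*(s : ℤ)^9 := by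
    simp only [Qz_one]; ring
  linarith

theorem no_one {q : ℕ} (hq : 2 ≤ q) : ¬ (k0 q + 1) ∣ NN q := by
  intro hd
  by_cases hB : q < 3
  · exact chk_ok (g := fun q => k0 q + 1) (B := 3) (by decide +kernel) hq hB hd
  · have hd' : ((k0 q + 1 : ℕ) : ℤ) ∣ (NN q : ℤ) := Int.natCast_dvd_natCast.mpr hd
    have e1 : ((k0 q + 1 : ℕ) : ℤ) = ((1)*(q : ℤ)^2) * Qz_one (q : ℤ) := by
      rw [Nat.cast_add, k0_cast (by omega)]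
      simp only [Qz_one]
      push_cast
      ring
    rw [e1, NN_cast (by omega)] at hd'
    have hQ := dvd_one (q : ℤ) (Dvd.dvd.trans (Dvd.intro_left _ rfl) hd')
    have hle := Int.le_of_dvd (by norm_num) hQ
    obtain ⟨s, rfl⟩ : ∃ s, q = s + 2 := ⟨q - 2, by omega⟩
    have hp := pow_le_one s
    have e2 : ((s + 2 : ℕ) : ℤ) = (s : ℤ) + 2 := by push_cast; ring
    rw [e2] at hle
    have hB' : (3 : ℤ) ≤ (s : ℤ) + 2 := by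
      have : 3 ≤ s + 2 := not_lt.mp hB
      exact_mod_cast this
    have h3 : (3 : ℤ) ^ 8 ≤ ((s : ℤ) + 2) ^ 8 := pow_le_pow_left₀ (by norm_num) hB' 8
    have h4 : (3 : ℤ) ^ 8 ≤ 400 := by linarith
    norm_num at h4

end one

section two

/-- The cofactor. -/
def Qz_two (z : ℤ) : ℤ := (1) + (-1)*z + (2)*z^2 + (-3)*z^3 + (3)*z^4 + (-3)*z^5 + (3)*z^6 + (-2)*z^7 + (1)*z^8 + (-1)*z^9 + (1)*z^10

lemma bz_two_q (z : ℤ) : Bz (Qz_two z) z 1 :=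
  ⟨(1), (1) + (-2)*z + (3)*z^2 + (-3)*z^3 + (3)*z^4 + (-3)*z^5 + (2)*z^6 + (-1)*z^7 + (1)*z^8 + (-1)*z^9, by simp only [Qz_two]; ring⟩

lemma bz_two_a (z : ℤ) : Bz (Qz_two z) (z^2-1) 21 :=
  ⟨(11) + (10)*z, (-10) + (-1)*z + (2)*z^2 + (-14)*z^3 + (5)*z^4 + (-17)*z^5 + (8)*z^6 + (-9)*z^7 + (-1)*z^8 + (-10)*z^9, by simp only [Qz_two]; ring⟩

lemma bz_two_b (z : ℤ) : Bz (Qz_two z) (z^5+1) 21 :=
  ⟨(17) + (4)*z + (-4)*z^2 + (4)*z^3 + (-4)*z^4, (4) + (13)*z + (-26)*z^2 + (35)*z^3 + (-23)*z^4 + (11)*z^5 + (-20)*z^6 + (12)*z^7 + (-8)*z^8 + (4)*z^9, by simp only [Qz_two]; ring⟩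

lemma bz_two_c (z : ℤ) : Bz (Qz_two z) (z^6-1) 63 :=
  ⟨(11) + (10)*z + (32)*z^2 + (-11)*z^3 + (-10)*z^4 + (31)*z^5, (-52) + (-1)*z + (44)*z^2 + (-56)*z^3 + (68)*z^4 + (-80)*z^5 + (29)*z^6 + (-30)*z^7 + (41)*z^8 + (-31)*z^9, by simp only [Qz_two]; ring⟩

lemma bz_two_d (z : ℤ) : Bz (Qz_two z) (z^8-1) 21 :=
  ⟨(8) + (13)*z + (8)*z^2 + (-8)*z^3 + (-13)*z^4 + (-8)*z^5 + (8)*z^6 + (13)*z^7, (-13) + (5)*z + (11)*z^2 + (-14)*z^3 + (-4)*z^4 + (-20)*z^5 + (23)*z^6 + (3)*z^7 + (5)*z^8 + (-13)*z^9, by simp only [Qz_two]; ring⟩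

lemma bz_two_e (z : ℤ) : Bz (Qz_two z) (z^9+1) 189 :=
  ⟨(85) + (146)*z + (64)*z^2 + (41)*z^3 + (106)*z^4 + (62)*z^5 + (22)*z^6 + (20)*z^7 + (1)*z^8, (104) + (-61)*z + (-88)*z^2 + (-14)*z^3 + (-10)*z^4 + (-29)*z^5 + (-58)*z^6 + (-3)*z^7 + (-19)*z^8 + (-1)*z^9, by simp only [Qz_two]; ring⟩

lemma bz_two_f (z : ℤ) : Bz (Qz_two z) (z^12-1) 4599 :=
  ⟨(244) + (1184)*z + (2428)*z^2 + (-55)*z^3 + (-1247)*z^4 + (659)*z^5 + (559)*z^6 + (-454)*z^7 + (-92)*z^8 + (-748)*z^9 + (517)*z^10 + (1604)*z^11, (-4355) + (940)*z + (1732)*z^2 + (-847)*z^3 + (844)*z^4 + (-2668)*z^5 + (2035)*z^6 + (-339)*z^7 + (1087)*z^8 + (-1604)*z^9, by simp only [Qz_two]; ring⟩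

lemma dvd_two (z : ℤ) (h : Qz_two z ∣ z ^ 36 * ((z ^ 2 - 1) * (z ^ 5 + 1) * (z ^ 6 - 1) * (z ^ 8 - 1) * (z ^ 9 + 1) * (z ^ 12 - 1))) :
    Qz_two z ∣ 507135073473 := by
  have h1 := chain (bz_two_q z) (bz_two_a z) (bz_two_b z) (bz_two_c z) (bz_two_d z) (bz_two_e z) (bz_two_f z) h
  have e : (1 : ℤ) ^ 36 * 21 * 21 * 63 * 21 * 189 * 4599 = 507135073473 := by norm_num
  rw [e] at h1
  exact h1

lemma pow_le_two (s : ℕ) : ((s : ℤ) + 2) ^ 9 ≤ Qz_two ((s : ℤ) + 2) := by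
  have h : 0 ≤ (127) + (1043)*(s : ℤ) + (3288)*(s : ℤ)^2 + (5661)*(s : ℤ)^3 + (6089)*(s : ℤ)^4 + (4345)*(s : ℤ)^5 + (2103)*(s : ℤ)^6 + (686)*(s : ℤ)^7 + (145)*(s : ℤ)^8 + (18)*(s : ℤ)^9 + (1)*(s : ℤ)^10 := by positivity
  have e : Qz_two ((s : ℤ) + 2) - ((s : ℤ) + 2) ^ 9 = (127) + (1043)*(s : ℤ) + (3288)*(s : ℤ)^2 + (5661)*(s : ℤ)^3 + (6089)*(s : ℤ)^4 + (4345)*(s : ℤ)^5 + (2103)*(s : ℤ)^6 + (686)*(s : ℤ)^7 + (145)*(s : ℤ)^8 + (18)*(s : ℤ)^9 + (1)*(s : ℤ)^10 := by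
    simp only [Qz_two]; ring
  linarith

theorem no_two {q : ℕ} (hq : 2 ≤ q) : ¬ (k0 q + 2) ∣ NN q := by
  intro hd
  by_cases hB : q < 20
  · exact chk_ok (g := fun q => k0 q + 2) (B := 20) (by decide +kernel) hq hB hd
  · have hd' : ((k0 q + 2 : ℕ) : ℤ) ∣ (NN q : ℤ) := Int.natCast_dvd_natCast.mpr hd
    have e1 : ((k0 q + 2 : ℕ) : ℤ) = ((1) + (1)*(q : ℤ)) * Qz_two (q : ℤ) := by
      rw [Nat.cast_add, k0_cast (by omega)]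
      simp only [Qz_two]
      push_cast
      ring
    rw [e1, NN_cast (by omega)] at hd'
    have hQ := dvd_two (q : ℤ) (Dvd.dvd.trans (Dvd.intro_left _ rfl) hd')
    have hle := Int.le_of_dvd (by norm_num) hQ
    obtain ⟨s, rfl⟩ : ∃ s, q = s + 2 := ⟨q - 2, by omega⟩
    have hp := pow_le_two s
    have e2 : ((s + 2 : ℕ) : ℤ) = (s : ℤ) + 2 := by push_cast; ring
    rw [e2] at hle
    have hB' : (20 : ℤ) ≤ (s : ℤ) + 2 := by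
      have : 20 ≤ s + 2 := not_lt.mp hB
      exact_mod_cast this
    have h3 : (20 : ℤ) ^ 9 ≤ ((s : ℤ) + 2) ^ 9 := pow_le_pow_left₀ (by norm_num) hB' 9
    have h4 : (20 : ℤ) ^ 9 ≤ 507135073473 := by linarith
    norm_num at h4

end two

section three

/-- The cofactor. -/
def Qz_three (z : ℤ) : ℤ := (2) + (-2)*z + (1)*z^2 + (-1)*z^4 + (1)*z^5 + (-1)*z^8 + (1)*z^9

lemma bz_three_q (z : ℤ) : Bz (Qz_three z) z 2 :=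
  ⟨(1), (2) + (-1)*z + (1)*z^3 + (-1)*z^4 + (1)*z^7 + (-1)*z^8, by simp only [Qz_three]; ring⟩

lemma bz_three_a (z : ℤ) : Bz (Qz_three z) (z^2-1) 1 :=
  ⟨(1), (1) + (-2)*z + (2)*z^2 + (-2)*z^3 + (1)*z^4 + (-1)*z^5 + (1)*z^6 + (-1)*z^7, by simp only [Qz_three]; ring⟩

lemma bz_three_b (z : ℤ) : Bz (Qz_three z) (z^5+1) 31 :=
  ⟨(17) + (7)*z + (12)*z^2 + (-6)*z^3 + (3)*z^4, (-3) + (20)*z + (-27)*z^2 + (29)*z^3 + (-13)*z^4 + (5)*z^5 + (-18)*z^6 + (9)*z^7 + (-3)*z^8, by simp only [Qz_three]; ring⟩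

lemma bz_three_c (z : ℤ) : Bz (Qz_three z) (z^6-1) 28 :=
  ⟨(13) + (5)*z + (10)*z^2 + (-1)*z^3 + (5)*z^4 + (-4)*z^5, (-2) + (-16)*z + (23)*z^2 + (-17)*z^3 + (9)*z^4 + (-11)*z^5 + (6)*z^6 + (-9)*z^7 + (4)*z^8, by simp only [Qz_three]; ring⟩

lemma bz_three_d (z : ℤ) : Bz (Qz_three z) (z^8-1) 3 :=
  ⟨(1) + (1)*z + (2)*z^2 + (-1)*z^4 + (-1)*z^5 + (1)*z^6, (-1) + (3)*z^2 + (-3)*z^3 + (-1)*z^4 + (2)*z^6 + (-1)*z^7, by simp only [Qz_three]; ring⟩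

lemma bz_three_e (z : ℤ) : Bz (Qz_three z) (z^9+1) 218 :=
  ⟨(101) + (86)*z + (111)*z^2 + (33)*z^3 + (54)*z^4 + (19)*z^5 + (41)*z^6 + (-32)*z^7 + (17)*z^8, (16) + (30)*z + (-151)*z^2 + (70)*z^3 + (-52)*z^4 + (22)*z^5 + (-73)*z^6 + (49)*z^7 + (-17)*z^8, by simp only [Qz_three]; ring⟩

lemma bz_three_f (z : ℤ) : Bz (Qz_three z) (z^12-1) 728 :=
  ⟨(155) + (163)*z + (354)*z^2 + (57)*z^3 + (-61)*z^4 + (-80)*z^5 + (183)*z^6 + (-33)*z^7 + (-94)*z^8 + (-83)*z^9 + (191)*z^10 + (-24)*z^11, (-418) + (16)*z + (537)*z^2 + (-431)*z^3 + (-37)*z^4 + (11)*z^5 + (274)*z^6 + (-215)*z^7 + (24)*z^8, by simp only [Qz_three]; ring⟩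

lemma dvd_three (z : ℤ) (h : Qz_three z ∣ z ^ 36 * ((z ^ 2 - 1) * (z ^ 5 + 1) * (z ^ 6 - 1) * (z ^ 8 - 1) * (z ^ 9 + 1) * (z ^ 12 - 1))) :
    Qz_three z ∣ 28399369396710014976 := by
  have h1 := chain (bz_three_q z) (bz_three_a z) (bz_three_b z) (bz_three_c z) (bz_three_d z) (bz_three_e z) (bz_three_f z) h
  have e : (2 : ℤ) ^ 36 * 1 * 31 * 28 * 3 * 218 * 728 = 28399369396710014976 := by norm_num
  rw [e] at h1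
  exact h1

lemma pow_le_three (s : ℕ) : ((s : ℤ) + 2) ^ 8 ≤ Qz_three ((s : ℤ) + 2) := by
  have h : 0 ≤ (18) + (306)*(s : ℤ) + (1081)*(s : ℤ)^2 + (1824)*(s : ℤ)^3 + (1801)*(s : ℤ)^4 + (1121)*(s : ℤ)^5 + (448)*(s : ℤ)^6 + (112)*(s : ℤ)^7 + (16)*(s : ℤ)^8 + (1)*(s : ℤ)^9 := by positivity
  have e : Qz_three ((s : ℤ) + 2) - ((s : ℤ) + 2) ^ 8 = (18) + (306)*(s : ℤ) + (1081)*(s : ℤ)^2 + (1824)*(s : ℤ)^3 + (1801)*(s : ℤ)^4 + (1121)*(s : ℤ)^5 + (448)*(s : ℤ)^6 + (112)*(s : ℤ)^7 + (16)*(s : ℤ)^8 + (1)*(s : ℤ)^9 := by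
    simp only [Qz_three]; ring
  linarith

theorem no_three {q : ℕ} (hq : 2 ≤ q) : ¬ (k0 q + 3) ∣ NN q := by
  intro hd
  by_cases hB : q < 271
  · exact chk_ok (g := fun q => k0 q + 3) (B := 271) (by decide +kernel) hq hB hd
  · have hd' : ((k0 q + 3 : ℕ) : ℤ) ∣ (NN q : ℤ) := Int.natCast_dvd_natCast.mpr hd
    have e1 : ((k0 q + 3 : ℕ) : ℤ) = ((1) + (1)*(q : ℤ) + (1)*(q : ℤ)^2) * Qz_three (q : ℤ) := by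
      rw [Nat.cast_add, k0_cast (by omega)]
      simp only [Qz_three]
      push_cast
      ring
    rw [e1, NN_cast (by omega)] at hd'
    have hQ := dvd_three (q : ℤ) (Dvd.dvd.trans (Dvd.intro_left _ rfl) hd')
    have hle := Int.le_of_dvd (by norm_num) hQ
    obtain ⟨s, rfl⟩ : ∃ s, q = s + 2 := ⟨q - 2, by omega⟩
    have hp := pow_le_three s
    have e2 : ((s + 2 : ℕ) : ℤ) = (s : ℤ) + 2 := by push_cast; ring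
    rw [e2] at hle
    have hB' : (271 : ℤ) ≤ (s : ℤ) + 2 := by
      have : 271 ≤ s + 2 := not_lt.mp hB
      exact_mod_cast this
    have h3 : (271 : ℤ) ^ 8 ≤ ((s : ℤ) + 2) ^ 8 := pow_le_pow_left₀ (by norm_num) hB' 8
    have h4 : (271 : ℤ) ^ 8 ≤ 28399369396710014976 := by linarith
    norm_num at h4

end three

section four

/-- The cofactor. -/
def Qz_four (z : ℤ) : ℤ := (3) + (1)*z^2 + (-1)*z^3 + (1)*z^7 + (-1)*z^8 + (1)*z^11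

lemma bz_four_q (z : ℤ) : Bz (Qz_four z) z 3 :=
  ⟨(1), (-1)*z + (1)*z^2 + (-1)*z^6 + (1)*z^7 + (-1)*z^10, by simp only [Qz_four]; ring⟩

lemma bz_four_a (z : ℤ) : Bz (Qz_four z) (z^2-1) 8 :=
  ⟨(3) + (-1)*z, (1) + (-3)*z + (4)*z^2 + (-7)*z^3 + (5)*z^4 + (-7)*z^5 + (5)*z^6 + (-4)*z^7 + (1)*z^8 + (-3)*z^9 + (1)*z^10, by simp only [Qz_four]; ring⟩

lemma bz_four_b (z : ℤ) : Bz (Qz_four z) (z^5+1) 242 :=
  ⟨(81) + (-27)*z + (9)*z^2 + (-3)*z^3 + (1)*z^4, (-1) + (81)*z + (-108)*z^2 + (117)*z^3 + (-39)*z^4 + (13)*z^5 + (-85)*z^6 + (28)*z^7 + (-9)*z^8 + (3)*z^9 + (-1)*z^10, by simp only [Qz_four]; ring⟩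

lemma bz_four_c (z : ℤ) : Bz (Qz_four z) (z^6-1) 40 :=
  ⟨(21) + (-7)*z + (-3)*z^2 + (9)*z^3 + (-3)*z^4 + (-7)*z^5, (23) + (-21)*z + (12)*z^2 + (-1)*z^3 + (-5)*z^4 + (-9)*z^5 + (11)*z^6 + (-4)*z^7 + (-9)*z^8 + (3)*z^9 + (7)*z^10, by simp only [Qz_four]; ring⟩

lemma bz_four_d (z : ℤ) : Bz (Qz_four z) (z^8-1) 544 :=
  ⟨(207) + (91)*z + (-73)*z^2 + (-61)*z^3 + (31)*z^4 + (11)*z^5 + (39)*z^6 + (-109)*z^7, (77) + (273)*z + (-12)*z^2 + (-299)*z^3 + (-71)*z^4 + (45)*z^5 + (209)*z^6 + (-140)*z^7 + (-11)*z^8 + (-39)*z^9 + (109)*z^10, by simp only [Qz_four]; ring⟩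

lemma bz_four_e (z : ℤ) : Bz (Qz_four z) (z^9+1) 7030 :=
  ⟨(2013) + (389)*z + (-119)*z^2 + (387)*z^3 + (431)*z^4 + (-421)*z^5 + (483)*z^6 + (-661)*z^7 + (401)*z^8, (991) + (-1167)*z + (-1656)*z^2 + (463)*z^3 + (-785)*z^4 + (757)*z^5 + (-1493)*z^6 + (822)*z^7 + (-483)*z^8 + (661)*z^9 + (-401)*z^10, by simp only [Qz_four]; ring⟩

lemma bz_four_f (z : ℤ) : Bz (Qz_four z) (z^12-1) 38480 :=
  ⟨(15761) + (933)*z + (-4023)*z^2 + (2029)*z^3 + (-63)*z^4 + (-347)*z^5 + (4441)*z^6 + (-7667)*z^7 + (1137)*z^8 + (6629)*z^9 + (-2823)*z^10 + (-6387)*z^11, (8803) + (2799)*z + (3692)*z^2 + (-8741)*z^3 + (-5145)*z^4 + (5011)*z^5 + (11231)*z^6 + (-7524)*z^7 + (-6629)*z^8 + (2823)*z^9 + (6387)*z^10, by simp only [Qz_four]; ring⟩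

lemma dvd_four (z : ℤ) (h : Qz_four z ∣ z ^ 36 * ((z ^ 2 - 1) * (z ^ 5 + 1) * (z ^ 6 - 1) * (z ^ 8 - 1) * (z ^ 9 + 1) * (z ^ 12 - 1))) :
    Qz_four z ∣ 1710487096385054940358693208064000 := by
  have h1 := chain (bz_four_q z) (bz_four_a z) (bz_four_b z) (bz_four_c z) (bz_four_d z) (bz_four_e z) (bz_four_f z) h
  have e : (3 : ℤ) ^ 36 * 8 * 242 * 40 * 544 * 7030 * 38480 = 1710487096385054940358693208064000 := by norm_num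
  rw [e] at h1
  exact h1

lemma pow_le_four (s : ℕ) : ((s : ℤ) + 2) ^ 10 ≤ Qz_four ((s : ℤ) + 2) := by
  have h : 0 ≤ (895) + (5560)*(s : ℤ) + (15515)*(s : ℤ)^2 + (25647)*(s : ℤ)^3 + (27960)*(s : ℤ)^4 + (21140)*(s : ℤ)^5 + (11326)*(s : ℤ)^6 + (4305)*(s : ℤ)^7 + (1139)*(s : ℤ)^8 + (200)*(s : ℤ)^9 + (21)*(s : ℤ)^10 + (1)*(s : ℤ)^11 := by positivity
  have e : Qz_four ((s : ℤ) + 2) - ((s : ℤ) + 2) ^ 10 = (895) + (5560)*(s : ℤ) + (15515)*(s : ℤ)^2 + (25647)*(s : ℤ)^3 + (27960)*(s : ℤ)^4 + (21140)*(s : ℤ)^5 + (11326)*(s : ℤ)^6 + (4305)*(s : ℤ)^7 + (1139)*(s : ℤ)^8 + (200)*(s : ℤ)^9 + (21)*(s : ℤ)^10 + (1)*(s : ℤ)^11 := by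
    simp only [Qz_four]; ring
  linarith

theorem no_four {q : ℕ} (hq : 2 ≤ q) : ¬ (k0 q + 4) ∣ NN q := by
  intro hd
  by_cases hB : q < 2106
  · exact chk_ok (g := fun q => k0 q + 4) (B := 2106) (by decide +kernel) hq hB hd
  · have hd' : ((k0 q + 4 : ℕ) : ℤ) ∣ (NN q : ℤ) := Int.natCast_dvd_natCast.mpr hd
    have e1 : ((k0 q + 4 : ℕ) : ℤ) = ((1)) * Qz_four (q : ℤ) := by
      rw [Nat.cast_add, k0_cast (by omega)]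
      simp only [Qz_four]
      push_cast
      ring
    rw [e1, NN_cast (by omega)] at hd'
    have hQ := dvd_four (q : ℤ) (Dvd.dvd.trans (Dvd.intro_left _ rfl) hd')
    have hle := Int.le_of_dvd (by norm_num) hQ
    obtain ⟨s, rfl⟩ : ∃ s, q = s + 2 := ⟨q - 2, by omega⟩
    have hp := pow_le_four s
    have e2 : ((s + 2 : ℕ) : ℤ) = (s : ℤ) + 2 := by push_cast; ring
    rw [e2] at hle
    have hB' : (2106 : ℤ) ≤ (s : ℤ) + 2 := by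
      have : 2106 ≤ s + 2 := not_lt.mp hB
      exact_mod_cast this
    have h3 : (2106 : ℤ) ^ 10 ≤ ((s : ℤ) + 2) ^ 10 := pow_le_pow_left₀ (by norm_num) hB' 10
    have h4 : (2106 : ℤ) ^ 10 ≤ 1710487096385054940358693208064000 := by linarith
    norm_num at h4

end four

section w

/-- The cofactor. -/
def Qz_w (z : ℤ) : ℤ := (2) + (1)*z + (1)*z^2 + (1)*z^3 + (2)*z^4 + (1)*z^5 + (1)*z^6 + (1)*z^8 + (1)*z^9 + (1)*z^10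

lemma bz_w_q (z : ℤ) : Bz (Qz_w z) z 2 :=
  ⟨(1), (-1) + (-1)*z + (-1)*z^2 + (-2)*z^3 + (-1)*z^4 + (-1)*z^5 + (-1)*z^7 + (-1)*z^8 + (-1)*z^9, by simp only [Qz_w]; ring⟩

lemma bz_w_a (z : ℤ) : Bz (Qz_w z) (z^2-1) 12 :=
  ⟨(2) + (-1)*z, (-8) + (-7)*z^2 + (1)*z^3 + (-4)*z^4 + (1)*z^5 + (-3)*z^6 + (-1)*z^8 + (1)*z^9, by simp only [Qz_w]; ring⟩

lemma bz_w_b (z : ℤ) : Bz (Qz_w z) (z^5+1) 44 :=
  ⟨(19) + (-7)*z + (-9)*z^2 + (1)*z^3 + (-5)*z^4, (6) + (-5)*z + (6)*z^2 + (-5)*z^3 + (-13)*z^4 + (2)*z^5 + (15)*z^6 + (13)*z^7 + (4)*z^8 + (5)*z^9, by simp only [Qz_w]; ring⟩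

lemma bz_w_c (z : ℤ) : Bz (Qz_w z) (z^6-1) 36 :=
  ⟨(2) + (-1)*z + (14)*z^2 + (11)*z^3 + (-10)*z^4 + (-13)*z^5, (-32) + (29)*z^2 + (37)*z^3 + (8)*z^4 + (-11)*z^5 + (-15)*z^6 + (12)*z^7 + (23)*z^8 + (13)*z^9, by simp only [Qz_w]; ring⟩

lemma bz_w_d (z : ℤ) : Bz (Qz_w z) (z^8-1) 48 :=
  ⟨(17) + (-16)*z + (-1)*z^2 + (2)*z^3 + (-7)*z^4 + (8)*z^5 + (-1)*z^6 + (2)*z^7, (-14) + (-15)*z + (-1)*z^2 + (4)*z^3 + (5)*z^4 + (-5)*z^5 + (-9)*z^7 + (-1)*z^8 + (-2)*z^9, by simp only [Qz_w]; ring⟩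

lemma bz_w_e (z : ℤ) : Bz (Qz_w z) (z^9+1) 4 :=
  ⟨(1) + (-1)*z + (1)*z^2 + (1)*z^3 + (-1)*z^4 + (-1)*z^5 + (-1)*z^6 + (1)*z^7 + (1)*z^8, (2) + (1)*z + (-2)*z^2 + (-3)*z^3 + (-1)*z^4 + (2)*z^5 + (1)*z^6 + (-1)*z^7 + (-2)*z^8 + (-1)*z^9, by simp only [Qz_w]; ring⟩

lemma bz_w_f (z : ℤ) : Bz (Qz_w z) (z^12-1) 72 :=
  ⟨(29) + (-28)*z + (23)*z^2 + (2)*z^3 + (-19)*z^4 + (-4)*z^5 + (-25)*z^6 + (26)*z^7 + (5)*z^8 + (20)*z^9 + (-1)*z^10 + (-22)*z^11, (-14) + (-27)*z + (47)*z^2 + (28)*z^3 + (17)*z^4 + (-29)*z^5 + (-24)*z^6 + (3)*z^7 + (23)*z^8 + (22)*z^9, by simp only [Qz_w]; ring⟩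

lemma dvd_w (z : ℤ) (h : Qz_w z ∣ z ^ 36 * ((z ^ 2 - 1) * (z ^ 5 + 1) * (z ^ 6 - 1) * (z ^ 8 - 1) * (z ^ 9 + 1) * (z ^ 12 - 1))) :
    Qz_w z ∣ 18057182705942003712 := by
  have h1 := chain (bz_w_q z) (bz_w_a z) (bz_w_b z) (bz_w_c z) (bz_w_d z) (bz_w_e z) (bz_w_f z) h
  have e : (2 : ℤ) ^ 36 * 12 * 44 * 36 * 48 * 4 * 72 = 18057182705942003712 := by norm_num
  rw [e] at h1
  exact h1

lemma pow_le_w (s : ℕ) : ((s : ℤ) + 2) ^ 10 ≤ Qz_w ((s : ℤ) + 2) := by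
  have h : 0 ≤ (912) + (3681)*(s : ℤ) + (6775)*(s : ℤ)^2 + (7385)*(s : ℤ)^3 + (5224)*(s : ℤ)^4 + (2477)*(s : ℤ)^5 + (785)*(s : ℤ)^6 + (160)*(s : ℤ)^7 + (19)*(s : ℤ)^8 + (1)*(s : ℤ)^9 := by positivity
  have e : Qz_w ((s : ℤ) + 2) - ((s : ℤ) + 2) ^ 10 = (912) + (3681)*(s : ℤ) + (6775)*(s : ℤ)^2 + (7385)*(s : ℤ)^3 + (5224)*(s : ℤ)^4 + (2477)*(s : ℤ)^5 + (785)*(s : ℤ)^6 + (160)*(s : ℤ)^7 + (19)*(s : ℤ)^8 + (1)*(s : ℤ)^9 := by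
    simp only [Qz_w]; ring
  linarith

theorem no_w {q : ℕ} (hq : 2 ≤ q) : ¬ (k0 q + (q ^ 6 - 1) / (q + 1)) ∣ NN q := by
  intro hd
  by_cases hB : q < 85
  · exact chk_ok (g := fun q => k0 q + (q ^ 6 - 1) / (q + 1)) (B := 85) (by decide +kernel) hq hB hd
  · have hd' : ((k0 q + (q ^ 6 - 1) / (q + 1) : ℕ) : ℤ) ∣ (NN q : ℤ) := Int.natCast_dvd_natCast.mpr hd
    have e1 : ((k0 q + (q ^ 6 - 1) / (q + 1) : ℕ) : ℤ) = ((-1) + (1)*(q : ℤ)) * Qz_w (q : ℤ) := by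
      rw [Nat.cast_add, k0_cast (by omega), w_cast hq]
      simp only [Qz_w]
      ring
    rw [e1, NN_cast (by omega)] at hd'
    have hQ := dvd_w (q : ℤ) (Dvd.dvd.trans (Dvd.intro_left _ rfl) hd')
    have hle := Int.le_of_dvd (by norm_num) hQ
    obtain ⟨s, rfl⟩ : ∃ s, q = s + 2 := ⟨q - 2, by omega⟩
    have hp := pow_le_w s
    have e2 : ((s + 2 : ℕ) : ℤ) = (s : ℤ) + 2 := by push_cast; ring
    rw [e2] at hle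
    have hB' : (85 : ℤ) ≤ (s : ℤ) + 2 := by
      have : 85 ≤ s + 2 := not_lt.mp hB
      exact_mod_cast this
    have h3 : (85 : ℤ) ^ 10 ≤ ((s : ℤ) + 2) ^ 10 := pow_le_pow_left₀ (by norm_num) hB' 10
    have h4 : (85 : ℤ) ^ 10 ≤ 18057182705942003712 := by linarith
    norm_num at h4

end w

section w1

/-- The cofactor. -/
def Qz_w1 (z : ℤ) : ℤ := (-1) + (1)*z + (-1)*z^2 + (1)*z^3 + (-1)*z^4 + (1)*z^5 + (1)*z^7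

lemma bz_w1_q (z : ℤ) : Bz (Qz_w1 z) z 1 :=
  ⟨(-1), (1) + (-1)*z + (1)*z^2 + (-1)*z^3 + (1)*z^4 + (1)*z^6, by simp only [Qz_w1]; ring⟩

lemma bz_w1_a (z : ℤ) : Bz (Qz_w1 z) (z^2-1) 7 :=
  ⟨(3) + (4)*z, (-10) + (-1)*z + (-9)*z^2 + (-2)*z^3 + (-8)*z^4 + (-3)*z^5 + (-4)*z^6, by simp only [Qz_w1]; ring⟩

lemma bz_w1_b (z : ℤ) : Bz (Qz_w1 z) (z^5+1) 7 :=
  ⟨(-3) + (-4)*z + (4)*z^2 + (3)*z^3 + (-3)*z^4, (4) + (-1)*z + (5)*z^2 + (-2)*z^3 + (-1)*z^4 + (-3)*z^5 + (3)*z^6, by simp only [Qz_w1]; ring⟩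

lemma bz_w1_c (z : ℤ) : Bz (Qz_w1 z) (z^6-1) 7 :=
  ⟨(1) + (-1)*z + (1)*z^2 + (-1)*z^3 + (1)*z^4 + (6)*z^5, (-8) + (2)*z + (-3)*z^2 + (4)*z^3 + (-5)*z^4 + (-1)*z^5 + (-6)*z^6, by simp only [Qz_w1]; ring⟩

lemma bz_w1_d (z : ℤ) : Bz (Qz_w1 z) (z^8-1) 7 :=
  ⟨(-1) + (1)*z + (6)*z^2 + (1)*z^3 + (-1)*z^4 + (1)*z^5 + (-1)*z^6 + (1)*z^7, (-6) + (-2)*z + (-4)*z^2 + (3)*z^3 + (-2)*z^4 + (1)*z^5 + (-1)*z^6, by simp only [Qz_w1]; ring⟩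

lemma bz_w1_e (z : ℤ) : Bz (Qz_w1 z) (z^9+1) 7 :=
  ⟨(-4) + (-3)*z + (3)*z^2 + (-3)*z^3 + (-4)*z^4 + (4)*z^5 + (3)*z^6 + (-3)*z^7 + (-4)*z^8, (3) + (1)*z + (2)*z^2 + (-5)*z^3 + (1)*z^4 + (3)*z^5 + (4)*z^6, by simp only [Qz_w1]; ring⟩

lemma bz_w1_f (z : ℤ) : Bz (Qz_w1 z) (z^12-1) 259 :=
  ⟨(-48) + (-43)*z + (64)*z^2 + (-29)*z^3 + (1)*z^4 + (125)*z^5 + (85)*z^6 + (6)*z^7 + (-27)*z^8 + (-8)*z^9 + (36)*z^10 + (97)*z^11, (-211) + (-5)*z + (-59)*z^2 + (88)*z^3 + (-89)*z^4 + (-36)*z^5 + (-97)*z^6, by simp only [Qz_w1]; ring⟩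

lemma dvd_w1 (z : ℤ) (h : Qz_w1 z ∣ z ^ 36 * ((z ^ 2 - 1) * (z ^ 5 + 1) * (z ^ 6 - 1) * (z ^ 8 - 1) * (z ^ 9 + 1) * (z ^ 12 - 1))) :
    Qz_w1 z ∣ 4353013 := by
  have h1 := chain (bz_w1_q z) (bz_w1_a z) (bz_w1_b z) (bz_w1_c z) (bz_w1_d z) (bz_w1_e z) (bz_w1_f z) h
  have e : (1 : ℤ) ^ 36 * 7 * 7 * 7 * 7 * 7 * 259 = 4353013 := by norm_num
  rw [e] at h1
  exact h1

lemma pow_le_w1 (s : ℕ) : ((s : ℤ) + 2) ^ 7 ≤ Qz_w1 ((s : ℤ) + 2) := by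
  have h : 0 ≤ (21) + (57)*(s : ℤ) + (61)*(s : ℤ)^2 + (33)*(s : ℤ)^3 + (9)*(s : ℤ)^4 + (1)*(s : ℤ)^5 := by positivity
  have e : Qz_w1 ((s : ℤ) + 2) - ((s : ℤ) + 2) ^ 7 = (21) + (57)*(s : ℤ) + (61)*(s : ℤ)^2 + (33)*(s : ℤ)^3 + (9)*(s : ℤ)^4 + (1)*(s : ℤ)^5 := by
    simp only [Qz_w1]; ring
  linarith

theorem no_w1 {q : ℕ} (hq : 2 ≤ q) : ¬ (k0 q + (q ^ 6 - 1) / (q + 1) + 1) ∣ NN q := by
  intro hd
  by_cases hB : q < 9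
  · exact chk_ok (g := fun q => k0 q + (q ^ 6 - 1) / (q + 1) + 1) (B := 9) (by decide +kernel) hq hB hd
  · have hd' : ((k0 q + (q ^ 6 - 1) / (q + 1) + 1 : ℕ) : ℤ) ∣ (NN q : ℤ) := Int.natCast_dvd_natCast.mpr hd
    have e1 : ((k0 q + (q ^ 6 - 1) / (q + 1) + 1 : ℕ) : ℤ) = ((1) + (-1)*(q : ℤ)^2 + (1)*(q : ℤ)^4) * Qz_w1 (q : ℤ) := by
      rw [Nat.cast_add, Nat.cast_add, k0_cast (by omega), w_cast hq]
      simp only [Qz_w1]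
      push_cast
      ring
    rw [e1, NN_cast (by omega)] at hd'
    have hQ := dvd_w1 (q : ℤ) (Dvd.dvd.trans (Dvd.intro_left _ rfl) hd')
    have hle := Int.le_of_dvd (by norm_num) hQ
    obtain ⟨s, rfl⟩ : ∃ s, q = s + 2 := ⟨q - 2, by omega⟩
    have hp := pow_le_w1 s
    have e2 : ((s + 2 : ℕ) : ℤ) = (s : ℤ) + 2 := by push_cast; ring
    rw [e2] at hle
    have hB' : (9 : ℤ) ≤ (s : ℤ) + 2 := by
      have : 9 ≤ s + 2 := not_lt.mp hB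
      exact_mod_cast this
    have h3 : (9 : ℤ) ^ 7 ≤ ((s : ℤ) + 2) ^ 7 := pow_le_pow_left₀ (by norm_num) hB' 7
    have h4 : (9 : ℤ) ^ 7 ≤ 4353013 := by linarith
    norm_num at h4

end w1

end ArAux

/-- The identity. -/
theorem BB_eq {q : ℕ} (hq : 2 ≤ q) : BB q = k0 q + (q ^ 6 - 1) / (q + 1) + 2 := by
  have h : (BB q : ℤ) = ((k0 q + (q ^ 6 - 1) / (q + 1) + 2 : ℕ) : ℤ) := by
    rw [Nat.cast_add, Nat.cast_add, ArAux.k0_cast (by omega), ArAux.w_cast hq]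
    have h1 : q ^ 3 ≤ q ^ 6 := Nat.pow_le_pow_right (by omega) (by norm_num)
    simp only [BB]
    rw [Nat.cast_mul, Nat.cast_mul, Nat.cast_add, Nat.cast_sub h1]
    push_cast
    ring
  exact_mod_cast h

/-- `k0 + n0` does not divide the order, `n0 ≤ 4`. -/
theorem no_dvd0 {q n0 : ℕ} (hq : 2 ≤ q) (hn : n0 ≤ 4) : ¬ (k0 q + n0) ∣ NN q := by
  interval_cases n0
  · exact ArAux.no_zero hq
  · exact ArAux.no_one hq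
  · exact ArAux.no_two hq
  · exact ArAux.no_three hq
  · exact ArAux.no_four hq

/-- `B - 2` does not divide the order. -/
theorem no_dvd1 {q : ℕ} (hq : 2 ≤ q) : ¬ (k0 q + (q ^ 6 - 1) / (q + 1)) ∣ NN q :=
  ArAux.no_w hq

/-- `B - 1` does not divide the order. -/
theorem no_dvd2 {q : ℕ} (hq : 2 ≤ q) : ¬ (k0 q + (q ^ 6 - 1) / (q + 1) + 1) ∣ NN q :=
  ArAux.no_w1 hq

end Cfsg.Agent.Lib.MinE6T
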