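import Cfsg.Agent.Lib.MinE6T.Sys
import Cfsg.Agent.Lib.WtSpace.Basic

/-! The generic lemma (G) of `PLAN.md` and the numerical relations (i), (ii) of `Inv`. -/

set_option autoImplicit false
set_option linter.unusedSectionVars false
set_option linter.unusedVariables false

namespace Cfsg.Agent.Lib.MinE6T

open Module
open Cfsg.Agent.Lib.MinE6
open Cfsg.Agent.Lib.WtSpace.Basic
open scoped Classical

namespace Gen

/-- (G): a submodule stable under an action of a finite abelian group is the sum of its weight spaces. -/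
theorem finrank_sub_eq_sum {V : Type*} [AddCommGroup V] [Module ℂ V] [FiniteDimensional ℂ V]
    {A X : Type*} [AddCommGroup A] [Fintype A] [Fintype X] {p : X → A → ℂ} (hp : Pairing p)
    {W : Submodule ℂ V} (τ : A → V →ₗ[ℂ] V) (hst : ∀ a, ∀ v ∈ W, τ a v ∈ W)
    (hadd : ∀ a b, ∀ v ∈ W, τ (a + b) v = τ a (τ b v)) (h0 : ∀ v ∈ W, τ 0 v = v)
    (Y : X → Submodule ℂ V) (hY : ∀ x v, v ∈ Y x ↔ v ∈ W ∧ ∀ a, τ a v = p x a • v) :
    finrank ℂ W = ∑ x, finrank ℂ (Y x) := by
  let σ : A → Module.End ℂ W := fun u => LinearMap.restrict (τ u) (fun v hv => hst u v hv)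
  have hσ : ∀ a b, σ (a + b) = σ a * σ b := by
    intro a b
    ext v
    simp [σ, hadd a b v.1 v.2]
  have hσ0 : σ 0 = 1 := by
    ext v
    simp [σ, h0 v.1 v.2]
  rw [finrank_eq_sum hp hσ hσ0]
  refine Finset.sum_congr rfl fun x _ => ?_
  have hmap : (LinearMap.range (ee p σ x)).map W.subtype = Y x := by
    ext v
    constructor
    · rintro ⟨w, hw, rfl⟩
      have hw' := (mem_range_ee hp hσ hσ0).1 hw
      refine (hY x _).2 ⟨w.2, fun u => ?_⟩
      have := congrArg Subtype.val (hw' u)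
      simpa [σ] using this
    · intro hv
      obtain ⟨hvW, hv2⟩ := (hY x v).1 hv
      refine ⟨⟨v, hvW⟩, ?_, rfl⟩
      refine (mem_range_ee hp hσ hσ0).2 fun c => ?_
      apply Subtype.ext
      simpa [σ] using hv2 c
  rw [← hmap]
  exact (Submodule.equivMapOfInjective W.subtype W.injective_subtype _).finrank_eq

variable {K : Type*} [Field K] {φ : K ≃+* K} {k : Type*} [Field k] {j : k →+* K} {Γ : Type*} [Group Γ]
  {V : Type*} [AddCommGroup V] [Module ℂ V] {q : ℕ}
variable {S : SysT φ j Γ} {ρ : Representation ℂ Γ V} {ψ : AddChar K ℂ}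

private lemma act (a b : Γ) (v : V) : ρ a (ρ b v) = ρ (a * b) v := by
  rw [map_mul, Module.End.mul_apply]

lemma rho_inj (g : Γ) : Function.Injective (ρ g : V →ₗ[ℂ] V) := by
  intro a b hab
  have h3 := congrArg (ρ g⁻¹ : V →ₗ[ℂ] V) hab
  rw [← Module.End.mul_apply, ← Module.End.mul_apply, ← map_mul] at h3
  simpa using h3

lemma z_zero : S.z 0 = 1 := by
  have := S.z_add 0 0
  rw [add_zero] at this
  exact left_eq_mul.mp this

/-- `h_β c` maps `Wz l` to `Wz (c⁻¹ l)`. -/
lemma hb_map (c : kˣ) {l : k} {v : V} (hv : v ∈ Wz S ρ ψ l) : ρ (S.hb c) v ∈ Wz S ρ ψ ((c : k)⁻¹ * l) := by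
  intro u
  have h1 : S.z u * S.hb c = S.hb c * S.z ((c : k)⁻¹ * u) := by
    have := S.hb_z c ((c : k)⁻¹ * u)
    rw [← mul_assoc, mul_inv_cancel₀ c.ne_zero, one_mul] at this
    rw [← this]
    group
  rw [act, h1, ← act, hv, map_smul]
  congr 3
  ring

/-- The equality of the dimensions of the nontrivial characters of `z`. -/
theorem dz_eq [FiniteDimensional ℂ V] {l : k} (hl : l ≠ 0) : dz S ρ ψ l = dz S ρ ψ 1 := by
  let L : kˣ := Units.mk0 l hl
  have hL : (L : k) = l := rfl
  refine le_antisymm (finrank_le_of_map (rho_inj (ρ := ρ) (S.hb L)) (fun v hv => ?_))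
    (finrank_le_of_map (rho_inj (ρ := ρ) (S.hb L⁻¹)) (fun v hv => ?_))
  · have := hb_map (S := S) (ρ := ρ) (ψ := ψ) L hv
    rwa [hL, inv_mul_cancel₀ hl] at this
  · have := hb_map (S := S) (ρ := ρ) (ψ := ψ) L⁻¹ hv
    rwa [Units.val_inv_eq_inv_val, hL, inv_inv, mul_one] at this

variable [Fintype k] [FiniteDimensional ℂ V]

/-- The pairing on `k`. -/
lemma pairing_k (hψ : ψ (j 1) ≠ 1) : Pairing (fun (l u : k) => ψ (j (l * u))) := by
  refine ⟨?_, ?_, ?_, rfl⟩
  · intro x a b
    rw [mul_add, map_add, AddChar.map_add_eq_mul]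
  · intro x
    simp
  · intro a ha
    let χ : AddChar k ℂ :=
      { toFun := fun l => ψ (j (l * a))
        map_zero_eq_one' := by simp
        map_add_eq_mul' := by
          intro x y
          rw [add_mul, map_add, AddChar.map_add_eq_mul] }
    have hχ : χ ≠ 1 := by
      intro h
      have h1 : χ a⁻¹ = 1 := by rw [h]; rfl
      apply hψ
      have : χ a⁻¹ = ψ (j (a⁻¹ * a)) := rfl
      rw [this, inv_mul_cancel₀ ha] at h1
      exact h1
    exact AddChar.sum_eq_zero_of_ne_one hχ

/-- (i): `V` is the sum of the `Wz l`. -/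
theorem finrank_eq_sum_z (hψ : ψ (j 1) ≠ 1) : finrank ℂ V = ∑ l : k, dz S ρ ψ l := by
  have h := finrank_sub_eq_sum (V := V) (W := ⊤) (pairing_k (j := j) (ψ := ψ) hψ)
    (fun u => (ρ (S.z u) : V →ₗ[ℂ] V)) (fun _ _ _ => trivial)
    (fun a b v _ => by rw [S.z_add, map_mul, Module.End.mul_apply])
    (fun v _ => by rw [z_zero, map_one, Module.End.one_apply])
    (fun l => Wz S ρ ψ l) (fun x v => ⟨fun h => ⟨trivial, h⟩, fun h => h.2⟩)
  rw [finrank_top] at h
  exact h

/-- `dim V = dz 0 + (q - 1) dz 1`. -/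
theorem k_eq_z (hψ : ψ (j 1) ≠ 1) (hq : Nat.card k = q) :
    finrank ℂ V = dz S ρ ψ 0 + (q - 1) * dz S ρ ψ 1 := by
  rw [finrank_eq_sum_z (S := S) (ρ := ρ) hψ, ← Finset.add_sum_erase Finset.univ _ (Finset.mem_univ (0 : k))]
  congr 1
  rw [Finset.sum_congr rfl (fun a ha => dz_eq (S := S) (ρ := ρ) (ψ := ψ) (Finset.ne_of_mem_erase ha)), Finset.sum_const,
    Finset.card_erase_of_mem (Finset.mem_univ _), Finset.card_univ, smul_eq_mul, ← Nat.card_eq_fintype_card, hq]

/-- `z` acts nontrivially. -/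
theorem d_pos (hψ : ψ (j 1) ≠ 1) (hz : ∃ u, ρ (S.z u) ≠ 1) : 0 < dz S ρ ψ 1 := by
  by_contra h
  have h0 : dz S ρ ψ 1 = 0 := by omega
  have hsum := finrank_eq_sum_z (S := S) (ρ := ρ) hψ
  rw [← Finset.add_sum_erase Finset.univ _ (Finset.mem_univ (0 : k)),
    Finset.sum_congr rfl (fun a ha => dz_eq (S := S) (ρ := ρ) (ψ := ψ) (Finset.ne_of_mem_erase ha)), h0] at hsum
  simp only [Finset.sum_const_zero, add_zero] at hsum
  have htop : Wz S ρ ψ 0 = ⊤ := Submodule.eq_top_of_finrank_eq hsum.symm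
  obtain ⟨u, hu⟩ := hz
  apply hu
  ext v
  have hv : v ∈ Wz S ρ ψ 0 := by rw [htop]; trivial
  have := hv u
  simpa using this

/-! ### (ii) -/

/-- The group of real vectors. -/
def ReA (D : TwD K) (φ : K ≃+* K) : AddSubgroup (S3 → K) where
  carrier := {a | Re D φ a}
  add_mem' := by
    intro a b ha hb T
    simp only [Pi.add_apply, ha T, hb T, map_add, mul_add]
  zero_mem' := by
    intro T
    simp
  neg_mem' := by
    intro a ha T
    simp only [Pi.neg_apply, ha T, map_neg, mul_neg]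

lemma mem_ReA {D : TwD K} {a : S3 → K} : a ∈ ReA D φ ↔ Re D φ a := Iff.rfl

lemma tau_tau : ∀ T : S3, tau (tau T) = T := by decide

/-- An element of trace `1`. -/
lemma exists_tr (hF : Frob φ j q) : ∃ x : K, x + φ x = 1 := by
  by_cases h : ∃ x : K, x + φ x ≠ 0
  · obtain ⟨x, hx⟩ := h
    have h1 : φ (x + φ x) = x + φ x := by
      rw [map_add, hF.inv, add_comm]
    refine ⟨x / (x + φ x), ?_⟩
    rw [map_div₀, h1, ← add_div, div_self hx]
  · exfalso
    push_neg at h
    have h1 : (1 : K) + 1 = 0 := by simpa using h 1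
    have h2 : ∀ x : K, φ x = x := by
      intro x
      have h3 := h x
      have h4 : x + x = 0 := by linear_combination x * h1
      linear_combination h3 - h4
    have hs : Function.Surjective j := fun x => (hF.fix x).1 (h2 x)
    have h5 : Nat.card K ≤ Nat.card k := Nat.card_le_card_of_surjective j hs
    rw [hF.card_K, hF.card_k] at h5
    have h6 : 1 < q := by
      rw [← hF.card_k]
      exact Finite.one_lt_card
    nlinarith

lemma phi_sign {e : K} (h : e = 1 ∨ e = -1) : φ e = e := by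
  rcases h with rfl | rfl <;> simp

lemma sq_sign {e : K} (h : e = 1 ∨ e = -1) : e * e = 1 := by
  rcases h with rfl | rfl <;> ring

/-- The pairing is perfect. -/
lemma exists_dual (hF : Frob φ j q) {D : TwD K} {a : S3 → K} (ha : Re D φ a) (h0 : a ≠ 0) :
    ∃ c, Re D φ c ∧ pr c a = 1 := by
  obtain ⟨T, hT⟩ : ∃ T, a T ≠ 0 := by
    by_contra h
    push_neg at h
    exact h0 (funext h)
  by_cases hf : tau T = T
  · have h1 : φ (a T) = a T := by
      have := ha T
      rw [hf, D.kg_fix T hf, one_mul] at this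
      exact this.symm
    refine ⟨Pi.single T (a T)⁻¹, fun X => ?_, ?_⟩
    · by_cases hX : X = T
      · subst hX
        rw [hf, D.kg_fix X hf, one_mul, Pi.single_eq_same, map_inv₀, h1]
      · have h2 : tau X ≠ T := by
          intro h
          apply hX
          rw [← tau_tau X, h, hf]
        rw [Pi.single_eq_of_ne h2, Pi.single_eq_of_ne hX, map_zero, mul_zero]
    · unfold pr
      rw [Finset.sum_eq_single T]
      · rw [Pi.single_eq_same, inv_mul_cancel₀ hT]
      · intro X _ hX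
        rw [Pi.single_eq_of_ne hX, zero_mul]
      · simp
  · obtain ⟨x, hx⟩ := exists_tr hF
    let y : K := x / a T
    have hy : y * a T = x := div_mul_cancel₀ x hT
    let c : S3 → K := fun X => if X = T then y else if X = tau T then D.kg T * φ y else 0
    have c1 : c T = y := by simp [c]
    have c2 : c (tau T) = D.kg T * φ y := by simp [c, hf]
    have c3 : ∀ X, X ≠ T → X ≠ tau T → c X = 0 := by
      intro X h1 h2
      simp [c, h1, h2]
    refine ⟨c, fun X => ?_, ?_⟩
    · by_cases h1 : X = T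
      · subst h1
        rw [c1, c2]
      · by_cases h2 : X = tau T
        · subst h2
          rw [tau_tau, c1, c2, D.kg_tau, map_mul, hF.inv, phi_sign (D.kg_sign T), ← mul_assoc,
            sq_sign (D.kg_sign T), one_mul]
        · have h3 : tau X ≠ T := by
            intro h
            apply h2
            rw [← h, tau_tau]
          have h4 : tau X ≠ tau T := by
            intro h
            apply h1
            rw [← tau_tau X, h, tau_tau]
          rw [c3 _ h3 h4, c3 _ h1 h2, map_zero, mul_zero]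
    · unfold pr
      rw [Finset.sum_eq_add T (tau T) (Ne.symm hf)]
      · rw [c1, c2, ha T, hy]
        have h5 : φ x = φ y * φ (a T) := by rw [← hy, map_mul]
        rw [← hx, h5]
        have := sq_sign (D.kg_sign T)
        linear_combination (φ y * φ (a T)) * this
      · intro X _ hX
        rw [c3 X hX.1 hX.2, zero_mul]
      · simp
      · simp

section II

variable [Fintype K]

/-- The pairing on the real vectors. -/
lemma pairing_re (hF : Frob φ j q) {D : TwD K} (hψ : ψ (j 1) ≠ 1) :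
    Pairing (fun (c a : ReA D φ) => ψ (pr c.1 a.1)) := by
  refine ⟨?_, ?_, ?_, rfl⟩
  · intro x a b
    rw [← AddChar.map_add_eq_mul]
    congr 1
    simp [pr, mul_add, Finset.sum_add_distrib]
  · intro x
    simp [pr]
  · intro a ha
    have ha' : a.1 ≠ 0 := fun h => ha (Subtype.ext h)
    obtain ⟨c, hc, hc1⟩ := exists_dual hF a.2 ha'
    let χ : AddChar (ReA D φ) ℂ :=
      { toFun := fun x => ψ (pr x.1 a.1)
        map_zero_eq_one' := by simp [pr]
        map_add_eq_mul' := by
          intro x y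
          rw [← AddChar.map_add_eq_mul]
          congr 1
          simp [pr, add_mul, Finset.sum_add_distrib] }
    have hχ : χ ≠ 1 := by
      intro h
      have h1 : χ ⟨c, hc⟩ = 1 := by rw [h]; rfl
      apply hψ
      have : χ ⟨c, hc⟩ = ψ (pr c a.1) := rfl
      rw [this, hc1] at h1
      rwa [map_one]
    exact AddChar.sum_eq_zero_of_ne_one hχ

lemma mem_Wz_zero {v : V} : v ∈ Wz S ρ ψ 0 ↔ ∀ u, ρ (S.z u) v = v := by
  constructor
  · intro h u
    simpa using h u
  · intro h u
    simpa using h u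

/-- (ii): `dz 0 = ∑ nf c`. -/
theorem dz_zero (hF : Frob φ j q) (hψ : ψ (j 1) ≠ 1) :
    dz S ρ ψ 0 = ∑ c : S3 → K, (if Re S.D φ c then nf S ρ ψ c else 0) := by
  have h := finrank_sub_eq_sum (V := V) (W := Wz S ρ ψ 0) (pairing_re (ψ := ψ) (D := S.D) hF hψ)
    (fun a => (ρ (S.E a.1) : V →ₗ[ℂ] V))
    (fun a v hv => by
      rw [mem_Wz_zero] at hv ⊢
      intro u
      show ρ (S.z u) (ρ (S.E a.1) v) = ρ (S.E a.1) v
      rw [act, ← S.E_z a.1 u a.2, ← act, hv])
    (fun a b v hv => by
      rw [mem_Wz_zero] at hv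
      obtain ⟨w, hw⟩ := S.E_add a.1 b.1 a.2 b.2
      show ρ (S.E (a.1 + b.1)) v = ρ (S.E a.1) (ρ (S.E b.1) v)
      rw [hw, map_mul, map_mul, Module.End.mul_apply, Module.End.mul_apply, hv])
    (fun v hv => by
      show ρ (S.E 0) v = v
      rw [S.E_zero, map_one, Module.End.one_apply])
    (fun c => Wt S ρ ψ c.1)
    (fun c v => by
      constructor
      · rintro ⟨h1, h2⟩
        exact ⟨mem_Wz_zero.2 h1, fun a => h2 a.1 a.2⟩
      · rintro ⟨h1, h2⟩
        exact ⟨mem_Wz_zero.1 h1, fun a ha => h2 ⟨a, ha⟩⟩)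
  unfold dz
  rw [h, ← Finset.sum_filter]
  exact (Finset.sum_subtype _ (by simp [mem_ReA]) (fun c => nf S ρ ψ c)).symm

/-- `dim V = (q - 1) d + ∑ nf c`. -/
theorem k_eq (hF : Frob φ j q) (hψ : ψ (j 1) ≠ 1) :
    finrank ℂ V = (q - 1) * dz S ρ ψ 1 + ∑ c : S3 → K, (if Re S.D φ c then nf S ρ ψ c else 0) := by
  rw [k_eq_z (S := S) (ρ := ρ) hψ hF.card_k, dz_zero hF hψ, add_comm]

end II

end Gen

end Cfsg.Agent.Lib.MinE6T
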