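import Cfsg.Agent.Lib.MinE6T.Sys
import Cfsg.Agent.Lib.MinE6.InstA
import Cfsg.Agent.S1081

/-! The signs of `²E₆`: an instance of `TwD`, from the tables of `chevE6` and the symmetry `Se` of `Twisted.E6`
(`γ = gamOf gamE6`, `ρ = rhoOf rhoE6`). -/

set_option autoImplicit false
set_option linter.unusedSectionVars false
set_option linter.unusedVariables false
set_option linter.style.longLine false

namespace Cfsg.Agent.Lib.MinE6T

namespace InstD

open Cfsg Cfsg.Lie Cfsg.Agent.Lib.MinE6 Cfsg.Agent.Lib.MinE6.InstAux Cfsg.Agent.Lib.GraphAut.Basic Cfsg.Agent.S1081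

/-- `kg T = γ (gam T)`. -/
def kgZ (T : S3) : ℤ := gamOf gamE6 (gam T)
/-- `kr i j = γ (rt i j)`. -/
def krZ (i j : Fin 6) : ℤ := gamOf gamE6 (rt i j)
/-- `sg`, as in `InstAux.sgE`. -/
def sgZ (i j : Fin 6) (T : S3) : ℤ := sgnOf (cf (rt i j) (gam T))
/-- `eps`, as in `InstAux.epsE`. -/
def epsZ (T : S3) : ℤ := sgnOf (cf (gam (compl3 T)) (gam T))

theorem rho_gam : ∀ T : S3, rhoOf rhoE6 (gam T) = gam (tau T) := by decide +kernel
theorem rho_rt : ∀ i j : Fin 6, i ≠ j → rhoOf rhoE6 (rt i j) = rt (ti j) (ti i) := by decide +kernel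
theorem kg_sign' : ∀ T : S3, kgZ T = 1 ∨ kgZ T = -1 := by decide +kernel
theorem kg_fix' : ∀ T : S3, tau T = T → kgZ T = 1 := by decide +kernel
theorem kg_tau' : ∀ T : S3, kgZ (tau T) = kgZ T := by decide +kernel
theorem kr_sign' : ∀ i j : Fin 6, krZ i j = 1 ∨ krZ i j = -1 := by decide +kernel
theorem kr_long' : ∀ i : Fin 6, krZ i (ti i) = 1 := by decide +kernel
theorem kr_tau' : ∀ i j : Fin 6, krZ (ti j) (ti i) = krZ i j := by decide +kernel
theorem sg_tw' : ∀ (i j : Fin 6) (T : S3), (i ≠ j ∧ j ∈ T.1 ∧ i ∉ T.1) →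
    sgZ (ti j) (ti i) (tau T) = kgZ (mv i j T) * sgZ i j T * krZ i j * kgZ T := by decide +kernel
theorem sg_comm' : ∀ (i j : Fin 6) (T : S3), (i ≠ j ∧ j ≠ ti i ∧ j ∈ T.1 ∧ i ∉ T.1 ∧ ti i ∈ T.1 ∧ ti j ∉ T.1) →
    sgZ i j T * sgZ (ti j) (ti i) (mv i j T) = sgZ (ti j) (ti i) T * sgZ i j (mv (ti j) (ti i) T) := by decide +kernel
theorem eps_tw' : ∀ T : S3, epsZ (tau T) * kgZ T * kgZ (compl3 T) = epsZ T := by decide +kernel
theorem eps_compl' : ∀ T : S3, epsZ (compl3 T) = - epsZ T := by decide +kernel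

lemma sign_cast {K : Type*} [Field K] {a : ℤ} (h : a = 1 ∨ a = -1) : (a : K) = 1 ∨ (a : K) = -1 := by
  rcases h with rfl | rfl <;> simp

lemma sgnOf_sign' (c : ℤ) : sgnOf c = 1 ∨ sgnOf c = -1 := by
  unfold sgnOf
  split_ifs <;> simp

end InstD

open InstD Cfsg.Agent.Lib.MinE6 in
/-- The signs of `²E₆`. -/
noncomputable def tdE6 (K : Type*) [Field K] : TwD K where
  kg T := (kgZ T : K)
  kg_sign T := sign_cast (kg_sign' T)
  kg_fix T h := by rw [kg_fix' T h]; simp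
  kg_tau T := by rw [kg_tau']
  kr i j := (krZ i j : K)
  kr_sign i j := sign_cast (kr_sign' i j)
  kr_long i := by
    rw [kr_long']
    simp
  kr_tau i j := by rw [kr_tau']
  sg i j T := (sgZ i j T : K)
  sg_sign i j T := sign_cast (sgnOf_sign' _)
  sg_tw i j T hij hj hi := by
    rw [sg_tw' i j T ⟨hij, hj, hi⟩]
    simp only [Int.cast_mul]
  sg_comm i j T hij hji hj hi hi' hj' := by
    rw [← Int.cast_mul, ← Int.cast_mul, sg_comm' i j T ⟨hij, hji, hj, hi, hi', hj'⟩]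
  eps T := (epsZ T : K)
  eps_sign T := sign_cast (sgnOf_sign' _)
  eps_tw T := by
    rw [← Int.cast_mul, ← Int.cast_mul, eps_tw' T]
  eps_compl T := by
    rw [eps_compl' T, Int.cast_neg]

end Cfsg.Agent.Lib.MinE6T
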