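import Cfsg.Agent.Lib.MinE6T.InstE
import Cfsg.Agent.Lib.MinE6T.InstD
import Cfsg.Agent.Lib.MinE6.InstA
import Cfsg.Agent.Lib.MinE6.InstB
import Cfsg.Agent.Lib.Twisted.E6H
import Cfsg.Agent.Lib.Twisted.E6O
import Cfsg.Agent.Lib.Twisted.E6S
import Cfsg.Agent.Lib.ChevTwo.E6Tw
import Cfsg.Agent.Lib.Twisted.E6c

/-! The concrete elements of `²E₆(q)`. PLAN.md, `Inst`. -/

set_option autoImplicit false
set_option linter.unusedSectionVars false
set_option linter.unusedVariables false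
set_option linter.ambiguousOpen false

namespace Cfsg.Agent.Lib.MinE6T

open Cfsg Lie
open Cfsg.Agent.Lib.Chev
open Tables Tables2 AxBasic Torus Mono1
open Cfsg.Agent.Lib.MinE6 Cfsg.Agent.Lib.MinE6.InstAux
open Cfsg.Agent.Lib.Twisted.E6 Cfsg.Agent.Lib.ChevTwo.E6Tw Cfsg.Agent.Lib.Twisted.Tw

variable {K : Type*} [Field K] (φ : K ≃+* K) (ax : Ax chevE6 K)

/-- `E₆(K)`, with `x r t = xG ax r t`. -/
noncomputable def sys0 [Finite K] : SysE K ↥(chevE6.group K) :=
  { x := xE ax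
    x_add := fun r _ a b => xE_add ax r a b
    tt := tt' ax
    uu := uu' ax
    eps := epsE
    eps_sign := fun T => sgnOf_sign _
    uc := uc' ax
    sg := sgE
    sg_sign := fun i j T => sgnOf_sign _
    lt := lt' ax
    lu0 := lu0' ax
    lu := lu' ax
    wL := wE ax
    w_conj := w_conj' ax
    w_th := w_th' ax
    hL := hLE ax
    hL_gam := hL_gam' ax
    hL_th := hL_th' ax
    hb := hbE ax
    hb_mul := hb_mul' ax
    hb_th := hb_th' ax
    hb_gam := hb_gam' ax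
    hb_β := hb_β' ax
    nb := nbE ax
    nb_eq := nb_eq' ax
    nb_conj := nb_conj' ax
    nb_hb := nb_hb' ax
    lconj := lconj' ax
    gen := gen' ax
    slh := Classical.choose (Cfsg.Agent.Lib.MinE6.InstB.exists_slh ax)
    ste := fun _ _ => -1
    ste_sign := fun _ _ => Or.inr rfl
    slh_tr := fun i j h a => Subtype.ext (by
      rw [Classical.choose_spec (Cfsg.Agent.Lib.MinE6.InstB.exists_slh ax) i j h a]
      show _ = xG ax (rt i j) (-1 * a)
      rw [neg_one_mul]) }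

/-- The signs: by `decide +kernel` on the integer tables (`Se.γ`, `sgnOf (cf ..)`), then cast. -/
noncomputable def twD : TwD K where
  kg T := gm (gam T)
  kg_sign := (tdE6 K).kg_sign
  kg_fix := (tdE6 K).kg_fix
  kg_tau := (tdE6 K).kg_tau
  kr i j := gm (rt i j)
  kr_sign := (tdE6 K).kr_sign
  kr_long := (tdE6 K).kr_long
  kr_tau := (tdE6 K).kr_tau
  sg := sgE
  sg_sign := fun i j T => sgnOf_sign _
  sg_tw := (tdE6 K).sg_tw
  sg_comm := (tdE6 K).sg_comm
  eps := epsE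
  eps_sign := fun T => sgnOf_sign _
  eps_tw := (tdE6 K).eps_tw
  eps_compl := (tdE6 K).eps_compl

/-- The fixed field. -/
def kF : Subfield K := RingHom.eqLocusField φ.toRingHom (RingHom.id K)

lemma mem_kF {t : K} : t ∈ kF φ ↔ φ t = t := Iff.rfl

/-- A unit of `k` in `K`. -/
def uK (s : (kF φ)ˣ) : Kˣ := Units.map (kF φ).subtype.toMonoidHom s

/-- The root elements of `L`. -/
noncomputable def lG (a b : Fin 6) (t : K) : GL chevE6.Idx K :=
  if b = ti a then xG ax (rt a b) t else xG ax (rt a b) t * xG ax (rt (ti b) (ti a)) (gm (rt a b) * φ t)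

/-- The elements of `U`. -/
noncomputable def EG [Finite K] (a : S3 → K) : GL chevE6.Idx K := (Eh (sys0 ax) a).1

namespace MemAux

theorem long_data : ∀ a : Fin 6, rt a (ti a) < 72 ∧ Se.ρ (rt a (ti a)) = rt a (ti a) ∧ Se.γ (rt a (ti a)) = 1 ∧
    (chevE6.IsPosRoot (rt a (ti a)) ∨ chevE6.IsNegRoot (rt a (ti a))) ∧
    chevE6.neg (rt a (ti a)) < 72 ∧ Se.ρ (chevE6.neg (rt a (ti a))) = chevE6.neg (rt a (ti a)) ∧ Se.γ (chevE6.neg (rt a (ti a))) = 1 ∧
    (chevE6.IsPosRoot (chevE6.neg (rt a (ti a))) ∨ chevE6.IsNegRoot (chevE6.neg (rt a (ti a)))) := by decide +kernel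

theorem short_data : ∀ a b : Fin 6, a ≠ b → b ≠ ti a → Cfsg.Agent.Lib.Twisted.Ortho.CommPair chevE6 (rt a b) (rt (ti b) (ti a)) ∧
    Se.ρ (rt a b) = rt (ti b) (ti a) ∧ Se.ρ (rt (ti b) (ti a)) = rt a b ∧
    ((chevE6.IsPosRoot (rt a b) ∧ chevE6.IsPosRoot (rt (ti b) (ti a))) ∨ (chevE6.IsNegRoot (rt a b) ∧ chevE6.IsNegRoot (rt (ti b) (ti a)))) := by
  decide +kernel

end MemAux
namespace InstCAux

/-- The orbits of `tau` are adjacent in a list. -/
def goodL : List S3 → Bool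
  | [] => true
  | [T] => decide (tau T = T)
  | T :: T' :: L => if tau T = T then goodL (T' :: L) else decide (T' = tau T) && goodL L

theorem lstT_good : goodL lstT = true := by decide +kernel

theorem tau_tau' : ∀ T : S3, tau (tau T) = T := by decide +kernel

theorem ne_compl_tau : ∀ T : S3, T ≠ compl3 (tau T) := by decide +kernel

theorem gam_lt'' : ∀ T : S3, gam T < 72 := by decide +kernel

theorem rho_gam' : ∀ T : S3, Se.ρ (gam T) = gam (tau T) := by decide +kernel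

theorem gam_pos : ∀ T : S3, chevE6.IsPosRoot (gam T) := by decide +kernel

/-- Swapping the adjacent orbits does not change the product. -/
theorem EL_tau {F Ĝ : Type*} [Field F] [Group Ĝ] (S : SysE F Ĝ) (a : S3 → F) :
    (L : List S3) → goodL L = true → InstEAux.EL S (L.map tau) a = InstEAux.EL S L a
  | [], _ => rfl
  | [T], h => by
      have hT : tau T = T := by simpa [goodL] using h
      simp [hT]
  | T :: T' :: L, h => by
      by_cases hT : tau T = T
      · rw [goodL, if_pos hT] at h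
        have ih := EL_tau S a (T' :: L) h
        rw [List.map_cons, InstEAux.EL_cons, InstEAux.EL_cons, hT, ih]
      · rw [goodL, if_neg hT, Bool.and_eq_true, decide_eq_true_eq] at h
        obtain ⟨rfl, h⟩ := h
        have ih := EL_tau S a L h
        rw [List.map_cons, List.map_cons, tau_tau', InstEAux.EL_cons, InstEAux.EL_cons, InstEAux.EL_cons, InstEAux.EL_cons,
          ih, ← mul_assoc, ← mul_assoc, S.uu (tau T) T (ne_compl_tau T)]

lemma EL_coe [Finite K] (L : List S3) (a : S3 → K) :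
    ((InstEAux.EL (sys0 ax) L a : ↥(chevE6.group K)) : GL chevE6.Idx K) = (L.map fun T => xG ax (gam T) (a T)).prod := by
  induction L with
  | nil => rfl
  | cons T L ih =>
    rw [InstEAux.EL_cons, Subgroup.coe_mul, ih]
    rfl

/-- `s` on a product. -/
lemma s_list' (L : List S3) (f : S3 → K) :
    (twE φ ax).s (L.map fun T => xG ax (gam T) (f T)).prod =
      (L.map fun T => xG ax (gam (tau T)) (gm (gam T) * φ (f T))).prod := by
  induction L with
  | nil => simpa using (twE φ ax).s_one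
  | cons T L ih =>
    have hm : (L.map fun T => xG ax (gam T) (f T)).prod ∈ chevE6.group K := by
      apply Subgroup.list_prod_mem
      intro x hx
      obtain ⟨T', -, rfl⟩ := List.mem_map.1 hx
      exact xG_mem' ax _ _
    simp only [List.map_cons, List.prod_cons]
    rw [(twE φ ax).s_mul _ (xG_mem' ax _ _) _ hm, ih, s_xG φ ax (gam_lt'' T), rho_gam']

end InstCAux

section Mem

variable {q : ℕ} (hφ : ∀ t, φ t = t ^ q) (hφ2 : ∀ t, φ (φ t) = t)

include hφ hφ2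

/-- Use `(TE φ hφ hφ2 ax).U_fix hE2` (`hE2 : Tab2 chevE6`). -/
lemma z_mem {u : K} (hu : φ u = u) : xG ax 71 u ∈ twistedE6 K q :=
  fixed_mem φ hφ hφ2 ax (r := 71) (by decide) (by decide +kernel) (by decide +kernel) (Or.inl (by decide +kernel)) (by rw [← hφ, hu])

lemma y25_mem {u : K} (hu : φ u = u) : xG ax 25 u ∈ twistedE6 K q :=
  fixed_mem φ hφ hφ2 ax (r := 25) (by decide) (by decide +kernel) (by decide +kernel) (Or.inr (by decide +kernel)) (by rw [← hφ, hu])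

/-- `U_fix` or `V_fix`: `rt a b` is positive iff `a < b`, `s_xG`, `rt` and `Se.ρ`: `Se.ρ (rt a b) = rt (ti b) (ti a)`, the two factors commute. -/
lemma lG_mem {a b : Fin 6} {t : K} (hab : a ≠ b) (ht : Al φ a b t) : lG φ ax a b t ∈ twistedE6 K q := by
  unfold lG
  by_cases h : b = ti a
  · rw [if_pos h]
    subst h
    obtain ⟨h1, h2, h3, h4, -⟩ := MemAux.long_data a
    exact fixed_mem φ hφ hφ2 ax h1 h2 h3 h4 (by rw [← hφ, ht rfl])
  · rw [if_neg h]
    obtain ⟨H, h1, h2, h3⟩ := MemAux.short_data a b hab h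
    have hg : gm (K := K) (rt (ti b) (ti a)) = gm (rt a b) := by
      have e := gam_rho (rt a b) H.1
      rw [h1] at e
      simp only [Cfsg.Agent.Lib.ChevTwo.E6Tw.gm]
      rw [e]
    have hfix : (twE φ ax).s (xG ax (rt a b) t * xG ax (rt (ti b) (ti a)) (gm (rt a b) * φ t)) =
        xG ax (rt a b) t * xG ax (rt (ti b) (ti a)) (gm (rt a b) * φ t) := by
      rw [(twE φ ax).s_mul _ (Cfsg.Agent.Lib.Chev.Mono3.xG_mem_group ax H.1 _) _ (Cfsg.Agent.Lib.Chev.Mono3.xG_mem_group ax H.2.1 _), s_xG φ ax H.1, s_xG φ ax H.2.1, h1, h2, hg,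
        map_mul, gm_φ, hφ2, ← mul_assoc, gm_sq, one_mul]
      exact H.comm ax _ _
    rcases h3 with ⟨p1, p2⟩ | ⟨n1, n2⟩
    · exact (TE φ hφ hφ2 ax).U_fix hE2 (mul_mem (Cfsg.Agent.Lib.Twisted.Ortho.xG_mem_U ax p1 _) (Cfsg.Agent.Lib.Twisted.Ortho.xG_mem_U ax p2 _)) hfix
    · exact (TE φ hφ hφ2 ax).V_fix hE2 (mul_mem (Cfsg.Agent.Lib.Twisted.Ortho.xG_mem_V ax n1 _) (Cfsg.Agent.Lib.Twisted.Ortho.xG_mem_V ax n2 _)) hfix

/-- `U_fix`: `(twE φ ax).s (EG a) = EG a`: the orbits of `tau` are adjacent in `lstT`, `s_xG`, `Se.ρ (gam T) = gam (tau T)`; `gam T` positive. -/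
lemma EG_mem [Finite K] {a : S3 → K} (ha : Re (twD (K := K)) φ a) : EG ax a ∈ twistedE6 K q := by
  have hlist : EG ax a = (lstT.map fun T => xG ax (gam T) (a T)).prod := InstCAux.EL_coe ax lstT a
  have hU : EG ax a ∈ chevE6.posUnipotent K := by
    rw [hlist]
    apply Subgroup.list_prod_mem
    intro x hx
    obtain ⟨T, -, rfl⟩ := List.mem_map.1 hx
    exact Cfsg.Agent.Lib.Twisted.Ortho.xG_mem_U ax (InstCAux.gam_pos T) _
  refine (TE φ hφ hφ2 ax).U_fix hE2 hU ?_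
  rw [hlist, InstCAux.s_list' φ ax]
  have e1 : (lstT.map fun T => xG ax (gam (tau T)) (gm (gam T) * φ (a T))) =
      (lstT.map tau).map (fun T => xG ax (gam T) (a T)) := by
    rw [List.map_map]
    apply List.map_congr_left
    intro T _
    show _ = xG ax (gam (tau T)) (a (tau T))
    rw [ha T]
    rfl
  rw [e1, ← InstCAux.EL_coe ax, InstCAux.EL_tau (sys0 ax) a lstT InstCAux.lstT_good, InstCAux.EL_coe ax]

/-- `nG ax 46 1 ∈ ...`: `nG_mem_single`. -/
lemma nb_mem : nG ax 46 1 ∈ twistedE6 K q :=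
  Cfsg.Agent.Lib.Twisted.E6H.nG_mem_single φ hφ hφ2 ax (r := 46) (by decide) (by decide +kernel) (map_one φ)

/-- `hbE`: `hG_mem_single`. -/
lemma hb_mem [Finite K] (c : (kF φ)ˣ) : (hbE ax (uK φ c)).1 ∈ twistedE6 K q := by
  show tor chevE6 (hW chevE6 46 (uK φ c)) ∈ twistedE6 K q
  rw [← hG_eq_tor ax tabE6 (by decide) (uK φ c)]
  exact Cfsg.Agent.Lib.Twisted.E6H.hG_mem_single φ hφ hφ2 ax (r := 46) (by decide) (by decide +kernel) c.1.2

/-- `hLE`: `hG` of a long root is a product of `x`'s of long roots, `lG_mem`. -/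
lemma ht_mem [Finite K] (a : Fin 6) (s : (kF φ)ˣ) : (hLE ax a (ti a) (uK φ s)).1 ∈ twistedE6 K q := by
  obtain ⟨h1, h2, h3, h4, h5, h6, h7, h8⟩ := MemAux.long_data a
  have hn : ∀ {v : K}, φ v = v → nG ax (rt a (ti a)) v ∈ twistedE6 K q := by
    intro v hv
    have hv1 : v ^ q = v := by rw [← hφ, hv]
    have hv2 : (-v⁻¹) ^ q = -v⁻¹ := by rw [← hφ, map_neg, map_inv₀, hv]
    simp only [nG]
    exact mul_mem (mul_mem (fixed_mem φ hφ hφ2 ax h1 h2 h3 h4 hv1) (fixed_mem φ hφ hφ2 ax h5 h6 h7 h8 hv2))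
      (fixed_mem φ hφ hφ2 ax h1 h2 h3 h4 hv1)
  show tor chevE6 (hW chevE6 (rt a (ti a)) (uK φ s)) ∈ twistedE6 K q
  rw [← hG_eq_tor ax tabE6 h1 (uK φ s)]
  simp only [hG]
  exact mul_mem (hn s.1.2) (hn (by rw [map_neg, map_one]))

end Mem

section Gamma

variable {q : ℕ} (hφ : ∀ t, φ t = t ^ q) (hφ2 : ∀ t, φ (φ t) = t)

/-- `z` -/
noncomputable def zΓ (u : kF φ) : ↥(twistedE6 K q) := ⟨xG ax 71 u.1, z_mem φ ax hφ hφ2 u.2⟩

/-- `y25` -/
noncomputable def yΓ (u : kF φ) : ↥(twistedE6 K q) := ⟨xG ax 25 u.1, y25_mem φ ax hφ hφ2 u.2⟩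

/-- `E` -/
noncomputable def EΓ [Finite K] (a : S3 → K) : ↥(twistedE6 K q) :=
  @dite _ (Re (twD (K := K)) φ a) (Classical.propDecidable _) (fun h => ⟨EG ax a, EG_mem φ ax hφ hφ2 h⟩) (fun _ => 1)

/-- `l` -/
noncomputable def lΓ (a b : Fin 6) (t : K) : ↥(twistedE6 K q) :=
  @dite _ (a ≠ b ∧ Al φ a b t) (Classical.propDecidable _) (fun h => ⟨lG φ ax a b t, lG_mem φ ax hφ hφ2 h.1 h.2⟩) (fun _ => 1)

/-- `ht` -/
noncomputable def htΓ [Finite K] (a : Fin 6) (s : (kF φ)ˣ) : ↥(twistedE6 K q) := ⟨(hLE ax a (ti a) (uK φ s)).1, ht_mem φ ax hφ hφ2 a s⟩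

/-- `hb` -/
noncomputable def hbΓ [Finite K] (c : (kF φ)ˣ) : ↥(twistedE6 K q) := ⟨(hbE ax (uK φ c)).1, hb_mem φ ax hφ hφ2 c⟩

/-- `nb` -/
noncomputable def nbΓ : ↥(twistedE6 K q) := ⟨nG ax 46 1, nb_mem φ ax hφ hφ2⟩

end Gamma

end Cfsg.Agent.Lib.MinE6T
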