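import Cfsg.Agent.Lib.MinE6T.Sys
import Cfsg.Agent.Lib.Classical.Transvections

/-! The elements of `U` in `E₆(K)`: class two computations, for any `S : SysE K Ĝ`. Coordinates `a : S3 → K` arbitrary. -/

set_option autoImplicit false
set_option linter.unusedSectionVars false
set_option linter.unusedVariables false

namespace Cfsg.Agent.Lib.MinE6T

open Cfsg.Agent.Lib.MinE6

/-- All the `3`-subsets; the orbits of `tau` are adjacent: `tau`-fixed ones alone, the others `T, tau T`. -/
def lstT : List S3 := [⟨{0, 1, 2}, by decide⟩, ⟨{0, 1, 3}, by decide⟩, ⟨{0, 1, 4}, by decide⟩, ⟨{0, 2, 3}, by decide⟩, ⟨{0, 1, 5}, by decide⟩, ⟨{1, 2, 3}, by decide⟩, ⟨{0, 2, 4}, by decide⟩, ⟨{0, 2, 5}, by decide⟩, ⟨{1, 2, 4}, by decide⟩, ⟨{0, 3, 4}, by decide⟩, ⟨{0, 3, 5}, by decide⟩, ⟨{1, 3, 4}, by decide⟩, ⟨{0, 4, 5}, by decide⟩, ⟨{2, 3, 4}, by decide⟩, ⟨{1, 2, 5}, by decide⟩, ⟨{1, 3, 5}, by decide⟩, ⟨{1, 4, 5}, by decide⟩, ⟨{2, 3, 5}, by decide⟩, ⟨{2, 4, 5}, by decide⟩, ⟨{3, 4, 5}, by decide⟩]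

theorem lstT_all : ∀ T : S3, T ∈ lstT := by decide
theorem lstT_nodup : lstT.Nodup := by decide

variable {K : Type*} [Field K] {Ĝ : Type*} [Group Ĝ] (S : SysE K Ĝ)

/-- The element of `U` with coordinates `a`. -/
def Eh (a : S3 → K) : Ĝ := (lstT.map fun T => S.x (gam T) (a T)).prod

namespace InstEAux

theorem gam_lt72 : ∀ T : S3, gam T < 72 := by decide

theorem gam_β : gam β₀ = 46 := by decide

theorem mv_facts : ∀ (i j : Fin 6) (T : S3), i ≠ j → j ∈ T.1 → i ∉ T.1 →
    i ∈ (mv i j T).1 ∧ j ∉ (mv i j T).1 ∧ mv j i (mv i j T) = T := by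
  decide

theorem rt_lt72 : ∀ (i j : Fin 6), rt i j < 72 := by decide

lemma x_zero (T : S3) : S.x (gam T) 0 = 1 := by
  have := S.x_add (gam T) (gam_lt72 T) 0 0
  simpa using this

lemma z_add (u v : K) : S.x 71 (u + v) = S.x 71 u * S.x 71 v := S.x_add 71 (by norm_num) u v

lemma z_zero : S.x 71 (0 : K) = 1 := by
  have := z_add S (0 : K) 0
  simpa using this

lemma z_neg (u : K) : S.x 71 (-u) = (S.x 71 u)⁻¹ := by
  have h : S.x 71 (-u + u) = S.x 71 (-u) * S.x 71 u := z_add S _ _
  rw [neg_add_cancel, z_zero] at h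
  exact eq_inv_of_mul_eq_one_left h.symm

lemma z_comm (u v : K) : S.x 71 u * S.x 71 v = S.x 71 v * S.x 71 u := by
  rw [← z_add, ← z_add, add_comm]

/-- The partial products. -/
def EL (L : List S3) (a : S3 → K) : Ĝ := (L.map fun T => S.x (gam T) (a T)).prod

lemma EL_nil (a : S3 → K) : EL S [] a = 1 := rfl

lemma EL_cons (T : S3) (L : List S3) (a : S3 → K) :
    EL S (T :: L) a = S.x (gam T) (a T) * EL S L a := by
  simp [EL]

lemma EL_z (L : List S3) (a : S3 → K) (u : K) :
    EL S L a * S.x 71 u = S.x 71 u * EL S L a := by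
  induction L with
  | nil => simp [EL_nil]
  | cons T L ih =>
    rw [EL_cons, mul_assoc, ih, ← mul_assoc, ← mul_assoc, S.tt]

lemma x_x (T T' : S3) (u w : K) :
    S.x (gam T) u * S.x (gam T') w = S.x (gam T') w * S.x (gam T) u *
      S.x 71 (if T' = compl3 T then S.eps T * (w * u) else 0) := by
  by_cases h : T' = compl3 T
  · subst h
    simp only [if_true]
    exact S.uc T u w
  · simp only [h, if_false, z_zero, mul_one]
    exact S.uu T T' h u w

/-- One root element against a product. -/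
lemma x_EL (T : S3) (u : K) (L : List S3) (b : S3 → K) :
    S.x (gam T) u * EL S L b = EL S L b * S.x (gam T) u *
      S.x 71 ((L.map fun T' => if T' = compl3 T then S.eps T * (b T' * u) else 0).sum) := by
  induction L with
  | nil => simp [EL_nil, z_zero]
  | cons T' L ih =>
    rw [EL_cons, List.map_cons, List.sum_cons, z_add]
    calc S.x (gam T) u * (S.x (gam T') (b T') * EL S L b)
        = (S.x (gam T) u * S.x (gam T') (b T')) * EL S L b := by group
      _ = S.x (gam T') (b T') * S.x (gam T) u * (S.x 71 (if T' = compl3 T then S.eps T * (b T' * u) else 0) * EL S L b) := by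
          rw [x_x]; group
      _ = S.x (gam T') (b T') * (S.x (gam T) u * EL S L b) * S.x 71 (if T' = compl3 T then S.eps T * (b T' * u) else 0) := by
          rw [← EL_z]; group
      _ = _ := by
          rw [ih]
          rw [mul_assoc, mul_assoc, mul_assoc, mul_assoc, mul_assoc]
          congr 3
          rw [z_comm]

/-- Two products. -/
lemma EL_EL (L L' : List S3) (a b : S3 → K) :
    EL S L a * EL S L' b = EL S L' b * EL S L a *
      S.x 71 ((L.map fun T => (L'.map fun T' => if T' = compl3 T then S.eps T * (b T' * a T) else 0).sum).sum) := by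
  induction L with
  | nil => simp [EL_nil, z_zero]
  | cons T L ih =>
    rw [EL_cons, List.map_cons, List.sum_cons, z_add]
    calc S.x (gam T) (a T) * EL S L a * EL S L' b
        = S.x (gam T) (a T) * (EL S L a * EL S L' b) := by group
      _ = (S.x (gam T) (a T) * EL S L' b) * EL S L a *
            S.x 71 ((L.map fun T => (L'.map fun T' => if T' = compl3 T then S.eps T * (b T' * a T) else 0).sum).sum) := by
          rw [ih]; group
      _ = _ := by
          rw [x_EL]
          generalize S.x 71 ((L.map fun T => (L'.map fun T' => if T' = compl3 T then S.eps T * (b T' * a T) else 0).sum).sum) = z2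
          have : S.x 71 ((L'.map fun T' => if T' = compl3 T then S.eps T * (b T' * a T) else 0).sum) * EL S L a
              = EL S L a * S.x 71 ((L'.map fun T' => if T' = compl3 T then S.eps T * (b T' * a T) else 0).sum) := (EL_z S L a _).symm
          calc _ = EL S L' b * S.x (gam T) (a T) * (S.x 71 ((L'.map fun T' => if T' = compl3 T then S.eps T * (b T' * a T) else 0).sum) * EL S L a) * z2 := by group
            _ = _ := by rw [this]; group

lemma sum_lstT {M : Type*} [AddCommMonoid M] (f : S3 → M) : (lstT.map f).sum = ∑ T, f T := by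
  have h : lstT.toFinset = Finset.univ := by
    ext T
    simp [lstT_all T]
  rw [← h, List.sum_toFinset f lstT_nodup]

lemma EL_add (L : List S3) (a b : S3 → K) : ∃ w, EL S L (a + b) = EL S L a * EL S L b * S.x 71 w := by
  induction L with
  | nil => exact ⟨0, by simp [EL_nil, z_zero]⟩
  | cons T L ih =>
    obtain ⟨w, hw⟩ := ih
    refine ⟨(L.map fun T' => if T' = compl3 T then S.eps T * (a T' * b T) else 0).sum + w, ?_⟩
    rw [EL_cons, EL_cons, EL_cons, hw, Pi.add_apply, S.x_add _ (gam_lt72 T), z_add]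
    have hx := x_EL S T (b T) L a
    generalize (L.map fun T' => if T' = compl3 T then S.eps T * (a T' * b T) else 0).sum = W at hx ⊢
    calc S.x (gam T) (a T) * S.x (gam T) (b T) * (EL S L a * EL S L b * S.x 71 w)
        = S.x (gam T) (a T) * (S.x (gam T) (b T) * EL S L a) * EL S L b * S.x 71 w := by group
      _ = S.x (gam T) (a T) * EL S L a * S.x (gam T) (b T) * (S.x 71 W * EL S L b) * S.x 71 w := by
          rw [hx]; group
      _ = _ := by
          rw [← EL_z]; group

lemma EL_single_notMem (L : List S3) (T : S3) (u : K) (h : T ∉ L) : EL S L (Pi.single T u) = 1 := by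
  induction L with
  | nil => rfl
  | cons T' L ih =>
    rw [List.mem_cons, not_or] at h
    rw [EL_cons, ih h.2, Pi.single_eq_of_ne (Ne.symm h.1), x_zero, one_mul]

lemma EL_single_mem (L : List S3) (T : S3) (u : K) (hn : L.Nodup) (h : T ∈ L) :
    EL S L (Pi.single T u) = S.x (gam T) u := by
  induction L with
  | nil => simp at h
  | cons T' L ih =>
    rw [List.nodup_cons] at hn
    rw [EL_cons]
    rcases List.mem_cons.1 h with rfl | h'
    · rw [EL_single_notMem S L _ u hn.1, Pi.single_eq_same, mul_one]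
    · have hne : T' ≠ T := fun e => hn.1 (e ▸ h')
      rw [ih hn.2 h', Pi.single_eq_of_ne hne, x_zero, one_mul]

lemma Eh_single (T : S3) (u : K) : Eh S (Pi.single T u) = S.x (gam T) u :=
  EL_single_mem S lstT T u lstT_nodup (lstT_all T)

lemma actB_add (sg : Fin 6 → Fin 6 → S3 → K) (i j : Fin 6) (t : K) (a b : S3 → K) :
    actB sg i j t (a + b) = actB sg i j t a + actB sg i j t b := by
  ext T
  simp only [actB, Pi.add_apply]
  split_ifs <;> ring

lemma actB_zero (sg : Fin 6 → Fin 6 → S3 → K) (i j : Fin 6) (t : K) :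
    actB sg i j t (0 : S3 → K) = 0 := by
  ext T
  simp [actB]

lemma actB_single_0 (sg : Fin 6 → Fin 6 → S3 → K) {i j : Fin 6} (hij : i ≠ j) (t : K) (T : S3) (u : K)
    (h : ¬ (j ∈ T.1 ∧ i ∉ T.1)) : actB sg i j t (Pi.single T u) = Pi.single T u := by
  ext T'
  simp only [actB]
  split_ifs with h'
  · have h2 := mv_facts j i T' hij.symm h'.1 h'.2
    have : mv j i T' ≠ T := by
      rintro rfl
      exact h ⟨h2.1, h2.2.1⟩
    rw [Pi.single_eq_of_ne this]
    ring
  · rfl

lemma actB_single_1 (sg : Fin 6 → Fin 6 → S3 → K) {i j : Fin 6} (hij : i ≠ j) (t : K) (T : S3) (u : K)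
    (h1 : j ∈ T.1) (h2 : i ∉ T.1) :
    actB sg i j t (Pi.single T u) = Pi.single T u + Pi.single (mv i j T) (sg i j T * (t * u)) := by
  obtain ⟨m1, m2, m3⟩ := mv_facts i j T hij h1 h2
  ext T'
  simp only [actB, Pi.add_apply]
  by_cases h' : i ∈ T'.1 ∧ j ∉ T'.1
  · rw [if_pos h']
    obtain ⟨n1, n2, n3⟩ := mv_facts j i T' hij.symm h'.1 h'.2
    have hne : T' ≠ T := by
      rintro rfl
      exact h2 h'.1
    by_cases he : mv j i T' = T
    · have : T' = mv i j T := by
        rw [← he, n3]
      subst this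
      rw [m3, Pi.single_eq_of_ne hne, Pi.single_eq_same, Pi.single_eq_same]
      ring
    · have hne2 : T' ≠ mv i j T := by
        rintro rfl
        exact he m3
      rw [Pi.single_eq_of_ne he, Pi.single_eq_of_ne hne2]
      ring
  · rw [if_neg h']
    have hne2 : T' ≠ mv i j T := by
      rintro rfl
      exact h' ⟨m1, m2⟩
    rw [Pi.single_eq_of_ne hne2, add_zero]

lemma gen_add {G : Type*} [Group G] {y A B C A' B' C' z0 za zb z1 : G}
    (h0 : C = A * B * z0) (ha : y⁻¹ * A * y = A' * za) (hb : y⁻¹ * B * y = B' * zb)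
    (h1 : C' = A' * B' * z1) (hz0 : y⁻¹ * z0 * y = z0) (hza : za * B' = B' * za) :
    y⁻¹ * C * y = C' * (z1⁻¹ * za * zb * z0) := by
  subst h0 h1
  calc y⁻¹ * (A * B * z0) * y = (y⁻¹ * A * y) * (y⁻¹ * B * y) * (y⁻¹ * z0 * y) := by group
    _ = A' * (za * B') * zb * z0 := by rw [ha, hb, hz0]; group
    _ = _ := by rw [hza]; group

lemma z_rt (i j : Fin 6) (hij : i ≠ j) (t u : K) :
    (S.x (rt i j) t)⁻¹ * S.x 71 u * S.x (rt i j) t = S.x 71 u := by
  rw [mul_assoc, S.lt i j hij, ← mul_assoc, inv_mul_cancel, one_mul]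

lemma conj_single {i j : Fin 6} (hij : i ≠ j) (t : K) (T : S3) (u : K) :
    ∃ w, (S.x (rt i j) t)⁻¹ * Eh S (Pi.single T u) * S.x (rt i j) t =
      Eh S (actB S.sg i j t (Pi.single T u)) * S.x 71 w := by
  by_cases h : j ∈ T.1 ∧ i ∉ T.1
  · rw [actB_single_1 S.sg hij t T u h.1 h.2]
    obtain ⟨w, hw⟩ := EL_add S lstT (Pi.single T u) (Pi.single (mv i j T) (S.sg i j T * (t * u)))
    refine ⟨-w, ?_⟩
    change _ = EL S lstT _ * _
    rw [hw, Eh_single, z_neg]
    have e1 : EL S lstT (Pi.single T u) = S.x (gam T) u := Eh_single S T u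
    have e2 : EL S lstT (Pi.single (mv i j T) (S.sg i j T * (t * u))) = S.x (gam (mv i j T)) (S.sg i j T * (t * u)) := Eh_single S _ _
    rw [e1, e2]
    have := S.lu i j T hij h.1 h.2 u t
    rw [mul_assoc, mul_inv_cancel_right, ← mul_assoc, mul_assoc, this]
    group
  · rw [actB_single_0 S.sg hij t T u h]
    refine ⟨0, ?_⟩
    rw [z_zero, mul_one, Eh_single, mul_assoc, S.lu0 i j T hij h, ← mul_assoc, inv_mul_cancel, one_mul]

lemma conj_add {i j : Fin 6} (hij : i ≠ j) (t : K) (a b : S3 → K)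
    (ha : ∃ w, (S.x (rt i j) t)⁻¹ * Eh S a * S.x (rt i j) t = Eh S (actB S.sg i j t a) * S.x 71 w)
    (hb : ∃ w, (S.x (rt i j) t)⁻¹ * Eh S b * S.x (rt i j) t = Eh S (actB S.sg i j t b) * S.x 71 w) :
    ∃ w, (S.x (rt i j) t)⁻¹ * Eh S (a + b) * S.x (rt i j) t = Eh S (actB S.sg i j t (a + b)) * S.x 71 w := by
  obtain ⟨wa, hwa⟩ := ha
  obtain ⟨wb, hwb⟩ := hb
  obtain ⟨w0, hw0⟩ := EL_add S lstT a b
  rw [actB_add]
  obtain ⟨w1, hw1⟩ := EL_add S lstT (actB S.sg i j t a) (actB S.sg i j t b)
  refine ⟨-w1 + wa + wb + w0, ?_⟩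
  rw [z_add, z_add, z_add, z_neg]
  exact gen_add hw0 hwa hwb hw1 (z_rt S i j hij t w0) ((EL_z S lstT _ _).symm)

lemma compl3_compl3' (T : S3) : compl3 (compl3 T) = T := by
  apply Subtype.ext
  simp [compl3]

lemma EL_add0 (L : List S3) (a b : S3 → K) (h : ∀ T, a T * b (compl3 T) = 0) :
    EL S L (a + b) = EL S L a * EL S L b := by
  induction L with
  | nil => simp [EL_nil]
  | cons T L ih =>
    rw [EL_cons, EL_cons, EL_cons, ih, Pi.add_apply, S.x_add _ (gam_lt72 T)]
    have hx := x_EL S T (b T) L a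
    have hW : (L.map fun T' => if T' = compl3 T then S.eps T * (a T' * b T) else 0).sum = 0 := by
      apply List.sum_eq_zero
      intro v hv
      obtain ⟨T', _, rfl⟩ := List.mem_map.1 hv
      beta_reduce
      split_ifs with he
      · have := h (compl3 T)
        rw [compl3_compl3'] at this
        rw [he, this, mul_zero]
      · rfl
    rw [hW, z_zero, mul_one] at hx
    calc S.x (gam T) (a T) * S.x (gam T) (b T) * (EL S L a * EL S L b)
        = S.x (gam T) (a T) * (S.x (gam T) (b T) * EL S L a) * EL S L b := by group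
      _ = _ := by rw [hx]; group

end InstEAux

open InstEAux

lemma Eh_zero : Eh S 0 = 1 := by
  have : ∀ L : List S3, EL S L 0 = 1 := by
    intro L
    induction L with
    | nil => rfl
    | cons T L ih => rw [EL_cons, ih, Pi.zero_apply, x_zero, one_mul]
  exact this lstT

/-- `x 71` is central in `U`. -/
lemma Eh_z (a : S3 → K) (u : K) : Eh S a * S.x 71 u = S.x 71 u * Eh S a := EL_z S lstT a u

/-- Class two: compare with a list induction (generalise `lstT` to any sublist with nodup). -/
theorem Eh_comm (a b : S3 → K) :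
    Eh S a * Eh S b = Eh S b * Eh S a * S.x 71 (∑ T, S.eps T * (a T * b (compl3 T))) := by
  have h := EL_EL S lstT lstT a b
  have e : (lstT.map fun T => (lstT.map fun T' => if T' = compl3 T then S.eps T * (b T' * a T) else 0).sum).sum
      = ∑ T, S.eps T * (a T * b (compl3 T)) := by
    rw [sum_lstT]
    refine Finset.sum_congr rfl fun T _ => ?_
    rw [sum_lstT, Finset.sum_ite_eq' Finset.univ (compl3 T)]
    simp [mul_comm]
  rw [e] at h
  exact h

theorem Eh_add (a b : S3 → K) : ∃ w, Eh S (a + b) = Eh S a * Eh S b * S.x 71 w := EL_add S lstT a b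

/-- No central term when the supports do not pair. -/
theorem Eh_add0 (a b : S3 → K) (h : ∀ T, a T * b (compl3 T) = 0) : Eh S (a + b) = Eh S a * Eh S b :=
  EL_add0 S lstT a b h

/-- Conjugation by `x (rt i j) t`. First for `a = single T u` (relation `lu`, `lu0`), then by `Eh_add` and additivity of `actB`. -/
theorem Eh_conj {i j : Fin 6} (hij : i ≠ j) (t : K) (a : S3 → K) :
    ∃ w, (S.x (rt i j) t)⁻¹ * Eh S a * S.x (rt i j) t = Eh S (actB S.sg i j t a) * S.x 71 w := by
  classical
  have key : ∀ s : Finset S3, ∃ w, (S.x (rt i j) t)⁻¹ * Eh S (∑ T ∈ s, Pi.single T (a T)) * S.x (rt i j) t =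
      Eh S (actB S.sg i j t (∑ T ∈ s, Pi.single T (a T))) * S.x 71 w := by
    intro s
    induction s using Finset.induction_on with
    | empty =>
      refine ⟨0, ?_⟩
      rw [Finset.sum_empty, actB_zero, Eh_zero, z_zero]
      group
    | insert T s hT ih =>
      rw [Finset.sum_insert hT]
      exact conj_add S hij t _ _ (conj_single S hij t T (a T)) ih
  have := key Finset.univ
  rwa [Finset.univ_sum_single] at this

theorem Eh_hL {i j : Fin 6} (hij : i ≠ j) (s : Kˣ) (a : S3 → K) :
    S.hL i j s * Eh S a * (S.hL i j s)⁻¹ = Eh S (fun T => a T * ((s ^ pw i j T : Kˣ) : K)) := by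
  have : ∀ L : List S3, S.hL i j s * EL S L a * (S.hL i j s)⁻¹ = EL S L (fun T => a T * ((s ^ pw i j T : Kˣ) : K)) := by
    intro L
    induction L with
    | nil => simp [EL_nil]
    | cons T L ih =>
      rw [EL_cons, EL_cons, ← ih, mul_comm (a T), ← S.hL_gam i j hij s T (a T)]
      group
  exact this lstT

/-- `h_β`, with the exponents of `hb_gam`. -/
theorem Eh_hb : ∃ e : S3 → ℤ, e β₀ = 2 ∧ ∀ (c : Kˣ) (a : S3 → K),
    S.hb c * Eh S a * (S.hb c)⁻¹ = Eh S (fun T => a T * ((c ^ e T : Kˣ) : K)) := by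
  classical
  refine ⟨fun T => if T = β₀ then 2 else (S.hb_gam T).choose, by simp, fun c a => ?_⟩
  have hx : ∀ T u, S.hb c * S.x (gam T) u * (S.hb c)⁻¹ =
      S.x (gam T) (((c ^ (if T = β₀ then (2 : ℤ) else (S.hb_gam T).choose) : Kˣ) : K) * u) := by
    intro T u
    by_cases h : T = β₀
    · subst h
      rw [if_pos rfl, gam_β, S.hb_β]
      simp [sq]
    · rw [if_neg h]
      exact (S.hb_gam T).choose_spec c u
  have : ∀ L : List S3, S.hb c * EL S L a * (S.hb c)⁻¹ =
      EL S L (fun T => a T * ((c ^ (if T = β₀ then (2 : ℤ) else (S.hb_gam T).choose) : Kˣ) : K)) := by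
    intro L
    induction L with
    | nil => simp [EL_nil]
    | cons T L ih =>
      rw [EL_cons, EL_cons, ← ih, mul_comm (a T), ← hx T (a T)]
      group
  exact this lstT

/-- Uniqueness: if `x 71` is injective. `Eh_comm` with `b = single (compl3 T) 1`. -/
theorem Eh_inj (h71 : ∀ u, S.x 71 u = 1 → u = 0) {a b : S3 → K} {u w : K} (h : Eh S a * S.x 71 u = Eh S b * S.x 71 w) :
    a = b ∧ u = w := by
  classical
  have hz : ∀ s t : K, S.x 71 s = S.x 71 t → s = t := by
    intro s t hst
    have := h71 (s - t) (by rw [sub_eq_add_neg, z_add, z_neg, hst, mul_inv_cancel])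
    exact sub_eq_zero.1 this
  have hab : a = b := by
    ext T
    set c : S3 → K := Pi.single (compl3 T) 1
    have cs : ∀ d : S3 → K, ∑ T', S.eps T' * (d T' * c (compl3 T')) = S.eps T * d T := by
      intro d
      rw [Finset.sum_eq_single T]
      · simp [c]
      · intro T' _ hT'
        have : compl3 T' ≠ compl3 T := by
          intro e
          apply hT'
          have he : (compl3 T').1 = (compl3 T).1 := congrArg Subtype.val e
          simp only [compl3] at he
          exact Subtype.ext (compl_injective he)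
        simp [c, Pi.single_eq_of_ne this]
      · simp
    have c1 := Eh_comm S a c
    have c2 := Eh_comm S b c
    rw [cs a] at c1
    rw [cs b] at c2
    have ea : Eh S a = Eh S b * S.x 71 (w - u) := by
      rw [sub_eq_add_neg, z_add, z_neg, ← mul_assoc, ← h]
      group
    have h3 : S.x 71 (S.eps T * a T) = S.x 71 (S.eps T * b T) := by
      have h4 : Eh S a * Eh S c = Eh S c * Eh S a * S.x 71 (S.eps T * b T) := by
        rw [ea]
        calc Eh S b * S.x 71 (w - u) * Eh S c = Eh S b * (S.x 71 (w - u) * Eh S c) := by group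
          _ = Eh S b * (Eh S c * S.x 71 (w - u)) := by rw [Eh_z]
          _ = (Eh S b * Eh S c) * S.x 71 (w - u) := by group
          _ = Eh S c * Eh S b * S.x 71 (S.eps T * b T) * S.x 71 (w - u) := by rw [c2]
          _ = Eh S c * Eh S b * (S.x 71 (w - u) * S.x 71 (S.eps T * b T)) := by
              rw [mul_assoc, z_comm]
          _ = _ := by group
      rw [c1] at h4
      exact mul_left_cancel h4
    have h5 := hz _ _ h3
    have hne : S.eps T ≠ 0 := by
      rcases S.eps_sign T with e | e <;> rw [e]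
      · exact one_ne_zero
      · exact neg_ne_zero.2 one_ne_zero
    exact mul_left_cancel₀ hne h5
  refine ⟨hab, ?_⟩
  subst hab
  exact hz _ _ (mul_left_cancel h)

/-- `x 71` commutes with `slh`. -/
theorem slh_z (h : Matrix.SpecialLinearGroup (Fin 6) K) (u : K) : S.slh h * S.x 71 u = S.x 71 u * S.slh h := by
  refine Cfsg.Agent.Lib.Classical.Transvections.transvection_induction (fun h => S.slh h * S.x 71 u = S.x 71 u * S.slh h) h ?_ ?_
  · intro i j hij a
    beta_reduce
    rw [S.slh_tr i j hij a]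
    exact (S.lt i j hij u _).symm
  · intro A B hA hB
    beta_reduce at hA hB ⊢
    rw [map_mul, mul_assoc, hB, ← mul_assoc, hA, mul_assoc]

/-- `SL₆(K)` normalises `U`: transvection induction (`Lib.Classical.Transvections.transvection_induction`), `Eh_conj`, `slh_tr`. -/
theorem Eh_slh (h : Matrix.SpecialLinearGroup (Fin 6) K) (a : S3 → K) :
    ∃ a' w, (S.slh h)⁻¹ * Eh S a * S.slh h = Eh S a' * S.x 71 w := by
  revert a
  refine Cfsg.Agent.Lib.Classical.Transvections.transvection_induction
    (fun h => ∀ a : S3 → K, ∃ a' w, (S.slh h)⁻¹ * Eh S a * S.slh h = Eh S a' * S.x 71 w) h ?_ ?_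
  · intro i j hij b a
    beta_reduce
    rw [S.slh_tr i j hij b]
    obtain ⟨w, hw⟩ := Eh_conj S hij (S.ste i j * b) a
    exact ⟨_, w, hw⟩
  · intro A B hA hB a
    obtain ⟨a1, w1, h1⟩ := hA a
    obtain ⟨a2, w2, h2⟩ := hB a1
    refine ⟨a2, w2 + w1, ?_⟩
    rw [z_add, map_mul]
    have hzB : (S.slh B)⁻¹ * S.x 71 w1 * S.slh B = S.x 71 w1 := by
      rw [mul_assoc, ← slh_z, ← mul_assoc, inv_mul_cancel, one_mul]
    calc (S.slh A * S.slh B)⁻¹ * Eh S a * (S.slh A * S.slh B)
        = (S.slh B)⁻¹ * ((S.slh A)⁻¹ * Eh S a * S.slh A) * S.slh B := by group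
      _ = ((S.slh B)⁻¹ * Eh S a1 * S.slh B) * ((S.slh B)⁻¹ * S.x 71 w1 * S.slh B) := by rw [h1]; group
      _ = _ := by rw [h2, hzB]; group

end Cfsg.Agent.Lib.MinE6T
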