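import Cfsg.Agent.Lib.MinE6T.InstC

/-! Conjugacy of the long roots, generation, the fields. -/

set_option autoImplicit false
set_option linter.unusedSectionVars false
set_option linter.unusedVariables false
set_option linter.ambiguousOpen false

namespace Cfsg.Agent.Lib.MinE6T

open Cfsg Lie
open Cfsg.Agent.Lib.Chev
open Tables Tables2 AxBasic Torus Mono1
open Cfsg.Agent.Lib.MinE6 Cfsg.Agent.Lib.MinE6.InstAux
open Cfsg.Agent.Lib.Twisted.E6 Cfsg.Agent.Lib.ChevTwo.E6Tw Cfsg.Agent.Lib.Twisted.Tw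

variable {K : Type*} [Field K] [Fintype K] (φ : K ≃+* K) (ax : Ax chevE6 K) {q : ℕ} (hφ : ∀ t, φ t = t ^ q) (hφ2 : ∀ t, φ (φ t) = t)

local notation "DK" => twD (K := K)

namespace InstGAux

open Cfsg.Agent.Lib.Chev.Mono2

/-- Conjugation by a word of simple reflections. -/
lemma nw_conj {K : Type*} [Field K] (ax : Ax chevE6 K) (l : List ℕ) (hl : ∀ i ∈ l, i < 6) (r : ℕ) (hr : r < 72) :
    foldW l r < 72 ∧ ∃ η : K, (η = 1 ∨ η = -1) ∧ ∀ u,
      nw chevE6 ax l * xG ax r u * (nw chevE6 ax l)⁻¹ = xG ax (foldW l r) (η * u) := by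
  induction l with
  | nil =>
    refine ⟨hr, 1, Or.inl rfl, fun u => ?_⟩
    simp [foldW]
  | cons i l ih =>
    obtain ⟨h1, η, hη, h2⟩ := ih (fun k hk => hl k (List.mem_cons_of_mem _ hk))
    have hi : i < 6 := hl i List.mem_cons_self
    obtain ⟨η', hη', h3⟩ := n_conj_aux ax i hi (foldW l r) h1
    refine ⟨reflect_lt i hi _ h1, η' * η, mul_sign hη' hη, fun u => ?_⟩
    rw [nw_cons]
    have e1 : sG ax i * nw chevE6 ax l * xG ax r u * (sG ax i * nw chevE6 ax l)⁻¹ =
        sG ax i * (nw chevE6 ax l * xG ax r u * (nw chevE6 ax l)⁻¹) * (sG ax i)⁻¹ := by group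
    rw [e1, h2, mul_assoc η' η u]
    exact h3 (η * u)

/-- The action of a word in the four twisted reflections. -/
def actW : List (Fin 4) → ℕ → ℕ
  | [], r => r
  | j :: w, r => foldW (Ce.wl j) (actW w r)

theorem wl_all (j : Fin 4) : ∀ i ∈ Ce.wl j, i < 6 := by
  revert j
  decide +kernel

theorem fixed_word : ∀ T : S3, tau T = T → ∃ w ∈ ([[0], [1, 0], [3, 1, 0], [1, 3, 1, 0], [2, 3, 1, 0], [1, 2, 3, 1, 0],
    [3, 1, 2, 3, 1, 0], [1, 3, 1, 2, 3, 1, 0]] : List (List (Fin 4))), actW w 71 = gam T := by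
  decide +kernel

theorem tau_inj : ∀ T T' : S3, tau T = T → tau T' = T → T' = T := by
  decide +kernel

end InstGAux

/-- `g = ∏ n_{rt i (ti i)}(1) * nb`: `nb` sends `71` to `gam {0,1,2}` (`reflB 71 = 70`); `n_{rt i (ti i)}(1) = wL`-like (in the group by `lG_mem`) swaps `i, ti i` in a fixed `T`, and the `8` fixed `T` are transitively permuted (`decide`). Compare `MinE6.InstAux.w_conj'`, `n_conj_aux`. The element `nG ax (rt i (ti i)) 1` is a product of three `lG i (ti i)`, `lG (ti i) i`. -/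
theorem lΓ_conj (T : S3) (hT : tau T = T) : ∃ g : ↥(twistedE6 K q), ∃ η : kF φ, (η = 1 ∨ η = -1) ∧ ∀ u,
    g * zΓ φ ax hφ hφ2 u * g⁻¹ = EΓ φ ax hφ hφ2 (Pi.single T ((kF φ).subtype (η * u))) := by
  have key : ∀ w : List (Fin 4), InstGAux.actW w 71 < 72 ∧ ∃ g ∈ twistedE6 K q, ∃ η : K, (η = 1 ∨ η = -1) ∧
      ∀ u, g * xG ax 71 u * g⁻¹ = xG ax (InstGAux.actW w 71) (η * u) := by
    intro w
    induction w with
    | nil =>
      refine ⟨by decide, 1, one_mem _, 1, Or.inl rfl, fun u => ?_⟩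
      simp [InstGAux.actW]
    | cons j w ih =>
      obtain ⟨hlt, g, hg, η, hη, h⟩ := ih
      obtain ⟨h1, η', hη', h2⟩ := InstGAux.nw_conj ax (Ce.wl j) (InstGAux.wl_all j) _ hlt
      refine ⟨h1, nE ax j * g, mul_mem (n_mem φ hφ hφ2 ax j) hg, η' * η, mul_sign hη' hη, fun u => ?_⟩
      have e1 : nE ax j * g * xG ax 71 u * (nE ax j * g)⁻¹ = nE ax j * (g * xG ax 71 u * g⁻¹) * (nE ax j)⁻¹ := by group
      rw [e1, h, mul_assoc η' η u]
      exact h2 (η * u)
  obtain ⟨w, -, hw⟩ := InstGAux.fixed_word T hT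
  obtain ⟨-, g, hg, η, hη, h⟩ := key w
  rw [hw] at h
  obtain ⟨η', hη', hηe⟩ : ∃ η' : kF φ, (η' = 1 ∨ η' = -1) ∧ ((η' : kF φ) : K) = η := by
    rcases hη with rfl | rfl
    · exact ⟨1, Or.inl rfl, rfl⟩
    · exact ⟨-1, Or.inr rfl, by simp⟩
  refine ⟨⟨g, hg⟩, η', hη', fun u => ?_⟩
  have hre : Re (twD (K := K)) φ (Pi.single T ((kF φ).subtype (η' * u))) := by
    intro T'
    have hfix : φ ((kF φ).subtype (η' * u)) = (kF φ).subtype (η' * u) := (η' * u).2
    by_cases hT' : T' = T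
    · subst hT'
      rw [hT, Pi.single_eq_same, hfix, (twD (K := K)).kg_fix T' hT, one_mul]
    · have h1 : tau T' ≠ T := fun h1 => hT' (InstGAux.tau_inj T T' hT h1)
      rw [Pi.single_eq_of_ne h1, Pi.single_eq_of_ne hT', map_zero, mul_zero]
  apply Subtype.ext
  have e2 : ((EΓ φ ax hφ hφ2 (Pi.single T ((kF φ).subtype (η' * u))) : ↥(twistedE6 K q)) : GL chevE6.Idx K) =
      xG ax (gam T) (η * (u : K)) := by
    unfold EΓ
    rw [dif_pos hre]
    show EG ax _ = _
    unfold EG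
    rw [InstEAux.Eh_single]
    show xG ax (gam T) _ = _
    congr 1
    rw [← hηe]
    rfl
  rw [e2]
  exact h (u : K)

/-- The definition of `twistedE6`: generators `[e6p2, e6m2, e6p4, e6m4]` (`46`, `25`, `rt 2 3`, `rt 3 2`) and `(e6p1, e6p6), (e6m1, e6m6), (e6p3, e6p5), (e6m3, e6m5)` (`lG 0 1`, `lG 1 0`, `lG 1 2`, `lG 2 1`): here `gm = 1`. -/
theorem gen_Γ (W : Subgroup ↥(twistedE6 K q)) (h1 : ∀ a b t, a ≠ b → Al φ a b t → lΓ φ ax hφ hφ2 a b t ∈ W)
    (h2 : ∀ u, EΓ φ ax hφ hφ2 (Pi.single β₀ ((kF φ).subtype u)) ∈ W) (h3 : ∀ u, yΓ φ ax hφ hφ2 u ∈ W) : W = ⊤ := by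
  classical
  have hmem : ∀ y : ↥(twistedE6 K q), y ∈ W → (y : GL chevE6.Idx K) ∈ W.map (twistedE6 K q).subtype :=
    fun y hy => ⟨y, hy, rfl⟩
  -- the long elements
  have hl' : ∀ (a b : Fin 6) (t : K), a ≠ b → b = ti a → φ t = t → (lΓ φ ax hφ hφ2 a b t : GL chevE6.Idx K) = xG ax (rt a b) t := by
    intro a b t hab hb ht
    have hA : a ≠ b ∧ Al φ a b t := ⟨hab, fun _ => ht⟩
    unfold lΓ
    rw [dif_pos hA]
    show lG φ ax a b t = _
    unfold lG
    rw [if_pos hb]
  have hl : ∀ (a b : Fin 6) (t : K), a ≠ b → b ≠ ti a → Se.γ (rt a b) = 1 →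
      (lΓ φ ax hφ hφ2 a b t : GL chevE6.Idx K) = xG ax (rt a b) t * xG ax (rt (ti b) (ti a)) (t ^ q) := by
    intro a b t hab hb hg
    have hA : a ≠ b ∧ Al φ a b t := ⟨hab, fun h => absurd h hb⟩
    unfold lΓ
    rw [dif_pos hA]
    show lG φ ax a b t = _
    unfold lG
    rw [if_neg hb, hφ t]
    have : Cfsg.Agent.Lib.ChevTwo.E6Tw.gm (K := K) (rt a b) = 1 := by
      unfold Cfsg.Agent.Lib.ChevTwo.E6Tw.gm
      rw [hg]
      simp
    rw [this, one_mul]
  have hE : ∀ (t : K) (ht : φ t = t), (EΓ φ ax hφ hφ2 (Pi.single β₀ t) : GL chevE6.Idx K) = xG ax 46 t := by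
    intro t ht
    have h0 : tau β₀ = β₀ := by decide +kernel
    have h00 : ∀ T : S3, tau T = β₀ → T = β₀ := by decide +kernel
    have hRe : Re (twD (K := K)) φ (Pi.single β₀ t) := by
      intro T
      by_cases hT : T = β₀
      · subst hT
        rw [h0, Pi.single_eq_same, (twD (K := K)).kg_fix β₀ h0, one_mul, ht]
      · have h' : tau T ≠ β₀ := fun e => hT (h00 T e)
        rw [Pi.single_eq_of_ne h', Pi.single_eq_of_ne hT, map_zero, mul_zero]
    unfold EΓ
    rw [dif_pos hRe]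
    show EG ax _ = _
    unfold EG
    rw [InstEAux.Eh_single]
    show xG ax (gam β₀) t = _
    have : gam β₀ = 46 := by decide +kernel
    rw [this]
  have hgen : ∀ g ∈ ({g | ∃ w ∈ e6Words K q, (g : Matrix chevE6.Idx chevE6.Idx K) = chevE6.wordMat K w} : Set (GL chevE6.Idx K)),
      g ∈ W.map (twistedE6 K q).subtype := by
    intro g hg'
    obtain ⟨w, hw, hg⟩ := hg'
    rcases hw with ⟨t, ht, r, hr, rfl⟩ | ⟨t, rs, hrs, rfl⟩
    · have e : g = xG ax r t := Units.ext (by rw [hg, xG_val, word_single])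
      have hφt : φ t = t := (hφ t).trans ht
      rw [e]
      simp only [List.mem_cons, List.not_mem_nil, or_false] at hr
      rcases hr with rfl | rfl | rfl | rfl
      · have := hmem _ (h2 ⟨t, hφt⟩)
        have h5 := hE t hφt
        have h6 : ((kF φ).subtype ⟨t, hφt⟩ : K) = t := rfl
        rw [h6, h5] at this
        exact this
      · exact hmem _ (h3 ⟨t, hφt⟩)
      · have := hmem _ (h1 2 3 t (by decide) (fun _ => hφt))
        rw [hl' 2 3 t (by decide) (by decide) hφt] at this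
        exact this
      · have := hmem _ (h1 3 2 t (by decide) (fun _ => hφt))
        rw [hl' 3 2 t (by decide) (by decide) hφt] at this
        exact this
    · have e : g = xG ax rs.1 t * xG ax rs.2 (t ^ q) := Units.ext (by rw [hg, word_pair]; simp)
      rw [e]
      simp only [List.mem_cons, List.not_mem_nil, or_false] at hrs
      rcases hrs with rfl | rfl | rfl | rfl
      · have := hmem _ (h1 0 1 t (by decide) (fun h => absurd h (by decide)))
        rw [hl 0 1 t (by decide) (by decide) (by decide +kernel)] at this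
        exact this
      · have := hmem _ (h1 1 0 t (by decide) (fun h => absurd h (by decide)))
        rw [hl 1 0 t (by decide) (by decide) (by decide +kernel)] at this
        exact this
      · have := hmem _ (h1 1 2 t (by decide) (fun h => absurd h (by decide)))
        rw [hl 1 2 t (by decide) (by decide) (by decide +kernel)] at this
        exact this
      · have := hmem _ (h1 2 1 t (by decide) (fun h => absurd h (by decide)))
        rw [hl 2 1 t (by decide) (by decide) (by decide +kernel)] at this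
        exact this
  have htop : twistedE6 K q ≤ W.map (twistedE6 K q).subtype := by
    change Subgroup.closure _ ≤ _
    exact (Subgroup.closure_le _).2 hgen
  rw [eq_top_iff]
  intro x _
  obtain ⟨y, hy, hxy⟩ := htop x.2
  have : y = x := Subtype.ext hxy
  rwa [← this]

end Cfsg.Agent.Lib.MinE6T
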