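import Cfsg.Agent.Lib.MinE6T.InstC

/-! `n_β` conjugates `U` (without `x 46`) into `U L`. -/

set_option autoImplicit false
set_option linter.unusedSectionVars false
set_option linter.unusedVariables false
set_option linter.ambiguousOpen false
set_option maxRecDepth 100000

namespace Cfsg.Agent.Lib.MinE6T

open Cfsg Lie
open Cfsg.Agent.Lib.Chev
open Tables Tables2 AxBasic Torus Mono1
open Cfsg.Agent.Lib.MinE6 Cfsg.Agent.Lib.MinE6.InstAux
open Cfsg.Agent.Lib.Twisted.E6 Cfsg.Agent.Lib.ChevTwo.E6Tw Cfsg.Agent.Lib.Twisted.Tw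

namespace NbAux

theorem refl_refl : ∀ r, r < 72 → reflB (reflB r) = r := by decide +kernel
theorem refl_lt : ∀ r, r < 72 → reflB r < 72 := by decide +kernel
theorem simple1' : chevE6.simple 1 = 46 := by decide +kernel
theorem refl1' : ∀ r, r < 72 → chevE6.reflectRoot 1 r = reflB r := by decide +kernel
theorem rho_refl : ∀ r, r < 72 → Se.ρ (reflB r) = reflB (Se.ρ r) := by decide +kernel
theorem rho_gam : ∀ T : S3, Se.ρ (gam T) = gam (tau T) := by decide +kernel
theorem rho_rt : ∀ (i j : Fin 6), i ≠ j → Se.ρ (rt i j) = rt (ti j) (ti i) := by decide +kernel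
theorem gam_lt' : ∀ T : S3, gam T < 72 := by decide +kernel
theorem rt_lt' : ∀ (i j : Fin 6), rt i j < 72 := by decide +kernel
theorem tau_ne_compl : ∀ T : S3, tau T ≠ compl3 T := by decide +kernel
theorem tau_tau : ∀ T : S3, tau (tau T) = T := by decide +kernel
theorem rho_71 : Se.ρ 71 = 71 := by decide +kernel
theorem ti_ti : ∀ i : Fin 6, ti (ti i) = i := by decide

/-- The table for fixed `T`. -/
theorem tab_fixed : ∀ T : S3, T ≠ β₀ → tau T = T →
    reflB (gam T) = 71 ∨ (∃ T' : S3, tau T' = T' ∧ reflB (gam T) = gam T') ∨ ∃ i : Fin 6, reflB (gam T) = rt i (ti i) := by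
  decide +kernel

/-- The table for non-fixed `T`. -/
theorem tab_nonfixed : ∀ T : S3, tau T ≠ T →
    (∃ T' : S3, tau T' ≠ T' ∧ reflB (gam T) = gam T') ∨ ∃ i j : Fin 6, i ≠ j ∧ j ≠ ti i ∧ reflB (gam T) = rt i j := by
  decide +kernel

theorem gam_ne_rt_neg : ∀ i : Fin 6, ti i ≠ i := by decide

variable {K : Type*} [Field K] [Fintype K] (φ : K ≃+* K) (ax : Ax chevE6 K) {q : ℕ} (hφ : ∀ t, φ t = t ^ q) (hφ2 : ∀ t, φ (φ t) = t)

/-- `n⁻¹ x_r(u) n = x_{reflB r}(η u)`. -/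
lemma n_conj (r : ℕ) (hr : r < 72) : ∃ η : K, (η = 1 ∨ η = -1) ∧ ∀ u,
    (nG ax 46 1)⁻¹ * xG ax r u * nG ax 46 1 = xG ax (reflB r) (η * u) := by
  have hR := refl_lt r hr
  obtain ⟨η, hη, h⟩ := n_conj_aux ax 1 (by decide) (reflB r) hR
  rw [simple1', refl1' _ hR, refl_refl r hr] at h
  have hηη : η * η = 1 := by
    rcases hη with rfl | rfl <;> simp
  refine ⟨η, hη, fun u => ?_⟩
  have := h (η * u)
  rw [← mul_assoc, hηη, one_mul] at this
  rw [← this]
  group

lemma n_mem_group : nG ax 46 1 ∈ chevE6.group K := nG_mem' ax _ _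

include hφ hφ2

lemma s_n : (twE φ ax).s (nG ax 46 1) = nG ax 46 1 :=
  (G1_le φ hφ hφ2 ax (nb_mem φ ax hφ hφ2)).2

/-- Apply `s`. -/
lemma n_conj_s {r : ℕ} (hr : r < 72) {η : K} (hη : η = 1 ∨ η = -1) (h : ∀ u,
    (nG ax 46 1)⁻¹ * xG ax r u * nG ax 46 1 = xG ax (reflB r) (η * u)) (u : K) :
    (nG ax 46 1)⁻¹ * xG ax (Se.ρ r) (gm r * φ u) * nG ax 46 1 = xG ax (reflB (Se.ρ r)) (gm (reflB r) * φ (η * u)) := by
  have h1 := congrArg (twE φ ax).s (h u)
  have hg1 : (nG ax 46 1)⁻¹ ∈ chevE6.group K := inv_mem (n_mem_group ax)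
  have hg2 : xG ax r u ∈ chevE6.group K := xG_mem' ax _ _
  have hg3 : nG ax 46 1 ∈ chevE6.group K := n_mem_group ax
  rw [(twE φ ax).s_mul _ (mul_mem hg1 hg2) _ hg3, (twE φ ax).s_mul _ hg1 _ hg2, (twE φ ax).s_inv hg3,
    s_n φ ax hφ hφ2, s_xG φ ax (by exact hr), s_xG φ ax (by exact refl_lt r hr), rho_refl r hr] at h1
  exact h1

/-- The two-factor element. -/
lemma n_conj_pair {r : ℕ} (hr : r < 72) : ∃ η : K, (η = 1 ∨ η = -1) ∧ ∀ u,
    (nG ax 46 1)⁻¹ * (xG ax r u * xG ax (Se.ρ r) (gm r * φ u)) * nG ax 46 1 =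
      xG ax (reflB r) (η * u) * xG ax (Se.ρ (reflB r)) (gm (reflB r) * φ (η * u)) := by
  obtain ⟨η, hη, h⟩ := n_conj ax r hr
  refine ⟨η, hη, fun u => ?_⟩
  rw [rho_refl r hr, ← n_conj_s φ ax hφ hφ2 hr hη h u, ← h u]
  group

end NbAux

open NbAux

variable {K : Type*} [Field K] [Fintype K] (φ : K ≃+* K) (ax : Ax chevE6 K) {q : ℕ} (hφ : ∀ t, φ t = t ^ q) (hφ2 : ∀ t, φ (φ t) = t)

local notation "DK" => twD (K := K)

lemma sign_fix {η : K} (hη : η = 1 ∨ η = -1) : φ η = η := by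
  rcases hη with rfl | rfl <;> simp

/-- The coordinates of `EG`: a single coordinate. -/
lemma EG_single (T : S3) (u : K) : EG ax (Pi.single T u) = xG ax (gam T) u := by
  unfold EG
  rw [InstEAux.Eh_single]
  rfl

/-- Two coordinates. -/
lemma EG_pair (T : S3) (u w : K) :
    EG ax (Pi.single T u + Pi.single (tau T) w) = xG ax (gam T) u * xG ax (gam (tau T)) w := by
  unfold EG
  have hT := tau_ne_compl T
  rw [Eh_add0 (sys0 ax) _ _ (fun T' => by
    by_cases h : T' = T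
    · subst h
      have : compl3 T' ≠ tau T' := fun e => hT e.symm
      simp [Pi.single_apply, this]
    · simp [Pi.single_apply, h]), InstEAux.Eh_single, InstEAux.Eh_single]
  rfl

include hφ2 in
/-- The real vector of an orbit. -/
lemma re_orbit (T : S3) (hT : tau T ≠ T) (u : K) :
    Re DK φ (Pi.single T u + Pi.single (tau T) (gm (gam T) * φ u)) := by
  intro S
  have hk : ∀ S, (twD (K := K)).kg S = gm (gam S) := fun _ => rfl
  have hgg : ∀ S : S3, gm (K := K) (gam (tau S)) = gm (gam S) := fun S => by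
    have := gam_rho (gam S) (gam_lt' S)
    rw [rho_gam] at this
    simp only [ChevTwo.E6Tw.gm]
    rw [this]
  have hs : gm (K := K) (gam T) * gm (gam T) = 1 := gm_sq _
  rw [hk]
  simp only [Pi.add_apply, Pi.single_apply]
  by_cases h1 : S = T
  · subst h1
    have h3 : S ≠ tau S := fun e => hT e.symm
    simp [hT]
    simp [h3]
  · by_cases h2 : S = tau T
    · subst h2
      have h3 : tau (tau T) = T := tau_tau T
      have hne : T ≠ tau T := Ne.symm hT
      rw [h3, if_pos rfl, if_neg hne, if_neg hT, if_pos rfl, add_zero, zero_add, map_mul, gm_φ, hφ2, hgg, ← mul_assoc, hs, one_mul]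
    · have h3 : tau S ≠ T := fun e => h2 (by rw [← e, tau_tau])
      have h4 : tau S ≠ tau T := fun e => h1 (by rw [← tau_tau S, e, tau_tau])
      simp [h1, h2, h3, h4]


namespace NbAux2

def T012 : S3 := ⟨{0, 1, 2}, by decide⟩
def T013 : S3 := ⟨{0, 1, 3}, by decide⟩
def T014 : S3 := ⟨{0, 1, 4}, by decide⟩
def T023 : S3 := ⟨{0, 2, 3}, by decide⟩
def T015 : S3 := ⟨{0, 1, 5}, by decide⟩
def T123 : S3 := ⟨{1, 2, 3}, by decide⟩
def T024 : S3 := ⟨{0, 2, 4}, by decide⟩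
def T025 : S3 := ⟨{0, 2, 5}, by decide⟩
def T124 : S3 := ⟨{1, 2, 4}, by decide⟩
def T034 : S3 := ⟨{0, 3, 4}, by decide⟩
def T035 : S3 := ⟨{0, 3, 5}, by decide⟩
def T134 : S3 := ⟨{1, 3, 4}, by decide⟩
def T045 : S3 := ⟨{0, 4, 5}, by decide⟩
def T234 : S3 := ⟨{2, 3, 4}, by decide⟩
def T125 : S3 := ⟨{1, 2, 5}, by decide⟩
def T135 : S3 := ⟨{1, 3, 5}, by decide⟩
def T145 : S3 := ⟨{1, 4, 5}, by decide⟩
def T235 : S3 := ⟨{2, 3, 5}, by decide⟩
def T245 : S3 := ⟨{2, 4, 5}, by decide⟩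
def T345 : S3 := ⟨{3, 4, 5}, by decide⟩

end NbAux2

open NbAux2

/-- The expansion of `EG`. -/
lemma EG_list [Finite K] (a : S3 → K) : EG ax a = (lstT.map fun T => xG ax (gam T) (a T)).prod := by
  unfold EG Eh
  generalize lstT = L
  induction L with
  | nil => rfl
  | cons T L ih =>
    simp only [List.map_cons, List.prod_cons, Subgroup.coe_mul, ih]
    rfl

lemma EG_expand (a : S3 → K) (ha : Re DK φ a) : EG ax a = xG ax (gam T012) (a T012) * xG ax (gam T013) (a T013) * (xG ax (gam T014) (a T014) * xG ax (gam T023) (gm (gam T014) * φ (a T014))) * (xG ax (gam T015) (a T015) * xG ax (gam T123) (gm (gam T015) * φ (a T015))) * xG ax (gam T024) (a T024) * (xG ax (gam T025) (a T025) * xG ax (gam T124) (gm (gam T025) * φ (a T025))) * xG ax (gam T034) (a T034) * (xG ax (gam T035) (a T035) * xG ax (gam T134) (gm (gam T035) * φ (a T035))) * (xG ax (gam T045) (a T045) * xG ax (gam T234) (gm (gam T045) * φ (a T045))) * xG ax (gam T125)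 (a T125) * xG ax (gam T135) (a T135) * (xG ax (gam T145) (a T145) * xG ax (gam T235) (gm (gam T145) * φ (a T145))) * xG ax (gam T245) (a T245) * xG ax (gam T345) (a T345) := by
  have eT023 : a T023 = gm (gam T014) * φ (a T014) := ha T014
  have eT123 : a T123 = gm (gam T015) * φ (a T015) := ha T015
  have eT124 : a T124 = gm (gam T025) * φ (a T025) := ha T025
  have eT134 : a T134 = gm (gam T035) * φ (a T035) := ha T035
  have eT234 : a T234 = gm (gam T045) * φ (a T045) := ha T045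
  have eT235 : a T235 = gm (gam T145) * φ (a T145) := ha T145
  rw [EG_list]
  show (List.map _ [T012, T013, T014, T023, T015, T123, T024, T025, T124, T034, T035, T134, T045, T234, T125, T135, T145, T235, T245, T345]).prod = _
  simp only [List.map_cons, List.map_nil, List.prod_cons, List.prod_nil, mul_one]
  rw [eT023, eT123, eT124, eT134, eT234, eT235]
  simp only [mul_assoc]

theorem refl_71'' : reflB 71 = gam T012 := by decide +kernel

lemma re_single {T' : S3} (hT' : tau T' = T') {v : K} (hv : φ v = v) : Re DK φ (Pi.single T' v) := by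
  intro S
  by_cases hS : S = T'
  · subst hS
    rw [hT', (twD (K := K)).kg_fix S hT', Pi.single_eq_same, hv, one_mul]
  · have h5 : tau S ≠ T' := fun e => hS (by rw [← tau_tau S, e, hT'])
    rw [Pi.single_eq_of_ne h5, Pi.single_eq_of_ne hS, map_zero, mul_zero]

section Main

variable (W : Subgroup ↥(twistedE6 K q)) (h1 : ∀ u, zΓ φ ax hφ hφ2 u ∈ W) (h2 : ∀ a, Re (twD (K := K)) φ a → EΓ φ ax hφ hφ2 a ∈ W)
    (h3 : ∀ a b t, a ≠ b → Al φ a b t → lΓ φ ax hφ hφ2 a b t ∈ W)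

include h1 in
lemma z_W {u : K} (hu : φ u = u) : xG ax 71 u ∈ W.map (twistedE6 K q).subtype :=
  ⟨zΓ φ ax hφ hφ2 ⟨u, hu⟩, h1 _, rfl⟩

include h2 in
lemma E_W {a : S3 → K} (ha : Re DK φ a) : EG ax a ∈ W.map (twistedE6 K q).subtype :=
  ⟨EΓ φ ax hφ hφ2 a, h2 a ha, by
    show ((EΓ φ ax hφ hφ2 a : ↥(twistedE6 K q)) : GL chevE6.Idx K) = _
    unfold EΓ
    rw [dif_pos ha]⟩

include h3 in
lemma l_W {a b : Fin 6} {t : K} (hab : a ≠ b) (ht : Al φ a b t) : lG φ ax a b t ∈ W.map (twistedE6 K q).subtype :=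
  ⟨lΓ φ ax hφ hφ2 a b t, h3 a b t hab ht, by
    show ((lΓ φ ax hφ hφ2 a b t : ↥(twistedE6 K q)) : GL chevE6.Idx K) = _
    unfold lΓ
    rw [dif_pos ⟨hab, ht⟩]⟩

include h1 h2 h3 in
lemma orb_fixed (T : S3) (hT : T ≠ β₀) (hf : tau T = T) {u : K} (hu : φ u = u) :
    (nG ax 46 1)⁻¹ * xG ax (gam T) u * nG ax 46 1 ∈ W.map (twistedE6 K q).subtype := by
  obtain ⟨η, hη, h⟩ := n_conj ax (gam T) (gam_lt' T)
  rw [h u]
  have hv : φ (η * u) = η * u := by rw [map_mul, sign_fix φ hη, hu]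
  rcases tab_fixed T hT hf with c | ⟨T', hT', c⟩ | ⟨i, c⟩
  · rw [c]
    exact z_W φ ax hφ hφ2 W h1 hv
  · rw [c, ← EG_single]
    refine E_W φ ax hφ hφ2 W h2 ?_
    exact re_single φ hT' hv
  · rw [c]
    have hne : i ≠ ti i := (gam_ne_rt_neg i).symm
    have e : lG φ ax i (ti i) (η * u) = xG ax (rt i (ti i)) (η * u) := by
      unfold lG
      rw [if_pos rfl]
    rw [← e]
    exact l_W φ ax hφ hφ2 W h3 hne (fun _ => hv)

include h2 h3 in
lemma orb_pair (T T2 : S3) (hf : tau T ≠ T) (hT2 : tau T = T2) (u : K) :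
    (nG ax 46 1)⁻¹ * (xG ax (gam T) u * xG ax (gam T2) (gm (gam T) * φ u)) * nG ax 46 1 ∈ W.map (twistedE6 K q).subtype := by
  subst hT2
  obtain ⟨η, hη, h⟩ := n_conj_pair φ ax hφ hφ2 (r := gam T) (gam_lt' T)
  have h := h u
  rw [rho_gam] at h
  rw [h]
  rcases tab_nonfixed T hf with ⟨T', hT', c⟩ | ⟨i, j, hij, hj, c⟩
  · rw [c, rho_gam, ← EG_pair]
    exact E_W φ ax hφ hφ2 W h2 (re_orbit φ hφ2 T' hT' _)
  · rw [c, rho_rt i j hij]
    have e : lG φ ax i j (η * u) = xG ax (rt i j) (η * u) * xG ax (rt (ti j) (ti i)) (gm (rt i j) * φ (η * u)) := by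
      unfold lG
      rw [if_neg hj]
    rw [← e]
    exact l_W φ ax hφ hφ2 W h3 hij (fun e' => absurd e' hj)

end Main

/-- `nb_LU`. -/
theorem nbΓ_LU_aux (W : Subgroup ↥(twistedE6 K q)) (h1 : ∀ u, zΓ φ ax hφ hφ2 u ∈ W) (h2 : ∀ a, Re DK φ a → EΓ φ ax hφ hφ2 a ∈ W)
    (h3 : ∀ a b t, a ≠ b → Al φ a b t → lΓ φ ax hφ hφ2 a b t ∈ W) :
    (∀ u, (nbΓ φ ax hφ hφ2)⁻¹ * zΓ φ ax hφ hφ2 u * nbΓ φ ax hφ hφ2 ∈ W) ∧
      ∀ a, Re DK φ a → a β₀ = 0 → (nbΓ φ ax hφ hφ2)⁻¹ * EΓ φ ax hφ hφ2 a * nbΓ φ ax hφ hφ2 ∈ W := by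
  have key : ∀ x : ↥(twistedE6 K q), (nG ax 46 1)⁻¹ * x.1 * nG ax 46 1 ∈ W.map (twistedE6 K q).subtype →
      (nbΓ φ ax hφ hφ2)⁻¹ * x * nbΓ φ ax hφ hφ2 ∈ W := by
    rintro x ⟨y, hy, e⟩
    have : y = (nbΓ φ ax hφ hφ2)⁻¹ * x * nbΓ φ ax hφ hφ2 := Subtype.ext e
    rwa [← this]
  constructor
  · intro u
    apply key
    have ht0 : tau T012 = T012 := by decide +kernel
    have c : ∃ η : K, (η = 1 ∨ η = -1) ∧ ∀ u, (nG ax 46 1)⁻¹ * xG ax 71 u * nG ax 46 1 = xG ax (reflB 71) (η * u) :=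
      n_conj ax 71 (by norm_num)
    obtain ⟨η, hη, h⟩ := c
    show (nG ax 46 1)⁻¹ * xG ax 71 u.1 * nG ax 46 1 ∈ _
    rw [h, refl_71'', ← EG_single]
    refine E_W φ ax hφ hφ2 W h2 ?_
    have hv : φ (η * u.1) = η * u.1 := by rw [map_mul, sign_fix φ hη, (mem_kF φ).1 u.2]
    exact re_single φ ht0 hv
  · intro a ha ha0
    apply key
    have e0 : (EΓ φ ax hφ hφ2 a).1 = EG ax a := by
      unfold EΓ
      rw [dif_pos ha]
    rw [e0, EG_expand φ ax a ha]
    have c : ∀ x y : GL chevE6.Idx K, (nG ax 46 1)⁻¹ * (x * y) * nG ax 46 1 =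
        ((nG ax 46 1)⁻¹ * x * nG ax 46 1) * ((nG ax 46 1)⁻¹ * y * nG ax 46 1) := by
      intro x y
      group
    have hz : a T345 = 0 := ha0
    have hfx : ∀ T : S3, T ≠ β₀ → tau T = T → φ (a T) = a T := by
      intro T hT hf
      have := ha T
      rw [hf, (twD (K := K)).kg_fix T hf, one_mul] at this
      exact this.symm
    have hfix := fun T hT hf => orb_fixed φ ax hφ hφ2 W h1 h2 h3 T hT hf (hfx T hT hf)
    have hpair := fun T T2 hf hT2 u => orb_pair φ ax hφ hφ2 W h2 h3 T T2 hf hT2 u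
    rw [c]
    refine Subgroup.mul_mem _ ?_ ?_
    rotate_left
    · rw [hz, show gam T345 = 46 by decide +kernel]; simp
    rw [c]
    refine Subgroup.mul_mem _ ?_ ?_
    rotate_left
    · exact hfix T245 (by decide +kernel) (by decide +kernel)
    rw [c]
    refine Subgroup.mul_mem _ ?_ ?_
    rotate_left
    · exact hpair T145 T235 (by decide +kernel) (by decide +kernel) _
    rw [c]
    refine Subgroup.mul_mem _ ?_ ?_
    rotate_left
    · exact hfix T135 (by decide +kernel) (by decide +kernel)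
    rw [c]
    refine Subgroup.mul_mem _ ?_ ?_
    rotate_left
    · exact hfix T125 (by decide +kernel) (by decide +kernel)
    rw [c]
    refine Subgroup.mul_mem _ ?_ ?_
    rotate_left
    · exact hpair T045 T234 (by decide +kernel) (by decide +kernel) _
    rw [c]
    refine Subgroup.mul_mem _ ?_ ?_
    rotate_left
    · exact hpair T035 T134 (by decide +kernel) (by decide +kernel) _
    rw [c]
    refine Subgroup.mul_mem _ ?_ ?_
    rotate_left
    · exact hfix T034 (by decide +kernel) (by decide +kernel)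
    rw [c]
    refine Subgroup.mul_mem _ ?_ ?_
    rotate_left
    · exact hpair T025 T124 (by decide +kernel) (by decide +kernel) _
    rw [c]
    refine Subgroup.mul_mem _ ?_ ?_
    rotate_left
    · exact hfix T024 (by decide +kernel) (by decide +kernel)
    rw [c]
    refine Subgroup.mul_mem _ ?_ ?_
    rotate_left
    · exact hpair T015 T123 (by decide +kernel) (by decide +kernel) _
    rw [c]
    refine Subgroup.mul_mem _ ?_ ?_
    rotate_left
    · exact hpair T014 T023 (by decide +kernel) (by decide +kernel) _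
    rw [c]
    refine Subgroup.mul_mem _ ?_ ?_
    rotate_left
    · exact hfix T013 (by decide +kernel) (by decide +kernel)
    exact hfix T012 (by decide +kernel) (by decide +kernel)

end Cfsg.Agent.Lib.MinE6T
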