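import Cfsg.Agent.Lib.MinE6T.InstC
import Cfsg.Agent.Lib.MinE6T.InstN2

/-! `n_β`. -/

set_option autoImplicit false
set_option linter.unusedSectionVars false
set_option linter.unusedVariables false
set_option linter.ambiguousOpen false

namespace Cfsg.Agent.Lib.MinE6T

open Cfsg Lie
open Cfsg.Agent.Lib.Chev
open Tables Tables2 AxBasic Torus Mono1
open Cfsg.Agent.Lib.MinE6 Cfsg.Agent.Lib.MinE6.InstAux
open Cfsg.Agent.Lib.Twisted.E6 Cfsg.Agent.Lib.ChevTwo.E6Tw Cfsg.Agent.Lib.Twisted.Tw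

variable {K : Type*} [Field K] [Fintype K] (φ : K ≃+* K) (ax : Ax chevE6 K) {q : ℕ} (hφ : ∀ t, φ t = t ^ q) (hφ2 : ∀ t, φ (φ t) = t)

local notation "DK" => twD (K := K)

/-- `nb_eq'`; `EG (single β₀ u) = xE 46 u`. -/
theorem nbΓ_eq (c : (kF φ)ˣ) :
    EΓ φ ax hφ hφ2 (Pi.single β₀ ((kF φ).subtype c)) * yΓ φ ax hφ hφ2 (-((c : kF φ)⁻¹)) * EΓ φ ax hφ hφ2 (Pi.single β₀ ((kF φ).subtype c)) =
      hbΓ φ ax hφ hφ2 c * nbΓ φ ax hφ hφ2 := by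
  have hβ : tau β₀ = β₀ := by decide +kernel
  have h46 : gam β₀ = 46 := by decide +kernel
  have hv : φ ((kF φ).subtype c) = (kF φ).subtype c := (mem_kF φ).1 (c : kF φ).2
  have e0 : (EΓ φ ax hφ hφ2 (Pi.single β₀ ((kF φ).subtype c))).1 = xG ax 46 ((kF φ).subtype c) := by
    unfold EΓ
    rw [dif_pos (re_single φ hβ hv)]
    show EG ax _ = _
    rw [EG_single, h46]
  apply Subtype.ext
  have h1 := congrArg Subtype.val (nb_eq' ax (uK φ c))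
  show (EΓ φ ax hφ hφ2 (Pi.single β₀ ((kF φ).subtype c))).1 * xG ax 25 (-((c : kF φ)⁻¹)).1 *
      (EΓ φ ax hφ hφ2 (Pi.single β₀ ((kF φ).subtype c))).1 = (hbE ax (uK φ c)).1 * nG ax 46 1
  rw [e0]
  have h2 : ((uK φ c : Kˣ) : K) = (kF φ).subtype c := rfl
  have h3 : (-((c : kF φ)⁻¹)).1 = -(((uK φ c : Kˣ) : K)⁻¹) := by
    rw [h2]
    simp
  rw [h3, ← h2]
  exact h1

theorem nbΓ_hb (c : (kF φ)ˣ) :
    nbΓ φ ax hφ hφ2 * hbΓ φ ax hφ hφ2 c * (nbΓ φ ax hφ hφ2)⁻¹ = hbΓ φ ax hφ hφ2 c⁻¹ := by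
  apply Subtype.ext
  have h1 := congrArg Subtype.val (nb_hb' ax (uK φ c))
  have h2 : uK φ c⁻¹ = (uK φ c)⁻¹ := map_inv _ _
  show nG ax 46 1 * (hbE ax (uK φ c)).1 * (nG ax 46 1)⁻¹ = (hbE ax (uK φ c⁻¹)).1
  rw [h2]
  exact h1

theorem nbΓ_25 : ∃ η : kF φ, (η = 1 ∨ η = -1) ∧ ∀ u, nbΓ φ ax hφ hφ2 * yΓ φ ax hφ hφ2 u * (nbΓ φ ax hφ hφ2)⁻¹ =
    EΓ φ ax hφ hφ2 (Pi.single β₀ ((kF φ).subtype (η * u))) := by
  have hβ : tau β₀ = β₀ := by decide +kernel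
  have h46 : gam β₀ = 46 := by decide +kernel
  have h25 : reflB 25 = 46 := by decide +kernel
  obtain ⟨η, hη, h⟩ := nb_conj' ax 25 (by norm_num)
  rw [h25] at h
  have hfin : ∀ (η' : kF φ) (u : kF φ), η'.1 = η →
      nbΓ φ ax hφ hφ2 * yΓ φ ax hφ hφ2 u * (nbΓ φ ax hφ hφ2)⁻¹ =
        EΓ φ ax hφ hφ2 (Pi.single β₀ ((kF φ).subtype (η' * u))) := by
    intro η' u he
    have hv : φ ((kF φ).subtype (η' * u)) = (kF φ).subtype (η' * u) := (mem_kF φ).1 (η' * u).2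
    apply Subtype.ext
    have e0 : (EΓ φ ax hφ hφ2 (Pi.single β₀ ((kF φ).subtype (η' * u)))).1 = xG ax 46 ((kF φ).subtype (η' * u)) := by
      unfold EΓ
      rw [dif_pos (re_single φ hβ hv)]
      show EG ax _ = _
      rw [EG_single, h46]
    rw [e0]
    have h1 := congrArg Subtype.val (h u.1)
    show nG ax 46 1 * xG ax 25 u.1 * (nG ax 46 1)⁻¹ = _
    have h2 : (kF φ).subtype (η' * u) = η * u.1 := by
      rw [← he]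
      rfl
    rw [h2]
    exact h1
  rcases hη with e | e
  · exact ⟨1, Or.inl rfl, fun u => hfin 1 u e.symm⟩
  · exact ⟨-1, Or.inr rfl, fun u => hfin (-1) u (by rw [e]; rfl)⟩

/-- `nb⁻¹ x_r(u) nb = x_{reflB r}(η_r u)` (`nb_conj'`, with `reflB (reflB r) = r`). The signs are compatible with `s`: applying `s` (`s nb = nb`): `x_{reflB ρ r}(η_{ρ r} kg φ u) = x_{ρ reflB r}(κ_{reflB r} η_r φ u)` and `reflB ∘ ρ = ρ ∘ reflB` (`decide`), so by `xG_inj`, `η_{ρ r} κ_r = κ_{reflB r} η_r`. Therefore, for `T ≠ β₀` and `T` or an orbit `{T, tau T}`, with `R = reflB (gam T)`: `nb⁻¹ (x_T(u) x_{τT}(κ φ u)) nb = x_R(u') x_{ρ R}(κ_R φ u')`, `u' = η u`; and `R` is `71`, `gam T'` (then it is `EΓ (orbit vector T' u')`, real) or `rt i j` (then it is `lΓ i j u'`) by `decide` (compare `MinE6.R4.refl_table`). `z`: `reflB 71 = 70 = gam {0,1,2}`. `E a` (`a β₀ = 0`)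 is the product over `lstT` in the orbit order of these (`Eh`), `x 46 0 = 1`. -/
theorem nbΓ_LU (W : Subgroup ↥(twistedE6 K q)) (h1 : ∀ u, zΓ φ ax hφ hφ2 u ∈ W) (h2 : ∀ a, Re DK φ a → EΓ φ ax hφ hφ2 a ∈ W)
    (h3 : ∀ a b t, a ≠ b → Al φ a b t → lΓ φ ax hφ hφ2 a b t ∈ W) :
    (∀ u, (nbΓ φ ax hφ hφ2)⁻¹ * zΓ φ ax hφ hφ2 u * nbΓ φ ax hφ hφ2 ∈ W) ∧
      ∀ a, Re DK φ a → a β₀ = 0 → (nbΓ φ ax hφ hφ2)⁻¹ * EΓ φ ax hφ hφ2 a * nbΓ φ ax hφ hφ2 ∈ W :=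
  nbΓ_LU_aux φ ax hφ hφ2 W h1 h2 h3

end Cfsg.Agent.Lib.MinE6T
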