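import Cfsg.Agent.Lib.MinE6T.Sys
import Cfsg.Agent.Lib.MinE6.Basic

/-! Part 1 of `Inv.lean`: the action of the root elements of `L` on real vectors and on weights. -/

set_option autoImplicit false
set_option linter.unusedSectionVars false
set_option linter.unusedVariables false

namespace Cfsg.Agent.Lib.MinE6T.InvA

open Module
open Cfsg.Agent.Lib.MinE6

theorem ti_ti (i : Fin 6) : ti (ti i) = i := Fin.rev_rev i

theorem tau_mv : ∀ (i j : Fin 6) (T : S3), tau (mv i j T) = mv (ti j) (ti i) (tau T) := by decide +kernel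

theorem P_tau : ∀ (i j : Fin 6) (T : S3), (ti i ∈ (tau T).1 ∧ ti j ∉ (tau T).1) ↔ (j ∈ T.1 ∧ i ∉ T.1) := by decide +kernel

theorem mv_mv : ∀ (i j : Fin 6) (T : S3), j ∈ T.1 → i ∉ T.1 → mv j i (mv i j T) = T := by decide +kernel

theorem mv_Q : ∀ (i j : Fin 6) (T : S3), j ∈ T.1 → i ∉ T.1 → i ∈ (mv i j T).1 ∧ j ∉ (mv i j T).1 := by decide +kernel

theorem comm_a : ∀ (i j : Fin 6) (T : S3), i ≠ j → j ≠ ti i → j ∈ T.1 → i ∉ T.1 →
    ((ti i ∈ (mv i j T).1 ∧ ti j ∉ (mv i j T).1) ↔ (ti i ∈ T.1 ∧ ti j ∉ T.1)) := by decide +kernel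

theorem comm_b : ∀ (i j : Fin 6) (T : S3), i ≠ j → j ≠ ti i → ti i ∈ T.1 → ti j ∉ T.1 →
    ((j ∈ (mv (ti j) (ti i) T).1 ∧ i ∉ (mv (ti j) (ti i) T).1) ↔ (j ∈ T.1 ∧ i ∉ T.1)) := by decide +kernel

theorem comm_c : ∀ (i j : Fin 6) (T : S3), i ≠ j → j ≠ ti i → j ∈ T.1 → i ∉ T.1 → ti i ∈ T.1 → ti j ∉ T.1 →
    mv (ti j) (ti i) (mv i j T) = mv i j (mv (ti j) (ti i) T) := by decide +kernel

theorem comm_d1 : ∀ (i j : Fin 6) (T : S3), i ≠ j → j ≠ ti i → j ∈ T.1 → i ∉ T.1 → ti i ∈ T.1 → ti j ∉ T.1 →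
    i ∈ (mv (ti j) (ti i) (mv i j T)).1 ∧ j ∉ (mv (ti j) (ti i) (mv i j T)).1 := by decide +kernel

theorem comm_d2 : ∀ (i j : Fin 6) (T : S3), i ≠ j → j ≠ ti i → j ∈ T.1 → i ∉ T.1 → ti i ∈ T.1 → ti j ∉ T.1 →
    ti j ∈ (mv (ti j) (ti i) (mv i j T)).1 ∧ ti i ∉ (mv (ti j) (ti i) (mv i j T)).1 := by decide +kernel

theorem comm_d3 : ∀ (i j : Fin 6) (T : S3), i ≠ j → j ≠ ti i → j ∈ T.1 → i ∉ T.1 → ti i ∈ T.1 → ti j ∉ T.1 →
    mv j i (mv (ti j) (ti i) (mv i j T)) = mv (ti j) (ti i) T := by decide +kernel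

theorem comm_d4 : ∀ (i j : Fin 6) (T : S3), i ≠ j → j ≠ ti i → j ∈ T.1 → i ∉ T.1 → ti i ∈ T.1 → ti j ∉ T.1 →
    mv (ti i) (ti j) (mv (ti j) (ti i) (mv i j T)) = mv i j T := by decide +kernel

theorem pw_tau : ∀ (a : Fin 6) (T : S3), pw a (ti a) (tau T) = pw a (ti a) T := by decide +kernel

variable {K : Type*} [Field K]

theorem actA_pos (sg : Fin 6 → Fin 6 → S3 → K) (i j : Fin 6) (t : K) (c : S3 → K) {T : S3} (h : j ∈ T.1 ∧ i ∉ T.1) :
    actA sg i j t c T = c T + sg i j T * t * c (mv i j T) := if_pos h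

theorem actA_neg (sg : Fin 6 → Fin 6 → S3 → K) (i j : Fin 6) (t : K) (c : S3 → K) {T : S3} (h : ¬ (j ∈ T.1 ∧ i ∉ T.1)) :
    actA sg i j t c T = c T := if_neg h

theorem actB_pos (sg : Fin 6 → Fin 6 → S3 → K) (i j : Fin 6) (t : K) (a : S3 → K) {T : S3} (h : i ∈ T.1 ∧ j ∉ T.1) :
    actB sg i j t a T = a T + sg i j (mv j i T) * t * a (mv j i T) := if_pos h

theorem actB_neg (sg : Fin 6 → Fin 6 → S3 → K) (i j : Fin 6) (t : K) (a : S3 → K) {T : S3} (h : ¬ (i ∈ T.1 ∧ j ∉ T.1)) :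
    actB sg i j t a T = a T := if_neg h

variable {φ : K ≃+* K}

theorem lactA_long (D : TwD K) (φ : K ≃+* K) {a b : Fin 6} (h : b = ti a) (t : K) (c : S3 → K) :
    lactA D φ a b t c = actA D.sg a b t c := if_pos h

theorem lactA_short (D : TwD K) (φ : K ≃+* K) {a b : Fin 6} (h : ¬ b = ti a) (t : K) (c : S3 → K) :
    lactA D φ a b t c = actA D.sg a b t (actA D.sg (ti b) (ti a) (D.kr a b * φ t) c) := if_neg h

theorem lactB_long (D : TwD K) (φ : K ≃+* K) {a b : Fin 6} (h : b = ti a) (t : K) (c : S3 → K) :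
    lactB D φ a b t c = actB D.sg a b t c := if_pos h

theorem lactB_short (D : TwD K) (φ : K ≃+* K) {a b : Fin 6} (h : ¬ b = ti a) (t : K) (c : S3 → K) :
    lactB D φ a b t c = actB D.sg (ti b) (ti a) (D.kr a b * φ t) (actB D.sg a b t c) := if_neg h

theorem map_sign {e : K} (h : e = 1 ∨ e = -1) : φ e = e := by
  rcases h with rfl | rfl <;> simp

theorem sq_sign {e : K} (h : e = 1 ∨ e = -1) : e * e = 1 := by
  rcases h with rfl | rfl <;> ring

/-- The two factors of a root element of `L` commute. -/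
theorem actA_comm (D : TwD K) {i j : Fin 6} (hij : i ≠ j) (hj : j ≠ ti i) (t t' : K) (c : S3 → K) :
    actA D.sg i j t (actA D.sg (ti j) (ti i) t' c) = actA D.sg (ti j) (ti i) t' (actA D.sg i j t c) := by
  funext T
  by_cases h1 : j ∈ T.1 ∧ i ∉ T.1
  · by_cases h2 : ti i ∈ T.1 ∧ ti j ∉ T.1
    · have h3 := (comm_a i j T hij hj h1.1 h1.2).2 h2
      have h4 := (comm_b i j T hij hj h2.1 h2.2).2 h1
      rw [actA_pos _ _ _ _ _ h1, actA_pos _ _ _ _ _ h2, actA_pos _ _ _ _ _ h3,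
        actA_pos _ _ _ _ _ h2, actA_pos _ _ _ _ _ h1, actA_pos _ _ _ _ _ h4,
        comm_c i j T hij hj h1.1 h1.2 h2.1 h2.2]
      have h5 := D.sg_comm i j T hij hj h1.1 h1.2 h2.1 h2.2
      linear_combination t * t' * c (mv i j (mv (ti j) (ti i) T)) * h5
    · have h3 : ¬ (ti i ∈ (mv i j T).1 ∧ ti j ∉ (mv i j T).1) :=
        fun h => h2 ((comm_a i j T hij hj h1.1 h1.2).1 h)
      rw [actA_pos _ _ _ _ _ h1, actA_neg _ _ _ _ _ h2, actA_neg _ _ _ _ _ h3, actA_neg _ _ _ _ _ h2,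
        actA_pos _ _ _ _ _ h1]
  · by_cases h2 : ti i ∈ T.1 ∧ ti j ∉ T.1
    · have h3 : ¬ (j ∈ (mv (ti j) (ti i) T).1 ∧ i ∉ (mv (ti j) (ti i) T).1) :=
        fun h => h1 ((comm_b i j T hij hj h2.1 h2.2).1 h)
      rw [actA_neg _ _ _ _ _ h1, actA_pos _ _ _ _ _ h2, actA_pos _ _ _ _ _ h2, actA_neg _ _ _ _ _ h1,
        actA_neg _ _ _ _ _ h3]
    · rw [actA_neg _ _ _ _ _ h1, actA_neg _ _ _ _ _ h2, actA_neg _ _ _ _ _ h2, actA_neg _ _ _ _ _ h1]

/-- The graph automorphism exchanges the two factors. -/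
theorem step_A (D : TwD K) {i j : Fin 6} (hij : i ≠ j) (t : K) (c d : S3 → K)
    (hd : ∀ T, d (tau T) = D.kg T * φ (c T)) (T : S3) :
    actA D.sg (ti j) (ti i) (D.kr i j * φ t) d (tau T) = D.kg T * φ (actA D.sg i j t c T) := by
  by_cases h : j ∈ T.1 ∧ i ∉ T.1
  · rw [actA_pos _ _ _ _ _ ((P_tau i j T).2 h), actA_pos _ _ _ _ _ h, ← tau_mv, hd, hd,
      D.sg_tw i j T hij h.1 h.2, map_add, map_mul, map_mul, map_sign (D.sg_sign i j T)]
    have h1 := sq_sign (D.kg_sign (mv i j T))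
    have h2 := sq_sign (D.kr_sign i j)
    have h3 := sq_sign (D.kg_sign T)
    linear_combination
      D.sg i j T * D.kg T * φ t * φ (c (mv i j T)) * (D.kr i j * D.kr i j) * h1
      + D.sg i j T * D.kg T * φ t * φ (c (mv i j T)) * h2
  · have h' : ¬ (ti i ∈ (tau T).1 ∧ ti j ∉ (tau T).1) := fun h2 => h ((P_tau i j T).1 h2)
    rw [actA_neg _ _ _ _ _ h', actA_neg _ _ _ _ _ h, hd]

/-- `lactA` preserves real vectors. -/
theorem lactA_re (hinv : ∀ t, φ (φ t) = t) {D : TwD K} {a b : Fin 6} (hab : a ≠ b) {t : K} (ht : Al φ a b t) {c : S3 → K}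
    (hc : Re D φ c) : Re D φ (lactA D φ a b t c) := by
  intro T
  by_cases hl : b = ti a
  · rw [lactA_long D φ hl]
    subst hl
    have h := step_A (φ := φ) D hab t c c hc T
    rw [ti_ti, D.kr_long, one_mul, ht rfl] at h
    exact h
  · rw [lactA_short D φ hl]
    have hne : ti b ≠ ti a := fun h => hab (Fin.rev_injective h).symm
    set t' := D.kr a b * φ t with ht'
    have h2 : ∀ T, actA D.sg a b t c (tau T) = D.kg T * φ (actA D.sg (ti b) (ti a) t' c T) := by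
      intro T
      have h := step_A (φ := φ) D hne t' c c hc T
      have e : D.kr (ti b) (ti a) * φ t' = t := by
        rw [ht', map_mul, map_sign (D.kr_sign a b), hinv, D.kr_tau]
        linear_combination t * sq_sign (D.kr_sign a b)
      rw [e, ti_ti, ti_ti] at h
      exact h
    have h3 := step_A (φ := φ) D hab t (actA D.sg (ti b) (ti a) t' c) (actA D.sg a b t c) h2 T
    rw [← ht', ← actA_comm D hab hl] at h3
    exact h3

/-- The dual signs. -/
def dualD (D : TwD K) : TwD K where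
  kg := D.kg
  kg_sign := D.kg_sign
  kg_fix := D.kg_fix
  kg_tau := D.kg_tau
  kr := fun i j => D.kr j i
  kr_sign := fun i j => D.kr_sign j i
  kr_long := fun i => by
    have := D.kr_long (ti i)
    rwa [ti_ti] at this
  kr_tau := fun i j => D.kr_tau j i
  sg := fun i j T => D.sg j i (mv i j T)
  sg_sign := fun i j T => D.sg_sign j i _
  sg_tw := fun i j T hij hj hi => by
    obtain ⟨h1, h2⟩ := mv_Q i j T hj hi
    rw [← tau_mv, D.sg_tw j i (mv i j T) hij.symm h1 h2, mv_mv i j T hj hi]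
    ring
  sg_comm := fun i j T hij hj hjT hiT htiT htjT => by
    obtain ⟨h1, h2⟩ := comm_d1 i j T hij hj hjT hiT htiT htjT
    obtain ⟨h3, h4⟩ := comm_d2 i j T hij hj hjT hiT htiT htjT
    have h5 := comm_d3 i j T hij hj hjT hiT htiT htjT
    have h6 := comm_d4 i j T hij hj hjT hiT htiT htjT
    have hj' : i ≠ ti j := fun h => hj (by rw [h, ti_ti])
    have h7 := D.sg_comm j i _ hij.symm hj' h1 h2 h3 h4
    rw [h5, h6] at h7
    show D.sg j i (mv i j T) * D.sg (ti i) (ti j) (mv (ti j) (ti i) (mv i j T)) =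
      D.sg (ti i) (ti j) (mv (ti j) (ti i) T) * D.sg j i (mv i j (mv (ti j) (ti i) T))
    rw [← comm_c i j T hij hj hjT hiT htiT htjT]
    linear_combination - h7
  eps := D.eps
  eps_sign := D.eps_sign
  eps_tw := D.eps_tw
  eps_compl := D.eps_compl

theorem actB_eq (D : TwD K) (i j : Fin 6) (t : K) (a : S3 → K) : actB D.sg i j t a = actA (dualD D).sg j i t a := rfl

theorem lactB_eq (D : TwD K) (φ : K ≃+* K) {a b : Fin 6} (hab : a ≠ b) (t : K) (c : S3 → K) :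
    lactB D φ a b t c = lactA (dualD D) φ b a t c := by
  by_cases hl : b = ti a
  · have hl' : a = ti b := by rw [hl, ti_ti]
    rw [lactB_long D φ hl, lactA_long _ φ hl', actB_eq]
  · have hl' : ¬ a = ti b := fun h => hl (by rw [h, ti_ti])
    rw [lactB_short D φ hl, lactA_short _ φ hl', actB_eq, actB_eq,
      actA_comm (dualD D) hab.symm hl']
    rfl

/-- `lactB` preserves real vectors. -/
theorem lactB_re (hinv : ∀ t, φ (φ t) = t) {D : TwD K} {a b : Fin 6} (hab : a ≠ b) {t : K} (ht : Al φ a b t) {c : S3 → K}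
    (hc : Re D φ c) : Re D φ (lactB D φ a b t c) := by
  rw [lactB_eq D φ hab]
  exact lactA_re (D := dualD D) hinv hab.symm (fun h => ht (by rw [h, ti_ti])) hc

theorem actA_actA (sg : Fin 6 → Fin 6 → S3 → K) {i j : Fin 6} (hij : i ≠ j) (t : K) (c : S3 → K) :
    actA sg i j (-t) (actA sg i j t c) = c := by
  funext T
  by_cases h : j ∈ T.1 ∧ i ∉ T.1
  · obtain ⟨h1, h2⟩ := mv_Q i j T h.1 h.2
    have h3 : ¬ (j ∈ (mv i j T).1 ∧ i ∉ (mv i j T).1) := fun h4 => h2 h4.1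
    rw [actA_pos _ _ _ _ _ h, actA_pos _ _ _ _ _ h, actA_neg _ _ _ _ _ h3]
    ring
  · rw [actA_neg _ _ _ _ _ h, actA_neg _ _ _ _ _ h]

/-- `lactA` is invertible. -/
theorem lactA_neg (D : TwD K) (φ : K ≃+* K) {a b : Fin 6} (hab : a ≠ b) (t : K) (c : S3 → K) :
    lactA D φ a b (-t) (lactA D φ a b t c) = c := by
  by_cases hl : b = ti a
  · rw [lactA_long D φ hl, lactA_long D φ hl, actA_actA _ hab]
  · have hne : ti b ≠ ti a := fun h => hab (Fin.rev_injective h).symm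
    rw [lactA_short D φ hl, lactA_short D φ hl, map_neg, mul_neg,
      ← actA_comm D hab hl, actA_actA _ hab, actA_actA _ hne]

theorem pr_actA (sg : Fin 6 → Fin 6 → S3 → K) {i j : Fin 6} (t : K) (c e : S3 → K) :
    pr (actA sg i j t c) e = pr c (actB sg i j t e) := by
  unfold pr
  have L : ∀ T, actA sg i j t c T * e T =
      c T * e T + (if j ∈ T.1 ∧ i ∉ T.1 then sg i j T * t * c (mv i j T) * e T else 0) := by
    intro T
    by_cases h : j ∈ T.1 ∧ i ∉ T.1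
    · rw [actA_pos _ _ _ _ _ h, if_pos h]
      ring
    · rw [actA_neg _ _ _ _ _ h, if_neg h]
      ring
  have R : ∀ T, c T * actB sg i j t e T =
      c T * e T + (if i ∈ T.1 ∧ j ∉ T.1 then c T * (sg i j (mv j i T) * t * e (mv j i T)) else 0) := by
    intro T
    by_cases h : i ∈ T.1 ∧ j ∉ T.1
    · rw [actB_pos _ _ _ _ _ h, if_pos h]
      ring
    · rw [actB_neg _ _ _ _ _ h, if_neg h]
      ring
  simp_rw [L, R, Finset.sum_add_distrib]
  congr 1
  rw [← Finset.sum_filter, ← Finset.sum_filter]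
  refine Finset.sum_nbij' (mv i j) (mv j i) ?_ ?_ ?_ ?_ ?_
  · intro T hT
    have h := (Finset.mem_filter.1 hT).2
    exact Finset.mem_filter.2 ⟨Finset.mem_univ _, mv_Q i j T h.1 h.2⟩
  · intro T hT
    have h := (Finset.mem_filter.1 hT).2
    exact Finset.mem_filter.2 ⟨Finset.mem_univ _, mv_Q j i T h.1 h.2⟩
  · intro T hT
    have h := (Finset.mem_filter.1 hT).2
    exact mv_mv i j T h.1 h.2
  · intro T hT
    have h := (Finset.mem_filter.1 hT).2
    exact mv_mv j i T h.1 h.2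
  · intro T hT
    have h := (Finset.mem_filter.1 hT).2
    rw [mv_mv i j T h.1 h.2]
    ring

/-- Duality. -/
theorem pr_lact (D : TwD K) (φ : K ≃+* K) (a b : Fin 6) (t : K) (c e : S3 → K) :
    pr (lactA D φ a b t c) e = pr c (lactB D φ a b t e) := by
  by_cases hl : b = ti a
  · rw [lactA_long D φ hl, lactB_long D φ hl, pr_actA]
  · rw [lactA_short D φ hl, lactB_short D φ hl, pr_actA, pr_actA]

variable {k : Type*} [Field k] {j : k →+* K} {Γ : Type*} [Group Γ]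
  {V : Type*} [AddCommGroup V] [Module ℂ V] {q : ℕ}
variable {S : SysT φ j Γ} {ρ : Representation ℂ Γ V} {ψ : AddChar K ℂ}

private theorem act (a b : Γ) (v : V) : ρ a (ρ b v) = ρ (a * b) v := by
  rw [map_mul, Module.End.mul_apply]

theorem rho_inj (g : Γ) : Function.Injective (ρ g : V →ₗ[ℂ] V) := by
  intro a b hab
  have h3 := congrArg (ρ g⁻¹ : V →ₗ[ℂ] V) hab
  rw [← Module.End.mul_apply, ← Module.End.mul_apply, ← map_mul] at h3
  simpa using h3

theorem map_l (hinv : ∀ t, φ (φ t) = t) {a b : Fin 6} (hab : a ≠ b) {t : K} (ht : Al φ a b t) {c : S3 → K} {v : V}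
    (hv : v ∈ Wt S ρ ψ c) : ρ (S.l a b t) v ∈ Wt S ρ ψ (lactA S.D φ a b t c) := by
  obtain ⟨h1, h2⟩ := hv
  refine ⟨fun u => ?_, fun e he => ?_⟩
  · rw [act, ← S.l_z a b t hab ht u, ← act, h1]
  · obtain ⟨w, hw⟩ := S.l_E a b t e hab ht he
    have e1 : S.E e * S.l a b t = S.l a b t * (S.E (lactB S.D φ a b t e) * S.z w) := by
      rw [← hw]
      group
    rw [act, e1, ← act, ← act, h1, h2 _ (lactB_re hinv hab ht he), map_smul, pr_lact]

/-- `ρ (l a b t)` maps `Wt c` to `Wt (lactA c)`. -/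
theorem inv_A [FiniteDimensional ℂ V] (hinv : ∀ t, φ (φ t) = t) {a b : Fin 6} (hab : a ≠ b) {t : K} (ht : Al φ a b t)
    (c : S3 → K) : nf S ρ ψ c = nf S ρ ψ (lactA S.D φ a b t c) := by
  have key : ∀ {t : K}, Al φ a b t → ∀ c : S3 → K, nf S ρ ψ c ≤ nf S ρ ψ (lactA S.D φ a b t c) := by
    intro t ht c
    exact Cfsg.Agent.Lib.WtSpace.Basic.finrank_le_of_map (rho_inj _) (fun v hv => map_l hinv hab ht hv)
  apply le_antisymm (key ht c)
  have ht' : Al φ a b (-t) := by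
    intro h
    rw [map_neg, ht h]
  have := key ht' (lactA S.D φ a b t c)
  rwa [lactA_neg _ _ hab] at this

theorem map_ht (hfix : ∀ u, φ (j u) = j u) (a : Fin 6) (s : kˣ) {c : S3 → K} {v : V}
    (hv : v ∈ Wt S ρ ψ c) :
    ρ (S.ht a s)⁻¹ v ∈ Wt S ρ ψ (fun T => c T * j ((s ^ pw a (ti a) T : kˣ) : k)) := by
  obtain ⟨h1, h2⟩ := hv
  refine ⟨fun u => ?_, fun e he => ?_⟩
  · have e1 : S.z u * (S.ht a s)⁻¹ = (S.ht a s)⁻¹ * S.z u := by
      conv_rhs => rw [← S.ht_z a s u]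
      group
    rw [act, e1, ← act, h1]
  · have e1 := S.ht_E a s e he
    have e2 : S.E e * (S.ht a s)⁻¹ = (S.ht a s)⁻¹ * S.E (fun T => e T * j ((s ^ pw a (ti a) T : kˣ) : k)) := by
      rw [← e1]
      group
    have hre : Re S.D φ (fun T => e T * j ((s ^ pw a (ti a) T : kˣ) : k)) := by
      intro T
      show e (tau T) * j ((s ^ pw a (ti a) (tau T) : kˣ) : k) = _ * φ (e T * j ((s ^ pw a (ti a) T : kˣ) : k))
      rw [he T, pw_tau, map_mul, hfix]
      ring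
    rw [act, e2, ← act, h2 _ hre, map_smul]
    congr 2
    unfold pr
    refine Finset.sum_congr rfl fun T _ => ?_
    ring

/-- The torus. -/
theorem inv_ht [FiniteDimensional ℂ V] (hfix : ∀ u, φ (j u) = j u) (a : Fin 6) (s : kˣ) (c : S3 → K) :
    nf S ρ ψ c = nf S ρ ψ (fun T => c T * j ((s ^ pw a (ti a) T : kˣ) : k)) := by
  have key : ∀ (s : kˣ) (c : S3 → K), nf S ρ ψ c ≤ nf S ρ ψ (fun T => c T * j ((s ^ pw a (ti a) T : kˣ) : k)) := by
    intro s c
    exact Cfsg.Agent.Lib.WtSpace.Basic.finrank_le_of_map (rho_inj _) (fun v hv => map_ht hfix a s hv)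
  apply le_antisymm (key s c)
  have h := key s⁻¹ (fun T => c T * j ((s ^ pw a (ti a) T : kˣ) : k))
  have e : (fun T => c T * j ((s ^ pw a (ti a) T : kˣ) : k) * j (((s⁻¹) ^ pw a (ti a) T : kˣ) : k)) = c := by
    funext T
    rw [mul_assoc, ← map_mul, ← Units.val_mul, inv_zpow, mul_inv_cancel, Units.val_one, map_one, mul_one]
  rwa [e] at h

end Cfsg.Agent.Lib.MinE6T.InvA
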