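import Cfsg.Agent.Lib.MinE6T.InstC
import Cfsg.Agent.Lib.MinE6T.InvA

/-! `htΓ_E`, `hbΓ_E` of `InstR`. -/

set_option autoImplicit false
set_option linter.unusedSectionVars false
set_option linter.unusedVariables false
set_option linter.ambiguousOpen false

namespace Cfsg.Agent.Lib.MinE6T

namespace InstRH

open Cfsg Lie
open Cfsg.Agent.Lib.Chev
open Tables Tables2 AxBasic Torus Mono1
open Cfsg.Agent.Lib.MinE6 Cfsg.Agent.Lib.MinE6.InstAux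
open Cfsg.Agent.Lib.Twisted.E6 Cfsg.Agent.Lib.ChevTwo.E6Tw Cfsg.Agent.Lib.Twisted.Tw

theorem ne_ti : ∀ a : Fin 6, a ≠ ti a := by decide +kernel

variable {K : Type*} [Field K] [Fintype K] (φ : K ≃+* K) (ax : Ax chevE6 K) {q : ℕ} (hφ : ∀ t, φ t = t ^ q) (hφ2 : ∀ t, φ (φ t) = t)

local notation "DK" => twD (K := K)

lemma fix_kF (x : kF φ) : φ ((kF φ).subtype x) = (kF φ).subtype x := x.2

lemma uK_zpow (s : (kF φ)ˣ) (z : ℤ) : ((uK φ s ^ z : Kˣ) : K) = (kF φ).subtype ((s ^ z : (kF φ)ˣ) : kF φ) := by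
  unfold uK
  rw [← map_zpow]
  rfl

lemma re_scale {e : S3 → ℤ} (he : ∀ T, e (tau T) = e T) (s : (kF φ)ˣ) {c : S3 → K} (hc : Re DK φ c) :
    Re DK φ (fun T => c T * (kF φ).subtype ((s ^ e T : (kF φ)ˣ) : kF φ)) := by
  intro T
  show c (tau T) * _ = (twD (K := K)).kg T * φ (c T * _)
  rw [he, hc T, map_mul, fix_kF]
  ring

lemma EΓ_val {c : S3 → K} (hc : Re DK φ c) : (EΓ φ ax hφ hφ2 c).1 = EG ax c := by
  unfold EΓ
  rw [dif_pos hc]

theorem htΓ_E_aux (a : Fin 6) (s : (kF φ)ˣ) (c : S3 → K) (hc : Re DK φ c) :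
    htΓ φ ax hφ hφ2 a s * EΓ φ ax hφ hφ2 c * (htΓ φ ax hφ hφ2 a s)⁻¹ =
      EΓ φ ax hφ hφ2 (fun T => c T * (kF φ).subtype ((s ^ pw a (ti a) T : (kF φ)ˣ) : kF φ)) := by
  have hre := re_scale φ (e := fun T => pw a (ti a) T) (fun T => InvA.pw_tau a T) s hc
  apply Subtype.ext
  rw [Subgroup.coe_mul, Subgroup.coe_mul, Subgroup.coe_inv, EΓ_val φ ax hφ hφ2 hc, EΓ_val φ ax hφ hφ2 hre]
  have h := Eh_hL (sys0 ax) (i := a) (j := ti a) (ne_ti a) (uK φ s) c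
  have h' := congrArg Subtype.val h
  simp only [uK_zpow] at h'
  exact h'

lemma hb_x (c : Kˣ) (T : S3) (u : K) : (sys0 ax).hb c * (sys0 ax).x (gam T) u * ((sys0 ax).hb c)⁻¹ =
    (sys0 ax).x (gam T) (((c ^ pair chevE6 46 (gam T) : Kˣ) : K) * u) :=
  Subtype.ext (tor_hW_conj ax 46 c (gam T) (gam_lt T) u)

lemma hb_EL (c : Kˣ) (a : S3 → K) (L : List S3) : (sys0 ax).hb c * InstEAux.EL (sys0 ax) L a * ((sys0 ax).hb c)⁻¹ =
    InstEAux.EL (sys0 ax) L (fun T => a T * ((c ^ pair chevE6 46 (gam T) : Kˣ) : K)) := by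
  induction L with
  | nil => simp [InstEAux.EL_nil]
  | cons T L ih =>
    rw [InstEAux.EL_cons, InstEAux.EL_cons, ← ih, mul_comm (a T), ← hb_x ax c T (a T)]
    group

theorem ee_tau : ∀ T, pair chevE6 46 (gam (tau T)) = pair chevE6 46 (gam T) := by decide +kernel

theorem hbΓ_E_aux (c : (kF φ)ˣ) (a : S3 → K) (ha : Re DK φ a) :
    hbΓ φ ax hφ hφ2 c * EΓ φ ax hφ hφ2 a * (hbΓ φ ax hφ hφ2 c)⁻¹ =
      EΓ φ ax hφ hφ2 (fun T => a T * (kF φ).subtype ((c ^ pair chevE6 46 (gam T) : (kF φ)ˣ) : kF φ)) := by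
  have hre := re_scale φ (e := fun T => pair chevE6 46 (gam T)) ee_tau c ha
  apply Subtype.ext
  rw [Subgroup.coe_mul, Subgroup.coe_mul, Subgroup.coe_inv, EΓ_val φ ax hφ hφ2 ha, EΓ_val φ ax hφ hφ2 hre]
  have h := hb_EL ax (uK φ c) a lstT
  have h' := congrArg Subtype.val h
  simp only [uK_zpow] at h'
  exact h'

end InstRH

end Cfsg.Agent.Lib.MinE6T
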