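import Cfsg.Agent.Lib.MinE6T.InstC
import Cfsg.Agent.Lib.MinE6T.InvA

/-! `SysT` relations `l_z`, `l_E` in `²E₆(q)` (K3c). -/

set_option autoImplicit false
set_option linter.unusedSectionVars false
set_option linter.unusedVariables false
set_option linter.ambiguousOpen false

namespace Cfsg.Agent.Lib.MinE6T.InstRL

open Cfsg Lie
open Cfsg.Agent.Lib.Chev
open Tables Tables2 AxBasic Torus Mono1
open Cfsg.Agent.Lib.MinE6 Cfsg.Agent.Lib.MinE6.InstAux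
open Cfsg.Agent.Lib.Twisted.E6 Cfsg.Agent.Lib.ChevTwo.E6Tw Cfsg.Agent.Lib.Twisted.Tw

variable {K : Type*} [Field K] [Fintype K] (φ : K ≃+* K) (ax : Ax chevE6 K) {q : ℕ} (hφ : ∀ t, φ t = t ^ q) (hφ2 : ∀ t, φ (φ t) = t)

local notation "DK" => twD (K := K)

lemma x71_rt (i j : Fin 6) (h : i ≠ j) (w v : K) :
    xG ax 71 w * xG ax (rt i j) v = xG ax (rt i j) v * xG ax 71 w :=
  congrArg Subtype.val (lt' ax i j h w v)

lemma ti_ne {a b : Fin 6} (hab : a ≠ b) : ti b ≠ ti a := fun e => hab (Fin.rev_injective e).symm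

include hφ hφ2 in
lemma lΓ_val (a b : Fin 6) (t : K) (hab : a ≠ b) (ht : Al φ a b t) :
    (lΓ φ ax hφ hφ2 a b t : ↥(twistedE6 K q)).1 = lG φ ax a b t := by
  simp only [lΓ]
  rw [dif_pos (⟨hab, ht⟩ : a ≠ b ∧ Al φ a b t)]

include hφ hφ2 in
lemma EΓ_val (c : S3 → K) (hc : Re DK φ c) :
    (EΓ φ ax hφ hφ2 c : ↥(twistedE6 K q)).1 = EG ax c := by
  simp only [EΓ]
  rw [dif_pos hc]

include hφ hφ2 in
theorem lΓ_z (a b : Fin 6) (t : K) (hab : a ≠ b) (ht : Al φ a b t) (u : kF φ) :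
    lΓ φ ax hφ hφ2 a b t * zΓ φ ax hφ hφ2 u = zΓ φ ax hφ hφ2 u * lΓ φ ax hφ hφ2 a b t := by
  apply Subtype.ext
  show (lΓ φ ax hφ hφ2 a b t).1 * xG ax 71 u.1 = xG ax 71 u.1 * (lΓ φ ax hφ hφ2 a b t).1
  rw [lΓ_val φ ax hφ hφ2 a b t hab ht]
  unfold lG
  split_ifs with h
  · exact (x71_rt ax a b hab _ _).symm
  · rw [mul_assoc, ← x71_rt ax (ti b) (ti a) (ti_ne hab), ← mul_assoc, ← x71_rt ax a b hab, mul_assoc]

/-- The raw conjugation formula. -/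
lemma raw_conj (a b : Fin 6) (t : K) (hab : a ≠ b) (c : S3 → K) :
    ∃ w : K, (lG φ ax a b t)⁻¹ * EG ax c * lG φ ax a b t = EG ax (lactB DK φ a b t c) * xG ax 71 w := by
  have hconj : ∀ (i j : Fin 6) (hij : i ≠ j) (s : K) (e : S3 → K), ∃ w : K,
      (xG ax (rt i j) s)⁻¹ * EG ax e * xG ax (rt i j) s = EG ax (actB (DK).sg i j s e) * xG ax 71 w := by
    intro i j hij s e
    obtain ⟨w, hw⟩ := Eh_conj (sys0 ax) hij s e
    exact ⟨w, congrArg Subtype.val hw⟩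
  unfold lG lactB
  split_ifs with h
  · exact hconj a b hab t c
  · obtain ⟨w₁, h1⟩ := hconj a b hab t c
    obtain ⟨w₂, h2⟩ := hconj (ti b) (ti a) (ti_ne hab) ((DK).kr a b * φ t) (actB (DK).sg a b t c)
    have hadd : xG ax 71 (w₂ + w₁) = xG ax 71 w₂ * xG ax 71 w₁ := congrArg Subtype.val (xE_add ax 71 w₂ w₁)
    refine ⟨w₂ + w₁, ?_⟩
    set x₁ := xG ax (rt a b) t with hx₁
    set x₂ := xG ax (rt (ti b) (ti a)) (gm (rt a b) * φ t) with hx₂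
    have e1 : x₂⁻¹ * EG ax (actB (DK).sg a b t c) * x₂ =
        EG ax (actB (DK).sg (ti b) (ti a) ((DK).kr a b * φ t) (actB (DK).sg a b t c)) * xG ax 71 w₂ := h2
    have hcomm : xG ax 71 w₁ * x₂ = x₂ * xG ax 71 w₁ := x71_rt ax (ti b) (ti a) (ti_ne hab) _ _
    calc (x₁ * x₂)⁻¹ * EG ax c * (x₁ * x₂)
        = x₂⁻¹ * (x₁⁻¹ * EG ax c * x₁) * x₂ := by group
      _ = x₂⁻¹ * (EG ax (actB (DK).sg a b t c) * xG ax 71 w₁) * x₂ := by rw [h1]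
      _ = x₂⁻¹ * EG ax (actB (DK).sg a b t c) * (xG ax 71 w₁ * x₂) := by group
      _ = x₂⁻¹ * EG ax (actB (DK).sg a b t c) * (x₂ * xG ax 71 w₁) := by rw [hcomm]
      _ = (x₂⁻¹ * EG ax (actB (DK).sg a b t c) * x₂) * xG ax 71 w₁ := by group
      _ = EG ax (actB (DK).sg (ti b) (ti a) ((DK).kr a b * φ t) (actB (DK).sg a b t c)) * xG ax 71 w₂ * xG ax 71 w₁ := by rw [e1]
      _ = _ := by rw [hadd, mul_assoc]

include hφ hφ2 in
/-- `x 71 w` in the twisted group has `w` fixed. -/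
lemma fix_of_mem {w : K} (h : xG ax 71 w ∈ twistedE6 K q) : φ w = w := by
  have h1 : (twE φ ax).s (xG ax 71 w) = xG ax 71 w := ((TE φ hφ hφ2 ax).G1_le h).2
  rw [s_xE φ ax (r := 71) (r' := 71) (by decide) (by decide +kernel) (by decide +kernel) w] at h1
  have hx : (sys0 ax).x 71 (φ w) = (sys0 ax).x 71 w := Subtype.ext h1
  have hz : (sys0 ax).x 71 0 = 1 := by
    have := (sys0 ax).x_add 71 (by decide) 0 0
    simpa using this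
  have h2 : (sys0 ax).x 71 (φ w + -w) = 1 := by
    rw [(sys0 ax).x_add 71 (by decide), hx, ← (sys0 ax).x_add 71 (by decide), add_neg_cancel, hz]
  by_contra hne
  have hu : φ w + -w ≠ 0 := fun e => hne (add_neg_eq_zero.1 e)
  exact Cfsg.Agent.Lib.Twisted.Ortho.xG_ne_one hE hE2 ax (r := 71) (by decide) hu (congrArg Subtype.val h2)

include hφ hφ2 in
theorem lΓ_E (a b : Fin 6) (t : K) (c : S3 → K) (hab : a ≠ b) (ht : Al φ a b t) (hc : Re DK φ c) :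
    ∃ w, (lΓ φ ax hφ hφ2 a b t)⁻¹ * EΓ φ ax hφ hφ2 c * lΓ φ ax hφ hφ2 a b t =
      EΓ φ ax hφ hφ2 (lactB DK φ a b t c) * zΓ φ ax hφ hφ2 w := by
  have hc' : Re DK φ (lactB DK φ a b t c) := InvA.lactB_re hφ2 hab ht hc
  obtain ⟨w, hw⟩ := raw_conj φ ax a b t hab c
  have hmem : xG ax 71 w ∈ twistedE6 K q := by
    have h1 : xG ax 71 w = (EΓ φ ax hφ hφ2 (lactB DK φ a b t c)).1⁻¹ *
        ((lΓ φ ax hφ hφ2 a b t).1⁻¹ * (EΓ φ ax hφ hφ2 c).1 * (lΓ φ ax hφ hφ2 a b t).1) := by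
      rw [lΓ_val φ ax hφ hφ2 a b t hab ht, EΓ_val φ ax hφ hφ2 c hc, EΓ_val φ ax hφ hφ2 _ hc', hw]
      group
    rw [h1]
    exact Subgroup.mul_mem _ (Subgroup.inv_mem _ (EΓ φ ax hφ hφ2 _).2) (Subgroup.mul_mem _
      (Subgroup.mul_mem _ (Subgroup.inv_mem _ (lΓ φ ax hφ hφ2 a b t).2) (EΓ φ ax hφ hφ2 c).2) (lΓ φ ax hφ hφ2 a b t).2)
  have hfix : φ w = w := fix_of_mem φ ax hφ hφ2 hmem
  refine ⟨⟨w, hfix⟩, Subtype.ext ?_⟩
  show (lΓ φ ax hφ hφ2 a b t).1⁻¹ * (EΓ φ ax hφ hφ2 c).1 * (lΓ φ ax hφ hφ2 a b t).1 =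
    (EΓ φ ax hφ hφ2 (lactB DK φ a b t c)).1 * xG ax 71 w
  rw [lΓ_val φ ax hφ hφ2 a b t hab ht, EΓ_val φ ax hφ hφ2 c hc, EΓ_val φ ax hφ hφ2 _ hc', hw]

end Cfsg.Agent.Lib.MinE6T.InstRL
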