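import Cfsg.Agent.Lib.MinE6T.InstC
import Cfsg.Agent.Lib.MinE6T.InstRL
import Cfsg.Agent.Lib.MinE6T.InstRH

/-! The relations of `SysT` for `z, E, l, ht, y25, hb` in `²E₆(q)`: from `InstE` with `S = sys0 ax`. All elements are subtype elements: use `Subtype.ext`, `dif_pos`. -/

set_option autoImplicit false
set_option linter.unusedSectionVars false
set_option linter.unusedVariables false
set_option linter.ambiguousOpen false

namespace Cfsg.Agent.Lib.MinE6T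

open Cfsg Lie
open Cfsg.Agent.Lib.Chev
open Tables Tables2 AxBasic Torus Mono1
open Cfsg.Agent.Lib.MinE6 Cfsg.Agent.Lib.MinE6.InstAux
open Cfsg.Agent.Lib.Twisted.E6 Cfsg.Agent.Lib.ChevTwo.E6Tw Cfsg.Agent.Lib.Twisted.Tw

variable {K : Type*} [Field K] [Fintype K] (φ : K ≃+* K) (ax : Ax chevE6 K) {q : ℕ} (hφ : ∀ t, φ t = t ^ q) (hφ2 : ∀ t, φ (φ t) = t)

local notation "DK" => twD (K := K)

/-- Also: `x 71` injective, `Twisted.Ortho.xG_ne_one hE hE2 ax`. `(sys0 ax).x 71 u = 1 → u = 0`. -/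
theorem x71_inj (u : K) (h : (sys0 ax).x 71 u = 1) : u = 0 := by
  by_contra hu
  exact Cfsg.Agent.Lib.Twisted.Ortho.xG_ne_one hE hE2 ax (r := 71) (by decide) hu (congrArg Subtype.val h)

include hφ hφ2 in
/-- A root element of `θ` in the fixed group has a fixed parameter. -/
theorem x71_fix {w : K} (h : xG ax 71 w ∈ twistedE6 K q) : φ w = w := by
  have h1 : (twE φ ax).s (xG ax 71 w) = xG ax 71 w := ((TE φ hφ hφ2 ax).G1_le h).2
  rw [s_xE φ ax (r := 71) (r' := 71) (by decide) (by decide +kernel) (by decide +kernel) w] at h1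
  have hx : (sys0 ax).x 71 (φ w) = (sys0 ax).x 71 w := Subtype.ext h1
  have hz : (sys0 ax).x 71 0 = 1 := by
    have := (sys0 ax).x_add 71 (by decide) 0 0
    simpa using this
  have h2 : (sys0 ax).x 71 (φ w + -w) = 1 := by
    rw [(sys0 ax).x_add 71 (by decide), hx, ← (sys0 ax).x_add 71 (by decide), add_neg_cancel, hz]
  exact add_neg_eq_zero.1 (x71_inj ax _ h2)

theorem zΓ_add (a b : kF φ) : zΓ φ ax hφ hφ2 (a + b) = zΓ φ ax hφ hφ2 a * zΓ φ ax hφ hφ2 b :=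
  Subtype.ext (by have := congrArg Subtype.val (xE_add ax 71 a.1 b.1); exact this)

theorem zΓ_ne (u : kF φ) (hu : u ≠ 0) : zΓ φ ax hφ hφ2 u ≠ 1 := by
  intro h
  apply hu
  apply Subtype.ext
  exact x71_inj ax u.1 (Subtype.ext (by have := congrArg Subtype.val h; exact this))

theorem yΓ_add (a b : kF φ) : yΓ φ ax hφ hφ2 (a + b) = yΓ φ ax hφ hφ2 a * yΓ φ ax hφ hφ2 b :=
  Subtype.ext (by have := congrArg Subtype.val (xE_add ax 25 a.1 b.1); exact this)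

theorem EΓ_val {a : S3 → K} (ha : Re DK φ a) : (EΓ φ ax hφ hφ2 a).1 = EG ax a := by
  unfold EΓ
  rw [dif_pos ha]

theorem EΓ_zero : EΓ φ ax hφ hφ2 0 = 1 := by
  by_cases h : Re DK φ (0 : S3 → K)
  · apply Subtype.ext
    rw [EΓ_val φ ax hφ hφ2 h]
    exact congrArg Subtype.val (Eh_zero (sys0 ax))
  · unfold EΓ
    rw [dif_neg h]

theorem EΓ_add (a b : S3 → K) (ha : Re DK φ a) (hb : Re DK φ b) :
    ∃ w, EΓ φ ax hφ hφ2 (a + b) = EΓ φ ax hφ hφ2 a * EΓ φ ax hφ hφ2 b * zΓ φ ax hφ hφ2 w := by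
  have hab : Re DK φ (a + b) := by
    intro T
    have h1 := ha T
    have h2 := hb T
    simp only [Pi.add_apply, map_add, mul_add, h1, h2]
  obtain ⟨w, hw⟩ := Eh_add (sys0 ax) a b
  have hw' : EG ax (a + b) = EG ax a * EG ax b * xG ax 71 w := congrArg Subtype.val hw
  have hmem : xG ax 71 w ∈ twistedE6 K q := by
    have h1 : xG ax 71 w = (EG ax a * EG ax b)⁻¹ * EG ax (a + b) := by
      rw [hw']
      group
    rw [h1]
    exact mul_mem (inv_mem (mul_mem (EG_mem φ ax hφ hφ2 ha) (EG_mem φ ax hφ hφ2 hb))) (EG_mem φ ax hφ hφ2 hab)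
  refine ⟨⟨w, x71_fix φ ax hφ hφ2 hmem⟩, ?_⟩
  apply Subtype.ext
  rw [Subgroup.coe_mul, Subgroup.coe_mul, EΓ_val φ ax hφ hφ2 hab, EΓ_val φ ax hφ hφ2 ha, EΓ_val φ ax hφ hφ2 hb]
  exact hw'

theorem EΓ_add0 (a b : S3 → K) (ha : Re DK φ a) (hb : Re DK φ b) (h : ∀ T, a T * b (compl3 T) = 0) :
    EΓ φ ax hφ hφ2 (a + b) = EΓ φ ax hφ hφ2 a * EΓ φ ax hφ hφ2 b := by
  have hab : Re DK φ (a + b) := by
    intro T
    have h1 := ha T
    have h2 := hb T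
    simp only [Pi.add_apply, map_add, mul_add, h1, h2]
  apply Subtype.ext
  rw [Subgroup.coe_mul, EΓ_val φ ax hφ hφ2 hab, EΓ_val φ ax hφ hφ2 ha, EΓ_val φ ax hφ hφ2 hb]
  exact congrArg Subtype.val (Eh_add0 (sys0 ax) a b h)

theorem EΓ_z (a : S3 → K) (u : kF φ) (ha : Re DK φ a) :
    EΓ φ ax hφ hφ2 a * zΓ φ ax hφ hφ2 u = zΓ φ ax hφ hφ2 u * EΓ φ ax hφ hφ2 a := by
  apply Subtype.ext
  rw [Subgroup.coe_mul, Subgroup.coe_mul, EΓ_val φ ax hφ hφ2 ha]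
  exact congrArg Subtype.val (Eh_z (sys0 ax) a u.1)

theorem EΓ_comm (a b : S3 → K) (ha : Re DK φ a) (hb : Re DK φ b) (w : kF φ) (hw : (kF φ).subtype w = om DK a b) :
    EΓ φ ax hφ hφ2 a * EΓ φ ax hφ hφ2 b = EΓ φ ax hφ hφ2 b * EΓ φ ax hφ hφ2 a * zΓ φ ax hφ hφ2 w := by
  apply Subtype.ext
  rw [Subgroup.coe_mul, Subgroup.coe_mul, Subgroup.coe_mul, EΓ_val φ ax hφ hφ2 ha, EΓ_val φ ax hφ hφ2 hb]
  have h1 := congrArg Subtype.val (Eh_comm (sys0 ax) a b)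
  have e : w.1 = ∑ T, (sys0 ax).eps T * (a T * b (compl3 T)) := hw
  change EG ax a * EG ax b = EG ax b * EG ax a * xG ax 71 w.1
  rw [e]
  exact h1

theorem lΓ_z (a b : Fin 6) (t : K) (hab : a ≠ b) (ht : Al φ a b t) (u : kF φ) :
    lΓ φ ax hφ hφ2 a b t * zΓ φ ax hφ hφ2 u = zΓ φ ax hφ hφ2 u * lΓ φ ax hφ hφ2 a b t :=
  InstRL.lΓ_z φ ax hφ hφ2 a b t hab ht u

/-- From `Eh_conj` (twice): gives `∃ w : K`, `x 71 w` and then `φ w = w` since both sides are in the fixed group (`lactB_re`, `x71` injective, `EG_mem`). `Lib/MinE6T/Inv.lean` has `lactB_re`: import it if needed (`Frob` is not needed: see the proof there). -/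
theorem lΓ_E (a b : Fin 6) (t : K) (c : S3 → K) (hab : a ≠ b) (ht : Al φ a b t) (hc : Re DK φ c) :
    ∃ w, (lΓ φ ax hφ hφ2 a b t)⁻¹ * EΓ φ ax hφ hφ2 c * lΓ φ ax hφ hφ2 a b t = EΓ φ ax hφ hφ2 (lactB DK φ a b t c) * zΓ φ ax hφ hφ2 w :=
  InstRL.lΓ_E φ ax hφ hφ2 a b t c hab ht hc

theorem htΓ_E (a : Fin 6) (s : (kF φ)ˣ) (c : S3 → K) (hc : Re DK φ c) :
    htΓ φ ax hφ hφ2 a s * EΓ φ ax hφ hφ2 c * (htΓ φ ax hφ hφ2 a s)⁻¹ =
      EΓ φ ax hφ hφ2 (fun T => c T * (kF φ).subtype ((s ^ pw a (ti a) T : (kF φ)ˣ) : kF φ)) :=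
  InstRH.htΓ_E_aux φ ax hφ hφ2 a s c hc

theorem htΓ_z (a : Fin 6) (s : (kF φ)ˣ) (u : kF φ) :
    htΓ φ ax hφ hφ2 a s * zΓ φ ax hφ hφ2 u * (htΓ φ ax hφ hφ2 a s)⁻¹ = zΓ φ ax hφ hφ2 u := by
  have hne : ∀ a : Fin 6, a ≠ ti a := by decide
  exact Subtype.ext (by have := congrArg Subtype.val (hL_th' ax a (ti a) (hne a) (uK φ s) u.1); exact this)

theorem hbΓ_mul (c c' : (kF φ)ˣ) : hbΓ φ ax hφ hφ2 (c * c') = hbΓ φ ax hφ hφ2 c * hbΓ φ ax hφ hφ2 c' := by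
  apply Subtype.ext
  change (hbE ax (uK φ (c * c'))).1 = (hbE ax (uK φ c)).1 * (hbE ax (uK φ c')).1
  rw [show uK φ (c * c') = uK φ c * uK φ c' from map_mul _ _ _, hb_mul']
  rfl

theorem hbΓ_z (c : (kF φ)ˣ) (u : kF φ) :
    hbΓ φ ax hφ hφ2 c * zΓ φ ax hφ hφ2 u * (hbΓ φ ax hφ hφ2 c)⁻¹ = zΓ φ ax hφ hφ2 ((c : kF φ) * u) :=
  Subtype.ext (by have := congrArg Subtype.val (hb_th' ax (uK φ c) u.1); exact this)

/-- The exponents: `pair chevE6 46 (gam T)` (`hb_gam'`). -/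
def ee46 (T : S3) : ℤ := pair chevE6 46 (gam T)

theorem ee46_β : ee46 β₀ = 2 := by decide +kernel

theorem ee46_tau : ∀ T, ee46 (tau T) = ee46 T := by decide +kernel

theorem hbΓ_E (c : (kF φ)ˣ) (a : S3 → K) (ha : Re DK φ a) :
    hbΓ φ ax hφ hφ2 c * EΓ φ ax hφ hφ2 a * (hbΓ φ ax hφ hφ2 c)⁻¹ =
      EΓ φ ax hφ hφ2 (fun T => a T * (kF φ).subtype ((c ^ ee46 T : (kF φ)ˣ) : kF φ)) :=
  InstRH.hbΓ_E_aux φ ax hφ hφ2 c a ha

end Cfsg.Agent.Lib.MinE6T
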