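import Cfsg.Agent.Lib.PresU.Brg
import Cfsg.Agent.Lib.Witt.HermModel
import Cfsg.Agent.Lib.Classical.Transvections

/-! The matrix part of the homomorphism from `SU₆(q)`: `θ h = J (h^σ)^{-T} Jᵀ`, `J r (τ r) = (-1)^r`; its fixed points are the image of `SU₆(q)`. -/

set_option autoImplicit false
set_option linter.unusedSectionVars false
set_option linter.unusedVariables false
set_option linter.ambiguousOpen false

namespace Cfsg.Agent.Lib.MinE6T.SM

open Matrix Cfsg.Agent.Lib.PresU Cfsg.Agent.Lib.HermCount.Field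

variable {K : Type*} [Field K]

/-- The sign. -/
def sgn (x : Fin 6) : K := (-1) ^ x.val

lemma sgn_rev (x : Fin 6) : sgn (K := K) (Fin.rev x) = - sgn x := by
  fin_cases x <;> simp [sgn, Fin.rev] <;> norm_num

lemma sgn_sq (x : Fin 6) : sgn (K := K) x * sgn x = 1 := by
  unfold sgn
  rw [← mul_pow]
  simp

lemma sgn_ne (x : Fin 6) : sgn (K := K) x ≠ 0 := by
  unfold sgn
  exact pow_ne_zero _ (neg_ne_zero.mpr one_ne_zero)

/-- The matrix `J`. -/
def Jm : Matrix (Fin 6) (Fin 6) K := Matrix.of fun r c => if c = Fin.rev r then sgn r else 0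

lemma Jm_apply (r c : Fin 6) : Jm (K := K) r c = if c = Fin.rev r then sgn r else 0 := rfl

lemma Jm_mul : Jm (K := K) * (Jm (K := K))ᵀ = 1 := by
  ext r c
  rw [mul_apply]
  simp only [transpose_apply, Jm_apply]
  rw [Finset.sum_eq_single (Fin.rev r)]
  · rw [if_pos rfl]
    by_cases h : r = c
    · subst h
      rw [if_pos rfl, one_apply_eq, sgn_sq]
    · have h2 : Fin.rev r ≠ Fin.rev c := fun e => h (Fin.rev_injective e)
      rw [if_neg h2, mul_zero, one_apply_ne h]
  · intro m _ hm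
    rw [if_neg hm, zero_mul]
  · simp

lemma Jt_mul : (Jm (K := K))ᵀ * Jm (K := K) = 1 := mul_eq_one_comm.mp Jm_mul

lemma Jt_eq : (Jm (K := K))ᵀ = - Jm (K := K) := by
  ext r c
  rw [transpose_apply, Matrix.neg_apply, Jm_apply, Jm_apply]
  by_cases h : c = Fin.rev r
  · subst h
    rw [if_pos rfl, if_pos (Fin.rev_rev r).symm, sgn_rev]
  · have h2 : r ≠ Fin.rev c := by
      rintro rfl
      exact h (Fin.rev_rev c).symm
    rw [if_neg h, if_neg h2, neg_zero]

lemma J_single (j i : Fin 6) (c : K) : Jm * single j i c * (Jm (K := K))ᵀ = single (Fin.rev j) (Fin.rev i) (sgn i * sgn j * c) := by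
  ext r s
  have h1 : ∀ (A B : Matrix (Fin 6) (Fin 6) K), (A * single j i c * B) r s = A r j * c * B i s := by
    intro A B
    simp only [Matrix.mul_apply, single_apply]
    simp [Finset.sum_ite_eq, Finset.sum_mul, Finset.mul_sum, ite_and]
  rw [h1, transpose_apply, Jm_apply, Jm_apply]
  by_cases hr : r = Fin.rev j
  · subst hr
    by_cases hs : s = Fin.rev i
    · subst hs
      rw [if_pos (Fin.rev_rev j).symm, if_pos (Fin.rev_rev i).symm, sgn_rev, sgn_rev, single_apply_same]
      ring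
    · have h2 : i ≠ Fin.rev s := by
        rintro rfl
        exact hs (Fin.rev_rev s).symm
      rw [if_neg h2, mul_zero, single_apply, if_neg (fun h => hs h.2.symm)]
  · have h2 : j ≠ Fin.rev r := by
      rintro rfl
      exact hr (Fin.rev_rev r).symm
    rw [if_neg h2, zero_mul, zero_mul, single_apply, if_neg (fun h => hr h.1.symm)]

/-- The twist on `SL₆`. -/
noncomputable def θ (σ : K →+* K) : SpecialLinearGroup (Fin 6) K →* SpecialLinearGroup (Fin 6) K where
  toFun h := ⟨Jm * ((h⁻¹).1.map σ)ᵀ * (Jm (K := K))ᵀ, by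
    rw [det_mul, det_mul, det_transpose, det_transpose]
    have e : ((h⁻¹).1.map σ).det = σ ((h⁻¹).1.det) := (RingHom.map_det σ _).symm
    have e2 : (Jm (K := K)).det * (Jm (K := K)).det = 1 := by
      have := congrArg det (Jm_mul (K := K))
      rwa [det_mul, det_transpose, det_one] at this
    rw [e, (h⁻¹).2, map_one, mul_one, e2]⟩
  map_one' := by
    apply Subtype.ext
    show Jm * (((1 : SpecialLinearGroup (Fin 6) K)⁻¹).1.map σ)ᵀ * (Jm (K := K))ᵀ = 1
    rw [inv_one]
    show Jm * ((1 : Matrix (Fin 6) (Fin 6) K).map σ)ᵀ * (Jm (K := K))ᵀ = 1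
    rw [Matrix.map_one _ (map_zero σ) (map_one σ), transpose_one, Matrix.mul_one, Jm_mul]
  map_mul' a b := by
    apply Subtype.ext
    show Jm * (((a * b)⁻¹).1.map σ)ᵀ * (Jm (K := K))ᵀ = (Jm * ((a⁻¹).1.map σ)ᵀ * (Jm (K := K))ᵀ) * (Jm * ((b⁻¹).1.map σ)ᵀ * (Jm (K := K))ᵀ)
    rw [_root_.mul_inv_rev]
    have e0 : ((b⁻¹ * a⁻¹ : SpecialLinearGroup (Fin 6) K).1.map σ) = (b⁻¹).1.map σ * (a⁻¹).1.map σ := by
      rw [← Matrix.map_mul]
      rfl
    rw [e0, transpose_mul]
    have e := Jt_mul (K := K)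
    calc Jm * (((a⁻¹).1.map σ)ᵀ * ((b⁻¹).1.map σ)ᵀ) * (Jm (K := K))ᵀ
        = Jm * ((a⁻¹).1.map σ)ᵀ * (((Jm (K := K))ᵀ * Jm) * (((b⁻¹).1.map σ)ᵀ * (Jm (K := K))ᵀ)) := by
          rw [e, Matrix.one_mul]
          simp only [Matrix.mul_assoc]
      _ = _ := by simp only [Matrix.mul_assoc]

lemma θ_coe (σ : K →+* K) (h : SpecialLinearGroup (Fin 6) K) : (θ σ h).1 = Jm * ((h⁻¹).1.map σ)ᵀ * (Jm (K := K))ᵀ := rfl

/-- The sign of the twist. -/
def κ (i j : Fin 6) : K := - (sgn i * sgn j)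

/-- The twist of a transvection. -/
theorem θ_tv (σ : K →+* K) {i j : Fin 6} (hij : i ≠ j) (a : K) (hji : Fin.rev j ≠ Fin.rev i) :
    θ σ (SpecialLinearGroup.transvection hij a) = SpecialLinearGroup.transvection hji (κ i j * σ a) := by
  apply Subtype.ext
  rw [θ_coe, SpecialLinearGroup.transvection_inv, SpecialLinearGroup.transvection_coe, SpecialLinearGroup.transvection_coe]
  have e1 : ((1 + single i j (-a) : Matrix (Fin 6) (Fin 6) K).map σ)ᵀ = 1 + single j i (- σ a) := by
    ext r s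
    simp only [transpose_apply, map_apply, Matrix.add_apply, one_apply, single_apply]
    by_cases h1 : s = r
    · subst h1
      by_cases h2 : i = s ∧ j = s
      · exact absurd (h2.1.trans h2.2.symm) hij
      · have h3 : ¬ (j = s ∧ i = s) := fun h => h2 ⟨h.2, h.1⟩
        simp [h2, h3]
    · have h4 : (s = r) = False := by simp [h1]
      have h5 : (r = s) = False := by simp [Ne.symm h1]
      by_cases h2 : i = s ∧ j = r
      · have h3 : j = r ∧ i = s := ⟨h2.2, h2.1⟩
        simp [h1, Ne.symm h1, h2, h3]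
      · have h3 : ¬ (j = r ∧ i = s) := fun h => h2 ⟨h.2, h.1⟩
        simp [h1, Ne.symm h1, h2, h3]
  rw [e1, Matrix.mul_add, Matrix.add_mul, Matrix.mul_one, Jm_mul, J_single]
  congr 2
  unfold κ
  ring

lemma isU_smul {σ : K →+* K} {s : K} (hs : s ≠ 0) (J M : Matrix (Fin 6) (Fin 6) K) : IsU σ (s • J) M ↔ IsU σ J M := by
  unfold IsU
  rw [Matrix.mul_smul, Matrix.smul_mul]
  exact ⟨fun h => smul_right_injective _ hs h, fun h => by rw [h]⟩

/-- The fixed points of the twist. -/
theorem θ_fix_iff {σ : K →+* K} (y : SpecialLinearGroup (Fin 6) K) : θ σ y = y ↔ IsU σ (Jm (K := K))ᵀ y.1 := by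
  have hA : (y⁻¹).1.map σ * y.1.map σ = 1 := by
    rw [← Matrix.map_mul, Cfsg.Agent.Lib.PresSp.Mono.inv_mul_coe y]
    exact Matrix.map_one _ (map_zero σ) (map_one σ)
  have hA' : y.1.map σ * (y⁻¹).1.map σ = 1 := mul_eq_one_comm.mp hA
  set A := (y⁻¹).1.map σ with hAdef
  set B := y.1.map σ with hBdef
  have hJJ := Jt_eq (K := K)
  have hm1 := Jm_mul (K := K)
  have hm2 := Jt_mul (K := K)
  constructor
  · intro h
    have h1 : Jm * Aᵀ * (Jm (K := K))ᵀ = y.1 := congrArg Subtype.val h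
    have h2 : y.1ᵀ = Jm * A * (Jm (K := K))ᵀ := by
      rw [← h1]
      simp only [transpose_mul, transpose_transpose, Matrix.mul_assoc]
    unfold IsU
    rw [← hBdef, h2]
    calc Jm * A * (Jm (K := K))ᵀ * (Jm (K := K))ᵀ * B = - (Jm * A * ((Jm (K := K)) * (Jm (K := K))ᵀ) * B) := by
          conv_lhs => rw [Matrix.mul_assoc (Jm * A), hJJ]
          rw [hJJ] 
          simp only [Matrix.mul_neg, Matrix.neg_mul, Matrix.mul_assoc, neg_neg]
      _ = - (Jm (K := K)) := by
          rw [hm1, Matrix.mul_one, Matrix.mul_assoc, hA, Matrix.mul_one]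
      _ = (Jm (K := K))ᵀ := hJJ.symm
  · intro h
    have h0 : y.1ᵀ * (Jm (K := K))ᵀ * B = (Jm (K := K))ᵀ := h
    have h1 : y.1ᵀ * (Jm (K := K))ᵀ = (Jm (K := K))ᵀ * A := by
      calc y.1ᵀ * (Jm (K := K))ᵀ = y.1ᵀ * (Jm (K := K))ᵀ * (B * A) := by rw [hA', Matrix.mul_one]
        _ = (y.1ᵀ * (Jm (K := K))ᵀ * B) * A := by simp only [Matrix.mul_assoc]
        _ = _ := by rw [h0]
    have h2 : Jm * y.1 = Aᵀ * Jm := by
      have := congrArg transpose h1
      simpa only [transpose_mul, transpose_transpose] using this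
    apply Subtype.ext
    show Jm * Aᵀ * (Jm (K := K))ᵀ = y.1
    have h3 : (Jm (K := K))ᵀ * (Jm * y.1) = y.1 := by
      rw [← Matrix.mul_assoc, hm2, Matrix.one_mul]
    have h4 : (Jm (K := K))ᵀ * (Aᵀ * Jm) = Jm * Aᵀ * (Jm (K := K))ᵀ := by
      rw [hJJ]
      simp only [Matrix.mul_neg, Matrix.neg_mul, neg_neg, Matrix.mul_assoc]
    rw [← h4, ← h2, h3]


/-! ### The root elements -/

/-- The root elements in `SL₆(K)`. -/
noncomputable def tvS (σ : K →+* K) (a b : Fin 6) (hab : a ≠ b) (t : K) : SpecialLinearGroup (Fin 6) K :=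
  if hb : b = Fin.rev a then SpecialLinearGroup.transvection hab t else
    SpecialLinearGroup.transvection hab t * SpecialLinearGroup.transvection (i := Fin.rev b) (j := Fin.rev a) (by
      intro h; exact hab (Fin.rev_injective h).symm) (κ a b * σ t)

lemma sigma_sgn (σ : K →+* K) (x : Fin 6) : σ (sgn x) = sgn x := by
  unfold sgn
  simp

lemma rev_ne : ∀ x : Fin 6, Fin.rev x ≠ x := by decide

/-- The root elements are fixed by the twist. -/
theorem tv_fix {σ : K →+* K} (hσ : ∀ t, σ (σ t) = t) {a b : Fin 6} (hab : a ≠ b) {t : K} (ht : b = Fin.rev a → σ t = t) :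
    θ σ (tvS σ a b hab t) = tvS σ a b hab t := by
  unfold tvS
  by_cases hb : b = Fin.rev a
  · rw [dif_pos hb]
    subst hb
    have hne : Fin.rev (Fin.rev a) ≠ Fin.rev a := fun h => hab (Fin.rev_injective h).symm
    rw [θ_tv σ hab t hne]
    apply Subtype.ext
    rw [SpecialLinearGroup.transvection_coe, SpecialLinearGroup.transvection_coe, Fin.rev_rev, ht rfl]
    have e : κ a (Fin.rev a) = (1 : K) := by
      unfold κ
      rw [sgn_rev]
      have := sgn_sq (K := K) a
      linear_combination this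
    rw [e, one_mul]
  · rw [dif_neg hb, map_mul]
    have hne : Fin.rev b ≠ Fin.rev a := fun h => hab (Fin.rev_injective h).symm
    have hne2 : Fin.rev (Fin.rev a) ≠ Fin.rev (Fin.rev b) := fun h => hne (Fin.rev_injective h).symm
    rw [θ_tv σ hab t hne, θ_tv σ hne _ hne2]
    have hc : ∀ (A B C D : SpecialLinearGroup (Fin 6) K), A.1 * B.1 = C.1 * D.1 → A * B = C * D := fun A B C D h => Subtype.ext h
    apply hc
    rw [SpecialLinearGroup.transvection_coe, SpecialLinearGroup.transvection_coe, SpecialLinearGroup.transvection_coe]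
    rw [Fin.rev_rev, Fin.rev_rev]
    have e : κ (Fin.rev b) (Fin.rev a) * σ (κ a b * σ t) = t := by
      rw [map_mul, hσ]
      have e1 : σ (κ a b) = κ a b := by
        unfold κ
        rw [map_neg, map_mul, sigma_sgn, sigma_sgn]
      rw [e1]
      unfold κ
      rw [sgn_rev, sgn_rev]
      have h1 := sgn_sq (K := K) a
      have h2 := sgn_sq (K := K) b
      linear_combination (t * (sgn a * sgn a)) * h2 + t * h1
    rw [e]
    have e0 : ∀ c : K, single a b t * single (Fin.rev b) (Fin.rev a) c = (0 : Matrix (Fin 6) (Fin 6) K) := fun c =>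
      single_mul_single_of_ne _ _ _ _ (Ne.symm (rev_ne b)) _
    have e0' : ∀ c : K, single (Fin.rev b) (Fin.rev a) c * single a b t = (0 : Matrix (Fin 6) (Fin 6) K) := fun c =>
      single_mul_single_of_ne _ _ _ _ (rev_ne a) _
    simp only [Matrix.mul_add, Matrix.add_mul, Matrix.one_mul, Matrix.mul_one, e0, e0']
    abel

/-! ### The Hermitian form -/

section Main

variable [Fintype K] {q : ℕ}

/-- The Hermitian form. -/
noncomputable def hQ (σ : K →+* K) (s : K) (x y : Fin 6 → K) : K := fJ σ (s • (Jm (K := K))ᵀ) x y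

lemma hQ_eq (σ : K →+* K) (s : K) (x y : Fin 6 → K) :
    hQ σ s x y = s * ∑ r, x r * (sgn (Fin.rev r) * σ (y (Fin.rev r))) := by
  have h : ∀ r, ((s • (Jm (K := K))ᵀ) *ᵥ (σ ∘ y)) r = s * (sgn (Fin.rev r) * σ (y (Fin.rev r))) := by
    intro r
    simp only [mulVec, dotProduct, Matrix.smul_apply, transpose_apply, smul_eq_mul, Function.comp]
    rw [Finset.sum_eq_single (Fin.rev r)]
    · rw [Jm_apply, if_pos (Fin.rev_rev r).symm]
      ring
    · intro c _ hc
      have h2 : r ≠ Fin.rev c := by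
        rintro rfl
        exact hc (Fin.rev_rev c).symm
      rw [Jm_apply, if_neg h2]
      ring
    · simp
  unfold hQ fJ
  simp only [dotProduct, h, Finset.mul_sum]
  exact Finset.sum_congr rfl fun r _ => by ring

variable (hK : Fintype.card K = q ^ 2)

include hK

lemma frob_frob (t : K) : frobHom hK (frobHom hK t) = t := (Cfsg.Agent.Lib.Classical.HermBridge.invol_frob hK).1 t

/-- The form is Hermitian. -/
theorem hQ_space {s : K} (hs : s ≠ 0) (hss : frobHom hK s = -s) :
    Cfsg.Agent.Lib.HermCount.Space.HSpace q (hQ (frobHom hK) s) where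
  add_left x y z := by
    simp only [hQ_eq, Pi.add_apply, add_mul, Finset.sum_add_distrib, mul_add]
  smul_left a x z := by
    simp only [hQ_eq, Pi.smul_apply, smul_eq_mul, Finset.mul_sum]
    exact Finset.sum_congr rfl fun r _ => by ring
  conj x y := by
    rw [← frobHom_apply hK, hQ_eq, hQ_eq, map_mul, hss, map_sum]
    have h := Equiv.sum_comp Fin.revPerm (fun r => y r * (sgn (Fin.rev r) * frobHom hK (x (Fin.rev r))))
    simp only [Fin.revPerm_apply, Fin.rev_rev] at h
    rw [← h, neg_mul, ← mul_neg, ← Finset.sum_neg_distrib]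
    congr 1
    refine Finset.sum_congr rfl fun r _ => ?_
    rw [map_mul, map_mul, sigma_sgn, frob_frob hK, sgn_rev]
    ring
  nd x hx := by
    funext r
    have h := hx (Pi.single (Fin.rev r) 1)
    rw [hQ_eq, Finset.sum_eq_single r] at h
    · simp only [Pi.single_eq_same, map_one, mul_one] at h
      rcases mul_eq_zero.mp h with h | h
      · exact absurd h hs
      · rcases mul_eq_zero.mp h with h | h
        · exact h
        · exact absurd h (sgn_ne _)
    · intro c _ hc
      have h2 : Fin.rev c ≠ Fin.rev r := fun e => hc (Fin.rev_injective e)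
      rw [Pi.single_eq_of_ne h2, map_zero]
      ring
    · simp

/-- The fixed points of the twist are the image of `SU₆(q)`. -/
theorem exists_τ₀ : ∃ τ₀ : ↥(Cfsg.SU 6 K q) →* SpecialLinearGroup (Fin 6) K,
    (∀ g, θ (frobHom hK) (τ₀ g) = τ₀ g) ∧ (∀ y, θ (frobHom hK) y = y → ∃ g, τ₀ g = y) := by
  obtain ⟨x, hx⟩ := exists_frob_ne hK
  set s : K := x - frobHom hK x with hsdef
  have hs : s ≠ 0 := sub_ne_zero.mpr (Ne.symm hx)
  have hss : frobHom hK s = -s := by
    rw [hsdef, map_sub, frob_frob hK]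
    ring
  have S := hQ_space hK hs hss
  obtain ⟨ψ, hψ⟩ := Cfsg.Agent.Lib.Witt.HermModel.exists_model S hK 6 (by simp)
  let P : Matrix (Fin 6) (Fin 6) K := LinearMap.toMatrix' (ψ.symm : (Fin 6 → K) →ₗ[K] (Fin 6 → K))
  let P' : Matrix (Fin 6) (Fin 6) K := LinearMap.toMatrix' (ψ : (Fin 6 → K) →ₗ[K] (Fin 6 → K))
  have h1 : P * P' = 1 := by
    show LinearMap.toMatrix' _ * LinearMap.toMatrix' _ = 1
    rw [← LinearMap.toMatrix'_comp]
    have : (ψ.symm : (Fin 6 → K) →ₗ[K] (Fin 6 → K)) ∘ₗ (ψ : (Fin 6 → K) →ₗ[K] (Fin 6 → K)) = LinearMap.id := by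
      ext v i
      simp
    rw [this, LinearMap.toMatrix'_id]
  have h2 : P' * P = 1 := mul_eq_one_comm.mp h1
  have hP : ∀ u v, Cfsg.hermForm 6 K q (P *ᵥ u) (P *ᵥ v) = fJ (frobHom hK) (s • (Jm (K := K))ᵀ) u v := by
    intro u v
    have e : ∀ w, P *ᵥ w = ψ.symm w := fun w => LinearMap.toMatrix'_mulVec _ _
    rw [e, e, ← hψ, ψ.apply_symm_apply, ψ.apply_symm_apply]
    rfl
  obtain ⟨e, he, he'⟩ := su_bridge hK h1 h2 hP
  refine ⟨(SUg (frobHom hK) (s • (Jm (K := K))ᵀ)).subtype.comp e.symm.toMonoidHom, fun g => ?_, fun y hy => ?_⟩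
  · show θ (frobHom hK) (e.symm g).1 = (e.symm g).1
    rw [θ_fix_iff]
    exact (isU_smul hs _ _).1 (e.symm g).2
  · have hU : IsU (frobHom hK) (s • (Jm (K := K))ᵀ) y.1 := (isU_smul hs _ _).2 ((θ_fix_iff y).1 hy)
    refine ⟨e ⟨y, hU⟩, ?_⟩
    show (e.symm (e ⟨y, hU⟩)).1 = y
    rw [e.symm_apply_apply]

end Main

end Cfsg.Agent.Lib.MinE6T.SM
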