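import Cfsg.Agent.Lib.MinE6T.InstC
import Cfsg.Agent.Lib.MinE6T.InstSM

/-! The twist `s` on the image of `SL₆(K)`: `s (slh h) = slh (θ h)`. -/

set_option autoImplicit false
set_option linter.unusedSectionVars false
set_option linter.unusedVariables false
set_option linter.ambiguousOpen false

namespace Cfsg.Agent.Lib.MinE6T

open Cfsg Lie Matrix
open Cfsg.Agent.Lib.Chev
open Tables Tables2 AxBasic Torus Mono1
open Cfsg.Agent.Lib.MinE6 Cfsg.Agent.Lib.MinE6.InstAux
open Cfsg.Agent.Lib.Twisted.E6 Cfsg.Agent.Lib.ChevTwo.E6Tw Cfsg.Agent.Lib.Twisted.Tw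

namespace InstSUAux

theorem rho_rt_tab : ∀ i j : Fin 6, i ≠ j → Se.ρ (rt i j) = rt (Fin.rev j) (Fin.rev i) := by
  decide +kernel

theorem gam_rt_tab : ∀ i j : Fin 6, i ≠ j → Se.γ (rt i j) = - ((-1) ^ i.val * (-1) ^ j.val) := by
  decide +kernel

lemma gm_rt_κ {K : Type*} [Field K] (i j : Fin 6) (hij : i ≠ j) : Cfsg.Agent.Lib.ChevTwo.E6Tw.gm (K := K) (rt i j) = SM.κ i j := by
  unfold Cfsg.Agent.Lib.ChevTwo.E6Tw.gm SM.κ SM.sgn
  rw [gam_rt_tab i j hij]
  push_cast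
  ring

end InstSUAux

variable {K : Type*} [Field K] [Fintype K] (φ : K ≃+* K) (ax : Ax chevE6 K)

/-- `s (slh h) = slh (θ h)`. -/
theorem s_slh (h : SpecialLinearGroup (Fin 6) K) :
    (twE φ ax).s (((sys0 ax).slh h : ↥(chevE6.group K)) : GL chevE6.Idx K) =
      (((sys0 ax).slh (SM.θ φ.toRingHom h) : ↥(chevE6.group K)) : GL chevE6.Idx K) := by
  refine Cfsg.Agent.Lib.Classical.Transvections.transvection_induction
    (fun h => (twE φ ax).s (((sys0 ax).slh h : ↥(chevE6.group K)) : GL chevE6.Idx K) =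
      (((sys0 ax).slh (SM.θ φ.toRingHom h) : ↥(chevE6.group K)) : GL chevE6.Idx K)) h ?_ ?_
  · intro i j hij a
    have e1 : (((sys0 ax).slh (SpecialLinearGroup.transvection hij a) : ↥(chevE6.group K)) : GL chevE6.Idx K) =
        xG ax (rt i j) (-1 * a) := congrArg Subtype.val ((sys0 ax).slh_tr i j hij a)
    have hji : Fin.rev j ≠ Fin.rev i := fun e => hij (Fin.rev_injective e).symm
    have e2 := SM.θ_tv φ.toRingHom hij a hji
    have e3 : (((sys0 ax).slh (SpecialLinearGroup.transvection hji (SM.κ i j * φ.toRingHom a)) : ↥(chevE6.group K)) : GL chevE6.Idx K) =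
        xG ax (rt (Fin.rev j) (Fin.rev i)) (-1 * (SM.κ i j * φ.toRingHom a)) :=
      congrArg Subtype.val ((sys0 ax).slh_tr _ _ hji _)
    show (twE φ ax).s _ = _
    rw [e1, e2, e3, s_xG φ ax (InstB.rt_lt i j), InstSUAux.rho_rt_tab i j hij, InstSUAux.gm_rt_κ i j hij]
    congr 1
    show SM.κ i j * φ (-1 * a) = -1 * (SM.κ i j * φ a)
    rw [map_mul, map_neg, map_one]
    ring
  · intro A B hA hB
    show (twE φ ax).s _ = _
    rw [map_mul, Subgroup.coe_mul, (twE φ ax).s_mul _ ((sys0 ax).slh A).2 _ ((sys0 ax).slh B).2]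
    have hA' : (twE φ ax).s (((sys0 ax).slh A : ↥(chevE6.group K)) : GL chevE6.Idx K) = _ := hA
    have hB' : (twE φ ax).s (((sys0 ax).slh B : ↥(chevE6.group K)) : GL chevE6.Idx K) = _ := hB
    rw [hA', hB', map_mul, map_mul, Subgroup.coe_mul]

end Cfsg.Agent.Lib.MinE6T
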