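import Cfsg.Agent.Lib.MinE6.Sys
import Cfsg.Prelude.Def_Classical

/-!
# The twisted group `²E₆(q)`: abstract relations

`K` has `q²` elements, `φ t = t ^ q`, `k` the fixed field (`j : k →+* K`). The vectors `a : S3 → K` which are *real*
(`a (tau T) = kg T * φ (a T)`) form a `k`-space of dimension `20`; `E a` is the element of `U` with coordinates `a`.
`L = SU₆(q)`: `l i j t = x (rt i j) t * x (rt (ti j) (ti i)) (kr i j * φ t)`, and for `j = ti i`, `l i j t = x (rt i j) t` with `φ t = t`.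
See `PLAN.md`.
-/

set_option autoImplicit false
set_option linter.unusedSectionVars false
set_option linter.unusedVariables false

namespace Cfsg.Agent.Lib.MinE6T

open Module
open Cfsg.Agent.Lib.MinE6

/-- `i ↦ 5 - i`. -/
def ti (i : Fin 6) : Fin 6 := Fin.rev i

/-- The graph automorphism on the `3`-subsets. `gam (tau T) = ρ (gam T)`. -/
def tau (T : S3) : S3 := ⟨(T.1.map ⟨ti, Fin.rev_injective⟩)ᶜ, by
  rw [Finset.card_compl, Finset.card_map, T.2]
  simp⟩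

/-- The signs. -/
structure TwD (K : Type*) [Field K] where
  /-- `s (x (gam T) u) = x (gam (tau T)) (kg T * φ u)` -/
  kg : S3 → K
  kg_sign : ∀ T, kg T = 1 ∨ kg T = -1
  kg_fix : ∀ T, tau T = T → kg T = 1
  kg_tau : ∀ T, kg (tau T) = kg T
  /-- `s (x (rt i j) t) = x (rt (ti j) (ti i)) (kr i j * φ t)` -/
  kr : Fin 6 → Fin 6 → K
  kr_sign : ∀ i j, kr i j = 1 ∨ kr i j = -1
  kr_long : ∀ i, kr i (ti i) = 1
  kr_tau : ∀ i j, kr (ti j) (ti i) = kr i j
  /-- as in `SysE` -/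
  sg : Fin 6 → Fin 6 → S3 → K
  sg_sign : ∀ i j T, sg i j T = 1 ∨ sg i j T = -1
  sg_tw : ∀ i j T, i ≠ j → j ∈ T.1 → i ∉ T.1 → sg (ti j) (ti i) (tau T) = kg (mv i j T) * sg i j T * kr i j * kg T
  sg_comm : ∀ i j T, i ≠ j → j ≠ ti i → j ∈ T.1 → i ∉ T.1 → ti i ∈ T.1 → ti j ∉ T.1 →
    sg i j T * sg (ti j) (ti i) (mv i j T) = sg (ti j) (ti i) T * sg i j (mv (ti j) (ti i) T)
  /-- as in `SysE` -/
  eps : S3 → K
  eps_sign : ∀ T, eps T = 1 ∨ eps T = -1
  eps_tw : ∀ T, eps (tau T) * kg T * kg (compl3 T) = eps T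
  eps_compl : ∀ T, eps (compl3 T) = - eps T

variable {K : Type*} [Field K]

/-- Real vectors. -/
def Re (D : TwD K) (φ : K ≃+* K) (a : S3 → K) : Prop := ∀ T, a (tau T) = D.kg T * φ (a T)

/-- Allowed parameters of the root elements of `L`. -/
def Al (φ : K ≃+* K) (i j : Fin 6) (t : K) : Prop := j = ti i → φ t = t

/-- The action of `x (rt i j) t` on coordinates: `(x (rt i j) t)⁻¹ x(a) x (rt i j) t = x (actB .. a)`; dual to `actA`. -/
def actB (sg : Fin 6 → Fin 6 → S3 → K) (i j : Fin 6) (t : K) (a : S3 → K) : S3 → K :=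
  fun T => if i ∈ T.1 ∧ j ∉ T.1 then a T + sg i j (mv j i T) * t * a (mv j i T) else a T

open Classical in
/-- The action of `l i j t` on coordinates. -/
noncomputable def lactB (D : TwD K) (φ : K ≃+* K) (i j : Fin 6) (t : K) (a : S3 → K) : S3 → K :=
  if j = ti i then actB D.sg i j t a else actB D.sg (ti j) (ti i) (D.kr i j * φ t) (actB D.sg i j t a)

open Classical in
/-- The action of `l i j t` on weights. -/
noncomputable def lactA (D : TwD K) (φ : K ≃+* K) (i j : Fin 6) (t : K) (c : S3 → K) : S3 → K :=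
  if j = ti i then actA D.sg i j t c else actA D.sg i j t (actA D.sg (ti j) (ti i) (D.kr i j * φ t) c)

/-- The pairing: `k`-valued on real vectors. -/
def pr (c a : S3 → K) : K := ∑ T, c T * a T

/-- The commutator form. -/
def om (D : TwD K) (a b : S3 → K) : K := ∑ T, D.eps T * (a T * b (compl3 T))

/-- The relations of `²E₆(q)`, `k = F_q`, `K = F_{q²}`. -/
structure SysT (φ : K ≃+* K) {k : Type*} [Field k] (j : k →+* K) (Γ : Type*) [Group Γ] where
  D : TwD K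
  /-- the centre of `U` -/
  z : k → Γ
  z_add : ∀ a b, z (a + b) = z a * z b
  z_ne : ∀ u, u ≠ 0 → z u ≠ 1
  /-- the elements of `U`, for real vectors -/
  E : (S3 → K) → Γ
  E_zero : E 0 = 1
  E_add : ∀ a b, Re D φ a → Re D φ b → ∃ w, E (a + b) = E a * E b * z w
  /-- exact additivity on isotropic pairs (`E = Eh` is a product in a fixed order) -/
  E_add0 : ∀ a b, Re D φ a → Re D φ b → (∀ T, a T * b (compl3 T) = 0) → E (a + b) = E a * E b
  E_z : ∀ a u, Re D φ a → E a * z u = z u * E a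
  E_comm : ∀ a b, Re D φ a → Re D φ b → ∀ w, j w = om D a b → E a * E b = E b * E a * z w
  /-- root elements of `L` -/
  l : Fin 6 → Fin 6 → K → Γ
  l_z : ∀ a b t, a ≠ b → Al φ a b t → ∀ u, l a b t * z u = z u * l a b t
  l_E : ∀ a b t c, a ≠ b → Al φ a b t → Re D φ c → ∃ w, (l a b t)⁻¹ * E c * l a b t = E (lactB D φ a b t c) * z w
  /-- the torus of the long roots `rt a (ti a)` -/
  ht : Fin 6 → kˣ → Γ
  ht_E : ∀ a (s : kˣ) c, Re D φ c → ht a s * E c * (ht a s)⁻¹ =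
    E (fun T => c T * j ((s ^ pw a (ti a) T : kˣ) : k))
  ht_z : ∀ a (s : kˣ) u, ht a s * z u * (ht a s)⁻¹ = z u
  /-- `x 25` -/
  y25 : k → Γ
  y25_add : ∀ a b, y25 (a + b) = y25 a * y25 b
  /-- `h_β` -/
  hb : kˣ → Γ
  hb_mul : ∀ c c', hb (c * c') = hb c * hb c'
  hb_z : ∀ (c : kˣ) u, hb c * z u * (hb c)⁻¹ = z ((c : k) * u)
  ee : S3 → ℤ
  ee_β : ee β₀ = 2
  /-- `tau` preserves `⟨·, β^∨⟩`, so `h_β` preserves real vectors. -/
  ee_tau : ∀ T, ee (tau T) = ee T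
  hb_E : ∀ (c : kˣ) a, Re D φ a → hb c * E a * (hb c)⁻¹ = E (fun T => a T * j ((c ^ ee T : kˣ) : k))
  /-- `n_β(1)` -/
  nb : Γ
  nb_eq : ∀ c : kˣ, E (Pi.single β₀ (j c)) * y25 (-((c : k)⁻¹)) * E (Pi.single β₀ (j c)) = hb c * nb
  nb_hb : ∀ c, nb * hb c * nb⁻¹ = hb c⁻¹
  nb_25 : ∃ η : k, (η = 1 ∨ η = -1) ∧ ∀ u, nb * y25 u * nb⁻¹ = E (Pi.single β₀ (j (η * u)))
  /-- `n_β` conjugates the rest of `U` into `U L`. -/
  nb_LU : ∀ W : Subgroup Γ, (∀ u, z u ∈ W) → (∀ a, Re D φ a → E a ∈ W) → (∀ a b t, a ≠ b → Al φ a b t → l a b t ∈ W) →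
    (∀ u, nb⁻¹ * z u * nb ∈ W) ∧ ∀ a, Re D φ a → a β₀ = 0 → nb⁻¹ * E a * nb ∈ W
  /-- the long roots of `U` are conjugate to the centre -/
  lconj : ∀ T, tau T = T → ∃ g : Γ, ∃ η : k, (η = 1 ∨ η = -1) ∧ ∀ u, g * z u * g⁻¹ = E (Pi.single T (j (η * u)))
  /-- generation -/
  gen : ∀ W : Subgroup Γ, (∀ a b t, a ≠ b → Al φ a b t → l a b t ∈ W) → (∀ u, E (Pi.single β₀ (j u)) ∈ W) →
    (∀ u, y25 u ∈ W) → W = ⊤

/-- The homomorphism from `SU₆(q)` normalising `U`. -/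
structure SuT {φ : K ≃+* K} {k : Type*} [Field k] {j : k →+* K} {Γ : Type*} [Group Γ] (S : SysT φ j Γ) (q : ℕ) where
  su : ↥(Cfsg.SU 6 K q) →* Γ
  su_l : ∀ a b t, a ≠ b → Al φ a b t → ∃ g, su g = S.l a b t
  su_z : ∀ g u, su g * S.z u = S.z u * su g
  su_norm : ∀ g a, Re S.D φ a → ∃ a' w, Re S.D φ a' ∧ (su g)⁻¹ * S.E a * su g = S.E a' * S.z w

/-- What is used of the fields. -/
structure Frob (φ : K ≃+* K) {k : Type*} [Field k] (j : k →+* K) (q : ℕ) : Prop where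
  inv : ∀ t, φ (φ t) = t
  pow : ∀ t, φ t = t ^ q
  fix : ∀ t, φ t = t ↔ ∃ u, j u = t
  card_K : Nat.card K = q ^ 2
  card_k : Nat.card k = q

variable {φ : K ≃+* K} {k : Type*} [Field k] {j : k →+* K} {Γ : Type*} [Group Γ] {V : Type*} [AddCommGroup V] [Module ℂ V]

/-- The weight space of `c` in the fixed vectors of `z`. `ψ ∘ j` is a nontrivial character of `k`. -/
def Wt (S : SysT φ j Γ) (ρ : Representation ℂ Γ V) (ψ : AddChar K ℂ) (c : S3 → K) : Submodule ℂ V where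
  carrier := {v | (∀ u, ρ (S.z u) v = v) ∧ ∀ a, Re S.D φ a → ρ (S.E a) v = ψ (pr c a) • v}
  add_mem' := by
    rintro a b ⟨h1, h2⟩ ⟨h3, h4⟩
    refine ⟨fun u => ?_, fun e he => ?_⟩
    · rw [map_add, h1, h3]
    · rw [map_add, h2 e he, h4 e he, smul_add]
  zero_mem' := by
    refine ⟨fun u => ?_, fun e he => ?_⟩ <;> simp
  smul_mem' := by
    rintro c' v ⟨h1, h2⟩
    refine ⟨fun u => ?_, fun e he => ?_⟩
    · rw [map_smul, h1]
    · rw [map_smul, h2 e he, smul_comm]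

/-- The dimension of a weight space. -/
noncomputable def nf (S : SysT φ j Γ) (ρ : Representation ℂ Γ V) (ψ : AddChar K ℂ) (c : S3 → K) : ℕ :=
  finrank ℂ (Wt S ρ ψ c)

/-- The eigenspace of the character `l` of `z`. -/
def Wz (S : SysT φ j Γ) (ρ : Representation ℂ Γ V) (ψ : AddChar K ℂ) (l : k) : Submodule ℂ V where
  carrier := {v | ∀ u, ρ (S.z u) v = ψ (j (l * u)) • v}
  add_mem' := by
    intro a b ha hb u
    rw [map_add, ha u, hb u, smul_add]
  zero_mem' := by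
    intro u
    simp
  smul_mem' := by
    intro c v hv u
    rw [map_smul, hv u, smul_comm]

/-- Its dimension. -/
noncomputable def dz (S : SysT φ j Γ) (ρ : Representation ℂ Γ V) (ψ : AddChar K ℂ) (l : k) : ℕ :=
  finrank ℂ (Wz S ρ ψ l)

/-- No nonzero vector is fixed by the generators. -/
def NoFix (S : SysT φ j Γ) (ρ : Representation ℂ Γ V) : Prop :=
  ∀ v : V, (∀ a b t, a ≠ b → Al φ a b t → ρ (S.l a b t) v = v) → (∀ u, ρ (S.E (Pi.single β₀ (j u))) v = v) →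
    (∀ u, ρ (S.y25 u) v = v) → v = 0

/-- The number of isotropic `3`-spaces. -/
def gaussU (q : ℕ) : ℕ := (q + 1) * (q ^ 3 + 1) * (q ^ 5 + 1)

/-- The degree without the fixed vectors of `U`. -/
def k0 (q : ℕ) : ℕ := (q - 1) * q ^ 10 + (q - 1) * gaussU q

/-- The bound. -/
def BB (q : ℕ) : ℕ := q * (q ^ 6 - q ^ 3 + 1) * (q ^ 4 + 1)

/-- A multiple of the order of the group. -/
def NN (q : ℕ) : ℕ := q ^ 36 * ((q ^ 2 - 1) * (q ^ 5 + 1) * (q ^ 6 - 1) * (q ^ 8 - 1) * (q ^ 9 + 1) * (q ^ 12 - 1))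

end Cfsg.Agent.Lib.MinE6T
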