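import Cfsg.Agent.Lib.MinE6T.InvC
import Cfsg.Agent.Lib.MinE6T.Sys
import Cfsg.Agent.Lib.MinE6T.Gen
import Cfsg.Agent.Lib.MinE6T.InvA

/-! The weights in the fixed vectors of `z`: invariance, the first numerical relations. PLAN.md, `Inv`. -/

set_option autoImplicit false
set_option linter.unusedSectionVars false
set_option linter.unusedVariables false

namespace Cfsg.Agent.Lib.MinE6T

open Module
open Cfsg.Agent.Lib.MinE6
open scoped Classical

variable {K : Type*} [Field K] {φ : K ≃+* K} {k : Type*} [Field k] {j : k →+* K} {Γ : Type*} [Group Γ]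
  {V : Type*} [AddCommGroup V] [Module ℂ V] {q : ℕ}
variable {S : SysT φ j Γ} {ρ : Representation ℂ Γ V} {ψ : AddChar K ℂ}

/-- The invariance of a weight function on real vectors. -/
structure InvT (D : TwD K) (φ : K ≃+* K) (j : k →+* K) (n : (S3 → K) → ℕ) : Prop where
  A : ∀ a b, a ≠ b → ∀ t, Al φ a b t → ∀ c, Re D φ c → n c = n (lactA D φ a b t c)
  torus : ∀ a (s : kˣ) c, Re D φ c → n c = n (fun T => c T * j ((s ^ pw a (ti a) T : kˣ) : k))

/-- `lactA` preserves real vectors (by `sg_tw`, `kr_tau`, `kg_tau`; `tau (mv i j T) = mv (ti j) (ti i) (tau T)`; checks on `Fin 6` by `decide`). -/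
theorem lactA_re (hF : Frob φ j q) {D : TwD K} {a b : Fin 6} (hab : a ≠ b) {t : K} (ht : Al φ a b t) {c : S3 → K} (hc : Re D φ c) :
    Re D φ (lactA D φ a b t c) := InvA.lactA_re hF.inv hab ht hc

/-- `lactB` preserves real vectors. -/
theorem lactB_re (hF : Frob φ j q) {D : TwD K} {a b : Fin 6} (hab : a ≠ b) {t : K} (ht : Al φ a b t) {c : S3 → K} (hc : Re D φ c) :
    Re D φ (lactB D φ a b t c) := InvA.lactB_re hF.inv hab ht hc

/-- `lactA` is invertible (by `sg_comm` the two factors commute, and `actA i j (-t) (actA i j t c) = c`). -/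
theorem lactA_neg (hF : Frob φ j q) {D : TwD K} {a b : Fin 6} (hab : a ≠ b) (t : K) (c : S3 → K) :
    lactA D φ a b (-t) (lactA D φ a b t c) = c := InvA.lactA_neg D φ hab t c

/-- Duality. `∑ c T * actB a T = ∑ actA c T * a T` (reindex by `mv`). -/
theorem pr_lact (D : TwD K) (φ : K ≃+* K) (a b : Fin 6) (hab : a ≠ b) (t : K) (c e : S3 → K) :
    pr (lactA D φ a b t c) e = pr c (lactB D φ a b t e) := InvA.pr_lact D φ a b t c e

/-- `ρ (l a b t)` maps `Wt c` to `Wt (lactA c)` (`l_E`, `l_z`, `pr_lact`); `ρ (ht a s)⁻¹` scales. -/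
theorem inv_nf [FiniteDimensional ℂ V] (hF : Frob φ j q) : InvT S.D φ j (nf S ρ ψ) := ⟨fun a b hab t ht c _ => InvA.inv_A hF.inv hab ht c,
    fun a s c _ => InvA.inv_ht (fun u => (hF.fix _).2 ⟨u, rfl⟩) a s c⟩

section Dim

variable [Fintype K] [Fintype k] [FiniteDimensional ℂ V]

/-- `dim V = (q - 1) d + ∑ nf c`, `d = dz 1`. PLAN.md, (i), (ii). -/
theorem k_eq (hF : Frob φ j q) (hψ : ψ (j 1) ≠ 1) :
    finrank ℂ V = (q - 1) * dz S ρ ψ 1 + ∑ c : S3 → K, (if Re S.D φ c then nf S ρ ψ c else 0) :=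
  Gen.k_eq hF hψ

/-- `q¹⁰ ∣ d` and the relation `E0`. PLAN.md, (iii), (iv). -/
theorem exists_m (hF : Frob φ j q) (hψ : ψ (j 1) ≠ 1) :
    ∃ m, dz S ρ ψ 1 = q ^ 10 * m ∧ ∀ T : S3, tau T = T →
      ∑ c : S3 → K, (if Re S.D φ c ∧ c T ≠ 0 then nf S ρ ψ c else 0) = (q - 1) * q ^ 9 * m :=
  InvC.exists_m_aux hF hψ

/-- `z` acts nontrivially (`hz`, obtained in `Top` from the simplicity of the group): if `dz 1 = 0` then `dz l = 0` for all `l ≠ 0` (`hb_z`), so `V = Wz 0`, contradiction. -/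
theorem d_pos (hF : Frob φ j q) (hψ : ψ (j 1) ≠ 1) (hz : ∃ u, ρ (S.z u) ≠ 1) : 0 < dz S ρ ψ 1 :=
  Gen.d_pos hψ hz

end Dim

end Cfsg.Agent.Lib.MinE6T
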