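import Cfsg.Agent.Lib.MinE6T.Sys
import Cfsg.Agent.Lib.WtSpace.Basic

/-! `exists_m`: PLAN.md, `Inv` (iii), (iv). -/

set_option autoImplicit false
set_option linter.unusedSectionVars false
set_option linter.unusedVariables false

namespace Cfsg.Agent.Lib.MinE6T

namespace InvC

open Module
open Cfsg.Agent.Lib.MinE6
open Cfsg.Agent.Lib.WtSpace.Basic (Pairing finrank_eq_sum mem_range_ee ee finrank_le_of_map)
open scoped Classical

section Gen

variable {A X V : Type*} [AddCommGroup A] [Fintype A] [Fintype X] [AddCommGroup V] [Module ℂ V] [FiniteDimensional ℂ V]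

/-- The eigenspace. -/
def Eg (f : A → V →ₗ[ℂ] V) (p : X → A → ℂ) (x : X) : Submodule ℂ V where
  carrier := {v | ∀ a, f a v = p x a • v}
  add_mem' := by
    intro u v hu hv a
    rw [map_add, hu a, hv a, smul_add]
  zero_mem' := by
    intro a
    simp
  smul_mem' := by
    intro c v hv a
    rw [map_smul, hv a, smul_comm]

theorem mem_Eg {f : A → V →ₗ[ℂ] V} {p : X → A → ℂ} {x : X} {v : V} : v ∈ Eg f p x ↔ ∀ a, f a v = p x a • v := Iff.rfl

theorem finrank_decomp {p : X → A → ℂ} (hp : Pairing p) (W : Submodule ℂ V) (f : A → V →ₗ[ℂ] V)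
    (hst : ∀ a, ∀ v ∈ W, f a v ∈ W) (hadd : ∀ a b, ∀ v ∈ W, f (a + b) v = f a (f b v)) (h0 : ∀ v ∈ W, f 0 v = v) :
    finrank ℂ W = ∑ x, finrank ℂ ↥(W ⊓ Eg f p x) := by
  let τ : A → Module.End ℂ W := fun a => LinearMap.restrict (f a) (hst a)
  have hτ : ∀ a b, τ (a + b) = τ a * τ b := by
    intro a b
    ext v
    simp [τ, hadd a b v.1 v.2]
  have hτ0 : τ 0 = 1 := by
    ext v
    simp [τ, h0 v.1 v.2]
  rw [finrank_eq_sum hp hτ hτ0]
  refine Finset.sum_congr rfl fun x _ => ?_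
  have hmap : (LinearMap.range (ee p τ x)).map W.subtype = W ⊓ Eg f p x := by
    ext v
    constructor
    · rintro ⟨w, hw, rfl⟩
      have hw' := (mem_range_ee hp hτ hτ0).1 hw
      refine Submodule.mem_inf.2 ⟨w.2, fun a => ?_⟩
      have := congrArg Subtype.val (hw' a)
      simpa [τ] using this
    · intro hv0
      obtain ⟨hvW, hv⟩ := Submodule.mem_inf.1 hv0
      refine ⟨⟨v, hvW⟩, ?_, rfl⟩
      refine (mem_range_ee hp hτ hτ0).2 fun a => ?_
      apply Subtype.ext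
      have := hv a
      simpa [τ] using this
  rw [← hmap]
  exact (Submodule.equivMapOfInjective W.subtype W.injective_subtype _).finrank_eq

theorem finrank_shift {Γ : Type*} [Group Γ] (ρ : Representation ℂ Γ V) [AddCommGroup X] {p : X → A → ℂ} (hp : Pairing p)
    (W : Submodule ℂ V) (f : A → V →ₗ[ℂ] V)
    (hst : ∀ a, ∀ v ∈ W, f a v ∈ W) (hadd : ∀ a b, ∀ v ∈ W, f (a + b) v = f a (f b v)) (h0 : ∀ v ∈ W, f 0 v = v)
    (g : X → Γ) (hg : ∀ x, ∀ v ∈ W, ρ (g x) v ∈ W) (hg' : ∀ x, ∀ v ∈ W, ρ (g x)⁻¹ v ∈ W)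
    (hpa : ∀ x x' a, p (x + x') a = p x a * p x' a)
    (hc : ∀ x a, ∀ v ∈ W, f a (ρ (g x) v) = p x a • ρ (g x) (f a v)) :
    finrank ℂ W = Fintype.card X * finrank ℂ ↥(W ⊓ Eg f p 0) := by
  have h00 : ∀ a, p 0 a = 1 := by
    intro a
    have h1 := hpa 0 0 a
    rw [add_zero] at h1
    have h2 := hp.ne_zero 0 a
    exact (mul_left_cancel₀ h2 (by rw [mul_one]; exact h1)).symm
  have hinv : ∀ (h : Γ) (v : V), ρ h (ρ h⁻¹ v) = v := by
    intro h v
    rw [← Module.End.mul_apply, ← map_mul, mul_inv_cancel, map_one, Module.End.one_apply]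
  have hinv' : ∀ (h : Γ) (v : V), ρ h⁻¹ (ρ h v) = v := by
    intro h v
    rw [← Module.End.mul_apply, ← map_mul, inv_mul_cancel, map_one, Module.End.one_apply]
  have hinj : ∀ h : Γ, Function.Injective (ρ h : V →ₗ[ℂ] V) := by
    intro h a b hab
    rw [← hinv' h a, hab, hinv']
  have heq : ∀ x, finrank ℂ ↥(W ⊓ Eg f p x) = finrank ℂ ↥(W ⊓ Eg f p 0) := by
    intro x
    apply le_antisymm
    · refine finrank_le_of_map (hinj (g x)⁻¹) fun v hv => ?_
      obtain ⟨hv1, hv2⟩ := Submodule.mem_inf.1 hv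
      refine Submodule.mem_inf.2 ⟨hg' x v hv1, fun a => ?_⟩
      have e2 := hc x a _ (hg' x v hv1)
      rw [hinv, hv2 a] at e2
      have e3 : v = ρ (g x) (f a (ρ (g x)⁻¹ v)) := smul_right_injective _ (hp.ne_zero x a) e2
      rw [h00, one_smul]
      conv_rhs => rw [e3, hinv']
    · refine finrank_le_of_map (hinj (g x)) fun v hv => ?_
      obtain ⟨hv1, hv2⟩ := Submodule.mem_inf.1 hv
      refine Submodule.mem_inf.2 ⟨hg x v hv1, fun a => ?_⟩
      rw [hc x a v hv1, hv2 a, h00, one_smul]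
  rw [finrank_decomp hp W f hst hadd h0, Finset.sum_congr rfl (fun x _ => heq x), Finset.sum_const, Finset.card_univ, smul_eq_mul]

/-- A multiplicative function which is not one has sum zero. -/
lemma sum_char_zero {Y : Type*} [AddCommGroup Y] [Fintype Y] (f : Y → ℂ) (hadd : ∀ x y, f (x + y) = f x * f y) {x₀ : Y}
    (hx : f x₀ ≠ 1) : ∑ x, f x = 0 := by
  have h := Equiv.sum_comp (Equiv.addLeft x₀) f
  simp only [Equiv.coe_addLeft, hadd] at h
  rw [← Finset.mul_sum] at h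
  have h2 : (f x₀ - 1) * ∑ x, f x = 0 := by linear_combination h
  exact (mul_eq_zero.mp h2).resolve_left (sub_ne_zero.mpr hx)

end Gen

/-! ### Combinatorics of `tau` -/

set_option maxRecDepth 100000 in
theorem tau_tau : ∀ T : S3, tau (tau T) = T := by decide

set_option maxRecDepth 100000 in
theorem tau_compl : ∀ T : S3, tau (compl3 T) = compl3 (tau T) := by decide

set_option maxRecDepth 100000 in
theorem compl_compl : ∀ T : S3, compl3 (compl3 T) = T := by decide

/-- The Lagrangian. -/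
def lagL : Finset S3 := {⟨{0, 1, 2}, by decide⟩, ⟨{0, 1, 3}, by decide⟩, ⟨{0, 2, 4}, by decide⟩, ⟨{0, 3, 4}, by decide⟩,
  ⟨{0, 1, 4}, by decide⟩, ⟨{0, 2, 3}, by decide⟩, ⟨{0, 1, 5}, by decide⟩, ⟨{1, 2, 3}, by decide⟩, ⟨{0, 2, 5}, by decide⟩, ⟨{1, 2, 4}, by decide⟩}

set_option maxRecDepth 100000 in
theorem lag_compl : ∀ T : S3, T ∈ lagL → compl3 T ∉ lagL := by decide

set_option maxRecDepth 100000 in
theorem lag_tau : ∀ T : S3, T ∈ lagL → tau T ∈ lagL := by decide

set_option maxRecDepth 100000 in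
theorem compl_ne : ∀ T : S3, compl3 T ≠ T := by decide


section Real

variable {K : Type*} [Field K] {φ : K ≃+* K} {k : Type*} [Field k] {j : k →+* K} {q : ℕ} {D : TwD K}

lemma phi_sign {e : K} (h : e = 1 ∨ e = -1) : φ e = e := by
  rcases h with rfl | rfl <;> simp

lemma sq_sign {e : K} (h : e = 1 ∨ e = -1) : e * e = 1 := by
  rcases h with rfl | rfl <;> ring

lemma phi_phi_of (hF : Frob φ j q) (t : K) : φ (φ t) = t := hF.inv t

/-- Real vectors supported on `L`. -/
def RvS (D : TwD K) (φ : K ≃+* K) (L : Finset S3) : AddSubgroup (S3 → K) where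
  carrier := {a | Re D φ a ∧ ∀ T, T ∉ L → a T = 0}
  add_mem' := by
    rintro a b ⟨h1, h2⟩ ⟨h3, h4⟩
    refine ⟨fun T => ?_, fun T hT => ?_⟩
    · simp only [Pi.add_apply]
      rw [h1 T, h3 T, map_add]
      ring
    · simp [h2 T hT, h4 T hT]
  zero_mem' := ⟨fun T => by simp, fun T _ => rfl⟩
  neg_mem' := by
    rintro a ⟨h1, h2⟩
    refine ⟨fun T => ?_, fun T hT => ?_⟩
    · simp only [Pi.neg_apply]
      rw [h1 T, map_neg]
      ring
    · simp [h2 T hT]

lemma mem_RvS {L : Finset S3} {a : S3 → K} : a ∈ RvS D φ L ↔ Re D φ a ∧ ∀ T, T ∉ L → a T = 0 := Iff.rfl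

/-- The vector with coordinate `t` on the orbit of `T`. -/
def orb (D : TwD K) (φ : K ≃+* K) (T : S3) (t : K) : S3 → K :=
  fun X => if X = T then t else if X = tau T then D.kg T * φ t else 0

lemma orb_self (T : S3) (t : K) : orb D φ T t T = t := by
  simp [orb]

lemma orb_tau {T : S3} {t : K} (ht : tau T = T → φ t = t) : orb D φ T t (tau T) = D.kg T * φ t := by
  unfold orb
  by_cases h : tau T = T
  · rw [if_pos h, ht h, D.kg_fix T h, one_mul]
  · rw [if_neg h, if_pos rfl]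

lemma orb_other {T X : S3} {t : K} (h1 : X ≠ T) (h2 : X ≠ tau T) : orb D φ T t X = 0 := by
  unfold orb
  rw [if_neg h1, if_neg h2]

lemma tau_inj {X Y : S3} (h : tau X = tau Y) : X = Y := by
  rw [← tau_tau X, h, tau_tau]

lemma re_orb (hF : Frob φ j q) {T : S3} {t : K} (ht : tau T = T → φ t = t) : Re D φ (orb D φ T t) := by
  intro X
  by_cases h1 : X = T
  · subst h1
    rw [orb_tau ht, orb_self]
  by_cases h2 : X = tau T
  · subst h2
    by_cases h3 : tau T = T
    · exact absurd h3 h1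
    rw [tau_tau, orb_self, orb_tau ht, map_mul, phi_sign (D.kg_sign T), hF.inv, D.kg_tau, ← mul_assoc, sq_sign (D.kg_sign T), one_mul]
  have h3 : tau X ≠ T := by
    intro h
    apply h2
    rw [← h, tau_tau]
  have h4 : tau X ≠ tau T := fun h => h1 (tau_inj h)
  rw [orb_other h3 h4, orb_other h1 h2, map_zero, mul_zero]

lemma orb_mem (hF : Frob φ j q) {T : S3} {t : K} (ht : tau T = T → φ t = t) {L : Finset S3} (h1 : T ∈ L) (h2 : tau T ∈ L) :
    orb D φ T t ∈ RvS D φ L := by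
  refine ⟨re_orb hF ht, fun X hX => orb_other ?_ ?_⟩
  · rintro rfl
    exact hX h1
  · rintro rfl
    exact hX h2

lemma orb_fix {T : S3} {t : K} (h : tau T = T) : orb D φ T t = Pi.single T t := by
  funext X
  unfold orb
  by_cases h1 : X = T
  · subst h1
    simp
  · rw [if_neg h1, h, if_neg h1, Pi.single_eq_of_ne h1]

lemma orb_nonfix {T : S3} {t : K} (h : tau T ≠ T) : orb D φ T t = Pi.single T t + Pi.single (tau T) (D.kg T * φ t) := by
  funext X
  unfold orb
  simp only [Pi.add_apply]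
  by_cases h1 : X = T
  · subst h1
    simp [Pi.single_eq_of_ne (Ne.symm h)]
  · by_cases h2 : X = tau T
    · subst h2
      simp [h1, Pi.single_eq_of_ne h]
    · simp [h1, h2, Pi.single_eq_of_ne h1, Pi.single_eq_of_ne h2]

section pr

variable [Fintype K]

end pr

lemma pr_add_left (c c' a : S3 → K) : pr (c + c') a = pr c a + pr c' a := by
  unfold pr
  rw [← Finset.sum_add_distrib]
  exact Finset.sum_congr rfl fun T _ => by simp [add_mul]

lemma pr_add_right (c a a' : S3 → K) : pr c (a + a') = pr c a + pr c a' := by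
  unfold pr
  rw [← Finset.sum_add_distrib]
  exact Finset.sum_congr rfl fun T _ => by simp [mul_add]

lemma pr_zero_right (c : S3 → K) : pr c 0 = 0 := by
  simp [pr]

lemma pr_comm (c a : S3 → K) : pr c a = pr a c := by
  unfold pr
  exact Finset.sum_congr rfl fun T _ => mul_comm _ _

lemma pr_single (T : S3) (t : K) (a : S3 → K) : pr (Pi.single T t) a = t * a T := by
  unfold pr
  rw [Finset.sum_eq_single T]
  · simp
  · intro X _ hX
    rw [Pi.single_eq_of_ne hX, zero_mul]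
  · simp

lemma pr_real (a b : S3 → K) (ha : Re D φ a) (hb : Re D φ b) (hF : Frob φ j q) : φ (pr a b) = pr a b := by
  unfold pr
  rw [map_sum]
  have h := Equiv.sum_comp (Function.Involutive.toPerm tau tau_tau) (fun T => a T * b T)
  change ∑ i, a (tau i) * b (tau i) = _ at h
  rw [← h]
  refine Finset.sum_congr rfl fun T _ => ?_
  rw [ha T, hb T, map_mul]
  have e := sq_sign (D.kg_sign T)
  linear_combination (-(φ (a T) * φ (b T))) * e

/-- The partner vector. -/
def e1 (D : TwD K) (a : S3 → K) : S3 → K := fun X => D.eps (compl3 X) * a (compl3 X)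

lemma re_e1 {a : S3 → K} (ha : Re D φ a) : Re D φ (e1 D a) := by
  intro X
  unfold e1
  rw [← tau_compl, ha (compl3 X), map_mul, phi_sign (D.eps_sign _)]
  have e := D.eps_tw (compl3 X)
  rw [compl_compl] at e
  have e2 := sq_sign (D.kg_sign X)
  linear_combination (φ (a (compl3 X))) * (D.kg X * e + (- D.eps (tau (compl3 X)) * D.kg (compl3 X)) * e2)

lemma om_e1 (a b : S3 → K) : om D a (e1 D b) = pr a b := by
  unfold om pr e1
  refine Finset.sum_congr rfl fun T _ => ?_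
  rw [compl_compl]
  have e := sq_sign (D.eps_sign T)
  linear_combination (a T * b T) * e

lemma om_eq (a b : S3 → K) : om D a b = - pr a (e1 D b) := by
  unfold om pr e1
  rw [← Finset.sum_neg_distrib]
  refine Finset.sum_congr rfl fun T _ => ?_
  rw [D.eps_compl]
  ring

lemma om_real (hF : Frob φ j q) {a b : S3 → K} (ha : Re D φ a) (hb : Re D φ b) : φ (om D a b) = om D a b := by
  rw [om_eq, map_neg, pr_real a _ ha (re_e1 hb) hF]

lemma exists_of_real (hF : Frob φ j q) {t : K} (ht : φ t = t) : ∃ w, j w = t := (hF.fix t).1 ht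

variable [Fintype K]

/-- The trace is onto. -/
lemma exists_tr (hF : Frob φ j q) : ∃ s : K, s + φ s = 1 := by
  have hex : ∃ s : K, s + φ s ≠ 0 := by
    by_contra h
    push Not at h
    have h1 : (1 : K) + 1 = 0 := by simpa using h 1
    have hfix : ∀ s : K, φ s = s := fun s => by
      have h2 := h s
      have h3 : s + s = 0 := by
        have := congrArg (· * s) h1
        simpa [add_mul] using this
      exact add_left_cancel (h2.trans h3.symm)
    have hbij : Function.Bijective j := ⟨j.injective, fun s => (hF.fix s).1 (hfix s)⟩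
    have hc := Nat.card_congr (Equiv.ofBijective j hbij)
    rw [hF.card_K, hF.card_k] at hc
    have h2 : 1 < Nat.card K := Finite.one_lt_card
    rw [hF.card_K] at h2
    rcases Nat.lt_or_ge q 2 with h3 | h3
    · interval_cases q <;> omega
    · nlinarith
  obtain ⟨s, hs⟩ := hex
  refine ⟨s * (s + φ s)⁻¹, ?_⟩
  rw [map_mul, map_inv₀, map_add, hF.inv, add_comm (φ s) s, ← add_mul, mul_inv_cancel₀ hs]

variable {ψ : AddChar K ℂ}

/-- The pairing on the real vectors supported on `L`. -/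
theorem pairing_rv (hF : Frob φ j q) (hψ : ψ (j 1) ≠ 1) {L : Finset S3} (hL : ∀ T, T ∈ L → tau T ∈ L) :
    Pairing (fun (c a : ↥(RvS D φ L)) => ψ (pr c.1 a.1)) := by
  refine ⟨fun x a b => ?_, fun x => ?_, fun a ha => ?_, rfl⟩
  · show ψ (pr x.1 (a.1 + b.1)) = _
    rw [pr_add_right, AddChar.map_add_eq_mul]
  · show ψ (pr x.1 0) = 1
    rw [pr_zero_right, AddChar.map_zero_eq_one]
  · have hne : ∃ T, a.1 T ≠ 0 := by
      by_contra h
      push Not at h
      exact ha (Subtype.ext (funext h))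
    obtain ⟨T, hT⟩ := hne
    have hTL : T ∈ L := by
      by_contra h
      exact hT (a.2.2 T h)
    have hx : ∃ x₀ : ↥(RvS D φ L), pr x₀.1 a.1 = 1 := by
      by_cases hfix : tau T = T
      · have hreal : φ (a.1 T) = a.1 T := by
          have := a.2.1 T
          rw [hfix, D.kg_fix T hfix, one_mul] at this
          exact this.symm
        refine ⟨⟨orb D φ T (a.1 T)⁻¹, orb_mem hF (fun _ => by rw [map_inv₀, hreal]) hTL (hL T hTL)⟩, ?_⟩
        show pr (orb D φ T (a.1 T)⁻¹) a.1 = 1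
        rw [orb_fix hfix, pr_single, inv_mul_cancel₀ hT]
      · obtain ⟨s, hs⟩ := exists_tr hF
        refine ⟨⟨orb D φ T (s * (a.1 T)⁻¹), orb_mem hF (fun h => absurd h hfix) hTL (hL T hTL)⟩, ?_⟩
        show pr (orb D φ T (s * (a.1 T)⁻¹)) a.1 = 1
        rw [orb_nonfix hfix, pr_add_left, pr_single, pr_single, a.2.1 T, map_mul, map_inv₀]
        have e := sq_sign (D.kg_sign T)
        have hT' : φ (a.1 T) ≠ 0 := (map_ne_zero φ).2 hT
        field_simp
        linear_combination (φ s) * e + hs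
    obtain ⟨x₀, hx₀⟩ := hx
    refine sum_char_zero (fun x : ↥(RvS D φ L) => ψ (pr x.1 a.1)) (fun x y => ?_) (x₀ := x₀) ?_
    · show ψ (pr (x.1 + y.1) a.1) = _
      rw [pr_add_left, AddChar.map_add_eq_mul]
    · show ψ (pr x₀.1 a.1) ≠ 1
      rw [hx₀]
      simpa using hψ

end Real


section Count

variable {K : Type*} [Field K] [Fintype K] {φ : K ≃+* K} {k : Type*} [Field k] {j : k →+* K} {q : ℕ} {D : TwD K}

/-- The parameters of an orbit. -/
abbrev Qp (φ : K ≃+* K) (T : S3) := {t : K // tau T = T → φ t = t}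

/-- One more orbit. -/
def stepL (T : S3) (L : Finset S3) : Finset S3 := insert T (insert (tau T) L)

lemma step_q {T : S3} {a : S3 → K} (ha : Re D φ a) (h : tau T = T) : φ (a T) = a T := by
  have := ha T
  rw [h, D.kg_fix T h, one_mul] at this
  exact this.symm

lemma step_sub (hF : Frob φ j q) {L : Finset S3} {T : S3} {a : S3 → K} (ha : a ∈ RvS D φ (stepL T L)) :
    a - orb D φ T (a T) ∈ RvS D φ L := by
  have h1 : orb D φ T (a T) ∈ RvS D φ (stepL T L) :=
    orb_mem hF (fun h => step_q ha.1 h) (Finset.mem_insert_self _ _) (Finset.mem_insert_of_mem (Finset.mem_insert_self _ _))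
  have h2 := (RvS D φ (stepL T L)).sub_mem ha h1
  refine ⟨h2.1, fun X hX => ?_⟩
  simp only [Pi.sub_apply]
  by_cases h3 : X = T
  · subst h3
    rw [orb_self, sub_self]
  by_cases h4 : X = tau T
  · subst h4
    rw [orb_tau (fun h => step_q ha.1 h), ha.1 T, sub_self]
  rw [orb_other h3 h4, sub_zero]
  apply ha.2
  simp [stepL, h3, h4, hX]

lemma step_add (hF : Frob φ j q) {L : Finset S3} {T : S3} {t : K} (ht : tau T = T → φ t = t) {b : S3 → K} (hb : b ∈ RvS D φ L) :
    orb D φ T t + b ∈ RvS D φ (stepL T L) := by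
  have h1 : orb D φ T t ∈ RvS D φ (stepL T L) :=
    orb_mem hF ht (Finset.mem_insert_self _ _) (Finset.mem_insert_of_mem (Finset.mem_insert_self _ _))
  refine (RvS D φ (stepL T L)).add_mem h1 ⟨hb.1, fun X hX => hb.2 X fun h => hX ?_⟩
  exact Finset.mem_insert_of_mem (Finset.mem_insert_of_mem h)

/-- One step. -/
noncomputable def stepEquiv (hF : Frob φ j q) {L : Finset S3} {T : S3} (h1 : T ∉ L) :
    ↥(RvS D φ (stepL T L)) ≃ Qp φ T × ↥(RvS D φ L) where
  toFun a := (⟨a.1 T, fun h => step_q a.2.1 h⟩, ⟨a.1 - orb D φ T (a.1 T), step_sub hF a.2⟩)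
  invFun x := ⟨orb D φ T x.1.1 + x.2.1, step_add hF x.1.2 x.2.2⟩
  left_inv a := Subtype.ext (by simp)
  right_inv x := by
    have e : (orb D φ T x.1.1 + x.2.1) T = x.1.1 := by
      simp only [Pi.add_apply]
      rw [orb_self, x.2.2.2 T h1, add_zero]
    refine Prod.ext (Subtype.ext e) (Subtype.ext ?_)
    simp only [e]
    simp

theorem card_step (hF : Frob φ j q) {L : Finset S3} {T : S3} (h1 : T ∉ L) :
    Fintype.card ↥(RvS D φ (stepL T L)) = Fintype.card (Qp φ T) * Fintype.card ↥(RvS D φ L) := by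
  rw [Fintype.card_congr (stepEquiv hF h1), Fintype.card_prod]

theorem card_Qp_fix (hF : Frob φ j q) {T : S3} (h : tau T = T) : Fintype.card (Qp φ T) = q := by
  rw [← Nat.card_eq_fintype_card, ← hF.card_k]
  refine Nat.card_congr (Equiv.ofBijective (fun u : k => (⟨j u, fun _ => (hF.fix _).2 ⟨u, rfl⟩⟩ : Qp φ T)) ?_).symm
  constructor
  · intro a b hab
    exact j.injective (congrArg Subtype.val hab)
  · intro t
    obtain ⟨u, hu⟩ := (hF.fix t.1).1 (t.2 h)
    exact ⟨u, Subtype.ext hu⟩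

theorem card_Qp_non (hF : Frob φ j q) {T : S3} (h : tau T ≠ T) : Fintype.card (Qp φ T) = q ^ 2 := by
  rw [← Nat.card_eq_fintype_card, ← hF.card_K]
  exact Nat.card_congr (Equiv.subtypeUnivEquiv fun t h' => absurd h' h)

theorem card_empty : Fintype.card ↥(RvS D φ ∅) = 1 :=
  Fintype.card_eq_one_iff.mpr ⟨0, fun a => Subtype.ext (funext fun X => a.2.2 X (by simp))⟩

/-- Some elements. -/
def t012 : S3 := ⟨{0, 1, 2}, by decide⟩
def t013 : S3 := ⟨{0, 1, 3}, by decide⟩
def t024 : S3 := ⟨{0, 2, 4}, by decide⟩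
def t034 : S3 := ⟨{0, 3, 4}, by decide⟩
def t014 : S3 := ⟨{0, 1, 4}, by decide⟩
def t015 : S3 := ⟨{0, 1, 5}, by decide⟩
def t025 : S3 := ⟨{0, 2, 5}, by decide⟩

set_option maxRecDepth 100000 in
theorem lag_eq : lagL = stepL t012 (stepL t013 (stepL t024 (stepL t034 (stepL t014 (stepL t015 (stepL t025 ∅)))))) := by decide

set_option maxRecDepth 100000 in
theorem card_lag (hF : Frob φ j q) : Fintype.card ↥(RvS D φ lagL) = q ^ 10 := by
  rw [lag_eq, card_step hF (by decide), card_step hF (by decide), card_step hF (by decide), card_step hF (by decide),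
    card_step hF (by decide), card_step hF (by decide), card_step hF (by decide), card_empty,
    card_Qp_fix hF (by decide : tau t012 = t012), card_Qp_fix hF (by decide : tau t013 = t013),
    card_Qp_fix hF (by decide : tau t024 = t024), card_Qp_fix hF (by decide : tau t034 = t034),
    card_Qp_non hF (by decide : tau t014 ≠ t014), card_Qp_non hF (by decide : tau t015 ≠ t015),
    card_Qp_non hF (by decide : tau t025 ≠ t025)]
  ring

lemma lag_iso {a b : S3 → K} (ha : a ∈ RvS D φ lagL) (hb : b ∈ RvS D φ lagL) (T : S3) : a T * b (compl3 T) = 0 := by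
  by_cases h : T ∈ lagL
  · rw [hb.2 _ (lag_compl T h), mul_zero]
  · rw [ha.2 T h, zero_mul]

end Count

section Main

variable {K : Type*} [Field K] [Fintype K] {φ : K ≃+* K} {k : Type*} [Field k] [Fintype k] {j : k →+* K} {Γ : Type*} [Group Γ]
  {V : Type*} [AddCommGroup V] [Module ℂ V] [FiniteDimensional ℂ V] {q : ℕ}
variable {S : SysT φ j Γ} {ρ : Representation ℂ Γ V} {ψ : AddChar K ℂ}

lemma act (a b : Γ) (v : V) : ρ a (ρ b v) = ρ (a * b) v := by rw [map_mul, Module.End.mul_apply]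

lemma rho_inj (h : Γ) : Function.Injective (ρ h : V →ₗ[ℂ] V) := by
  intro a b hab
  have h3 := congrArg (ρ h⁻¹ : V →ₗ[ℂ] V) hab
  rw [← Module.End.mul_apply, ← Module.End.mul_apply, ← map_mul] at h3
  simpa using h3

lemma z_zero : S.z 0 = 1 := by
  have := S.z_add 0 0
  rw [add_zero] at this
  exact left_eq_mul.mp this

lemma E_mem_Wz {a : S3 → K} (ha : Re S.D φ a) {l : k} {v : V} (hv : v ∈ Wz S ρ ψ l) : ρ (S.E a) v ∈ Wz S ρ ψ l := by
  intro u
  rw [act, ← S.E_z a u ha, ← act, hv u, map_smul]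

lemma Einv_mem_Wz {a : S3 → K} (ha : Re S.D φ a) {l : k} {v : V} (hv : v ∈ Wz S ρ ψ l) : ρ (S.E a)⁻¹ v ∈ Wz S ρ ψ l := by
  intro u
  have e : S.z u * (S.E a)⁻¹ = (S.E a)⁻¹ * S.z u :=
    (show Commute (S.z u) (S.E a) from (S.E_z a u ha).symm).inv_right
  rw [act, e, ← act, hv u, map_smul]

lemma Wz0_fix {v : V} (hv : v ∈ Wz S ρ ψ (0 : k)) (u : k) : ρ (S.z u) v = v := by
  have := hv u
  simpa using this

/-- `h_β` permutes the nontrivial characters of `z`. -/
lemma dz_eq' {l : k} (hl : l ≠ 0) : dz S ρ ψ l = dz S ρ ψ 1 := by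
  let c : kˣ := Units.mk0 l hl
  have hc : (c : k) = l := rfl
  apply le_antisymm
  · refine finrank_le_of_map (g := (ρ (S.hb c) : V →ₗ[ℂ] V)) (rho_inj _) fun v hv u => ?_
    have e : S.z u * S.hb c = S.hb c * S.z (l⁻¹ * u) := by
      have := S.hb_z c (l⁻¹ * u)
      rw [hc, ← mul_assoc, mul_inv_cancel₀ hl, one_mul] at this
      rw [← this]
      group
    rw [act, e, ← act, hv (l⁻¹ * u), map_smul, ← mul_assoc, mul_inv_cancel₀ hl]
  · refine finrank_le_of_map (g := (ρ (S.hb c)⁻¹ : V →ₗ[ℂ] V)) (rho_inj _) fun v hv u => ?_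
    have e : S.z u * (S.hb c)⁻¹ = (S.hb c)⁻¹ * S.z (l * u) := by
      have := S.hb_z c u
      rw [hc] at this
      rw [← this]
      group
    rw [act, e, ← act, hv (l * u), map_smul, one_mul]

/-- `(iii)`. -/
theorem dz_one (hF : Frob φ j q) (hψ : ψ (j 1) ≠ 1) : ∃ m, dz S ρ ψ 1 = q ^ 10 * m := by
  have hp := pairing_rv (D := S.D) hF hψ (L := lagL) lag_tau
  let f : ↥(RvS S.D φ lagL) → V →ₗ[ℂ] V := fun a => ρ (S.E a.1)
  have h := finrank_shift (X := ↥(RvS S.D φ lagL)) ρ hp (Wz S ρ ψ 1) f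
    (fun a v hv => E_mem_Wz a.2.1 hv)
    (fun a b v hv => by
      show ρ (S.E (a.1 + b.1)) v = ρ (S.E a.1) (ρ (S.E b.1) v)
      rw [S.E_add0 a.1 b.1 a.2.1 b.2.1 (lag_iso a.2 b.2), act])
    (fun v hv => by
      show ρ (S.E 0) v = v
      rw [S.E_zero, map_one, Module.End.one_apply])
    (fun x => S.E (e1 S.D x.1))
    (fun x v hv => E_mem_Wz (re_e1 x.2.1) hv)
    (fun x v hv => Einv_mem_Wz (re_e1 x.2.1) hv)
    (fun x x' a => by
      show ψ (pr (x.1 + x'.1) a.1) = _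
      rw [pr_add_left, AddChar.map_add_eq_mul])
    (fun x a v hv => by
      obtain ⟨w, hw⟩ := exists_of_real hF (pr_real a.1 x.1 a.2.1 x.2.1 hF)
      have e := S.E_comm a.1 (e1 S.D x.1) a.2.1 (re_e1 x.2.1) w (by rw [hw, om_e1])
      show ρ (S.E a.1) (ρ (S.E (e1 S.D x.1)) v) = ψ (pr x.1 a.1) • ρ (S.E (e1 S.D x.1)) (ρ (S.E a.1) v)
      rw [act, e, ← act, ← act, hv w, map_smul, map_smul, one_mul, hw, pr_comm])
  rw [card_lag hF] at h
  exact ⟨_, h⟩


/-- The characters of `k`. -/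
def pz (ψ : AddChar K ℂ) (j : k →+* K) : k → k → ℂ := fun l u => ψ (j (l * u))

/-- The action of `z`. -/
def fz (S : SysT φ j Γ) (ρ : Representation ℂ Γ V) : k → V →ₗ[ℂ] V := fun u => ρ (S.z u)

lemma pairing_pz (hψ : ψ (j 1) ≠ 1) : Pairing (pz ψ j) := by
  refine ⟨fun x a b => ?_, fun x => ?_, fun a ha => ?_, rfl⟩
  · simp only [pz, mul_add, map_add, AddChar.map_add_eq_mul]
  · simp [pz]
  · refine sum_char_zero (fun x : k => ψ (j (x * a))) (fun x y => ?_) (x₀ := a⁻¹) ?_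
    · simp only [add_mul, map_add, AddChar.map_add_eq_mul]
    · simp only [inv_mul_cancel₀ ha]
      exact hψ

/-- The shifted characters. -/
def pl (ψ : AddChar K ℂ) (j : k →+* K) (l : k) : k → k → ℂ := fun b a => ψ (j (l * (b * a)))

lemma pairing_pl (hψ : ψ (j 1) ≠ 1) {l : k} (hl : l ≠ 0) : Pairing (pl ψ j l) := by
  refine ⟨fun x a b => ?_, fun x => ?_, fun a ha => ?_, rfl⟩
  · simp only [pl, mul_add, map_add, AddChar.map_add_eq_mul]
  · simp [pl]
  · refine sum_char_zero (fun x : k => ψ (j (l * (x * a)))) (fun x y => ?_) (x₀ := (l * a)⁻¹) ?_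
    · simp only [add_mul, mul_add, map_add, AddChar.map_add_eq_mul]
    · have e : l * ((l * a)⁻¹ * a) = 1 := by
        field_simp
      simp only [e]
      exact hψ

/-- The action of the long root group of a fixed `T`. -/
def fy (S : SysT φ j Γ) (ρ : Representation ℂ Γ V) (T : S3) : k → V →ₗ[ℂ] V := fun u => ρ (S.E (Pi.single T (j u)))

lemma real_j (hF : Frob φ j q) (u : k) : φ (j u) = j u := (hF.fix _).2 ⟨u, rfl⟩

lemma re_single (hF : Frob φ j q) {T : S3} (hT : tau T = T) {t : K} (ht : φ t = t) : Re S.D φ (Pi.single T t) := by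
  rw [← orb_fix (D := S.D) (φ := φ) hT]
  exact re_orb hF (fun _ => ht)

lemma single_iso (T : S3) (a b : K) (X : S3) : (Pi.single T a : S3 → K) X * (Pi.single T b : S3 → K) (compl3 X) = 0 := by
  by_cases h : X = T
  · subst h
    rw [Pi.single_eq_of_ne (compl_ne X), mul_zero]
  · rw [Pi.single_eq_of_ne h, zero_mul]

lemma fy_add (hF : Frob φ j q) {T : S3} (hT : tau T = T) (a b : k) (v : V) : fy S ρ T (a + b) v = fy S ρ T a (fy S ρ T b v) := by
  show ρ (S.E (Pi.single T (j (a + b)))) v = ρ (S.E (Pi.single T (j a))) (ρ (S.E (Pi.single T (j b))) v)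
  rw [map_add, Pi.single_add, S.E_add0 _ _ (re_single hF hT (real_j hF a)) (re_single hF hT (real_j hF b)) (single_iso T _ _), act]

lemma fy_zero (T : S3) (v : V) : fy S ρ T (0 : k) v = v := by
  show ρ (S.E (Pi.single T (j 0))) v = v
  rw [map_zero, Pi.single_zero]
  have : (fun _ : S3 => (0 : K)) = 0 := rfl
  rw [show ((0 : S3 → K)) = 0 from rfl, S.E_zero, map_one, Module.End.one_apply]

/-- The fixed vectors of the long root group. -/
def Fy (S : SysT φ j Γ) (ρ : Representation ℂ Γ V) (ψ : AddChar K ℂ) (T : S3) : Submodule ℂ V := Eg (fy S ρ T) (pz ψ j) 0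

lemma mem_Fy {T : S3} {v : V} : v ∈ Fy S ρ ψ T ↔ ∀ a : k, ρ (S.E (Pi.single T (j a))) v = v := by
  constructor
  · intro h a
    have := h a
    simpa [pz, fy] using this
  · intro h a
    show ρ (S.E (Pi.single T (j a))) v = ψ (j (0 * a)) • v
    simp [h a]

lemma om_single {T : S3} (s t : K) (hs : S.D.eps T * S.D.eps T = 1) :
    om S.D (Pi.single T s) (Pi.single (compl3 T) (S.D.eps T * t)) = s * t := by
  unfold om
  rw [Finset.sum_eq_single T]
  · rw [Pi.single_eq_same, Pi.single_eq_same]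
    linear_combination (s * t) * hs
  · intro X _ hX
    rw [Pi.single_eq_of_ne hX]
    ring
  · simp

/-- `y'` shifts the characters of `y` on the nontrivial characters of `z`. -/
lemma dz_fy (hF : Frob φ j q) (hψ : ψ (j 1) ≠ 1) {T : S3} (hT : tau T = T) {l : k} (hl : l ≠ 0) :
    dz S ρ ψ l = q * finrank ℂ ↥(Wz S ρ ψ l ⊓ Fy S ρ ψ T) := by
  have hs := sq_sign (S.D.eps_sign T)
  have hreal : ∀ b : k, φ (S.D.eps T * j b) = S.D.eps T * j b := fun b => by
    rw [map_mul, phi_sign (S.D.eps_sign T), real_j hF]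
  have hcT : tau (compl3 T) = compl3 T := by rw [tau_compl, hT]
  have hy : ∀ a : k, Re S.D φ (Pi.single T (j a)) := fun a => re_single hF hT (real_j hF a)
  have hy' : ∀ b : k, Re S.D φ (Pi.single (compl3 T) (S.D.eps T * j b)) := fun b => re_single hF hcT (hreal b)
  have h := finrank_shift (X := k) ρ (pairing_pl hψ hl) (Wz S ρ ψ l) (fy S ρ T)
    (fun a v hv => E_mem_Wz (hy a) hv)
    (fun a b v hv => fy_add hF hT a b v)
    (fun v hv => fy_zero T v)
    (fun b => S.E (Pi.single (compl3 T) (S.D.eps T * j b)))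
    (fun b v hv => E_mem_Wz (hy' b) hv)
    (fun b v hv => Einv_mem_Wz (hy' b) hv)
    (fun x x' a => by
      simp only [pl, add_mul, mul_add, map_add, AddChar.map_add_eq_mul])
    (fun b a v hv => by
      have e := S.E_comm _ _ (hy a) (hy' b) (a * b) (by rw [om_single _ _ hs, map_mul])
      show ρ (S.E (Pi.single T (j a))) (ρ (S.E (Pi.single (compl3 T) (S.D.eps T * j b))) v) =
        ψ (j (l * (b * a))) • ρ (S.E (Pi.single (compl3 T) (S.D.eps T * j b))) (ρ (S.E (Pi.single T (j a))) v)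
      rw [act, e, ← act, ← act, hv (a * b), map_smul, map_smul, mul_comm b a])
  have hEq : Eg (fy S ρ T) (pl ψ j l) 0 = Fy S ρ ψ T := by
    ext v
    rw [mem_Fy]
    constructor
    · intro h a
      have := h a
      simpa [pl, fy] using this
    · intro h a
      show ρ (S.E (Pi.single T (j a))) v = ψ (j (l * (0 * a))) • v
      simp [h a]
  rw [hEq] at h
  unfold dz
  rw [h, ← Nat.card_eq_fintype_card, hF.card_k]

/-- `Fy` has the dimension of the fixed vectors of `z`. -/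
lemma dz_zero_fy {T : S3} (hT : tau T = T) : dz S ρ ψ 0 = finrank ℂ ↥(Fy S ρ ψ T) := by
  obtain ⟨g, η, hη, hg⟩ := S.lconj T hT
  have hηη : η * η = 1 := by
    rcases hη with rfl | rfl <;> simp
  apply le_antisymm
  · refine finrank_le_of_map (g := (ρ g : V →ₗ[ℂ] V)) (rho_inj _) fun v hv => ?_
    refine mem_Fy.2 fun a => ?_
    have e : S.E (Pi.single T (j a)) * g = g * S.z (η * a) := by
      have := hg (η * a)
      rw [← mul_assoc, hηη, one_mul] at this
      rw [← this]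
      group
    rw [act, e, ← act, Wz0_fix hv]
  · refine finrank_le_of_map (g := (ρ g⁻¹ : V →ₗ[ℂ] V)) (rho_inj _) fun v hv u => ?_
    have e : S.z u * g⁻¹ = g⁻¹ * S.E (Pi.single T (j (η * u))) := by
      rw [← hg u]
      group
    rw [act, e, ← act, mem_Fy.1 hv]
    simp

/-- The action of real vectors. -/
def fE (S : SysT φ j Γ) (ρ : Representation ℂ Γ V) : ↥(RvS S.D φ Finset.univ) → V →ₗ[ℂ] V := fun a => ρ (S.E a.1)

/-- The weights. -/
def pE (ψ : AddChar K ℂ) (D : TwD K) (φ : K ≃+* K) : ↥(RvS D φ Finset.univ) → ↥(RvS D φ Finset.univ) → ℂ := fun c a => ψ (pr c.1 a.1)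

/-- A subspace of `Wz 0` stable under `E` is the sum of its weight spaces. -/
lemma decomp_E (hF : Frob φ j q) (hψ : ψ (j 1) ≠ 1) (W : Submodule ℂ V) (hW : ∀ v ∈ W, v ∈ Wz S ρ ψ (0 : k))
    (hst : ∀ a, Re S.D φ a → ∀ v ∈ W, ρ (S.E a) v ∈ W) :
    finrank ℂ W = ∑ c : ↥(RvS S.D φ Finset.univ), finrank ℂ ↥(W ⊓ Eg (fE S ρ) (pE ψ S.D φ) c) := by
  refine finrank_decomp (pairing_rv hF hψ (L := Finset.univ) (fun T _ => Finset.mem_univ _)) W (fE S ρ)
    (fun a v hv => hst a.1 a.2.1 v hv) (fun a b v hv => ?_) (fun v hv => ?_)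
  · show ρ (S.E (a.1 + b.1)) v = ρ (S.E a.1) (ρ (S.E b.1) v)
    obtain ⟨w, hw⟩ := S.E_add a.1 b.1 a.2.1 b.2.1
    rw [hw, ← act, ← act, Wz0_fix (hW v hv)]
  · show ρ (S.E 0) v = v
    rw [S.E_zero, map_one, Module.End.one_apply]

lemma inf_fE (c : ↥(RvS S.D φ Finset.univ)) : Wz S ρ ψ (0 : k) ⊓ Eg (fE S ρ) (pE ψ S.D φ) c = Wt S ρ ψ c.1 := by
  ext v
  constructor
  · intro h
    obtain ⟨h1, h2⟩ := Submodule.mem_inf.1 h
    exact ⟨fun u => Wz0_fix h1 u, fun a ha => h2 ⟨a, ha, fun T hT => absurd (Finset.mem_univ T) hT⟩⟩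
  · rintro ⟨h1, h2⟩
    refine Submodule.mem_inf.2 ⟨fun u => ?_, fun a => h2 a.1 a.2.1⟩
    rw [h1 u]
    simp

/-- `E` stabilises the fixed vectors of `y` in `Wz 0`. -/
lemma stab_E (hF : Frob φ j q) {T : S3} (hT : tau T = T) (a : S3 → K) (ha : Re S.D φ a) (v : V)
    (hv : v ∈ Wz S ρ ψ (0 : k) ⊓ Fy S ρ ψ T) : ρ (S.E a) v ∈ Wz S ρ ψ (0 : k) ⊓ Fy S ρ ψ T := by
  obtain ⟨h1, h2⟩ := Submodule.mem_inf.1 hv
  refine Submodule.mem_inf.2 ⟨E_mem_Wz ha h1, mem_Fy.2 fun u => ?_⟩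
  have hy : Re S.D φ (Pi.single T (j u)) := re_single hF hT (real_j hF u)
  obtain ⟨w, hw⟩ := exists_of_real hF (om_real (D := S.D) hF hy ha)
  have e := S.E_comm _ _ hy ha w hw
  rw [act, e, ← act, ← act, Wz0_fix h1, mem_Fy.1 h2]

/-- The weights with `c T ≠ 0` do not meet the fixed vectors of `y`. -/
lemma inf_fy (hF : Frob φ j q) (hψ : ψ (j 1) ≠ 1) {T : S3} (hT : tau T = T) (c : ↥(RvS S.D φ Finset.univ)) :
    finrank ℂ ↥((Wz S ρ ψ (0 : k) ⊓ Fy S ρ ψ T) ⊓ Eg (fE S ρ) (pE ψ S.D φ) c) = if c.1 T ≠ 0 then 0 else nf S ρ ψ c.1 := by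
  by_cases h : c.1 T = 0
  · rw [if_neg (not_not.mpr h)]
    unfold nf
    rw [← inf_fE]
    have heq : (Wz S ρ ψ (0 : k) ⊓ Fy S ρ ψ T) ⊓ Eg (fE S ρ) (pE ψ S.D φ) c = Wz S ρ ψ (0 : k) ⊓ Eg (fE S ρ) (pE ψ S.D φ) c := by
      ext v
      constructor
      · intro hv
        obtain ⟨h1, h2⟩ := Submodule.mem_inf.1 hv
        exact Submodule.mem_inf.2 ⟨(Submodule.mem_inf.1 h1).1, h2⟩
      · intro hv
        obtain ⟨h1, h2⟩ := Submodule.mem_inf.1 hv
        refine Submodule.mem_inf.2 ⟨Submodule.mem_inf.2 ⟨h1, mem_Fy.2 fun a => ?_⟩, h2⟩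
        have hy : Re S.D φ (Pi.single T (j a)) := re_single hF hT (real_j hF a)
        have e2 : ρ (S.E (Pi.single T (j a))) v = ψ (pr c.1 (Pi.single T (j a))) • v :=
          h2 ⟨Pi.single T (j a), hy, fun X hX => absurd (Finset.mem_univ X) hX⟩
        show ρ (S.E (Pi.single T (j a))) v = v
        rw [e2, pr_comm, pr_single, h, mul_zero, AddChar.map_zero_eq_one, one_smul]
    rw [heq]
  · rw [if_pos h]
    have hb : (Wz S ρ ψ (0 : k) ⊓ Fy S ρ ψ T) ⊓ Eg (fE S ρ) (pE ψ S.D φ) c = ⊥ := by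
      rw [eq_bot_iff]
      intro v hv
      obtain ⟨h1, h2⟩ := Submodule.mem_inf.1 hv
      obtain ⟨h3, h4⟩ := Submodule.mem_inf.1 h1
      obtain ⟨u, hu⟩ := exists_of_real hF (step_q c.2.1 hT)
      have hu0 : u ≠ 0 := by
        rintro rfl
        rw [map_zero] at hu
        exact h hu.symm
      have hy : Re S.D φ (Pi.single T (j u⁻¹)) := re_single hF hT (real_j hF _)
      have e2 : ρ (S.E (Pi.single T (j u⁻¹))) v = ψ (pr c.1 (Pi.single T (j u⁻¹))) • v :=
        h2 ⟨Pi.single T (j u⁻¹), hy, fun X hX => absurd (Finset.mem_univ X) hX⟩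
      rw [mem_Fy.1 h4, pr_comm, pr_single, ← hu, ← map_mul, inv_mul_cancel₀ hu0] at e2
      rw [Submodule.mem_bot]
      by_contra hv0
      apply hψ
      have e3 : (ψ (j 1) - 1) • v = 0 := by
        rw [sub_smul, one_smul, ← e2, sub_self]
      rcases smul_eq_zero.mp e3 with h5 | h5
      · exact sub_eq_zero.mp h5
      · exact absurd h5 hv0
    rw [hb, finrank_bot]

/-- The sum over all vectors and over the real ones. -/
lemma sum_real (F : (S3 → K) → ℕ) (D : TwD K) :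
    ∑ c : S3 → K, (if Re D φ c then F c else 0) = ∑ c : ↥(RvS D φ Finset.univ), F c.1 := by
  have hm : ∀ c, c ∈ Finset.univ.filter (fun c : S3 → K => c ∈ RvS D φ Finset.univ) ↔ c ∈ RvS D φ Finset.univ := by
    intro c
    simp
  rw [← Finset.sum_subtype _ hm F, Finset.sum_filter]
  refine Finset.sum_congr rfl fun c _ => ?_
  have e : c ∈ RvS D φ Finset.univ ↔ Re D φ c :=
    ⟨fun h => h.1, fun h => ⟨h, fun T hT => absurd (Finset.mem_univ T) hT⟩⟩
  simp only [e]

end Main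

/-- `q¹⁰ ∣ d` and the relation `E0`. PLAN.md, (iii), (iv). -/
theorem exists_m_aux {K : Type*} [Field K] [Fintype K] {φ : K ≃+* K} {k : Type*} [Field k] [Fintype k] {j : k →+* K} {Γ : Type*} [Group Γ]
    {V : Type*} [AddCommGroup V] [Module ℂ V] [FiniteDimensional ℂ V] {q : ℕ}
    {S : SysT φ j Γ} {ρ : Representation ℂ Γ V} {ψ : AddChar K ℂ} (hF : Frob φ j q) (hψ : ψ (j 1) ≠ 1) :
    ∃ m, dz S ρ ψ 1 = q ^ 10 * m ∧ ∀ T : S3, tau T = T →
      ∑ c : S3 → K, (if Re S.D φ c ∧ c T ≠ 0 then nf S ρ ψ c else 0) = (q - 1) * q ^ 9 * m := by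
  obtain ⟨m, hm⟩ := dz_one (S := S) (ρ := ρ) (ψ := ψ) hF hψ
  refine ⟨m, hm, fun T hT => ?_⟩
  have hcardk : Fintype.card k = q := by
    rw [← Nat.card_eq_fintype_card, hF.card_k]
  have hq : 0 < q := by
    rw [← hcardk]
    exact Fintype.card_pos
  -- the fixed vectors of `y`
  have h1 : ∀ l : k, l ≠ 0 → finrank ℂ ↥(Fy S ρ ψ T ⊓ Wz S ρ ψ l) = q ^ 9 * m := by
    intro l hl
    have e := dz_fy (S := S) (ρ := ρ) (ψ := ψ) hF hψ hT hl
    rw [dz_eq' hl, hm] at e
    rw [inf_comm]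
    apply Nat.eq_of_mul_eq_mul_left hq
    rw [← e]
    ring
  have hWz : ∀ l : k, Eg (fz S ρ) (pz ψ j) l = Wz S ρ ψ l := fun l => Submodule.ext fun v => Iff.rfl
  have h2 : finrank ℂ ↥(Fy S ρ ψ T) = finrank ℂ ↥(Fy S ρ ψ T ⊓ Wz S ρ ψ (0 : k)) + (q - 1) * (q ^ 9 * m) := by
    have e := finrank_decomp (pairing_pz (j := j) hψ) (Fy S ρ ψ T) (fz S ρ)
      (fun u v hv => mem_Fy.2 fun a => ?_)
      (fun a b v hv => ?_)
      (fun v hv => ?_)
    · have e2 : ∀ l : k, finrank ℂ ↥(Fy S ρ ψ T ⊓ Eg (fz S ρ) (pz ψ j) l) = finrank ℂ ↥(Fy S ρ ψ T ⊓ Wz S ρ ψ l) := fun l => by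
        rw [hWz]
      rw [Finset.sum_congr rfl (fun l _ => e2 l)] at e
      rw [e, ← Finset.add_sum_erase _ _ (Finset.mem_univ (0 : k))]
      congr 1
      rw [Finset.sum_congr rfl (fun l hl => h1 l (Finset.ne_of_mem_erase hl)), Finset.sum_const,
        Finset.card_erase_of_mem (Finset.mem_univ _), Finset.card_univ, hcardk, smul_eq_mul]
    · have hy : Re S.D φ (Pi.single T (j a)) := re_single hF hT (real_j hF a)
      show ρ (S.E (Pi.single T (j a))) (ρ (S.z u) v) = ρ (S.z u) v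
      rw [act, S.E_z _ _ hy, ← act]
      exact congrArg _ (mem_Fy.1 hv a)
    · show ρ (S.z (a + b)) v = ρ (S.z a) (ρ (S.z b) v)
      rw [S.z_add, act]
    · show ρ (S.z 0) v = v
      rw [z_zero, map_one, Module.End.one_apply]
  have h3 := dz_zero_fy (S := S) (ρ := ρ) (ψ := ψ) hT
  -- the weights
  have h4 : dz S ρ ψ (0 : k) = ∑ c : ↥(RvS S.D φ Finset.univ), nf S ρ ψ c.1 := by
    have e := decomp_E (S := S) (ρ := ρ) (ψ := ψ) hF hψ (Wz S ρ ψ (0 : k)) (fun v hv => hv) (fun a ha v hv => E_mem_Wz ha hv)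
    unfold dz
    rw [e]
    exact Finset.sum_congr rfl fun c _ => by
      unfold nf
      rw [inf_fE]
  have h5 : finrank ℂ ↥(Wz S ρ ψ (0 : k) ⊓ Fy S ρ ψ T) =
      ∑ c : ↥(RvS S.D φ Finset.univ), (if c.1 T ≠ 0 then 0 else nf S ρ ψ c.1) := by
    have e := decomp_E (S := S) (ρ := ρ) (ψ := ψ) hF hψ (Wz S ρ ψ (0 : k) ⊓ Fy S ρ ψ T)
      (fun v hv => (Submodule.mem_inf.1 hv).1) (fun a ha v hv => stab_E hF hT a ha v hv)
    rw [e]
    exact Finset.sum_congr rfl fun c _ => inf_fy hF hψ hT c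
  have h6 : ∑ c : S3 → K, (if Re S.D φ c ∧ c T ≠ 0 then nf S ρ ψ c else 0) =
      ∑ c : ↥(RvS S.D φ Finset.univ), (if c.1 T ≠ 0 then nf S ρ ψ c.1 else 0) := by
    rw [← sum_real (fun c => if c T ≠ 0 then nf S ρ ψ c else 0) S.D]
    refine Finset.sum_congr rfl fun c _ => ?_
    by_cases h : Re S.D φ c
    · simp [h]
    · simp [h]
  have h7 : ∑ c : ↥(RvS S.D φ Finset.univ), nf S ρ ψ c.1 =
      ∑ c : ↥(RvS S.D φ Finset.univ), (if c.1 T ≠ 0 then 0 else nf S ρ ψ c.1) +
      ∑ c : ↥(RvS S.D φ Finset.univ), (if c.1 T ≠ 0 then nf S ρ ψ c.1 else 0) := by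
    rw [← Finset.sum_add_distrib]
    refine Finset.sum_congr rfl fun c _ => ?_
    by_cases h : c.1 T ≠ 0
    · simp [h]
    · simp [h]
  rw [h6]
  rw [inf_comm] at h2
  have e9 : (q - 1) * q ^ 9 * m = (q - 1) * (q ^ 9 * m) := by ring
  rw [e9]
  omega

end InvC

end Cfsg.Agent.Lib.MinE6T
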