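import Cfsg.Agent.Lib.MinE6T.Sys
import Cfsg.Agent.Lib.MinE6.PureFin

/-! Finite checks on the 3-subsets of `Fin 6` for `MinE6T/PureA.lean`. -/

set_option autoImplicit false

namespace Cfsg.Agent.Lib.MinE6T

namespace PureFinT

open Cfsg.Agent.Lib.MinE6 Cfsg.Agent.Lib.MinE6.PureFin

/-- `x ↦ y` acts on `T`. -/
abbrev act (p : Pr) (T : S3) : Prop := p.2 ∈ T.1 ∧ p.1 ∉ T.1

/-- The partner. -/
def bar (p : Pr) : Pr := (ti p.2, ti p.1)

/-- Representatives of the roots of the radical at `S` modulo the graph automorphism. -/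
def lSF (S : S3) : Finset Pr := Finset.univ.filter fun p => p.1 ∈ S.1 ∧ p.2 ∉ S.1 ∧ p.1 ≤ ti p.2

/-- The positive ones. -/
def lowT (S : S3) : Finset Pr := Finset.univ.filter fun p => p.1 ∈ S.1 ∧ p.2 ∉ S.1 ∧ p.1 ≤ ti p.2 ∧ p.1 < p.2

/-- Dimension of the root group. -/
def W (p : Pr) : ℕ := if p.2 = ti p.1 then 1 else 2

/-- The fixed points of `tau`. -/
def fixF : Finset S3 := Finset.univ.filter fun S => tau S = S

/-- Two steps from `S`. -/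
def S2 (S : S3) (x y : Fin 6) : S3 := nb (nb S x (ti y)) y (ti x)

theorem ti_ti (x : Fin 6) : ti (ti x) = x := Fin.rev_rev x

theorem tau_tau : ∀ T : S3, tau (tau T) = T := by decide +kernel

theorem fix_ti : ∀ (S : S3) (x : Fin 6), tau S = S → x ∈ S.1 → ti x ∉ S.1 := by decide +kernel

theorem fix_ti' : ∀ (S : S3) (x : Fin 6), tau S = S → x ∉ S.1 → ti x ∈ S.1 := by decide +kernel

theorem tau_nb : ∀ (S : S3) (i y : Fin 6), tau S = S → i ∈ S.1 → y ∉ S.1 → tau (nb S i y) = nb S (ti y) (ti i) := by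
  decide +kernel

theorem sum_W : ∀ S : S3, tau S = S → ∑ p ∈ lSF S, W p = 9 := by decide +kernel

theorem lS_or : ∀ (S : S3) (i y : Fin 6), tau S = S → i ∈ S.1 → y ∉ S.1 → (i, y) ∈ lSF S ∨ (ti y, ti i) ∈ lSF S := by
  decide +kernel

theorem crit : ∀ (S : S3) (p r : Pr), tau S = S → p ∈ lSF S → r ∈ lSF S → r ≠ p →
    ¬ act r (nb S p.1 p.2) ∧ ¬ act (bar r) (nb S p.1 p.2) := by decide +kernel

theorem crit2 : ∀ (S : S3) (p : Pr), tau S = S → p ∈ lSF S → p.2 ≠ ti p.1 → ¬ act (bar p) (nb S p.1 p.2) := by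
  decide +kernel

theorem tgt_act : ∀ (S : S3) (p : Pr), p ∈ lSF S → act p (nb S p.1 p.2) := by decide +kernel

theorem tgt_src : ∀ (S : S3) (p : Pr), p ∈ lSF S → mv p.1 p.2 (nb S p.1 p.2) = S := by decide +kernel

theorem not_S : ∀ (S : S3) (p : Pr), tau S = S → p ∈ lSF S → ¬ act p S ∧ ¬ act (bar p) S := by decide +kernel

theorem exB : ∀ S T : S3, tau S = S → wd S T = 1 → ∃ a b : Fin 6, a ∈ S.1 ∧ b ∈ S.1 ∧ a ≠ b ∧ a ∈ T.1 ∧ b ∉ T.1 ∧
    ¬ act (ti b, ti a) T ∧ ¬ act (ti b, ti a) (nb T a b) := by decide +kernel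

theorem exA : ∀ S T : S3, tau S = S → wd S T = 0 → ∃ b : Fin 6, b ∈ T.1 ∧ ti b ∉ T.1 := by decide +kernel

theorem S2_symm : ∀ (S : S3) (x y : Fin 6), tau S = S → x ∈ S.1 → y ∈ S.1 → x ≠ y → S2 S x y = S2 S y x := by
  decide +kernel

/-- The facts on the two-step coordinate, for `p = (x, ti y)`. -/
theorem f2 : ∀ (S : S3) (x y : Fin 6), tau S = S → x ∈ S.1 → y ∈ S.1 → x ≠ y →
    act (x, ti y) (S2 S x y) ∧ mv x (ti y) (S2 S x y) = nb S y (ti x) ∧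
    act (y, ti x) (S2 S x y) ∧ mv y (ti x) (S2 S x y) = nb S x (ti y) ∧
    ¬ act (x, ti y) (nb S y (ti x)) ∧ tau (S2 S x y) = S2 S x y := by decide +kernel

set_option synthInstance.maxHeartbeats 0 in
set_option synthInstance.maxSize 4096 in
theorem f2b1 : ∀ (S : S3) (x y w : Fin 6) (r : Pr), (tau S = S ∧ (x, ti y) ∈ lSF S ∧ y ∈ S.1 ∧ x ≠ y ∧ (w = x ∨ w = y) ∧
    r ∈ lSF S ∧ r ≠ (x, ti y) ∧ r ≠ (w, ti w)) →
    (¬ act r (S2 S x y) ∨ mv r.1 r.2 (S2 S x y) = nb S w (ti w)) := by decide +kernel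

set_option synthInstance.maxHeartbeats 0 in
set_option synthInstance.maxSize 4096 in
theorem f2b2 : ∀ (S : S3) (x y w : Fin 6) (r : Pr), (tau S = S ∧ (x, ti y) ∈ lSF S ∧ y ∈ S.1 ∧ x ≠ y ∧ (w = x ∨ w = y) ∧
    r ∈ lSF S ∧ r ≠ (x, ti y) ∧ r ≠ (w, ti w) ∧ r.2 ≠ ti r.1) →
    ¬ act r (S2 S x y) := by decide +kernel

set_option synthInstance.maxHeartbeats 0 in
set_option synthInstance.maxSize 4096 in
theorem f2b3 : ∀ (S : S3) (x y w : Fin 6) (r : Pr), (tau S = S ∧ (x, ti y) ∈ lSF S ∧ y ∈ S.1 ∧ x ≠ y ∧ (w = x ∨ w = y) ∧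
    r ∈ lSF S ∧ r ≠ (x, ti y) ∧ r ≠ (w, ti w) ∧ r.2 ≠ ti r.1) →
    ¬ act (bar r) (S2 S x y) := by decide +kernel

theorem long_mem : ∀ (S : S3) (w : Fin 6), tau S = S → w ∈ S.1 → (w, ti w) ∈ lSF S := by decide +kernel

/-- The facts on the operator for the fixed coordinates. -/
theorem f4 : ∀ (S : S3) (x y : Fin 6), tau S = S → x ∈ S.1 → y ∈ S.1 → x ≠ y →
    act (ti x, y) S ∧ act (ti y, x) S ∧ ¬ act (ti x, y) (nb S y (ti x)) ∧ act (ti y, x) (nb S y (ti x)) ∧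
    mv (ti y) x (nb S y (ti x)) = S2 S x y ∧ ¬ act (ti x, y) (S2 S x y) ∧ ¬ act (ti y, x) (S2 S x y) ∧
    ¬ act (ti x, y) (nb S x (ti x)) ∧ ¬ act (ti y, x) (nb S x (ti x)) ∧ tau (nb S x (ti x)) = nb S x (ti x) := by
  decide +kernel

theorem f4_ex : ∀ T : S3, tau T ≠ T → ∃ (S : S3) (x y : Fin 6), tau S = S ∧ x ∈ S.1 ∧ y ∈ S.1 ∧ x ≠ y ∧ T = nb S y (ti x) := by
  decide +kernel

/-- Upper neighbours: the facts for the top coordinate. -/
theorem f5 : ∀ (S : S3) (x y : Fin 6), tau S = S → x ∈ S.1 → y ∈ S.1 → x ≠ y → ti y < x →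
    wt S < wt (S2 S x y) ∧ ∃ w, (w = x ∨ w = y) ∧ wt S < wt (nb S w (ti w)) := by decide +kernel

theorem f5_long : ∀ (S : S3) (x : Fin 6), tau S = S → x ∈ S.1 → ti x < x →
    wt S < wt (nb S x (ti x)) ∧ tau (nb S x (ti x)) = nb S x (ti x) := by decide +kernel

theorem low_sub : ∀ S : S3, lowT S ⊆ lSF S := by decide +kernel

theorem low_pos : ∀ (S : S3) (p : Pr), p ∈ lowT S → p.1 < p.2 ∧ ti p.2 < ti p.1 := by decide +kernel

theorem wt_bar : ∀ (X : S3) (p : Pr), p.1 < p.2 → act (bar p) X → wt X < wt (mv (bar p).1 (bar p).2 X) := by decide +kernel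

theorem wt_act : ∀ (X : S3) (p : Pr), p.1 < p.2 → act p X → wt X < wt (mv p.1 p.2 X) := by decide +kernel

theorem low_multiset : ((fixF).val.map fun S => ∑ p ∈ lowT S, W p) = ({0, 1, 3, 4, 5, 6, 8, 9} : Multiset ℕ) := by decide +kernel

theorem sum_low (x : ℕ) : ∑ S ∈ fixF, x ^ (∑ p ∈ lowT S, W p) = gaussU x := by
  have h : ∑ S ∈ fixF, x ^ (∑ p ∈ lowT S, W p) = (((fixF).val.map fun S => ∑ p ∈ lowT S, W p).map fun d => x ^ d).sum := by
    rw [Multiset.map_map]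
    rfl
  rw [h, low_multiset]
  simp only [Multiset.insert_eq_cons, Multiset.map_cons, Multiset.map_singleton, Multiset.sum_cons, Multiset.sum_singleton, gaussU]
  ring

end PureFinT

end Cfsg.Agent.Lib.MinE6T
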