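import Cfsg.Agent.Lib.MinE6T.Inv
import Cfsg.Agent.Lib.MinE6T.PureFinT
import Cfsg.Agent.Lib.MinE6.Pure

/-! Pure combinatorics on real vectors: PLAN.md, `Pure`, steps (0)-(5). -/

set_option autoImplicit false
set_option linter.unusedSectionVars false
set_option linter.unusedVariables false

namespace Cfsg.Agent.Lib.MinE6T

open Module
open Cfsg.Agent.Lib.MinE6
open scoped Classical

namespace PureT

open Cfsg.Agent.Lib.MinE6.PureFin Cfsg.Agent.Lib.MinE6T.PureFinT

variable {K : Type*} [Field K] [Fintype K] {φ : K ≃+* K} {k : Type*} [Field k] [Fintype k] {j : k →+* K} {q : ℕ}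
  {D : TwD K} {n : (S3 → K) → ℕ}

/-- The product of the root elements of `L`. -/
noncomputable def psiT (D : TwD K) (φ : K ≃+* K) (l : List Pr) (u : Pr → K) (c : S3 → K) : S3 → K :=
  l.foldr (fun p e => lactA D φ p.1 p.2 (u p) e) c

lemma psiT_cons (l : List Pr) (p : Pr) (u : Pr → K) (c : S3 → K) :
    psiT D φ (p :: l) u c = lactA D φ p.1 p.2 (u p) (psiT D φ l u c) := rfl

lemma lact_long {a b : Fin 6} (h : b = ti a) (t : K) (c : S3 → K) : lactA D φ a b t c = actA D.sg a b t c := by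
  unfold lactA
  rw [if_pos h]

lemma lact_short {a b : Fin 6} (h : b ≠ ti a) (t : K) (c : S3 → K) :
    lactA D φ a b t c = actA D.sg a b t (actA D.sg (ti b) (ti a) (D.kr a b * φ t) c) := by
  unfold lactA
  rw [if_neg h]

lemma lact_inact {p : Pr} {T : S3} (h1 : ¬ act p T) (h2 : p.2 ≠ ti p.1 → ¬ act (bar p) T) (t : K) (c : S3 → K) :
    lactA D φ p.1 p.2 t c T = c T := by
  by_cases hl : p.2 = ti p.1
  · rw [lact_long hl, PureAux.actA_not h1]
  · rw [lact_short hl, PureAux.actA_not h1, PureAux.actA_not (show ¬ (ti p.1 ∈ T.1 ∧ ti p.2 ∉ T.1) from h2 hl)]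

lemma lact_tgt {p : Pr} {X : S3} (h1 : act p X) (h2 : p.2 ≠ ti p.1 → ¬ act (bar p) X)
    (h3 : p.2 ≠ ti p.1 → ¬ act (bar p) (mv p.1 p.2 X)) (t : K) (c : S3 → K) :
    lactA D φ p.1 p.2 t c X = c X + D.sg p.1 p.2 X * t * c (mv p.1 p.2 X) := by
  by_cases hl : p.2 = ti p.1
  · rw [lact_long hl, PureAux.actA_yes h1]
  · rw [lact_short hl, PureAux.actA_yes h1, PureAux.actA_not (show ¬ (ti p.1 ∈ X.1 ∧ ti p.2 ∉ X.1) from h2 hl),
      PureAux.actA_not (show ¬ (ti p.1 ∈ (mv p.1 p.2 X).1 ∧ ti p.2 ∉ (mv p.1 p.2 X).1) from h3 hl)]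

lemma mem_lSF {S : S3} {p : Pr} : p ∈ lSF S ↔ (p.1 ∈ S.1 ∧ p.2 ∉ S.1 ∧ p.1 ≤ ti p.2) := by
  simp [lSF]

lemma ne_of_lSF {S : S3} {p : Pr} (h : p ∈ lSF S) : p.1 ≠ p.2 := by
  have h' := mem_lSF.mp h
  intro e
  exact h'.2.1 (e ▸ h'.1)

lemma psiT_S {S : S3} (hS : tau S = S) {l : List Pr} (hl : ∀ p ∈ l, p ∈ lSF S) (u : Pr → K) (c : S3 → K) :
    psiT D φ l u c S = c S := by
  induction l with
  | nil => rfl
  | cons p l ih =>
    have hp := hl p List.mem_cons_self
    have h2 := not_S S p hS hp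
    rw [psiT_cons, lact_inact h2.1 (fun _ => h2.2), ih (fun q hq => hl q (List.mem_cons_of_mem _ hq))]

lemma psiT_nb {S : S3} (hS : tau S = S) {l : List Pr} (hn : l.Nodup) (hl : ∀ p ∈ l, p ∈ lSF S) (u : Pr → K) (c : S3 → K)
    {p : Pr} (hp : p ∈ lSF S) :
    psiT D φ l u c (nb S p.1 p.2) = c (nb S p.1 p.2) +
      (if p ∈ l then D.sg p.1 p.2 (nb S p.1 p.2) * u p * c S else 0) := by
  induction l with
  | nil => simp [psiT]
  | cons r l ih =>
    have hl' := fun q hq => hl q (List.mem_cons_of_mem _ hq)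
    have hr := hl r List.mem_cons_self
    rw [List.nodup_cons] at hn
    rw [psiT_cons]
    by_cases h : r = p
    · subst h
      have h3 := not_S S r hS hr
      rw [lact_tgt (tgt_act S r hp) (crit2 S r hS hp) (by rw [tgt_src S r hp]; exact fun _ => h3.2),
        tgt_src S r hp, ih hn.2 hl', psiT_S hS hl', if_neg hn.1, if_pos List.mem_cons_self]
      ring
    · have hcr := crit S p r hS hp hr h
      rw [lact_inact hcr.1 (fun _ => hcr.2), ih hn.2 hl']
      congr 1
      have : p ∈ r :: l ↔ p ∈ l := by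
        rw [List.mem_cons]
        constructor
        · rintro (h' | h')
          · exact absurd h'.symm h
          · exact h'
        · exact Or.inr
      simp only [this]

lemma sg_ne (i j : Fin 6) (T : S3) : D.sg i j T ≠ 0 := by
  rcases D.sg_sign i j T with h | h <;> rw [h] <;> simp

lemma kr_ne (i j : Fin 6) : D.kr i j ≠ 0 := by
  rcases D.kr_sign i j with h | h <;> rw [h] <;> simp

lemma kg_ne (T : S3) : D.kg T ≠ 0 := by
  rcases D.kg_sign T with h | h <;> rw [h] <;> simp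

lemma phi_sign {e : K} (h : e = 1 ∨ e = -1) : φ e = e := by
  rcases h with rfl | rfl <;> simp

lemma re_fix {c : S3 → K} (hc : Re D φ c) {X : S3} (hX : tau X = X) : φ (c X) = c X := by
  have := hc X
  rw [hX, D.kg_fix X hX, one_mul] at this
  exact this.symm

lemma psiT_re (hF : Frob φ j q) {l : List Pr} {u : Pr → K} (hne : ∀ p ∈ l, p.1 ≠ p.2)
    (hal : ∀ p ∈ l, Al φ p.1 p.2 (u p)) {c : S3 → K} (hc : Re D φ c) : Re D φ (psiT D φ l u c) := by
  induction l with
  | nil => exact hc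
  | cons p l ih =>
    rw [psiT_cons]
    exact lactA_re hF (hne p List.mem_cons_self) (hal p List.mem_cons_self)
      (ih (fun q hq => hne q (List.mem_cons_of_mem _ hq)) (fun q hq => hal q (List.mem_cons_of_mem _ hq)))

lemma n_psiT (hF : Frob φ j q) (hI : InvT D φ j n) {l : List Pr} {u : Pr → K} (hne : ∀ p ∈ l, p.1 ≠ p.2)
    (hal : ∀ p ∈ l, Al φ p.1 p.2 (u p)) {c : S3 → K} (hc : Re D φ c) : n (psiT D φ l u c) = n c := by
  induction l with
  | nil => rfl
  | cons p l ih =>
    have hne' := fun q hq => hne q (List.mem_cons_of_mem _ hq)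
    have hal' := fun q hq => hal q (List.mem_cons_of_mem _ hq)
    rw [psiT_cons, ← hI.A _ _ (hne p List.mem_cons_self) _ (hal p List.mem_cons_self) _ (psiT_re hF hne' hal' hc),
      ih hne' hal']

lemma psiT_rev (hF : Frob φ j q) {l : List Pr} (hne : ∀ p ∈ l, p.1 ≠ p.2) (u : Pr → K) (c : S3 → K) :
    psiT D φ l (fun p => - u p) (psiT D φ l.reverse u c) = c := by
  induction l generalizing c with
  | nil => rfl
  | cons p l ih =>
    have h1 : psiT D φ (p :: l).reverse u c = psiT D φ l.reverse u (lactA D φ p.1 p.2 (u p) c) := by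
      simp [psiT, List.foldr_append]
    rw [h1, psiT_cons, ih (fun q hq => hne q (List.mem_cons_of_mem _ hq))]
    exact lactA_neg hF (hne p List.mem_cons_self) _ _

lemma psiT_rev' (hF : Frob φ j q) {l : List Pr} (hne : ∀ p ∈ l, p.1 ≠ p.2) (u : Pr → K) (c : S3 → K) :
    psiT D φ l.reverse (fun p => - u p) (psiT D φ l u c) = c := by
  have := psiT_rev (D := D) (φ := φ) hF (l := l.reverse) (by simpa using hne) u c
  simpa using this

lemma psiT_inj (hF : Frob φ j q) {l : List Pr} (hne : ∀ p ∈ l, p.1 ≠ p.2) (u : Pr → K) :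
    Function.Injective (psiT D φ l u) := by
  intro c e h
  rw [← psiT_rev' (D := D) (φ := φ) hF hne u c, h, psiT_rev' hF hne]

lemma psiT_congr {l : List Pr} {u v : Pr → K} (h : ∀ p ∈ l, u p = v p) (c : S3 → K) :
    psiT D φ l u c = psiT D φ l v c := by
  induction l with
  | nil => rfl
  | cons p l ih =>
    rw [psiT_cons, psiT_cons, h p List.mem_cons_self, ih (fun q hq => h q (List.mem_cons_of_mem _ hq))]

/-- The parameters (allowed). -/
abbrev Dom (φ : K ≃+* K) (L : Finset Pr) := (p : {p // p ∈ L}) → {t : K // Al φ p.1.1 p.1.2 t}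

/-- Extension by zero. -/
def extT {L : Finset Pr} (v : Dom φ L) : Pr → K := fun p => if h : p ∈ L then (v ⟨p, h⟩).1 else 0

lemma extT_mem {L : Finset Pr} (v : Dom φ L) {p : Pr} (h : p ∈ L) : extT v p = (v ⟨p, h⟩).1 := by
  unfold extT
  rw [dif_pos h]

lemma extT_al {L : Finset Pr} (v : Dom φ L) {p : Pr} (h : p ∈ L) : Al φ p.1 p.2 (extT v p) := by
  rw [extT_mem v h]
  exact (v ⟨p, h⟩).2

lemma card_al (hF : Frob φ j q) (a b : Fin 6) : Fintype.card {t : K // Al φ a b t} = q ^ W (a, b) := by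
  by_cases h : b = ti a
  · have hW : W (a, b) = 1 := by simp [W, h]
    rw [hW, pow_one, ← hF.card_k, Nat.card_eq_fintype_card]
    have e : {t : K // Al φ a b t} ≃ k := by
      have hfix : ∀ t : {t : K // Al φ a b t}, ∃ u, j u = t.1 := fun t => (hF.fix t.1).mp (t.2 h)
      refine Equiv.ofBijective (fun t => (hfix t).choose) ⟨?_, ?_⟩
      · intro s t e
        apply Subtype.ext
        rw [← (hfix s).choose_spec, ← (hfix t).choose_spec]
        exact congrArg j e
      · intro u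
        have hu : Al φ a b (j u) := fun _ => (hF.fix (j u)).mpr ⟨u, rfl⟩
        refine ⟨⟨j u, hu⟩, ?_⟩
        apply j.injective
        exact (hfix ⟨j u, hu⟩).choose_spec
    exact Fintype.card_congr e
  · have hW : W (a, b) = 2 := by simp [W, h]
    rw [hW, ← hF.card_K, Nat.card_eq_fintype_card]
    refine Fintype.card_congr ?_
    exact Equiv.subtypeUnivEquiv (fun t => fun e => absurd e h)

lemma card_dom (hF : Frob φ j q) (L : Finset Pr) : Fintype.card (Dom φ L) = q ^ ∑ p ∈ L, W p := by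
  rw [Fintype.card_pi]
  simp only [card_al hF]
  rw [Finset.prod_pow_eq_pow_sum]
  congr 1
  exact Finset.sum_coe_sort L (fun p => W (p.1, p.2))

lemma invS_of {S : S3} (hS : tau S = S) {e : S3 → K} (he : Re D φ e) (h : ∀ p ∈ lSF S, e (nb S p.1 p.2) = 0) :
    PureAux.InvS S e := by
  intro X hX
  obtain ⟨i, y, hi, hy, rfl⟩ := w2_exists S X hX
  rcases lS_or S i y hS hi hy with h1 | h1
  · exact h _ h1
  · have h2 := h _ h1
    have h3 := tau_nb S (ti y) (ti i) hS (fix_ti' S y hS hy) (fix_ti S i hS hi)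
    rw [ti_ti, ti_ti] at h3
    have h4 := he (nb S (ti y) (ti i))
    rw [h3] at h4
    simp only at h2
    rw [h2, map_zero, mul_zero] at h4
    exact h4

lemma normal_sub {S : S3} (hS : tau S = S) {l : List Pr} (hn : l.Nodup) (hl : ∀ p ∈ l, p ∈ lSF S) {c : S3 → K}
    (hc : Re D φ c) (hc0 : c S ≠ 0) :
    ∃ u : Pr → K, (∀ p ∈ l, Al φ p.1 p.2 (u p)) ∧ ∀ p ∈ l, psiT D φ l u c (nb S p.1 p.2) = 0 := by
  refine ⟨fun p => - c (nb S p.1 p.2) / (D.sg p.1 p.2 (nb S p.1 p.2) * c S), ?_, ?_⟩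
  · intro p hp hlong
    have hp' := hl p hp
    have hm := mem_lSF.mp hp'
    have hX : tau (nb S p.1 p.2) = nb S p.1 p.2 := by
      rw [tau_nb S _ _ hS hm.1 hm.2.1, hlong, ti_ti]
    simp only [map_div₀, map_neg, map_mul]
    rw [re_fix hc hX, re_fix hc hS, phi_sign (D.sg_sign _ _ _)]
  · intro p hp
    rw [psiT_nb hS hn hl _ _ (hl p hp), if_pos hp]
    have h0 := sg_ne (D := D) p.1 p.2 (nb S p.1 p.2)
    field_simp
    ring

lemma actA_same {S : S3} {a b : Fin 6} (h : a ∈ S.1 ↔ b ∈ S.1) (t : K) {c : S3 → K} (hc : PureAux.InvS S c) :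
    PureAux.InvS S (actA D.sg a b t c) := by
  intro X hX
  by_cases hh : b ∈ X.1 ∧ a ∉ X.1
  · rw [PureAux.actA_yes hh, hc X hX, hc _ (by rw [wd_same S X a b hh.1 hh.2 h, hX])]
    ring
  · rw [PureAux.actA_not hh, hc X hX]

lemma two_le_q (hF : Frob φ j q) : 2 ≤ q := by
  have h := hF.card_k
  rw [Nat.card_eq_fintype_card] at h
  rw [← h]
  exact Fintype.one_lt_card

lemma card_K (hF : Frob φ j q) : Fintype.card K = q ^ 2 := by
  rw [← hF.card_K, Nat.card_eq_fintype_card]

lemma key_w1 (hF : Frob φ j q) (hI : InvT D φ j n) {m : ℕ} (hm2 : m ≤ 2)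
    (hE : ∀ T : S3, tau T = T → ∑ c : S3 → K, (if Re D φ c ∧ c T ≠ 0 then n c else 0) = (q - 1) * q ^ 9 * m)
    {S T : S3} (hS : tau S = S) {c : S3 → K} (hc : Re D φ c) (hcS : c S ≠ 0) (hinv : PureAux.InvS S c) (hT : wd S T = 1)
    (hcT : c T ≠ 0) (hpos : 0 < n c) : False := by
  obtain ⟨a, b, haS, hbS, hab, haT, hbT, hb1, hb2⟩ := exB S T hS hT
  have hlong : b ≠ ti a := fun e => fix_ti S a hS haS (e ▸ hbS)
  have hal : ∀ t : K, Al φ a b t := fun t e => absurd e hlong
  let Dt : K → (S3 → K) := fun t => lactA D φ a b t c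
  have hDre : ∀ t, Re D φ (Dt t) := fun t => lactA_re hF hab (hal t) hc
  have hDn : ∀ t, n (Dt t) = n c := fun t => (hI.A a b hab t (hal t) c hc).symm
  have hDS : ∀ t, Dt t S = c S := fun t =>
    lact_inact (D := D) (φ := φ) (p := (a, b)) (fun h => h.2 haS) (fun _ h => fix_ti S a hS haS h.1) t c
  have hDinv : ∀ t, PureAux.InvS S (Dt t) := by
    intro t
    simp only [Dt]
    rw [lact_short hlong]
    apply actA_same ⟨fun _ => hbS, fun _ => haS⟩
    apply actA_same ⟨fun h => absurd h (fix_ti S b hS hbS), fun h => absurd h (fix_ti S a hS haS)⟩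
    exact hinv
  have hact : act (a, b) (nb T a b) := (nb_crit T a b a b haT hbT haT hbT).2 ⟨rfl, rfl⟩
  have hDT : ∀ t, Dt t (nb T a b) = c (nb T a b) + D.sg a b (nb T a b) * t * c T := by
    intro t
    have h1 := lact_tgt (D := D) (φ := φ) (p := (a, b)) (X := nb T a b) hact (fun _ => hb2)
      (by
        intro _
        have := mv_nb T a b haT hbT
        simp only
        rw [this]
        exact hb1) t c
    simp only at h1
    rwa [mv_nb T a b haT hbT] at h1
  have hl9 : ∀ p ∈ (lSF S).toList, p ∈ lSF S := fun p hp => Finset.mem_toList.mp hp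
  have hne9 : ∀ p ∈ (lSF S).toList, p.1 ≠ p.2 := fun p hp => ne_of_lSF (hl9 p hp)
  have hnd9 := Finset.nodup_toList (lSF S)
  let G : Dom φ (lSF S) × K → (S3 → K) := fun x => psiT D φ (lSF S).toList (extT x.1) (Dt x.2)
  have hal9 : ∀ v : Dom φ (lSF S), ∀ p ∈ (lSF S).toList, Al φ p.1 p.2 (extT v p) := fun v p hp => extT_al v (hl9 p hp)
  have hGS : ∀ x, G x S = c S := fun x => by
    change psiT D φ (lSF S).toList (extT x.1) (Dt x.2) S = c S
    rw [psiT_S hS hl9, hDS]
  have hGre : ∀ x, Re D φ (G x) := fun x => psiT_re hF hne9 (hal9 x.1) (hDre x.2)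
  have hGn : ∀ x, n (G x) = n c := fun x => by
    change n (psiT D φ (lSF S).toList (extT x.1) (Dt x.2)) = n c
    rw [n_psiT hF hI hne9 (hal9 x.1) (hDre x.2), hDn]
  have hinj : Function.Injective G := by
    rintro ⟨v, t⟩ ⟨v', t'⟩ h
    have hv : v = v' := by
      funext ⟨p, hp⟩
      apply Subtype.ext
      have hm := mem_lSF.mp hp
      have hpl : p ∈ (lSF S).toList := Finset.mem_toList.mpr hp
      have e := congrFun h (nb S p.1 p.2)
      simp only [G] at e
      rw [psiT_nb hS hnd9 hl9 _ _ hp, psiT_nb hS hnd9 hl9 _ _ hp, if_pos hpl, if_pos hpl,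
        hDinv t _ (wd_nb S _ _ hm.1 hm.2.1), hDinv t' _ (wd_nb S _ _ hm.1 hm.2.1), hDS, hDS, zero_add, zero_add] at e
      have h0 := sg_ne (D := D) p.1 p.2 (nb S p.1 p.2)
      have e2 : extT v p = extT v' p := mul_left_cancel₀ h0 (mul_right_cancel₀ hcS e)
      rwa [extT_mem v hp, extT_mem v' hp] at e2
    subst hv
    have hD : Dt t = Dt t' := psiT_inj hF hne9 _ h
    have ht : t = t' := by
      have e := congrFun hD (nb T a b)
      rw [hDT, hDT] at e
      have e' := add_left_cancel e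
      exact mul_left_cancel₀ (sg_ne (D := D) a b (nb T a b)) (mul_right_cancel₀ hcT e')
    rw [ht]
  have hle : Fintype.card (Dom φ (lSF S) × K) ≤ ∑ e : S3 → K, (if Re D φ e ∧ e S ≠ 0 then n e else 0) :=
    PureAux.count_ge (n := n) G hinj (fun e => Re D φ e ∧ e S ≠ 0) (fun x => ⟨⟨hGre x, by
      rw [hGS]; exact hcS⟩, by rw [hGn]; exact hpos⟩)
  rw [hE S hS, Fintype.card_prod, card_dom hF, sum_W S hS, card_K hF] at hle
  have hq := two_le_q hF
  have h9 : 0 < q ^ 9 := by positivity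
  have h4 : q ^ 2 ≤ (q - 1) * m := by
    apply Nat.le_of_mul_le_mul_left _ h9
    calc q ^ 9 * q ^ 2 ≤ (q - 1) * q ^ 9 * m := hle
      _ = q ^ 9 * ((q - 1) * m) := by ring
  have h5 : (q - 1) * m ≤ (q - 1) * 2 := Nat.mul_le_mul_left _ hm2
  have h6 : (q - 1) * 2 < q * 2 := by
    apply Nat.mul_lt_mul_of_pos_right <;> omega
  have h8 : q * 2 ≤ q * q := Nat.mul_le_mul_left _ hq
  have h10 : q ^ 2 = q * q := by ring
  omega

lemma key (hF : Frob φ j q) (hI : InvT D φ j n) {m : ℕ} (hm2 : m ≤ 2)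
    (hE : ∀ T : S3, tau T = T → ∑ c : S3 → K, (if Re D φ c ∧ c T ≠ 0 then n c else 0) = (q - 1) * q ^ 9 * m)
    {S : S3} (hS : tau S = S) {c : S3 → K} (hc : Re D φ c) (hcS : c S ≠ 0) (hinv : PureAux.InvS S c) (hpos : 0 < n c) :
    c = Pi.single S (c S) := by
  have hall : ∀ T, T ≠ S → c T = 0 := by
    intro T hTS
    by_contra hcT
    rcases wd_cases S T hTS with h0 | h1 | h2
    · by_cases hX : ∃ X, wd S X = 1 ∧ c X ≠ 0
      · obtain ⟨X, hX1, hX2⟩ := hX
        exact key_w1 hF hI hm2 hE hS hc hcS hinv hX1 hX2 hpos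
      · push Not at hX
        obtain ⟨b, hb, hbT⟩ := exA S T hS h0
        have hbS := wd_zero_side1 S T b h0 hb
        have hyS := fix_ti' S b hS hbS
        have hby : b ≠ ti b := fun e => hbT (e ▸ hb)
        have hal : Al φ b (ti b) (1 : K) := fun _ => map_one φ
        let e := lactA D φ b (ti b) (1 : K) c
        have he : e = actA D.sg b (ti b) (1 : K) c := lact_long rfl _ _
        have hre : Re D φ e := lactA_re hF hby hal hc
        have heS : e S ≠ 0 := by
          have : e S = c S := by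
            rw [he, PureAux.actA_yes ⟨hyS, hbS⟩, hinv _ (wd_opp_S S b (ti b) hbS hyS)]
            ring
          rw [this]
          exact hcS
        have heinv : PureAux.InvS S e := by
          intro X hX2
          rw [he]
          by_cases hh : ti b ∈ X.1 ∧ b ∉ X.1
          · rw [PureAux.actA_yes hh, hinv X hX2, hX _ (wd_opp_X S X b (ti b) hbS hyS hX2 hh.1 hh.2)]
            ring
          · rw [PureAux.actA_not hh, hinv X hX2]
        have heT : e (nb T b (ti b)) ≠ 0 := by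
          have hcr := (nb_crit T b (ti b) b (ti b) hb hbT hb hbT).2 ⟨rfl, rfl⟩
          rw [he, PureAux.actA_yes hcr, mv_nb T b (ti b) hb hbT, hX _ (wd_opp_T S T b (ti b) h0 hb hbT), zero_add]
          exact mul_ne_zero (mul_ne_zero (sg_ne _ _ _) one_ne_zero) hcT
        have hen : 0 < n e := by
          have : n c = n e := hI.A b (ti b) hby 1 hal c hc
          rw [← this]
          exact hpos
        exact key_w1 hF hI hm2 hE hS hre heS heinv (wd_opp_T S T b (ti b) h0 hb hbT) heT hen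
    · exact key_w1 hF hI hm2 hE hS hc hcS hinv h1 hcT hpos
    · exact hcT (hinv T h2)
  funext T
  by_cases h : T = S
  · subst h
    simp
  · rw [hall T h, Pi.single_eq_of_ne h]

/-- The support of `n`. -/
lemma support (hF : Frob φ j q) (hI : InvT D φ j n) {m : ℕ} (hm2 : m ≤ 2)
    (hE : ∀ T : S3, tau T = T → ∑ c : S3 → K, (if Re D φ c ∧ c T ≠ 0 then n c else 0) = (q - 1) * q ^ 9 * m)
    {S : S3} (hS : tau S = S) {L : Finset Pr} (hL : L ⊆ lSF S) {c : S3 → K} (hc : Re D φ c) (hcS : c S ≠ 0)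
    (hpos : 0 < n c) (hv : ∀ p ∈ lSF S, p ∉ L → c (nb S p.1 p.2) = 0) :
    ∃ u : Pr → K, (∀ p ∈ L.toList, Al φ p.1 p.2 (u p)) ∧ c = psiT D φ L.toList u (Pi.single S (c S)) := by
  have hlr : ∀ p ∈ L.toList.reverse, p ∈ lSF S := fun p hp =>
    hL (Finset.mem_toList.mp (List.mem_reverse.mp hp))
  have hnd : L.toList.reverse.Nodup := List.nodup_reverse.mpr (Finset.nodup_toList L)
  have hner : ∀ p ∈ L.toList.reverse, p.1 ≠ p.2 := fun p hp => ne_of_lSF (hlr p hp)
  have hne : ∀ p ∈ L.toList, p.1 ≠ p.2 := fun p hp => ne_of_lSF (hL (Finset.mem_toList.mp hp))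
  obtain ⟨u, hal, hz⟩ := normal_sub (D := D) (φ := φ) hS hnd hlr hc hcS
  have hre := psiT_re hF hner hal hc
  have heS : psiT D φ L.toList.reverse u c S = c S := psiT_S hS hlr _ _
  have hen : n (psiT D φ L.toList.reverse u c) = n c := n_psiT hF hI hner hal hc
  have hinv : PureAux.InvS S (psiT D φ L.toList.reverse u c) := by
    apply invS_of hS hre
    intro p hp
    by_cases hpL : p ∈ L
    · exact hz p (List.mem_reverse.mpr (Finset.mem_toList.mpr hpL))
    · rw [psiT_nb hS hnd hlr _ _ hp, if_neg (fun h => hpL (Finset.mem_toList.mp (List.mem_reverse.mp h))), hv p hp hpL,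
        add_zero]
  have h1 := key hF hI hm2 hE hS hre (by rw [heS]; exact hcS) hinv (by rw [hen]; exact hpos)
  rw [heS] at h1
  refine ⟨fun p => - u p, ?_, ?_⟩
  · intro p hp hlong
    have := hal p (List.mem_reverse.mpr hp) hlong
    simp only [map_neg, this]
  · rw [← h1]
    exact (psiT_rev hF hne u c).symm

lemma single_re (hF : Frob φ j q) {S : S3} (hS : tau S = S) (a : k) : Re D φ (Pi.single S (j a)) := by
  intro T
  by_cases h : T = S
  · subst h
    rw [hS, Pi.single_eq_same, D.kg_fix T hS, one_mul, (hF.fix _).mpr ⟨a, rfl⟩]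
  · have h' : tau T ≠ S := by
      intro e
      apply h
      rw [← tau_tau T, e, hS]
    rw [Pi.single_eq_of_ne h, Pi.single_eq_of_ne h', map_zero, mul_zero]

lemma n_single (hF : Frob φ j q) (hI : InvT D φ j n) {S : S3} (hS : tau S = S) {a : k} (ha : a ≠ 0) :
    n (Pi.single S (j a)) = n (Pi.single S (j 1)) := by
  obtain ⟨i, y, hi, hy⟩ := exists_pair S
  rw [hI.torus i (Units.mk0 a ha) (Pi.single S (j 1)) (single_re hF hS 1)]
  congr 1
  funext T
  by_cases h : T = S
  · subst h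
    simp [pw_one T i (ti i) hi (fix_ti T i hS hi)]
  · simp [Pi.single_eq_of_ne h]

/-- The orbit map. -/
noncomputable def Gf (D : TwD K) (φ : K ≃+* K) (j : k →+* K) (S : S3) (L : Finset Pr) (x : {a : k // a ≠ 0} × Dom φ L) : S3 → K :=
  psiT D φ L.toList (extT x.2) (Pi.single S (j x.1.1))

lemma fibre (hF : Frob φ j q) (hI : InvT D φ j n) {S : S3} (hS : tau S = S) {L : Finset Pr} (hL : L ⊆ lSF S)
    (Q : (S3 → K) → Prop) [DecidablePred Q] (hQ : ∀ x, Q (Gf D φ j S L x)) (hsurj : ∀ c, Q c → 0 < n c → ∃ x, Gf D φ j S L x = c) :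
    ∑ c : S3 → K, (if Q c then n c else 0) = (q - 1) * q ^ (∑ p ∈ L, W p) * n (Pi.single S (j 1)) := by
  have hl : ∀ p ∈ L.toList, p ∈ lSF S := fun p hp => hL (Finset.mem_toList.mp hp)
  have hne : ∀ p ∈ L.toList, p.1 ≠ p.2 := fun p hp => ne_of_lSF (hl p hp)
  have hnd := Finset.nodup_toList L
  have hal : ∀ v : Dom φ L, ∀ p ∈ L.toList, Al φ p.1 p.2 (extT v p) := fun v p hp => extT_al v (Finset.mem_toList.mp hp)
  have hGS : ∀ x, Gf D φ j S L x S = j x.1.1 := fun x => by
    unfold Gf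
    rw [psiT_S hS hl]
    simp
  have hinj : Function.Injective (Gf D φ j S L) := by
    rintro ⟨⟨a, ha⟩, v⟩ ⟨⟨a', ha'⟩, v'⟩ h
    have e0 : a = a' := by
      have := congrArg (fun f => f S) h
      simp only [hGS] at this
      exact j.injective this
    subst e0
    have hv : v = v' := by
      funext ⟨p, hp⟩
      apply Subtype.ext
      have hpl : p ∈ L.toList := Finset.mem_toList.mpr hp
      have e := congrFun h (nb S p.1 p.2)
      unfold Gf at e
      rw [psiT_nb hS hnd hl _ _ (hL hp), psiT_nb hS hnd hl _ _ (hL hp), if_pos hpl, if_pos hpl] at e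
      have e' := add_left_cancel e
      simp only [Pi.single_eq_same] at e'
      have h0 := sg_ne (D := D) p.1 p.2 (nb S p.1 p.2)
      have hj : j a ≠ 0 := fun h' => ha (by simpa using h')
      have e2 : extT v p = extT v' p := mul_left_cancel₀ h0 (mul_right_cancel₀ hj e')
      rwa [extT_mem v hp, extT_mem v' hp] at e2
    rw [hv]
  have hGn : ∀ x, n (Gf D φ j S L x) = n (Pi.single S (j 1)) := fun x => by
    unfold Gf
    rw [n_psiT hF hI hne (hal x.2) (single_re hF hS _), n_single hF hI hS x.1.2]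
  have hs := PureAux.sum_param (n := n) (Gf D φ j S L) hinj Q hQ hsurj
  rw [hs]
  simp only [hGn, Finset.sum_const, Finset.card_univ, smul_eq_mul]
  rw [Fintype.card_prod, PureAux.card_ne, card_dom hF]
  have : Fintype.card k = q := by rw [← hF.card_k, Nat.card_eq_fintype_card]
  rw [this]

lemma surj_of (hF : Frob φ j q) (hI : InvT D φ j n) {m : ℕ} (hm2 : m ≤ 2)
    (hE : ∀ T : S3, tau T = T → ∑ c : S3 → K, (if Re D φ c ∧ c T ≠ 0 then n c else 0) = (q - 1) * q ^ 9 * m)
    {S : S3} (hS : tau S = S) {L : Finset Pr} (hL : L ⊆ lSF S) {c : S3 → K} (hc : Re D φ c) (hcS : c S ≠ 0)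
    (hpos : 0 < n c) (hv : ∀ p ∈ lSF S, p ∉ L → c (nb S p.1 p.2) = 0) : ∃ x, Gf D φ j S L x = c := by
  obtain ⟨u, hal, hu⟩ := support hF hI hm2 hE hS hL hc hcS hpos hv
  obtain ⟨a, ha⟩ := (hF.fix (c S)).mp (re_fix hc hS)
  have ha0 : a ≠ 0 := by
    rintro rfl
    exact hcS (by simpa using ha.symm)
  refine ⟨(⟨a, ha0⟩, fun p => ⟨u p.1, hal p.1 (Finset.mem_toList.mpr p.2)⟩), ?_⟩
  unfold Gf
  simp only
  rw [ha, psiT_congr (v := u) (fun p hp => extT_mem _ (Finset.mem_toList.mp hp))]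
  exact hu.symm

/-- The first part. -/
lemma n_single_eq (hF : Frob φ j q) (hI : InvT D φ j n) {m : ℕ} (hm2 : m ≤ 2)
    (hE : ∀ T : S3, tau T = T → ∑ c : S3 → K, (if Re D φ c ∧ c T ≠ 0 then n c else 0) = (q - 1) * q ^ 9 * m)
    {S : S3} (hS : tau S = S) {a : k} (ha : a ≠ 0) : n (Pi.single S (j a)) = m := by
  have hsum := fibre (n := n) hF hI hS (L := lSF S) (Finset.Subset.refl _) (fun e => Re D φ e ∧ e S ≠ 0)
    (fun x => by
      refine ⟨psiT_re hF (fun p hp => ne_of_lSF (Finset.mem_toList.mp hp))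
        (fun p hp => extT_al x.2 (Finset.mem_toList.mp hp)) (single_re hF hS _), ?_⟩
      unfold Gf
      rw [psiT_S hS (fun p hp => Finset.mem_toList.mp hp)]
      simpa using x.1.2)
    (fun c hc hp => surj_of hF hI hm2 hE hS (Finset.Subset.refl _) hc.1 hc.2 hp
      (fun p hp h => absurd hp h))
  rw [hE S hS, sum_W S hS] at hsum
  have hq := two_le_q hF
  have h9 : 0 < (q - 1) * q ^ 9 := by
    apply Nat.mul_pos
    · omega
    · positivity
  rw [n_single hF hI hS ha]
  exact (Nat.eq_of_mul_eq_mul_left h9 hsum).symm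

lemma re_nb {S : S3} (hS : tau S = S) {e : S3 → K} (he : Re D φ e) {x y : Fin 6} (hx : x ∈ S.1) (hy : y ∈ S.1)
    (h : e (nb S x (ti y)) = 0) : e (nb S y (ti x)) = 0 := by
  have h3 := tau_nb S x (ti y) hS hx (fix_ti S y hS hy)
  rw [ti_ti] at h3
  have h4 := he (nb S x (ti y))
  rw [h3, h, map_zero, mul_zero] at h4
  exact h4

lemma f2_key (hF : Frob φ j q) (hI : InvT D φ j n) {m : ℕ} (hm2 : m ≤ 2)
    (hE : ∀ T : S3, tau T = T → ∑ c : S3 → K, (if Re D φ c ∧ c T ≠ 0 then n c else 0) = (q - 1) * q ^ 9 * m)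
    {S : S3} (hS : tau S = S) {c : S3 → K} (hc : Re D φ c) (hcS : c S ≠ 0) (hpos : 0 < n c) {x y w : Fin 6}
    (hy : y ∈ S.1) (hxy : x ≠ y) (hw : w = x ∨ w = y) (hpm : (x, ti y) ∈ lSF S)
    (h1 : c (nb S w (ti w)) = 0) (h2 : c (S2 S x y) = 0) : c (nb S x (ti y)) = 0 := by
  by_contra hA
  have hpm' := mem_lSF.mp hpm
  have hx : x ∈ S.1 := hpm'.1
  have hty : ti y ∉ S.1 := hpm'.2.1
  obtain ⟨f1, f2a, f3, f4a, f5a, f6⟩ := f2 S x y hS hx hy hxy
  have hwS : w ∈ S.1 := by
    rcases hw with rfl | rfl <;> assumption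
  have hlong : ti y ≠ ti x := fun e => hxy (Fin.rev_injective e).symm
  have hne : x ≠ ti y := ne_of_lSF hpm
  let t : K := - c (nb S x (ti y)) / (D.sg x (ti y) (nb S x (ti y)) * c S)
  have hal : Al φ x (ti y) t := fun e => absurd e hlong
  let c₁ := lactA D φ x (ti y) t c
  have h1re : Re D φ c₁ := lactA_re hF hne hal hc
  have h1n : n c₁ = n c := (hI.A x (ti y) hne t hal c hc).symm
  have hnS := not_S S (x, ti y) hS hpm
  have h1S : c₁ S = c S := lact_inact (p := (x, ti y)) hnS.1 (fun _ => hnS.2) t c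
  have h1N : c₁ (nb S x (ti y)) = 0 := by
    have h0 : D.sg x (ti y) (nb S x (ti y)) ≠ 0 := sg_ne _ _ _
    have hthis := lact_tgt (D := D) (φ := φ) (p := (x, ti y)) (X := nb S x (ti y)) (tgt_act S _ hpm) (crit2 S _ hS hpm)
      (by rw [tgt_src S _ hpm]; exact fun _ => hnS.2) t c
    rw [tgt_src S (x, ti y) hpm] at hthis
    simp only at hthis
    simp only [c₁]
    rw [hthis]
    simp only [t]
    field_simp
    ring
  have h1N' : c₁ (nb S y (ti x)) = 0 := re_nb hS h1re hx hy h1N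
  have h1W : c₁ (nb S w (ti w)) = 0 := by
    have hne2 : (x, ti y) ≠ (w, ti w) := by
      intro e
      have e1 : x = w := congrArg Prod.fst e
      have e2 : ti y = ti w := congrArg Prod.snd e
      have e3 : y = w := Fin.rev_injective e2
      exact hxy (e1.trans e3.symm)
    have hcr := crit S (w, ti w) (x, ti y) hS (long_mem S w hS hwS) hpm hne2
    have := lact_inact (D := D) (φ := φ) (p := (x, ti y)) (T := nb S w (ti w)) hcr.1 (fun _ => hcr.2) t c
    simp only [c₁]
    rw [this, h1]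
  let inner := actA D.sg y (ti x) (D.kr x (ti y) * φ t) c
  have hc1 : c₁ = actA D.sg x (ti y) t inner := by
    simp only [c₁, inner]
    rw [lact_short hlong, ti_ti]
  have hin0 : inner (nb S y (ti x)) = 0 := by
    rw [← h1N', hc1, PureAux.actA_not f5a]
  have ht0 : t ≠ 0 := div_ne_zero (neg_ne_zero.mpr hA) (mul_ne_zero (sg_ne _ _ _) hcS)
  have h1S2 : c₁ (S2 S x y) ≠ 0 := by
    rw [hc1, PureAux.actA_yes f1, f2a, hin0, mul_zero, add_zero]
    simp only [inner]
    rw [PureAux.actA_yes f3, f4a, h2, zero_add]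
    exact mul_ne_zero (mul_ne_zero (sg_ne _ _ _) (mul_ne_zero (kr_ne _ _) ((map_ne_zero φ).mpr ht0))) hA
  -- clear the remaining neighbours
  let L' := ((lSF S).erase (x, ti y)).erase (w, ti w)
  have hL' : ∀ r ∈ L'.toList, r ≠ (w, ti w) ∧ r ≠ (x, ti y) ∧ r ∈ lSF S := by
    intro r hr
    have := Finset.mem_toList.mp hr
    simpa [L', Finset.mem_erase] using this
  have hl' : ∀ r ∈ L'.toList, r ∈ lSF S := fun r hr => (hL' r hr).2.2
  have hnd := Finset.nodup_toList L'
  have hne' : ∀ r ∈ L'.toList, r.1 ≠ r.2 := fun r hr => ne_of_lSF (hl' r hr)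
  obtain ⟨u, hal', hz⟩ := normal_sub (D := D) (φ := φ) hS hnd hl' h1re (by rw [h1S]; exact hcS)
  have hre := psiT_re hF hne' hal' h1re
  have heS : psiT D φ L'.toList u c₁ S = c S := by rw [psiT_S hS hl', h1S]
  have hen : n (psiT D φ L'.toList u c₁) = n c := by rw [n_psiT hF hI hne' hal' h1re, h1n]
  have hinv : PureAux.InvS S (psiT D φ L'.toList u c₁) := by
    apply invS_of hS hre
    intro r hr
    by_cases hrL : r ∈ L'.toList
    · exact hz r hrL
    · rw [psiT_nb hS hnd hl' _ _ hr, if_neg hrL, add_zero]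
      have : r = (w, ti w) ∨ r = (x, ti y) := by
        by_contra hh
        push Not at hh
        apply hrL
        apply Finset.mem_toList.mpr
        simp only [L', Finset.mem_erase]
        exact ⟨hh.1, hh.2, hr⟩
      rcases this with rfl | rfl
      · exact h1W
      · exact h1N
  have hfin := key hF hI hm2 hE hS hre (by rw [heS]; exact hcS) hinv (by rw [hen]; exact hpos)
  have hS2ne : S2 S x y ≠ S := fun e => hty (e ▸ f1.1)
  have he0 : psiT D φ L'.toList u c₁ (S2 S x y) = 0 := by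
    rw [hfin, Pi.single_eq_of_ne hS2ne]
  have hkeep : ∀ l' : List Pr, (∀ r ∈ l', r ∈ L'.toList) →
      psiT D φ l' u c₁ (nb S w (ti w)) = 0 ∧ psiT D φ l' u c₁ (S2 S x y) = c₁ (S2 S x y) := by
    intro l'
    induction l' with
    | nil =>
      intro _
      exact ⟨h1W, rfl⟩
    | cons r l' ih =>
      intro hr
      obtain ⟨ih1, ih2⟩ := ih (fun r' hr' => hr r' (List.mem_cons_of_mem _ hr'))
      obtain ⟨hr1, hr2, hr3⟩ := hL' r (hr r List.mem_cons_self)
      have hcr := crit S (w, ti w) r hS (long_mem S w hS hwS) hr3 hr1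
      refine ⟨?_, ?_⟩
      · rw [psiT_cons, lact_inact hcr.1 (fun _ => hcr.2), ih1]
      · rw [psiT_cons]
        by_cases hl : r.2 = ti r.1
        · rw [lact_long hl]
          by_cases hact : act r (S2 S x y)
          · have hmv := (f2b1 S x y w r ⟨hS, hpm, hy, hxy, hw, hr3, hr2, hr1⟩).resolve_left (fun h => h hact)
            rw [PureAux.actA_yes hact, hmv, ih1, mul_zero, add_zero, ih2]
          · rw [PureAux.actA_not hact, ih2]
        · rw [lact_inact (f2b2 S x y w r ⟨hS, hpm, hy, hxy, hw, hr3, hr2, hr1, hl⟩)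
            (fun _ => f2b3 S x y w r ⟨hS, hpm, hy, hxy, hw, hr3, hr2, hr1, hl⟩), ih2]
  have := (hkeep L'.toList (fun r hr => hr)).2
  rw [he0] at this
  exact h1S2 this.symm

/-- Both orders. -/
lemma f2_key' (hF : Frob φ j q) (hI : InvT D φ j n) {m : ℕ} (hm2 : m ≤ 2)
    (hE : ∀ T : S3, tau T = T → ∑ c : S3 → K, (if Re D φ c ∧ c T ≠ 0 then n c else 0) = (q - 1) * q ^ 9 * m)
    {S : S3} (hS : tau S = S) {c : S3 → K} (hc : Re D φ c) (hcS : c S ≠ 0) (hpos : 0 < n c) {x y w : Fin 6}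
    (hx : x ∈ S.1) (hy : y ∈ S.1) (hxy : x ≠ y) (hw : w = x ∨ w = y)
    (h1 : c (nb S w (ti w)) = 0) (h2 : c (S2 S x y) = 0) : c (nb S x (ti y)) = 0 ∧ c (nb S y (ti x)) = 0 := by
  rcases lS_or S x (ti y) hS hx (fix_ti S y hS hy) with h3 | h3
  · have := f2_key hF hI hm2 hE hS hc hcS hpos hy hxy hw h3 h1 h2
    exact ⟨this, re_nb hS hc hx hy this⟩
  · rw [ti_ti] at h3
    have := f2_key hF hI hm2 hE hS hc hcS hpos hx hxy.symm hw.symm h3 h1 (by rw [← S2_symm S x y hS hx hy hxy]; exact h2)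
    exact ⟨re_nb hS hc hy hx this, this⟩

lemma lin_ne (hF : Frob φ j q) {e₁ e₂ : K} (h2 : e₂ ≠ 0) : ∃ w : K, e₂ * φ w + e₁ * w ≠ 0 := by
  by_contra hno
  push Not at hno
  have h1 := hno 1
  rw [map_one, mul_one, mul_one] at h1
  have hfix : ∀ w : K, φ w = w := by
    intro w
    have h3 := hno w
    have h4 : e₁ = - e₂ := by linear_combination h1
    rw [h4] at h3
    have h5 : e₂ * (φ w - w) = 0 := by linear_combination h3
    have h6 := (mul_eq_zero.mp h5).resolve_left h2
    linear_combination h6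
  have hsurj : Function.Surjective j := fun w => (hF.fix w).mp (hfix w)
  have hle := Fintype.card_le_of_surjective j hsurj
  rw [card_K hF] at hle
  have h7 : Fintype.card k = q := by rw [← hF.card_k, Nat.card_eq_fintype_card]
  rw [h7] at hle
  have hq := two_le_q hF
  have : q ^ 2 = q * q := by ring
  nlinarith

/-- Step (4): a real vector in the support has a fixed nonzero coordinate. -/
lemma exists_fixed (hF : Frob φ j q) (hI : InvT D φ j n) {m : ℕ} (hm2 : m ≤ 2)
    (hE : ∀ T : S3, tau T = T → ∑ c : S3 → K, (if Re D φ c ∧ c T ≠ 0 then n c else 0) = (q - 1) * q ^ 9 * m)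
    {c : S3 → K} (hc : Re D φ c) (hne : c ≠ 0) (hpos : 0 < n c) : ∃ X, tau X = X ∧ c X ≠ 0 := by
  by_contra hno
  push Not at hno
  obtain ⟨T, hT⟩ : ∃ T, c T ≠ 0 := by
    by_contra h
    push Not at h
    exact hne (funext h)
  have hTn : tau T ≠ T := fun e => hT (hno T e)
  obtain ⟨S, x, y, hS, hx, hy, hxy, rfl⟩ := f4_ex T hTn
  obtain ⟨a1, a2, a3, a4, a5, a6, a7, a8, a9, a10⟩ := f4 S x y hS hx hy hxy
  have hS2f := (f2 S x y hS hx hy hxy).2.2.2.2.2
  have hne1 : ti x ≠ y := fun e => fix_ti S x hS hx (e ▸ hy)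
  have hlong : y ≠ ti (ti x) := by
    rw [ti_ti]
    exact hxy.symm
  have hal : ∀ t : K, Al φ (ti x) y t := fun t e => absurd e hlong
  have hform : ∀ t : K, (lactA D φ (ti x) y t c) S =
      D.sg (ti y) x S * (D.kr (ti x) y * φ t) * c (nb S x (ti y)) + D.sg (ti x) y S * t * c (nb S y (ti x)) := by
    intro t
    have a1' : y ∈ S.1 ∧ ti x ∉ S.1 := a1
    have a2' : x ∈ S.1 ∧ ti y ∉ S.1 := a2
    have a4' : x ∈ (nb S y (ti x)).1 ∧ ti y ∉ (nb S y (ti x)).1 := a4
    have e1 : mv (ti x) y S = nb S y (ti x) := rfl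
    have e2 : mv (ti y) x S = nb S x (ti y) := rfl
    rw [lact_short hlong, ti_ti, PureAux.actA_yes a1', PureAux.actA_yes a2', e1, e2, PureAux.actA_yes a4', a5,
      hno _ hS2f, hno _ hS]
    ring
  have hrel : c (nb S x (ti y)) = D.kg (nb S y (ti x)) * φ (c (nb S y (ti x))) := by
    have h3 := tau_nb S y (ti x) hS hy (fix_ti S x hS hx)
    rw [ti_ti] at h3
    have h4 := hc (nb S y (ti x))
    rw [h3] at h4
    exact h4
  set cT := c (nb S y (ti x)) with hcT
  obtain ⟨w, hw⟩ := lin_ne hF (e₁ := D.sg (ti x) y S)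
    (e₂ := D.sg (ti y) x S * D.kr (ti x) y * D.kg (nb S y (ti x)))
    (mul_ne_zero (mul_ne_zero (sg_ne _ _ _) (kr_ne _ _)) (kg_ne _))
  let t := w / cT
  let c' := lactA D φ (ti x) y t c
  have hre : Re D φ c' := lactA_re hF hne1 (hal t) hc
  have hn' : n c' = n c := (hI.A _ _ hne1 t (hal t) c hc).symm
  have hc'S : c' S ≠ 0 := by
    simp only [c']
    rw [hform, hrel]
    have e : φ t * φ cT = φ w := by
      rw [← map_mul]
      simp only [t]
      rw [div_mul_cancel₀ _ hT]
    have e' : t * cT = w := by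
      simp only [t]
      rw [div_mul_cancel₀ _ hT]
    intro h0
    apply hw
    linear_combination h0 + D.sg (ti y) x S * D.kr (ti x) y * D.kg (nb S y (ti x)) * (-e) - D.sg (ti x) y S * e'
  have hc'T : c' (nb S y (ti x)) ≠ 0 := by
    simp only [c']
    rw [lact_short hlong, ti_ti, PureAux.actA_not a3, PureAux.actA_yes a4, a5, hno _ hS2f, mul_zero, add_zero]
    exact hT
  have hc'2 : c' (S2 S x y) = 0 := by
    simp only [c']
    rw [lact_short hlong, ti_ti, PureAux.actA_not a6, PureAux.actA_not a7]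
    exact hno _ hS2f
  have hc'N : c' (nb S x (ti x)) = 0 := by
    simp only [c']
    rw [lact_short hlong, ti_ti, PureAux.actA_not a8, PureAux.actA_not a9]
    exact hno _ a10
  have := f2_key' hF hI hm2 hE hS hre hc'S (by rw [hn']; exact hpos) hx hy hxy (Or.inl rfl) hc'N hc'2
  exact hc'T this.2

/-- `S` is the top fixed coordinate of `c`. -/
def IsTopT (c : S3 → K) (S : S3) : Prop := tau S = S ∧ c S ≠ 0 ∧ ∀ X, tau X = X → c X ≠ 0 → wt X ≤ wt S

lemma exists_unique_top {c : S3 → K} (h : ∃ X, tau X = X ∧ c X ≠ 0) : ∃! S, IsTopT c S := by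
  obtain ⟨T0, hT0f, hT0⟩ := h
  obtain ⟨S, hS, hmax⟩ := Finset.exists_max_image (Finset.univ.filter fun T : S3 => tau T = T ∧ c T ≠ 0) wt
    ⟨T0, by simp [hT0f, hT0]⟩
  have hS' := (Finset.mem_filter.1 hS).2
  refine ⟨S, ⟨hS'.1, hS'.2, fun T hTf hT => hmax T (by simp [hTf, hT])⟩, ?_⟩
  rintro S' ⟨h1, h2, h3⟩
  apply wt_inj
  exact le_antisymm (hmax S' (by simp [h1, h2])) (h3 S hS'.1 hS'.2)

/-- Positive operators keep the top. -/
lemma up_step {S : S3} {a b : Fin 6} (hpos : ∀ X : S3, act (a, b) X → wt X < wt (mv a b X)) (t : K) {e : S3 → K}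
    (he : ∀ X, e X ≠ 0 → wt X ≤ wt S) : ∀ X, actA D.sg a b t e X ≠ 0 → wt X ≤ wt S := by
  intro X hX
  by_cases hh : b ∈ X.1 ∧ a ∉ X.1
  · rw [PureAux.actA_yes hh] at hX
    by_cases h0 : e X = 0
    · rw [h0, zero_add] at hX
      have h3 : e (mv a b X) ≠ 0 := by
        intro h'
        rw [h'] at hX
        simp at hX
      exact (hpos X hh).le.trans (he _ h3)
    · exact he X h0
  · rw [PureAux.actA_not hh] at hX
    exact he X hX

lemma low_top {S : S3} (u : Pr → K) (a : K) {l : List Pr} (hl : ∀ r ∈ l, r ∈ lowT S) :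
    ∀ X, psiT D φ l u (Pi.single S a) X ≠ 0 → wt X ≤ wt S := by
  induction l with
  | nil =>
    intro X hX
    by_cases h : X = S
    · rw [h]
    · exact absurd (by simp [psiT, h]) hX
  | cons r l ih =>
    have ih' := ih (fun q hq => hl q (List.mem_cons_of_mem _ hq))
    have hr := hl r List.mem_cons_self
    have hp := low_pos S r hr
    have h1 : ∀ X : S3, act (r.1, r.2) X → wt X < wt (mv r.1 r.2 X) := fun X hX => wt_act X r hp.1 hX
    rw [psiT_cons]
    by_cases hlg : r.2 = ti r.1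
    · rw [lact_long hlg]
      exact up_step h1 _ ih'
    · rw [lact_short hlg]
      apply up_step h1
      apply up_step
      · intro X hX
        exact wt_bar X r hp.1 hX
      · exact ih'

/-- The count for a given top. -/
lemma sum_top (hF : Frob φ j q) (hI : InvT D φ j n) {m : ℕ} (hm2 : m ≤ 2)
    (hE : ∀ T : S3, tau T = T → ∑ c : S3 → K, (if Re D φ c ∧ c T ≠ 0 then n c else 0) = (q - 1) * q ^ 9 * m)
    {S : S3} (hS : tau S = S) :
    ∑ c : S3 → K, (if Re D φ c ∧ IsTopT c S then n c else 0) = (q - 1) * q ^ (∑ p ∈ lowT S, W p) * m := by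
  have hL := low_sub S
  rw [fibre (n := n) hF hI hS hL (fun e => Re D φ e ∧ IsTopT e S)
    (fun x => by
      have hre : Re D φ (Gf D φ j S (lowT S) x) := psiT_re hF (fun p hp => ne_of_lSF (hL (Finset.mem_toList.mp hp)))
        (fun p hp => extT_al x.2 (Finset.mem_toList.mp hp)) (single_re hF hS _)
      refine ⟨hre, hS, ?_, ?_⟩
      · unfold Gf
        rw [psiT_S hS (fun p hp => hL (Finset.mem_toList.mp hp))]
        simpa using x.1.2
      · intro X _ hX
        exact low_top _ _ (fun p hp => Finset.mem_toList.mp hp) X hX)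
    (fun c hc hp => by
      obtain ⟨hre, _, hcS, htop⟩ := hc
      refine surj_of hF hI hm2 hE hS hL hre hcS hp ?_
      intro r hr hrL
      have hm := mem_lSF.mp hr
      have hlt : r.2 < r.1 := by
        have hnotlt : ¬ r.1 < r.2 := by
          intro h
          apply hrL
          simp only [lowT, Finset.mem_filter, Finset.mem_univ, true_and]
          exact ⟨hm.1, hm.2.1, hm.2.2, h⟩
        exact lt_of_le_of_ne (not_lt.mp hnotlt) (ne_of_lSF hr).symm
      obtain ⟨x, b⟩ := r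
      simp only at hm hlt ⊢
      have hyS := fix_ti' S b hS hm.2.1
      have hbe : b = ti (ti b) := (ti_ti b).symm
      by_cases hxy : x = ti b
      · subst hxy
        have hf := f5_long S (ti b) hS hm.1 (by rw [ti_ti]; exact hlt)
        rw [ti_ti] at hf
        by_contra h0
        exact absurd (htop _ hf.2 h0) (not_le.mpr hf.1)
      · generalize hy : ti b = y at *
        have hby : b = ti y := by rw [← hy, ti_ti]
        subst hby
        have hf := f5 S x y hS hm.1 hyS hxy hlt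
        obtain ⟨hS2, w, hw, hwlt⟩ := hf
        have hwS : w ∈ S.1 := by
          rcases hw with rfl | rfl
          · exact hm.1
          · exact hyS
        have hwfix : tau (nb S w (ti w)) = nb S w (ti w) := by
          rw [tau_nb S w (ti w) hS hwS (fix_ti S w hS hwS), ti_ti]
        have hS2f := (f2 S x y hS hm.1 hyS hxy).2.2.2.2.2
        have h1 : c (nb S w (ti w)) = 0 := by
          by_contra h0
          exact absurd (htop _ hwfix h0) (not_le.mpr hwlt)
        have h2 : c (S2 S x y) = 0 := by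
          by_contra h0
          exact absurd (htop _ hS2f h0) (not_le.mpr hS2)
        exact (f2_key' hF hI hm2 hE hS hre hcS hp hm.1 hyS hxy hw h1 h2).1),
    n_single_eq hF hI hm2 hE hS (one_ne_zero)]

/-- The structure theorem, steps (0)-(5). -/
theorem pure_aux (hF : Frob φ j q) (hI : InvT D φ j n) {m : ℕ} (hm2 : m ≤ 2)
    (hE : ∀ T : S3, tau T = T → ∑ c : S3 → K, (if Re D φ c ∧ c T ≠ 0 then n c else 0) = (q - 1) * q ^ 9 * m) :
    (∀ (T : S3) (a : k), tau T = T → a ≠ 0 → n (Pi.single T (j a)) = m) ∧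
    ∑ c : S3 → K, (if Re D φ c ∧ c ≠ 0 then n c else 0) = m * ((q - 1) * gaussU q) := by
  refine ⟨fun T a hT ha => n_single_eq hF hI hm2 hE hT ha, ?_⟩
  have e : ∀ c : S3 → K, (if Re D φ c ∧ c ≠ 0 then n c else 0) =
      ∑ S ∈ fixF, (if Re D φ c ∧ IsTopT c S then n c else 0) := by
    intro c
    by_cases hc : Re D φ c
    · by_cases hne : c = 0
      · subst hne
        rw [if_neg (by simp)]
        symm
        apply Finset.sum_eq_zero
        intro S _
        rw [if_neg]
        rintro ⟨_, _, h, _⟩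
        exact h rfl
      · by_cases hpos : n c = 0
        · rw [hpos]
          simp
        · rw [if_pos ⟨hc, hne⟩]
          obtain ⟨S, hS, huniq⟩ := exists_unique_top (exists_fixed hF hI hm2 hE hc hne (Nat.pos_of_ne_zero hpos))
          have hSmem : S ∈ fixF := by
            simp only [fixF, Finset.mem_filter, Finset.mem_univ, true_and]
            exact hS.1
          rw [Finset.sum_eq_single S (fun T _ hT => if_neg (fun h => hT (huniq T h.2)))
            (fun h => absurd hSmem h), if_pos ⟨hc, hS⟩]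
    · rw [if_neg (fun h => hc h.1)]
      symm
      apply Finset.sum_eq_zero
      intro S _
      rw [if_neg (fun h => hc h.1)]
  simp_rw [e]
  rw [Finset.sum_comm]
  have h2 : ∀ S ∈ fixF, ∑ c : S3 → K, (if Re D φ c ∧ IsTopT c S then n c else 0) =
      m * ((q - 1) * q ^ (∑ p ∈ lowT S, W p)) := by
    intro S hS
    have hS' : tau S = S := by simpa [fixF] using hS
    rw [sum_top hF hI hm2 hE hS']
    ring
  rw [Finset.sum_congr rfl h2, ← Finset.mul_sum, ← Finset.mul_sum, PureFinT.sum_low]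

end PureT

end Cfsg.Agent.Lib.MinE6T
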