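import Cfsg.Agent.Lib.MinE6T.Inv
import Cfsg.Agent.Lib.MinE6T.PureA

/-! Pure combinatorics on real vectors: PLAN.md, `Pure`. -/

set_option autoImplicit false
set_option linter.unusedSectionVars false
set_option linter.unusedVariables false

namespace Cfsg.Agent.Lib.MinE6T

open Module
open Cfsg.Agent.Lib.MinE6
open scoped Classical

variable {K : Type*} [Field K] [Fintype K] {φ : K ≃+* K} {k : Type*} [Field k] [Fintype k] {j : k →+* K} {q : ℕ}
  {D : TwD K} {n : (S3 → K) → ℕ}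

/-- The structure theorem. PLAN.md, paragraph `Pure`. -/
theorem pure_thm (hF : Frob φ j q) (hI : InvT D φ j n) {m : ℕ} (hm : 0 < m) (hm2 : m ≤ 2)
    (hE : ∀ T : S3, tau T = T → ∑ c : S3 → K, (if Re D φ c ∧ c T ≠ 0 then n c else 0) = (q - 1) * q ^ 9 * m) :
    (∀ (T : S3) (a : k), tau T = T → a ≠ 0 → n (Pi.single T (j a)) = m) ∧
    ∑ c : S3 → K, (if Re D φ c ∧ c ≠ 0 then n c else 0) = m * ((q - 1) * gaussU q) :=
  PureT.pure_aux hF hI hm2 hE

end Cfsg.Agent.Lib.MinE6T
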