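import Cfsg.Agent.Lib.MinE6T.Red
import Cfsg.Agent.Lib.MinE6.Basic
import Cfsg.Agent.Lib.OddDeg.Form

/-! The fixed vectors of `U` when `L` acts trivially on them: copy `MinE6/R4.lean` (`x 46 u` becomes `S.E (Pi.single β₀ (j u))`, `u : k`; `F` becomes `k`; `x 25` becomes `y25`). -/

set_option autoImplicit false
set_option linter.unusedSectionVars false
set_option linter.unusedVariables false

namespace Cfsg.Agent.Lib.MinE6T

open Module
open Cfsg.Agent.Lib.MinE6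
open Cfsg.Agent.Lib.OddDeg
open scoped Classical

variable {K : Type*} [Field K] [Fintype K] {φ : K ≃+* K} {k : Type*} [Field k] [Fintype k] {j : k →+* K} {Γ : Type*} [Group Γ]
  {V : Type*} [AddCommGroup V] [Module ℂ V] [FiniteDimensional ℂ V] {q : ℕ}
variable {S : SysT φ j Γ} {ρ : Representation ℂ Γ V} {ψ : AddChar K ℂ}

/-- `L` acts trivially on `R = Wt 0`. -/
def LTriv (Su : SuT S q) (ρ : Representation ℂ Γ V) (ψ : AddChar K ℂ) : Prop :=
  ∀ g, ∀ v ∈ Wt S ρ ψ 0, ρ (Su.su g) v = v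

namespace R4T

lemma tau_β₀ : tau β₀ = β₀ := by decide +kernel
lemma tau_c : tau (compl3 β₀) = compl3 β₀ := by decide +kernel
lemma tau_eq_β₀ : ∀ T : S3, tau T = β₀ → T = β₀ := by decide +kernel
lemma compl_eq : ∀ T : S3, compl3 T = β₀ → T = compl3 β₀ := by decide +kernel

/-- The element `x 46 u`. -/
def xb (S : SysT φ j Γ) (u : k) : Γ := S.E (Pi.single β₀ (j u))

lemma re_single (hF : Frob φ j q) (u : k) : Re S.D φ (Pi.single β₀ (j u)) := by
  intro T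
  by_cases h : T = β₀
  · subst h
    rw [tau_β₀, S.D.kg_fix _ tau_β₀, one_mul, Pi.single_eq_same]
    exact ((hF.fix _).2 ⟨u, rfl⟩).symm
  · have h' : tau T ≠ β₀ := fun e => h (tau_eq_β₀ T e)
    rw [Pi.single_eq_of_ne h', Pi.single_eq_of_ne h, map_zero, mul_zero]

lemma re_sub {a b : S3 → K} (ha : Re S.D φ a) (hb : Re S.D φ b) : Re S.D φ (a - b) := by
  intro T
  simp only [Pi.sub_apply, map_sub, ha T, hb T, mul_sub]

lemma real_β₀ (hF : Frob φ j q) {a : S3 → K} (ha : Re S.D φ a) : ∃ u, j u = a β₀ := by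
  have h := ha β₀
  rw [tau_β₀, S.D.kg_fix _ tau_β₀, one_mul] at h
  exact (hF.fix _).1 h.symm

lemma real_c (hF : Frob φ j q) {a : S3 → K} (ha : Re S.D φ a) : ∃ u, j u = a (compl3 β₀) := by
  have h := ha (compl3 β₀)
  rw [tau_c, S.D.kg_fix _ tau_c, one_mul] at h
  exact (hF.fix _).1 h.symm

lemma om_single (hF : Frob φ j q) {a : S3 → K} (ha : Re S.D φ a) (w : k) :
    ∃ w₀, j w₀ = om S.D a (Pi.single β₀ (j w)) := by
  obtain ⟨u, hu⟩ := real_c (S := S) hF ha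
  have e : om S.D a (Pi.single β₀ (j w)) = S.D.eps (compl3 β₀) * (a (compl3 β₀) * j w) := by
    unfold om
    rw [Finset.sum_eq_single (compl3 β₀)]
    · have hcc : compl3 (compl3 β₀) = β₀ := by decide +kernel
      rw [hcc, Pi.single_eq_same]
    · intro T _ hT
      have : compl3 T ≠ β₀ := fun e => hT (compl_eq T e)
      rw [Pi.single_eq_of_ne this, mul_zero, mul_zero]
    · intro h0
      exact absurd (Finset.mem_univ _) h0
  rw [e, ← hu]
  rcases S.D.eps_sign (compl3 β₀) with h | h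
  · exact ⟨u * w, by rw [h, one_mul, map_mul]⟩
  · exact ⟨-(u * w), by rw [h, map_neg, map_mul]; ring⟩

lemma xb_zero : xb S (0 : k) = 1 := by
  unfold xb
  rw [map_zero, Pi.single_zero, S.E_zero]

lemma x_mul (hF : Frob φ j q) {y : V} (hz : ∀ u, ρ (S.z u) y = y) (a u : k) :
    ρ (xb S a) (ρ (xb S u) y) = ρ (xb S (a + u)) y := by
  obtain ⟨w, hw⟩ := S.E_add (Pi.single β₀ (j a)) (Pi.single β₀ (j u)) (re_single hF a) (re_single hF u)
  have e : (Pi.single β₀ (j (a + u)) : S3 → K) = Pi.single β₀ (j a) + Pi.single β₀ (j u) := by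
    rw [map_add, Pi.single_add]
  unfold xb
  rw [e, hw, map_mul, map_mul, Module.End.mul_apply, Module.End.mul_apply, hz]

lemma mem_RR {v : V} : v ∈ Wt S ρ ψ 0 ↔ (∀ u, ρ (S.z u) v = v) ∧ ∀ a, Re S.D φ a → ρ (S.E a) v = v := by
  constructor
  · rintro ⟨h1, h2⟩
    refine ⟨h1, fun a ha => ?_⟩
    have := h2 a ha
    simpa [pr] using this
  · rintro ⟨h1, h2⟩
    refine ⟨h1, fun a ha => ?_⟩
    rw [h2 a ha]
    simp [pr]

lemma conj_fix {g h : Γ} {v : V} (e : ρ (g⁻¹ * h * g) v = v) : ρ h (ρ g v) = ρ g v := by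
  have e1 : h * g = g * (g⁻¹ * h * g) := by group
  rw [← Module.End.mul_apply, ← map_mul, e1, map_mul, Module.End.mul_apply, e]

/-- For `v ∈ R`, if `L` is trivial on `R`: `n v` is fixed by `z` and the `E a`, `a β₀ = 0`. -/
theorem nb_fix (Su : SuT S q) (hL : LTriv Su ρ ψ) {v : V} (hv : v ∈ Wt S ρ ψ 0) :
    (∀ u, ρ (S.z u) (ρ S.nb v) = ρ S.nb v) ∧
      ∀ a, Re S.D φ a → a β₀ = 0 → ρ (S.E a) (ρ S.nb v) = ρ S.nb v := by
  obtain ⟨h1, h2⟩ := mem_RR.1 hv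
  let W : Subgroup Γ :=
    { carrier := {g | ρ g v = v}
      mul_mem' := by
        intro a b ha hb
        change ρ (a * b) v = v
        have ha' : ρ a v = v := ha
        have hb' : ρ b v = v := hb
        rw [map_mul, Module.End.mul_apply, hb', ha']
      one_mem' := by
        change ρ 1 v = v
        simp
      inv_mem' := by
        intro a ha
        have ha' : ρ a v = v := ha
        change ρ a⁻¹ v = v
        conv_lhs => rw [← ha']
        rw [← Module.End.mul_apply, ← map_mul, inv_mul_cancel, map_one, Module.End.one_apply] }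
  obtain ⟨h3, h4⟩ := S.nb_LU W (fun u => h1 u) (fun a ha => h2 a ha) (fun a b t hab hal => by
    obtain ⟨g, hg⟩ := Su.su_l a b t hab hal
    change ρ (S.l a b t) v = v
    rw [← hg]
    exact hL g v hv)
  exact ⟨fun u => conj_fix (h3 u), fun a ha h0 => conj_fix (h4 a ha h0)⟩

/-- The projection on the character `l` of `x 46`. -/
noncomputable def pil (S : SysT φ j Γ) (ρ : Representation ℂ Γ V) (ψ : AddChar K ℂ) (l : k) (y : V) : V :=
  (Fintype.card k : ℂ)⁻¹ • ∑ u : k, ψ (j (-(l * u))) • ρ (xb S u) y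

lemma pil_apply_x (hF : Frob φ j q) {y : V} (hz : ∀ u, ρ (S.z u) y = y) (l a : k) :
    ρ (xb S a) (pil S ρ ψ l y) = ψ (j (l * a)) • pil S ρ ψ l y := by
  unfold pil
  rw [map_smul, map_sum, smul_comm]
  congr 1
  rw [Finset.smul_sum, ← Equiv.sum_comp (Equiv.addLeft a) (fun u => ψ (j (l * a)) • ψ (j (-(l * u))) • ρ (xb S u) y)]
  refine Finset.sum_congr rfl fun u _ => ?_
  simp only [Equiv.coe_addLeft]
  rw [map_smul, x_mul hF hz, smul_smul, ← AddChar.map_add_eq_mul]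
  congr 2
  rw [← map_add]
  congr 1
  ring

lemma z_xb {y : V} (hz : ∀ u, ρ (S.z u) y = y) (hR : Re S.D φ (Pi.single β₀ (j (0 : k)))) (hF : Frob φ j q) (u w : k) :
    ρ (S.z u) (ρ (xb S w) y) = ρ (xb S w) y := by
  have e := S.E_z (Pi.single β₀ (j w)) u (re_single hF w)
  unfold xb
  rw [← Module.End.mul_apply, ← map_mul, ← e, map_mul, Module.End.mul_apply, hz]

lemma pil_z (hF : Frob φ j q) {y : V} (hz : ∀ u, ρ (S.z u) y = y) (l u : k) :
    ρ (S.z u) (pil S ρ ψ l y) = pil S ρ ψ l y := by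
  unfold pil
  rw [map_smul, map_sum]
  congr 1
  refine Finset.sum_congr rfl fun w _ => ?_
  rw [map_smul, z_xb hz (re_single hF 0) hF]

lemma E_xb (hF : Frob φ j q) {y : V} (hz : ∀ u, ρ (S.z u) y = y) {a : S3 → K} (ha : Re S.D φ a)
    (hy : ρ (S.E a) y = y) (w : k) : ρ (S.E a) (ρ (xb S w) y) = ρ (xb S w) y := by
  obtain ⟨w₀, hw₀⟩ := om_single (S := S) hF ha w
  have e := S.E_comm a (Pi.single β₀ (j w)) ha (re_single hF w) w₀ hw₀
  rw [← Module.End.mul_apply, ← map_mul]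
  unfold xb
  rw [e, map_mul, map_mul, Module.End.mul_apply, Module.End.mul_apply, hz, hy]

/-- The projection of `n v` on a character `l` of `x 46` is in `Wt (single β₀ l)`. -/
theorem pil_mem (hF : Frob φ j q) (Su : SuT S q) (hL : LTriv Su ρ ψ) {v : V} (hv : v ∈ Wt S ρ ψ 0) (l : k) :
    pil S ρ ψ l (ρ S.nb v) ∈ Wt S ρ ψ (Pi.single β₀ (j l)) := by
  obtain ⟨hz, hT⟩ := nb_fix Su hL hv
  set y := ρ S.nb v with hy
  refine ⟨fun u => pil_z hF hz l u, fun a ha => ?_⟩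
  obtain ⟨u0, hu0⟩ := real_β₀ (S := S) hF ha
  have hpr : pr (Pi.single β₀ (j l)) a = j (l * u0) := by
    unfold pr
    rw [Finset.sum_eq_single β₀]
    · rw [Pi.single_eq_same, map_mul, hu0]
    · intro T _ hT
      rw [Pi.single_eq_of_ne hT, zero_mul]
    · intro h0
      exact absurd (Finset.mem_univ _) h0
  set s : S3 → K := Pi.single β₀ (j u0) with hs
  have hre : Re S.D φ (a - s) := re_sub ha (re_single hF u0)
  have h0 : (a - s) β₀ = 0 := by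
    simp [hs, hu0]
  have ha' : a = (a - s) + s := by abel
  obtain ⟨w, hw⟩ := S.E_add (a - s) s hre (re_single hF u0)
  rw [← ha'] at hw
  rw [hpr, hw, map_mul, map_mul, Module.End.mul_apply, Module.End.mul_apply, pil_z hF hz]
  have h1 : ρ (S.E s) (pil S ρ ψ l y) = ψ (j (l * u0)) • pil S ρ ψ l y := pil_apply_x hF hz l u0
  rw [h1, map_smul]
  congr 1
  unfold pil
  rw [map_smul, map_sum]
  congr 1
  refine Finset.sum_congr rfl fun w' _ => ?_
  rw [map_smul, E_xb hF hz hre (hT _ hre h0)]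

/-- The character of `k`. -/
noncomputable def chi (ψ : AddChar K ℂ) (j : k →+* K) : AddChar k ℂ := ψ.compAddMonoidHom j.toAddMonoidHom

lemma chi_apply (u : k) : chi ψ j u = ψ (j u) := rfl

lemma chi_ne (hψ : ψ (j 1) ≠ 1) : chi ψ j ≠ 1 := by
  intro h
  apply hψ
  have := congrArg (fun c : AddChar k ℂ => c 1) h
  simpa [chi_apply] using this

lemma sum_pil (hψ : ψ (j 1) ≠ 1) (y : V) : ∑ l : k, pil S ρ ψ l y = y := by
  unfold pil
  rw [← Finset.smul_sum, Finset.sum_comm]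
  have h : ∀ u : k, ∑ l : k, ψ (j (-(l * u))) • ρ (xb S u) y =
      (if u = 0 then (Fintype.card k : ℂ) else 0) • ρ (xb S u) y := by
    intro u
    rw [← Finset.sum_smul]
    congr 1
    split_ifs with hu
    · subst hu
      simp
    · have := sum_psi_mul (ψ := chi ψ j) (chi_ne hψ) (a := -u) (neg_ne_zero.2 hu)
      rw [← this]
      refine Finset.sum_congr rfl fun l _ => ?_
      rw [chi_apply]
      congr 2
      ring
  simp only [h]
  rw [Finset.sum_eq_single 0]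
  · rw [if_pos rfl, smul_smul, inv_mul_cancel₀ (by exact_mod_cast Fintype.card_ne_zero), one_smul, xb_zero, map_one,
      Module.End.one_apply]
  · intro b _ hb
    rw [if_neg hb, zero_smul]
  · intro h0
    exact absurd (Finset.mem_univ _) h0

/-- If `π_l (n v) = 0` for all `l ≠ 0` and `L` is trivial on `R`: `v = 0` by `NoFix`. -/
theorem pil_ne (hF : Frob φ j q) (Su : SuT S q) (hψ : ψ (j 1) ≠ 1) (hfix : NoFix S ρ) (hL : LTriv Su ρ ψ) {v : V}
    (hv : v ∈ Wt S ρ ψ 0) (hv0 : v ≠ 0) : ∃ l : k, l ≠ 0 ∧ pil S ρ ψ l (ρ S.nb v) ≠ 0 := by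
  by_contra hc
  push Not at hc
  apply hv0
  obtain ⟨h1, h2⟩ := mem_RR.1 hv
  obtain ⟨hz, hT⟩ := nb_fix Su hL hv
  have hy : pil S ρ ψ 0 (ρ S.nb v) = ρ S.nb v := by
    have h3 := sum_pil (S := S) (ρ := ρ) hψ (ρ S.nb v)
    rw [Finset.sum_eq_single 0 (fun b _ hb => hc b hb) (fun h0 => absurd (Finset.mem_univ _) h0)] at h3
    exact h3
  have hy46 : ∀ a, ρ (xb S a) (ρ S.nb v) = ρ S.nb v := by
    intro a
    rw [← hy, pil_apply_x hF hz]
    simp
  refine hfix v (fun a b t hab hal => ?_) (fun u => h2 _ (re_single hF u)) (fun u => ?_)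
  · obtain ⟨g, hg⟩ := Su.su_l a b t hab hal
    rw [← hg]
    exact hL g v hv
  · obtain ⟨η, -, hη⟩ := S.nb_25
    have e := hη u
    have e2 : S.y25 u = S.nb⁻¹ * xb S (η * u) * S.nb := by
      unfold xb
      rw [← e]
      group
    rw [e2, map_mul, map_mul, Module.End.mul_apply, Module.End.mul_apply, hy46, ← Module.End.mul_apply,
      ← map_mul, inv_mul_cancel, map_one, Module.End.one_apply]

lemma hb_one : S.hb 1 = 1 := by
  have h := S.hb_mul 1 1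
  rw [mul_one] at h
  exact (left_eq_mul.mp h)

lemma hb_inv (c : kˣ) : (S.hb c)⁻¹ = S.hb c⁻¹ := by
  rw [inv_eq_iff_mul_eq_one, ← S.hb_mul, mul_inv_cancel, hb_one]

lemma hb_xb (hF : Frob φ j q) (c : kˣ) (u : k) : S.hb c * xb S u * (S.hb c)⁻¹ = xb S ((c : k) ^ 2 * u) := by
  unfold xb
  rw [S.hb_E c _ (re_single hF u)]
  congr 1
  funext T
  by_cases h : T = β₀
  · subst h
    rw [Pi.single_eq_same, Pi.single_eq_same, S.ee_β, map_mul]
    simp [mul_comm]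
  · rw [Pi.single_eq_of_ne h, Pi.single_eq_of_ne h, zero_mul]

/-- `h_β` stabilises `R`. -/
theorem hb_RR (hF : Frob φ j q) {v : V} (hv : v ∈ Wt S ρ ψ 0) (c : kˣ) : ρ (S.hb c) v ∈ Wt S ρ ψ 0 := by
  obtain ⟨h1, h2⟩ := mem_RR.1 hv
  refine mem_RR.2 ⟨fun u => ?_, fun a ha => ?_⟩
  · have e := S.hb_z c (((c⁻¹ : kˣ) : k) * u)
    have e2 : (c : k) * (((c⁻¹ : kˣ) : k) * u) = u := by simp
    rw [e2] at e
    rw [← e, ← Module.End.mul_apply, ← map_mul]
    have e3 : S.hb c * S.z (((c⁻¹ : kˣ) : k) * u) * (S.hb c)⁻¹ * S.hb c =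
        S.hb c * S.z (((c⁻¹ : kˣ) : k) * u) := by group
    rw [e3, map_mul, Module.End.mul_apply, h1]
  · let a' : S3 → K := fun T => a T * j (((c⁻¹ : kˣ) ^ S.ee T : kˣ) : k)
    have hre : Re S.D φ a' := by
      intro T
      change a (tau T) * j (((c⁻¹ : kˣ) ^ S.ee (tau T) : kˣ) : k) =
        S.D.kg T * φ (a T * j (((c⁻¹ : kˣ) ^ S.ee T : kˣ) : k))
      rw [S.ee_tau, ha T, map_mul, (hF.fix _).2 ⟨_, rfl⟩]
      ring
    have e := S.hb_E c a' hre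
    have e' : (fun T => a' T * j ((c ^ S.ee T : kˣ) : k)) = a := by
      funext T
      change a T * j (((c⁻¹ : kˣ) ^ S.ee T : kˣ) : k) * j ((c ^ S.ee T : kˣ) : k) = a T
      rw [mul_assoc, ← map_mul, ← Units.val_mul, ← mul_zpow, inv_mul_cancel, one_zpow, Units.val_one, map_one, mul_one]
    rw [e'] at e
    rw [← e, ← Module.End.mul_apply, ← map_mul]
    have e3 : S.hb c * S.E a' * (S.hb c)⁻¹ * S.hb c = S.hb c * S.E a' := by group
    rw [e3, map_mul, Module.End.mul_apply, h2 a' hre]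

/-- `π₀(n v)` is an eigenvector of `h_β` and lies in `R` if `v` is an eigenvector in `R` and `L` is trivial on `R`. -/
theorem pil0_eigen (hF : Frob φ j q) (Su : SuT S q) (hL : LTriv Su ρ ψ) {v : V} (hv : v ∈ Wt S ρ ψ 0)
    (hev : ∀ c : kˣ, ∃ z : ℂ, ρ (S.hb c) v = z • v) :
    pil S ρ ψ 0 (ρ S.nb v) ∈ Wt S ρ ψ 0 ∧ ∀ c : kˣ, ∃ z : ℂ, ρ (S.hb c) (pil S ρ ψ 0 (ρ S.nb v)) = z • pil S ρ ψ 0 (ρ S.nb v) := by
  constructor
  · have := pil_mem (S := S) (ρ := ρ) hF Su hL hv 0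
    rwa [map_zero, Pi.single_zero] at this
  · intro c
    obtain ⟨z, hz⟩ := hev c⁻¹
    refine ⟨z, ?_⟩
    have hn : ρ (S.hb c) (ρ S.nb v) = z • ρ S.nb v := by
      have e := S.nb_hb c⁻¹
      rw [inv_inv] at e
      have e2 : S.hb c * S.nb = S.nb * S.hb c⁻¹ := by
        rw [← e]
        group
      rw [← Module.End.mul_apply, ← map_mul, e2, map_mul, Module.End.mul_apply, hz, map_smul]
    unfold pil
    rw [map_smul, map_sum, smul_comm]
    congr 1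
    rw [Finset.smul_sum]
    have hc2 : ((c : k) ^ 2) ≠ 0 := pow_ne_zero 2 c.ne_zero
    rw [← Equiv.sum_comp (Equiv.mulLeft₀ ((c : k) ^ 2) hc2) (fun u => z • ψ (j (-(0 * u))) • ρ (xb S u) (ρ S.nb v))]
    refine Finset.sum_congr rfl fun u _ => ?_
    simp only [Equiv.mulLeft₀_apply, zero_mul, neg_zero, map_zero, AddChar.map_zero_eq_one, one_smul]
    have e3 : S.hb c * xb S u = xb S ((c : k) ^ 2 * u) * S.hb c := by
      rw [← hb_xb hF c u]
      group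
    rw [← Module.End.mul_apply, ← map_mul, e3, map_mul, Module.End.mul_apply, hn, map_smul]

lemma rho_eq_zero (g : Γ) {w : V} (h : ρ g w = 0) : w = 0 := by
  have h1 := congrArg (ρ g⁻¹) h
  rw [← Module.End.mul_apply, ← map_mul, inv_mul_cancel, map_one, map_zero] at h1
  exact h1

lemma pil_smul (l : k) (z : ℂ) (y : V) : pil S ρ ψ l (z • y) = z • pil S ρ ψ l y := by
  have h1 : ∀ u : k, ψ (j (-(l * u))) • ρ (xb S u) (z • y) = z • (ψ (j (-(l * u))) • ρ (xb S u) y) := by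
    intro u
    rw [map_smul, smul_comm]
  simp only [pil, h1, ← Finset.smul_sum]
  rw [smul_comm]

lemma hb_pil (hF : Frob φ j q) (c : kˣ) (l : k) (y : V) :
    ρ (S.hb c) (pil S ρ ψ l y) = pil S ρ ψ (l * ((c⁻¹ : kˣ) : k) ^ 2) (ρ (S.hb c) y) := by
  unfold pil
  rw [map_smul, map_sum]
  congr 1
  have hc2 : ((c : k) ^ 2) ≠ 0 := pow_ne_zero _ c.ne_zero
  rw [← Equiv.sum_comp (Equiv.mulLeft₀ ((c : k) ^ 2) hc2)
    (fun u : k => ψ (j (-(l * ((c⁻¹ : kˣ) : k) ^ 2 * u))) • ρ (xb S u) (ρ (S.hb c) y))]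
  refine Finset.sum_congr rfl fun u _ => ?_
  simp only [Equiv.mulLeft₀_apply]
  rw [map_smul]
  have e1 : l * ((c⁻¹ : kˣ) : k) ^ 2 * ((c : k) ^ 2 * u) = l * u := by
    have hc0 : (c : k) ≠ 0 := c.ne_zero
    rw [Units.val_inv_eq_inv_val]
    field_simp
  rw [e1]
  congr 1
  have e2 : S.hb c * xb S u = (S.hb c * xb S u * (S.hb c)⁻¹) * S.hb c := by group
  calc ρ (S.hb c) (ρ (xb S u) y) = ρ (S.hb c * xb S u) y := by rw [map_mul]; rfl
    _ = ρ ((S.hb c * xb S u * (S.hb c)⁻¹) * S.hb c) y := by rw [← e2]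
    _ = ρ (xb S ((c : k) ^ 2 * u)) (ρ (S.hb c) y) := by rw [hb_xb hF, map_mul]; rfl

lemma RR_xb (hF : Frob φ j q) {v : V} (hv : v ∈ Wt S ρ ψ 0) (u : k) : ρ (xb S u) v = v :=
  (mem_RR.1 hv).2 _ (re_single hF u)

lemma RR_xb_inv (hF : Frob φ j q) {v : V} (hv : v ∈ Wt S ρ ψ 0) (u : k) : ρ (xb S u)⁻¹ v = v := by
  conv_lhs => rw [← RR_xb hF hv u]
  rw [← Module.End.mul_apply, ← map_mul, inv_mul_cancel, map_one, Module.End.one_apply]

lemma B_pil_zero (hF : Frob φ j q) (I : IH ρ) (y : V) {w : V} (hw : w ∈ Wt S ρ ψ 0) :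
    I.B (pil S ρ ψ 0 y) w = I.B y w := by
  have hq : ((Fintype.card k : ℕ) : ℂ) ≠ 0 := by
    exact_mod_cast Fintype.card_ne_zero
  unfold pil
  rw [I.smul_left, I.sum_left]
  have h1 : ∀ u ∈ (Finset.univ : Finset k), I.B (ψ (j (-(0 * u))) • ρ (xb S u) y) w = I.B y w := by
    intro u _
    rw [zero_mul, neg_zero, map_zero, AddChar.map_zero_eq_one, one_smul, I.adj, RR_xb_inv hF hw]
  rw [Finset.sum_congr rfl h1, Finset.sum_const, Finset.card_univ, nsmul_eq_mul, ← mul_assoc,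
    inv_mul_cancel₀ hq, one_mul]

lemma line_zero (I : IH ρ) {W : Submodule ℂ V} (hW : finrank ℂ W = 1) {a b : V} (ha : a ∈ W)
    (hb : b ∈ W) (hab : I.B a b = 0) : a = 0 ∨ b = 0 := by
  by_cases ha0 : a = 0
  · exact Or.inl ha0
  right
  have hne : (⟨a, ha⟩ : W) ≠ 0 := fun h => ha0 (congrArg Subtype.val h)
  obtain ⟨t, ht⟩ := (finrank_eq_one_iff_of_nonzero' (⟨a, ha⟩ : W) hne).1 hW ⟨b, hb⟩
  have ht' : t • a = b := congrArg Subtype.val ht
  rw [← ht', I.smul_right] at hab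
  have ht0 : t = 0 := by
    rcases mul_eq_zero.1 hab with h | h
    · simpa using h
    · exact absurd h (I.self_ne_zero ha0)
  rw [← ht', ht0, zero_smul]

lemma sq2 {a b : k} (ha : a ≠ 0) (hb : b ≠ 0) (h : quadraticChar k a = quadraticChar k b) :
    ∃ s : kˣ, b = a * (s : k) ^ 2 := by
  have h1 : quadraticChar k (a * b) = 1 := by
    rw [map_mul, ← h, ← pow_two, quadraticChar_sq_one ha]
  obtain ⟨w, hw⟩ := (quadraticChar_one_iff_isSquare (mul_ne_zero ha hb)).1 h1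
  have hw0 : w ≠ 0 := by
    rintro rfl
    rw [mul_zero] at hw
    exact (mul_ne_zero ha hb) hw
  refine ⟨Units.mk0 (w / a) (div_ne_zero hw0 ha), ?_⟩
  rw [Units.val_mk0]
  field_simp
  rw [pow_two w, ← hw]
  ring

lemma sq3 {a b c : k} (ha : a ≠ 0) (hb : b ≠ 0) (hc : c ≠ 0) :
    (∃ s : kˣ, b = a * (s : k) ^ 2) ∨ (∃ s : kˣ, c = a * (s : k) ^ 2) ∨
      (∃ s : kˣ, c = b * (s : k) ^ 2) := by
  rcases quadraticChar_dichotomy ha with h1 | h1 <;>
  rcases quadraticChar_dichotomy hb with h2 | h2 <;>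
  rcases quadraticChar_dichotomy hc with h3 | h3
  · exact Or.inl (sq2 ha hb (h1.trans h2.symm))
  · exact Or.inl (sq2 ha hb (h1.trans h2.symm))
  · exact Or.inr (Or.inl (sq2 ha hc (h1.trans h3.symm)))
  · exact Or.inr (Or.inr (sq2 hb hc (h2.trans h3.symm)))
  · exact Or.inr (Or.inr (sq2 hb hc (h2.trans h3.symm)))
  · exact Or.inr (Or.inl (sq2 ha hc (h1.trans h3.symm)))
  · exact Or.inl (sq2 ha hb (h1.trans h2.symm))
  · exact Or.inl (sq2 ha hb (h1.trans h2.symm))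

/-- For an eigenvector `v` of all `h_β(s)`: `π_l (n v) ≠ 0` implies `π_{l s²} (n v) ≠ 0`. -/
theorem pil_sq (hF : Frob φ j q) {v : V} (hev : ∀ c : kˣ, ∃ z : ℂ, ρ (S.hb c) v = z • v) {l : k}
    (hl : pil S ρ ψ l (ρ S.nb v) ≠ 0) (s : kˣ) :
    pil S ρ ψ (l * (s : k) ^ 2) (ρ S.nb v) ≠ 0 := by
  intro h0
  apply hl
  obtain ⟨z, hz⟩ := hev s
  have h1 : ρ (S.hb s⁻¹) (ρ S.nb v) = z • ρ S.nb v := by
    have e : S.hb s⁻¹ * S.nb = S.nb * S.hb s := by
      have h := S.nb_hb s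
      rw [← h]
      group
    calc ρ (S.hb s⁻¹) (ρ S.nb v) = ρ (S.hb s⁻¹ * S.nb) v := by rw [map_mul]; rfl
      _ = ρ (S.nb * S.hb s) v := by rw [e]
      _ = ρ S.nb (ρ (S.hb s) v) := by rw [map_mul]; rfl
      _ = z • ρ S.nb v := by rw [hz, map_smul]
  have h2 := hb_pil (S := S) (ρ := ρ) (ψ := ψ) hF s⁻¹ l (ρ S.nb v)
  rw [h1, inv_inv, pil_smul, h0, smul_zero] at h2
  exact rho_eq_zero _ h2

/-- The orthogonality. -/
theorem pil_orth (hF : Frob φ j q) (Su : SuT S q) (hL : LTriv Su ρ ψ) (I : IH ρ) {v₁ v₂ : V} (h1 : v₁ ∈ Wt S ρ ψ 0)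
    (h2 : v₂ ∈ Wt S ρ ψ 0) (hev : ∀ c : kˣ, ∃ z : ℂ, ρ (S.hb c) v₂ = z • v₂)
    (h12 : I.B v₁ v₂ = 0) (h0 : I.B (pil S ρ ψ 0 (ρ S.nb v₁)) v₂ = 0) (l : k) :
    I.B (pil S ρ ψ l (ρ S.nb v₁)) (pil S ρ ψ l (ρ S.nb v₂)) = 0 := by
  obtain ⟨hz1, -⟩ := nb_fix Su hL h1
  obtain ⟨hz2, -⟩ := nb_fix Su hL h2
  have h25 : ∀ w : k, I.B (ρ (S.y25 w) v₁) v₂ = 0 := by
    intro w
    by_cases hw : w = 0
    · subst hw
      have hy0 : S.y25 (0 : k) = 1 := by
        have h := S.y25_add 0 0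
        rw [add_zero] at h
        exact left_eq_mul.mp h
      rw [hy0, map_one]
      exact h12
    · have hc0 : -w⁻¹ ≠ 0 := neg_ne_zero.2 (inv_ne_zero hw)
      set c : kˣ := Units.mk0 (-w⁻¹) hc0 with hc
      have hcv : (c : k) = -w⁻¹ := rfl
      have h1' : -((c : k)⁻¹) = w := by rw [hcv, inv_neg, inv_inv, neg_neg]
      have h2' := S.nb_eq c
      rw [h1'] at h2'
      have e : S.y25 w = (xb S (c : k))⁻¹ * (S.hb c * S.nb) * (xb S (c : k))⁻¹ := by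
        rw [← h2']
        unfold xb
        group
      rw [e, map_mul, map_mul, Module.End.mul_apply, Module.End.mul_apply,
        RR_xb_inv hF h1, I.adj, inv_inv, RR_xb hF h2, map_mul, Module.End.mul_apply, I.adj, hb_inv]
      obtain ⟨z, hz⟩ := hev c⁻¹
      rw [hz, I.smul_right, ← B_pil_zero hF I _ h2, h0, mul_zero]
  have hn25 : ∀ u : k, I.B (ρ (xb S u) (ρ S.nb v₁)) (ρ S.nb v₂) = 0 := by
    intro u
    obtain ⟨η, hη, hconj⟩ := S.nb_25
    have hηη : η * η = 1 := by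
      rcases hη with rfl | rfl <;> simp
    have h3 := hconj (η * u)
    rw [← mul_assoc, hηη, one_mul] at h3
    have e : xb S u * S.nb = S.nb * S.y25 (η * u) := by
      unfold xb
      rw [← h3]
      group
    calc I.B (ρ (xb S u) (ρ S.nb v₁)) (ρ S.nb v₂)
        = I.B (ρ (xb S u * S.nb) v₁) (ρ S.nb v₂) := by rw [map_mul]; rfl
      _ = I.B (ρ S.nb (ρ (S.y25 (η * u)) v₁)) (ρ S.nb v₂) := by rw [e, map_mul]; rfl
      _ = I.B (ρ (S.y25 (η * u)) v₁) v₂ := I.inv _ _ _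
      _ = 0 := h25 _
  have hz : ∀ u u' : k, I.B (ρ (xb S u) (ρ S.nb v₁)) (ρ (xb S u') (ρ S.nb v₂)) = 0 := by
    intro u u'
    have e := I.inv (xb S (-u')) (ρ (xb S u) (ρ S.nb v₁)) (ρ (xb S u') (ρ S.nb v₂))
    rw [x_mul hF hz1, x_mul hF hz2, neg_add_cancel, xb_zero, map_one, Module.End.one_apply] at e
    rw [← e]
    exact hn25 _
  unfold pil
  simp only [I.smul_left, I.smul_right, I.sum_left, I.sum_right, hz, mul_zero,
    Finset.sum_const_zero]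

/-- A subspace of `R` of positive dimension orthogonal to eigenvectors contains an eigenvector of `h_β`. -/
theorem exists_eigen_perp (hF : Frob φ j q) (I : IH ρ) (E : Finset V) (hE : ∀ e ∈ E, ∀ c : kˣ, ∃ z : ℂ, ρ (S.hb c) e = z • e)
    (hd : E.card < nf S ρ ψ 0) :
    ∃ v ∈ Wt S ρ ψ 0, v ≠ 0 ∧ (∀ c : kˣ, ∃ z : ℂ, ρ (S.hb c) v = z • v) ∧ ∀ e ∈ E, I.B e v = 0 := by
  let K0 : Submodule ℂ V :=
    { carrier := {v | v ∈ Wt S ρ ψ 0 ∧ ∀ e ∈ E, I.B e v = 0}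
      add_mem' := by
        rintro a b ⟨ha, ha'⟩ ⟨hb, hb'⟩
        refine ⟨Submodule.add_mem _ ha hb, fun e he => ?_⟩
        rw [I.add_right, ha' e he, hb' e he, add_zero]
      zero_mem' := ⟨Submodule.zero_mem _, fun e _ => by simp⟩
      smul_mem' := by
        rintro c a ⟨ha, ha'⟩
        refine ⟨Submodule.smul_mem _ c ha, fun e he => ?_⟩
        rw [I.smul_right, ha' e he, mul_zero] }
  have hK : ∀ v, v ∈ K0 ↔ v ∈ Wt S ρ ψ 0 ∧ ∀ e ∈ E, I.B e v = 0 := fun v => Iff.rfl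
  -- `K0` is nontrivial
  let Φ : (Wt S ρ ψ 0) →ₗ[ℂ] (E → ℂ) :=
    { toFun := fun v e => I.B (v : V) e
      map_add' := by
        intro a b
        ext e
        simp [I.add_left]
      map_smul' := by
        intro c a
        ext e
        simp [I.smul_left] }
  have hker : LinearMap.ker Φ ≠ ⊥ := by
    apply LinearMap.ker_ne_bot_of_finrank_lt
    rw [Module.finrank_fintype_fun_eq_card, Fintype.card_coe]
    exact hd
  obtain ⟨v₀, hv₀, hv₀0⟩ := Submodule.exists_mem_ne_zero_of_ne_bot hker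
  have hv₀K : (v₀ : V) ∈ K0 := by
    refine ⟨v₀.2, fun e he => ?_⟩
    have h := congrFun (LinearMap.mem_ker.1 hv₀) ⟨e, he⟩
    have h' : I.B (v₀ : V) e = 0 := h
    rw [I.symm (v₀ : V) e, h', star_zero]
  have hnt : Nontrivial K0 := ⟨⟨⟨v₀, hv₀K⟩, 0, fun h => by
    have h' : (v₀ : V) = 0 := congrArg Subtype.val h
    exact hv₀0 (Subtype.ext h')⟩⟩
  -- a generator of the torus
  obtain ⟨g, hg⟩ := IsCyclic.exists_monoid_generator (α := kˣ)
  let hbm : kˣ →* Γ := MonoidHom.mk' S.hb S.hb_mul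
  have hst : ∀ v ∈ K0, ρ (S.hb g) v ∈ K0 := by
    intro v hv
    refine ⟨hb_RR hF hv.1 g, fun e he => ?_⟩
    rw [I.adj', hb_inv]
    obtain ⟨z, hz⟩ := hE e he g⁻¹
    rw [hz, I.smul_left, hv.2 e he, mul_zero]
  let T : Module.End ℂ K0 := LinearMap.restrict (ρ (S.hb g) : V →ₗ[ℂ] V) hst
  obtain ⟨μ, hμ⟩ := Module.End.exists_eigenvalue T
  obtain ⟨w, hw⟩ := hμ.exists_hasEigenvector
  have hTw : ρ (S.hb g) (w : V) = μ • (w : V) := congrArg Subtype.val hw.apply_eq_smul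
  refine ⟨w, w.2.1, fun h => hw.2 (Subtype.ext h), ?_, fun e he => w.2.2 e he⟩
  intro c
  obtain ⟨n, rfl⟩ := (Submonoid.mem_powers_iff _ _).1 (hg c)
  refine ⟨μ ^ n, ?_⟩
  have hpow : S.hb (g ^ n) = S.hb g ^ n := map_pow hbm g n
  rw [hpow]
  clear hpow
  induction n with
  | zero => simp
  | succ n ih =>
    rw [pow_succ, map_mul, Module.End.mul_apply, hTw, map_smul, ih, smul_smul, pow_succ, mul_comm]

end R4T

open R4T in
/-- `n0 ≤ 4`. -/
theorem R_le_four [Finite Γ] (hF : Frob φ j q) (Su : SuT S q) (hψ : ψ (j 1) ≠ 1) (hfix : NoFix S ρ) (hL : LTriv Su ρ ψ)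
    (hl : ∀ a : k, a ≠ 0 → nf S ρ ψ (Pi.single β₀ (j a)) = 1) : nf S ρ ψ 0 ≤ 4 := by
  obtain ⟨I⟩ := exists_IH ρ
  by_contra hgt
  have hgt' : 4 < nf S ρ ψ 0 := not_le.1 hgt
  have mk : ∀ E : Finset V, (∀ e ∈ E, ∀ c : kˣ, ∃ z : ℂ, ρ (S.hb c) e = z • e) → E.card ≤ 4 →
      ∃ v ∈ Wt S ρ ψ 0, v ≠ 0 ∧ (∀ c : kˣ, ∃ z : ℂ, ρ (S.hb c) v = z • v) ∧ ∀ e ∈ E, I.B e v = 0 :=
    fun E hE hc => exists_eigen_perp hF I E hE (lt_of_le_of_lt hc hgt')
  obtain ⟨v₁, h1, h1n, h1e, -⟩ := mk ∅ (by simp) (by simp)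
  obtain ⟨hp1R, hp1e⟩ := pil0_eigen hF Su hL h1 h1e
  obtain ⟨v₂, h2, h2n, h2e, h2o⟩ := mk {v₁, pil S ρ ψ 0 (ρ S.nb v₁)} (by
      intro e he
      simp only [Finset.mem_insert, Finset.mem_singleton] at he
      rcases he with rfl | rfl
      · exact h1e
      · exact hp1e) (le_trans Finset.card_le_two (by norm_num))
  obtain ⟨hp2R, hp2e⟩ := pil0_eigen hF Su hL h2 h2e
  obtain ⟨v₃, h3, h3n, h3e, h3o⟩ := mk {v₁, pil S ρ ψ 0 (ρ S.nb v₁), v₂, pil S ρ ψ 0 (ρ S.nb v₂)} (by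
      intro e he
      simp only [Finset.mem_insert, Finset.mem_singleton] at he
      rcases he with rfl | rfl | rfl | rfl
      · exact h1e
      · exact hp1e
      · exact h2e
      · exact hp2e) Finset.card_le_four
  obtain ⟨l₁, hl₁, hp₁⟩ := pil_ne hF Su hψ hfix hL h1 h1n
  obtain ⟨l₂, hl₂, hp₂⟩ := pil_ne hF Su hψ hfix hL h2 h2n
  obtain ⟨l₃, hl₃, hp₃⟩ := pil_ne hF Su hψ hfix hL h3 h3n
  have pair : ∀ {v w : V}, v ∈ Wt S ρ ψ 0 → w ∈ Wt S ρ ψ 0 → (∀ c : kˣ, ∃ z : ℂ, ρ (S.hb c) w = z • w) →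
      I.B v w = 0 → I.B (pil S ρ ψ 0 (ρ S.nb v)) w = 0 → ∀ l : k, l ≠ 0 →
      pil S ρ ψ l (ρ S.nb v) = 0 ∨ pil S ρ ψ l (ρ S.nb w) = 0 := by
    intro v w hv hw hwe h12 h0 l hl0
    exact line_zero I (W := Wt S ρ ψ (Pi.single β₀ (j l))) (hl l hl0) (pil_mem hF Su hL hv l)
      (pil_mem hF Su hL hw l) (pil_orth hF Su hL I hv hw hwe h12 h0 l)
  rcases sq3 hl₁ hl₂ hl₃ with ⟨s, hs⟩ | ⟨s, hs⟩ | ⟨s, hs⟩
  · rcases pair h1 h2 h2e (h2o _ (by simp)) (h2o _ (by simp)) l₂ hl₂ with h | h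
    · exact pil_sq hF h1e hp₁ s (hs ▸ h)
    · exact hp₂ h
  · rcases pair h1 h3 h3e (h3o _ (by simp)) (h3o _ (by simp)) l₃ hl₃ with h | h
    · exact pil_sq hF h1e hp₁ s (hs ▸ h)
    · exact hp₃ h
  · rcases pair h2 h3 h3e (h3o _ (by simp)) (h3o _ (by simp)) l₃ hl₃ with h | h
    · exact pil_sq hF h2e hp₂ s (hs ▸ h)
    · exact hp₃ h

end Cfsg.Agent.Lib.MinE6T
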