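import Cfsg.Agent.Lib.MinE6T.Pure

/-! The reduction when `k < B`. Copy `MinE6/Red.lean`. -/

set_option autoImplicit false
set_option linter.unusedSectionVars false
set_option linter.unusedVariables false

namespace Cfsg.Agent.Lib.MinE6T

open Module
open Cfsg.Agent.Lib.MinE6
open scoped Classical

variable {K : Type*} [Field K] [Fintype K] {φ : K ≃+* K} {k : Type*} [Field k] [Fintype k] {j : k →+* K} {Γ : Type*} [Group Γ]
  {V : Type*} [AddCommGroup V] [Module ℂ V] [FiniteDimensional ℂ V] {q : ℕ}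
variable {S : SysT φ j Γ} {ρ : Representation ℂ Γ V} {ψ : AddChar K ℂ}

lemma redT_bb_le (q : ℕ) : BB q ≤ q * q ^ 6 * (q ^ 4 + 1) := by
  unfold BB
  rcases Nat.eq_zero_or_pos q with rfl | hq
  · simp
  · have h1 : 1 ≤ q ^ 3 := Nat.one_le_pow _ _ hq
    have h2 : q ^ 6 - q ^ 3 + 1 ≤ q ^ 6 := by
      have h3 : q ^ 3 ≤ q ^ 6 := Nat.pow_le_pow_right hq (by norm_num)
      omega
    exact Nat.mul_le_mul_right _ (Nat.mul_le_mul_left _ h2)

lemma redT_ar1 {q : ℕ} (hq : 2 ≤ q) : BB q ≤ 3 * ((q - 1) * q ^ 10) := by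
  refine (redT_bb_le q).trans ?_
  obtain ⟨s, rfl⟩ : ∃ s, q = s + 2 := ⟨q - 2, by omega⟩
  have e : s + 2 - 1 = s + 1 := rfl
  rw [e]
  have : 3 * ((s + 1) * (s + 2) ^ 10) = (s + 2) * (s + 2) ^ 6 * ((s + 2) ^ 4 + 1) +
      (896 * s ^ 0 + 6720 * s ^ 1 + 21088 * s ^ 2 + 37840 * s ^ 3 + 43880 * s ^ 4 + 34860 * s ^ 5 + 19474 * s ^ 6 +
        7679 * s ^ 7 + 2100 * s ^ 8 + 380 * s ^ 9 + 41 * s ^ 10 + 2 * s ^ 11) := by ring
  omega

lemma redT_ar2 {q : ℕ} (hq : 2 ≤ q) : BB q ≤ 2 * k0 q := by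
  refine (redT_bb_le q).trans ?_
  obtain ⟨s, rfl⟩ : ∃ s, q = s + 2 := ⟨q - 2, by omega⟩
  unfold k0 gaussU
  have e : s + 2 - 1 = s + 1 := rfl
  rw [e]
  have : 2 * ((s + 1) * (s + 2) ^ 10 + (s + 1) * ((s + 2 + 1) * ((s + 2) ^ 3 + 1) * ((s + 2) ^ 5 + 1))) =
      (s + 2) * (s + 2) ^ 6 * ((s + 2) ^ 4 + 1) +
      (1654 * s ^ 0 + 9648 * s ^ 1 + 25238 * s ^ 2 + 39214 * s ^ 3 + 40280 * s ^ 4 + 28756 * s ^ 5 + 14574 * s ^ 6 +
        5249 * s ^ 7 + 1318 * s ^ 8 + 220 * s ^ 9 + 22 * s ^ 10 + 1 * s ^ 11) := by ring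
  omega

/-- If `k < B` then `d = q¹⁰`, the lines have dimension one, `k = k0 + dim V^U`. From `exists_m`, `d_pos`, `k_eq`, `inv_nf`, `pure_thm`: `(q - 1) q¹⁰ m ≤ k < B` gives `m ≤ 2`; `k = m k0 + n0` (`∑ (if Re c then nf c else 0) = nf 0 + ∑ (if Re c ∧ c ≠ 0 ..)`; `2 k0 ≥ B` gives `m = 1`. -/
theorem red (hF : Frob φ j q) (hψ : ψ (j 1) ≠ 1) (hz : ∃ u, ρ (S.z u) ≠ 1) (hk : finrank ℂ V < BB q) :
    (∀ a : k, a ≠ 0 → nf S ρ ψ (Pi.single β₀ (j a)) = 1) ∧ finrank ℂ V = k0 q + nf S ρ ψ 0 := by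
  classical
  have hq2 : 2 ≤ q := by
    have h1 : 1 < Fintype.card k := Fintype.one_lt_card
    have h2 := hF.card_k
    rw [Nat.card_eq_fintype_card] at h2
    omega
  obtain ⟨m, hm1, hm2⟩ := exists_m (S := S) (ρ := ρ) (ψ := ψ) hF hψ
  have hd := d_pos (S := S) (ρ := ρ) (ψ := ψ) hF hψ hz
  have hm0 : 0 < m := by
    rcases Nat.eq_zero_or_pos m with h | h
    · rw [hm1, h, mul_zero] at hd
      exact absurd hd (lt_irrefl _)
    · exact h
  have hkeq := k_eq (S := S) (ρ := ρ) (ψ := ψ) hF hψ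
  rw [hm1] at hkeq
  have hm3 : m ≤ 2 := by
    by_contra hc
    have h3 : 3 ≤ m := by omega
    have h1 : 3 * ((q - 1) * q ^ 10) ≤ (q - 1) * (q ^ 10 * m) := by
      calc 3 * ((q - 1) * q ^ 10) = (q - 1) * (q ^ 10 * 3) := by ring
        _ ≤ _ := Nat.mul_le_mul_left _ (Nat.mul_le_mul_left _ h3)
    have h2 := redT_ar1 hq2
    omega
  obtain ⟨h1, h2⟩ := pure_thm hF (inv_nf (S := S) (ρ := ρ) (ψ := ψ) hF) hm0 hm3 hm2
  have hRe0 : Re S.D φ (0 : S3 → K) := by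
    intro T
    simp
  have hsplit : ∑ c : S3 → K, (if Re S.D φ c then nf S ρ ψ c else 0) =
      nf S ρ ψ 0 + ∑ c : S3 → K, (if Re S.D φ c ∧ c ≠ 0 then nf S ρ ψ c else 0) := by
    have h : ∀ c : S3 → K, (if Re S.D φ c then nf S ρ ψ c else 0) =
        (if c = 0 then nf S ρ ψ c else 0) + (if Re S.D φ c ∧ c ≠ 0 then nf S ρ ψ c else 0) := by
      intro c
      by_cases hc : c = 0
      · subst hc
        simp [hRe0]
      · simp [hc]
    calc ∑ c : S3 → K, (if Re S.D φ c then nf S ρ ψ c else 0)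
        = ∑ c : S3 → K, ((if c = 0 then nf S ρ ψ c else 0) + (if Re S.D φ c ∧ c ≠ 0 then nf S ρ ψ c else 0)) :=
          Finset.sum_congr rfl fun c _ => h c
      _ = _ := by
          rw [Finset.sum_add_distrib]
          congr 1
          rw [Finset.sum_ite_eq' Finset.univ (0 : S3 → K) (nf S ρ ψ)]
          simp
  rw [hsplit, h2] at hkeq
  have hkm : finrank ℂ V = m * k0 q + nf S ρ ψ 0 := by
    rw [hkeq]
    unfold k0
    ring
  have hm1' : m = 1 := by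
    by_contra hc
    have hm2' : m = 2 := by omega
    rw [hm2'] at hkm
    have h3 := redT_ar2 hq2
    omega
  subst hm1'
  refine ⟨fun a ha => ?_, ?_⟩
  · exact h1 β₀ a (by decide) ha
  · rw [hkm, one_mul]

end Cfsg.Agent.Lib.MinE6T
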