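import Cfsg.Agent.Lib.SUDeg.Final

/-!
The even bound of `Lib/SUDeg/Final.lean` for an arbitrary nontrivial representation.
-/

set_option autoImplicit false
set_option linter.unusedSectionVars false
set_option linter.unusedVariables false
set_option linter.unusedSimpArgs false
set_option linter.ambiguousOpen false

namespace Cfsg.Agent.Lib.MinE6T.SUGen

open Module Matrix Cfsg.Agent.Lib.HermCount.Field Cfsg.Agent.Lib.SUDeg.Orbit Cfsg.Agent.Lib.SUDeg.Model
open Cfsg.Agent.Lib.WtSpace.Basic Cfsg.Agent.Lib.SUDeg.Main Cfsg.Agent.Lib.SUDeg.Heis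
open Cfsg.Agent.Lib.Classical.HermBasic Cfsg.Agent.Lib.Classical.HermElem Cfsg.Agent.Lib.Classical.HermBridge
open Cfsg.Agent.Lib.SUDeg.Final
open scoped _root_.Classical

attribute [-simp] frobHom_apply

variable {F : Type*} [Field F] [Fintype F] {q : ℕ} (hF : Fintype.card F = q ^ 2) {m : ℕ}

include hF in
/-- The even bound, for a nontrivial representation. -/
theorem even_bound_gen {n : ℕ} (hm : 2 ≤ m) (hn : 2 * m = n) {V : Type*} [AddCommGroup V] [Module ℂ V]
    [FiniteDimensional ℂ V] (ρ : Representation ℂ (Cfsg.SU n F q) V) (hρ : ∃ g, ρ g ≠ 1) :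
    (q ^ n - 1) / (q + 1) ≤ finrank ℂ V := by
  obtain ⟨Θ, hΘ⟩ := exists_Theta (m := m) (ε := 0) hF (n := n) (by omega)
  obtain ⟨ψ, hψ⟩ := exists_psi (F := F)
  obtain ⟨S1, hS1⟩ := exists_TG_ne hF Θ hΘ (by omega) (by omega) (by omega) ρ hρ
  let ρ' : suGroup (hJ hF : VV F m 0 → VV F m 0 → F) →* Module.End ℂ V :=
    MonoidHom.comp ρ (toSU hF Θ hΘ)
  obtain ⟨S0, hS0, hW⟩ := exists_WW_ne hF ρ' ψ hψ ⟨S1, hS1⟩
  let Γ : Subgroup (GL (Fin m) F) := (Matrix.GeneralLinearGroup.det (n := Fin m) (R := F)).ker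
  have hmemΓ : ∀ R : GL (Fin m) F, R ∈ Γ ↔ (R : Matrix (Fin m) (Fin m) F).det = 1 := by
    intro R
    simp only [Γ, MonoidHom.mem_ker, Units.ext_iff, Matrix.GeneralLinearGroup.val_det_apply, Units.val_one]
  have hd1 : 1 ≤ finrank ℂ (WW hF ρ' ψ S0) := by
    rw [Nat.one_le_iff_ne_zero, Ne, Submodule.finrank_eq_zero]
    exact hW
  have h := orbit_deg hF ρ' ψ hψ Γ ⟨0, by omega⟩ (by omega) (by
      intro v hv
      obtain ⟨h, hh⟩ := Cfsg.Agent.Lib.CrossChar.SL.exists_sl_mulVec (ι := Fin m) (F := F) (by simpa using hm) hv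
        (b' := Pi.single ⟨0, by omega⟩ 1) (by
          intro h0
          have := congrFun h0 ⟨0, by omega⟩
          simp at this)
      refine ⟨Matrix.GeneralLinearGroup.mkOfDetNeZero (h.1)ᵀ (by rw [Matrix.det_transpose, h.2]; exact one_ne_zero), ?_, ?_⟩
      · rw [hmemΓ]
        show ((h.1)ᵀ).det = 1
        rw [Matrix.det_transpose, h.2]
      · show v ᵥ* (h.1)ᵀ = _
        rw [Matrix.vecMul_transpose, hh])
    (by
      intro u hu
      rw [hmemΓ]
      exact det_Bu _ _ hu)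
    (by
      intro R hR
      rw [hmemΓ] at hR
      refine ⟨1, by simp, ?_⟩
      rw [hR]
      simp) hS0 hd1
  rw [mul_one, hn] at h
  exact Nat.div_le_of_le_mul h

end Cfsg.Agent.Lib.MinE6T.SUGen
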