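import Cfsg.Agent.Lib.MinE6T.R4
import Cfsg.Agent.Lib.MinE6T.SUGen
import Cfsg.Agent.Lib.SLDeg.Res

/-! The fixed vectors of `U` when `L` acts nontrivially on them. -/

set_option autoImplicit false
set_option linter.unusedSectionVars false
set_option linter.unusedVariables false

namespace Cfsg.Agent.Lib.MinE6T

open Module
open Cfsg.Agent.Lib.MinE6
open scoped Classical

variable {K : Type*} [Field K] [Fintype K] {φ : K ≃+* K} {k : Type*} [Field k] [Fintype k] {j : k →+* K} {Γ : Type*} [Group Γ]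
  {V : Type} [AddCommGroup V] [Module ℂ V] [FiniteDimensional ℂ V] {q : ℕ}
variable {S : SysT φ j Γ} {ρ : Representation ℂ Γ V} {ψ : AddChar K ℂ}

/-- `Su.su g` stabilises `R` (`su_norm`, `su_z`). `SU₆(q)` acts nontrivially on `R`, so `(q⁶ - 1)/(q + 1) ≤ dim R`: `Lib.SUDeg.Final.even_bound` uses irreducibility only to get `∃ g, ρ g ≠ 1` (`hρ`): copy the proof for a nontrivial representation on `Fin k → ℂ`, and transport to `R` by a basis. -/
theorem R_large (hF : Frob φ j q) (Su : SuT S q) (hψ : ψ (j 1) ≠ 1) (hL : ¬ LTriv Su ρ ψ) :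
    (q ^ 6 - 1) / (q + 1) ≤ nf S ρ ψ 0 := by
  have hRfix : ∀ v ∈ Wt S ρ ψ 0, (∀ u, ρ (S.z u) v = v) ∧ ∀ a, Re S.D φ a → ρ (S.E a) v = v := by
    rintro v ⟨h1, h2⟩
    refine ⟨h1, fun a ha => ?_⟩
    rw [h2 a ha]
    simp [pr]
  have hinv : ∀ g : ↥(Cfsg.SU 6 K q), ∀ v ∈ Wt S ρ ψ 0, (ρ.comp Su.su) g v ∈ Wt S ρ ψ 0 := by
    intro g v hv
    obtain ⟨h1, h2⟩ := hRfix v hv
    change ρ (Su.su g) v ∈ _
    refine ⟨fun u => ?_, fun a ha => ?_⟩
    · rw [← Module.End.mul_apply, ← map_mul, ← Su.su_z g u, map_mul, Module.End.mul_apply, h1]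
    · obtain ⟨a', w, ha', hE⟩ := Su.su_norm g a ha
      have e : S.E a * Su.su g = Su.su g * (S.E a' * S.z w) := by
        rw [← hE]
        group
      rw [← Module.End.mul_apply, ← map_mul, e, map_mul, map_mul, Module.End.mul_apply,
        Module.End.mul_apply, h1, h2 a' ha']
      simp [pr]
  have hnt : ∃ g, Cfsg.Agent.Lib.SLDeg.Res.subRep (ρ.comp Su.su) (Wt S ρ ψ 0) hinv g ≠ 1 := by
    unfold LTriv at hL
    push Not at hL
    obtain ⟨g, v, hv, hne⟩ := hL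
    refine ⟨g, fun h1 => hne ?_⟩
    have h2 := congrArg Subtype.val (LinearMap.congr_fun h1 ⟨v, hv⟩)
    rw [Cfsg.Agent.Lib.SLDeg.Res.subRep_coe] at h2
    exact h2
  have hcard : Fintype.card K = q ^ 2 := by
    rw [← Nat.card_eq_fintype_card]
    exact hF.card_K
  exact Cfsg.Agent.Lib.MinE6T.SUGen.even_bound_gen hcard (m := 3) (by norm_num) (by norm_num)
    (Cfsg.Agent.Lib.SLDeg.Res.subRep (ρ.comp Su.su) (Wt S ρ ψ 0) hinv) hnt

end Cfsg.Agent.Lib.MinE6T
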